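import Cfsg.Agent.H9.UL1
import Cfsg.Agent.H1.URf

/-! Rank 3 actions of unitary groups: the geometric contradiction. -/

set_option autoImplicit false
set_option linter.unusedVariables false

namespace Cfsg.Agent.H9.UL

open Module H1 H1.UR
open H5 (Sesq IsEps perp UF)
open scoped Classical

variable {F : Type*} [Field F] {σ : F →+* F} {E : Type*} [AddCommGroup E] [Module F E]
  [FiniteDimensional F E] {B : Sesq σ E} (hB : IsEps B 1) [Fintype F] [Fintype E] {q : ℕ} (hU : UF σ q)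
variable {X : Type*} [MulAction (SUb B) X] [Fintype X] {ω : X} {r d : ℕ} {g : SUb B}

include hU in
theorem geom (ht : TF hB ω) (hp : Pd q (finrank F E) r d) (h2 : (2 : F) ≠ 0) (hg : TA B ω r g)
    (h1 : Tr B ω 1) (hL : ∀ g, TA B ω r g → ∀ u ∈ fx B g, u ≠ 0 → B u u = 0 →
      ∃ l, Ln B ω l ∧ u ∈ l ∧ l ≤ fx B g) : False :=
  geom' hB hU hp h2 hg h1 hL (fun _ h => hp.fx_spec hB hU h.ord (Or.inl h.ne))
    fun _ h _ hu u0 he _ ha => hp.A_le hB hU ht h hu u0 he ha

end Cfsg.Agent.H9.UL
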