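import Cfsg.Agent.H9.AH3
import Cfsg.Agent.H7.TwAut4

/-! Conjugates of maximal displacement in (twisted) Chevalley groups. -/

set_option autoImplicit false
set_option linter.unusedSectionVars false

namespace Cfsg.Agent.H9.AH

open Cfsg.Lie Matrix Cfsg.Agent.H8 Cfsg.Agent.H7

variable {D : ChevalleyDatum} {K : Type*} [Field K] {G : Type*} [Group G] {x : ℕ → K → G}
  [hD : RootFacts D] [hN : NFacts D] {w : Equiv.Perm ℕ} {i j : Fin D.rank}

variable (D x) in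
/-- `w` has maximal length among the cells meeting the class of `a`. -/
def IsMax {S : Subgroup G} (a : S) (w : Equiv.Perm ℕ) : Prop :=
  (∃ g : S, IsConj a g ∧ (g : G) ∈ Cell D x w) ∧
    ∀ (g : S) w', IsConj a g → (g : G) ∈ Cell D x w' → len D w' ≤ len D w

variable (D x) in
/-- No element of the Weyl group can centralize a relative root group while moving its fundamental roots. -/
def NT (S : Subgroup G) (O : Fin D.rank → Set ℕ) : Prop :=
  ∀ i j : Fin D.rank, j.1 ∈ O i → j ≠ i → ∀ w ∈ W D, w (D.simple i) = D.simple j → ∀ c : K,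
    ∃ u ∈ S, u ∈ XJ D x (O i) ∧ ∃ t t', Co D x i u t ∧ Co D x j u t' ∧ t ≠ c * t'

omit hN in
theorem Up_wJ (J : Set ℕ) : H8.Up D x (wJ D J) = UJ D x J :=
  congrArg (XS x) (Set.ext fun _ => and_congr_right fun h =>
    ⟨fun h1 h2 => not_pos_of_neg (wJ_neg h h2) h1, WJ_pos (wJ_mem J) h⟩)

omit hN in
theorem len_wJ_pos {J : Set ℕ} (hi : i.1 ∈ J) : 0 < len D (wJ D J) := Nat.pos_of_ne_zero fun e =>
  not_neg_of_pos (simple_pos i) (by simpa [eq_one_of_len (wJ_mem_W J) e] using wJ_simple (D := D) hi)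

omit hN in
theorem isClosed_XJ (J : Set ℕ) : IsClosed D {r | D.IsPosRoot r ∧ D.InRootSub J r} := fun r hr s hs k hk a b ha hb e =>
  ⟨by
    have h1 := pos_iff'.1 hr.1
    have h2 := pos_iff'.1 hs.1
    rw [pos_iff', ordv, e, dotProduct_add, dotProduct_smul, dotProduct_smul, smul_eq_mul, smul_eq_mul]
    rw [ordv] at h1 h2
    positivity, isClosed_sub r hr.2 s hs.2 k hk a b ha hb e⟩

omit hN in
theorem Co.of_UJ (hx : IsSt D x) {J : Set ℕ} (hj : j.1 ∈ J) {u : G} (hu : u ∈ UJ D x J) : Co D x j u 0 :=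
  (Co.zero_iff hx).2 (XS_mono x (fun _ hr => And.intro hr.1 fun e => hr.2 (e ▸ simple_inRootSub.2 hj)) hu)

omit hN in
theorem fix_sub (hw : w ∈ W D) {J : Set ℕ} (h : ∀ j : Fin D.rank, j.1 ∈ J → w (D.simple j) = D.simple j) {r : ℕ}
    (hr : D.InRootSub J r) : w r = r := by
  refine rc_inj (W_lt hw hr.1) hr.1 ?_
  refine (rc_W hw r).trans ((Finset.sum_congr rfl fun j _ => ?_).trans (rc_W (one_mem _) r).symm)
  by_cases hj : j.1 ∈ J
  · rw [h j hj]; rfl
  · simp [(inRootSub_iff_rc.1 hr).2 j hj]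

variable (D) in
/-- The fundamental roots fixed by `w`. -/
def KS (w : Equiv.Perm ℕ) : Set ℕ := {j | w (D.simple j) = D.simple j}

variable (D) in
/-- The shape of the maximal cells. -/
def Dom (w : Equiv.Perm ℕ) : Prop :=
  w ∈ W D ∧ ∀ i : Fin D.rank, w (D.simple i) = D.simple i ∨ D.IsNegRoot (w⁻¹ (D.simple i))

namespace Dom

omit hN
variable (h : Dom D w) {r : ℕ}
include h

theorem fix (hr : D.InRootSub (KS D w) r) : w r = r := fix_sub h.1 (fun _ hj => hj) hr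

theorem fix' (hr : D.InRootSub (KS D w) r) : w⁻¹ r = r := by rw [Equiv.Perm.inv_eq_iff_eq, h.fix hr]

theorem neg (h1 : D.IsPosRoot r) (h2 : ¬ D.InRootSub (KS D w) r) : D.IsNegRoot (w⁻¹ r) := by
  obtain ⟨j, hj, h3⟩ := pos_not_iff.1 ⟨h1, h2⟩
  have h4 := (h.2 j).resolve_left hj
  obtain ⟨i, hi, h5⟩ := neg_not_iff.1 ⟨h4, fun h5 : D.InRootSub (KS D w) _ => not_neg_of_pos (simple_pos j) (by
    have := h.fix h5
    rwa [perm_apply_inv, eq_comm] at this ▸ h4)⟩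
  refine (neg_not_iff.2 ⟨i, hi, ?_⟩).1
  rw [rc_W (inv_mem h.1), Finset.sum_apply]
  refine (Finset.sum_lt_sum (g := fun _ => (0 : ℤ)) (fun k _ => ?_)
    ⟨j, Finset.mem_univ _, mul_neg_of_pos_of_neg h3 h5⟩).trans_eq (by simp)
  refine mul_nonpos_of_nonneg_of_nonpos (rc_nonneg h1 k) ?_
  rcases h.2 k with e | e
  · rw [h.fix' (simple_inRootSub.2 e), rc_simple, Pi.single_eq_of_ne (fun e' => hi (by rw [e']; exact e))]
  · exact rc_nonpos e i

theorem fix_iff (hr : r < D.nroots) : w r = r ↔ D.InRootSub (KS D w) r := by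
  refine ⟨fun e => by_contra fun h1 => ?_, h.fix⟩
  have e' : w⁻¹ r = r := by rw [Equiv.Perm.inv_eq_iff_eq, e]
  rcases pos_or_neg hr with h2 | h2
  · exact not_neg_of_pos h2 (e' ▸ h.neg h2 h1)
  · have := h.neg ((neg_pos_iff hr).2 h2) (mt (H7.inRootSub_neg hr).1 h1)
    rw [W_neg (inv_mem h.1) hr, e', neg_neg_iff hr] at this
    exact not_neg_of_pos this h2

theorem eq : w = wJ D (KS D w) * w0 D := by
  rw [← w0_inv, ← eq_w0 (mul_mem (inv_mem h.1) (wJ_mem_W (KS D w))) fun r hr => ?_, _root_.mul_inv_rev, wJ_inv, inv_inv,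
    ← mul_assoc, wJ_mul_self, one_mul]
  rw [Equiv.Perm.mul_apply]
  by_cases h1 : D.InRootSub (KS D w) r
  · rw [h.fix' ((inRootSub_WJ (wJ_mem _)).2 h1)]; exact wJ_neg hr h1
  · exact h.neg (WJ_pos (wJ_mem _) hr h1) (mt (inRootSub_WJ (wJ_mem _)).1 h1)

theorem wJ_simple (hi : i.1 ∈ KS D w) : wJ D (KS D w) (D.simple i) = D.neg (D.simple (star D i)) := by
  have h1 := h.fix' (simple_inRootSub.2 hi)
  rw [← w0_simple, ← h1]
  nth_rewrite 3 [h.eq]
  rw [h1, _root_.mul_inv_rev, w0_inv, wJ_inv, Equiv.Perm.mul_apply, w0_w0]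

theorem antidom {θ : ℕ} (h1 : ∀ i, 0 ≤ wt D θ i) (h2 : ∀ i : Fin D.rank, i.1 ∈ KS D w → wt D θ i = 0) (i : Fin D.rank) :
    wt D (w θ) i ≤ 0 := by
  rw [← A_simple, ← A_W (inv_mem h.1), perm_inv_apply]
  rcases h.2 i with e | e
  · rw [h.fix' (simple_inRootSub.2 e), A_simple, h2 i e]
  · rw [A, dotProduct]
    exact Finset.sum_nonpos fun j _ => mul_nonpos_of_nonpos_of_nonneg (cor_nonpos e j) (h1 j)

end Dom

namespace TwD

variable {σ : G →* G} {ρ : Equiv.Perm ℕ} {π : Fin D.rank → Fin D.rank} {f : ℕ → K → K} {S : Subgroup G}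
  {O : Fin D.rank → Set ℕ} {e : Fin D.rank → ℕ} {z : Fin D.rank → S} (h : TwD D x σ ρ π f S O e z) {a : S}
include h

theorem exists_max (a : S) : ∃ w, IsMax D x a w := by
  obtain ⟨w, h1, h2⟩ := exists_max_len (D := D) (P := fun w => ∃ g : S, IsConj a g ∧ (g : G) ∈ Cell D x w)
    (let ⟨w, _, _, h1⟩ := h.exists_cell a; ⟨w, a, IsConj.refl a, h1⟩)
  exact ⟨w, h1, fun g w' h3 h4 => h2 w' ⟨g, h3, h4⟩⟩

theorem max_W (hm : IsMax D x a w) : w ∈ W D ∧ Commute ρ w :=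
  let ⟨g, _, h1⟩ := hm.1; ⟨Cell.mem_W h1, h.tw.commute_of_cell h.faith h1 (h.sub.fix _ g.2)⟩

theorem exists_nf (hm : IsMax D x a w) : ∃ m v : S, IsConj a (m * v) ∧ NRep D x m w ∧ (v : G) ∈ UU D x := by
  obtain ⟨g, h1, h2⟩ := hm.1
  obtain ⟨u, n, u', h3, h4, h5, rfl⟩ := h.bruhat g h2
  exact ⟨n, u' * u, h1.trans (isConj_iff.2 ⟨u⁻¹, by group⟩), h4, mul_mem (Um_le_UU x _ h5) h3⟩

theorem mem_UJ (hm : IsMax D x a w) {m c : S} (hc : IsConj a (m * c)) (hn : NRep D x m w) (hu : (c : G) ∈ UU D x)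
    (hi : D.IsPosRoot (w⁻¹ (D.simple i))) : (c : G) ∈ UJ D x (O i) := by
  have hx := h.st
  obtain ⟨hw, hρ⟩ := max_W h hm
  obtain ⟨n, h1⟩ := h.exists_nJ i
  have h1' := NRep_wJ_inv hx h1
  have hs := wJ_mem_W (D := D) (O i)
  have hl := len_wJ_pos (D := D) (h.sub.self i)
  have h2 : len D (wJ D (O i) * w) = len D (wJ D (O i)) + len D w :=
    len_WJ_mul hw (fun j hj => h.pos_orb hρ.inv_right hi hj) (wJ_mem _)
  have hρ' : Commute ρ (wJ D (O i) * w) := (h.sub.commute_wJ h.tw h.faith i).mul_right hρ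
  have h3 : IsConj a (n * (m * c) * n⁻¹) := hc.trans (isConj_iff.2 ⟨n, rfl⟩)
  have h4 : D.IsNegRoot ((wJ D (O i) * w) (D.simple i)) := by
    refine negRoot_of_not_pos (W_lt (mul_mem hs hw) (simple_lt i)) fun h4 => ?_
    have h5 := len_mul_WJ (mul_mem hs hw) (fun j hj => h.pos_orb hρ' h4 hj) (wJ_mem (O i))
    have h6 := hm.2 _ _ h3 (by
      simpa [mul_assoc] using hx.cell_mul_of_len (Cell.mul_right (h1.mul hx hn).mem_cell (UU_le_BB x hu)) h1'.mem_cell h5)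
    rw [← mul_assoc] at h6
    omega
  have h5 : ∀ j : Fin D.rank, j.1 ∈ O i → D.IsPosRoot ((wJ D (O i) * w * wJ D (O i)) (D.simple j)) := fun j hj =>
    W_neg_pos (mul_mem hs hw) (wJ_simple hj) (W_neg_of_J (mul_mem hs hw) (fun k hk => h.neg_orb (mul_mem hs hw) hρ' h4 hk)
      ((neg_pos_iff (wJ_simple hj).1).2 (wJ_simple hj))
      (H8.inRootSub_neg ((inRootSub_WJ (wJ_mem _)).2 (simple_inRootSub.2 hj))))
  have h6 := len_mul_WJ (mul_mem (mul_mem hs hw) hs) h5 (wJ_mem (O i))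
  have hP : (n : G) ∈ PJ D x (O i) := (mem_PJ hx).2 ⟨_, wJ_mem _, h1.mem_cell⟩
  rcases h.cell_cases (i := i) (n * c * n⁻¹).2 (mul_mem (mul_mem hP (BB_le_PJ (UU_le_BB x hu))) (inv_mem hP)) with h7 | h7
  · exact Up_wJ (D := D) (x := x) (O i) ▸ h.faith.mem_Up_of_conj h1 hu h7
  · have h8 := hx.cell_mul_of_len ((h1.mul hx hn).mul hx h1').mem_cell h7 h6
    rw [mul_assoc _ (wJ D _), wJ_mul_self, mul_one] at h8
    have h9 := hm.2 _ _ h3 (by simpa [mul_assoc] using h8)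
    omega

theorem conj_co (hm : IsMax D x a w) {m v : S} (hc : IsConj a (m * v)) (hn : NRep D x m w) (hv : (v : G) ∈ UU D x)
    (hi : D.IsPosRoot (w⁻¹ (D.simple i))) {u : G} (hS : u ∈ S) (hu : u ∈ XJ D x (O i)) :
    (m : G)⁻¹ * u * m * u⁻¹ ∈ UJ D x (O i) := by
  have hx := h.st
  obtain ⟨hw, hρ⟩ := max_W h hm
  have h1 : (m : G)⁻¹ * u * m ∈ UU D x := hn.conj_XS' hx (T := {r | D.IsPosRoot r}) (fun r hr =>
    W_pos_of_J (inv_mem hw) (fun j hj => h.pos_orb hρ.inv_right hi hj) hr.1 hr.2) hu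
  have hU := XJ_le _ hu
  have h2 := mem_UJ h hm (m := m) (c := m⁻¹ * ⟨u, hS⟩ * m * v * ⟨u, hS⟩⁻¹) (hc.trans (isConj_iff.2 ⟨⟨u, hS⟩, by group⟩)) hn
    (mul_mem (mul_mem h1 hv) (inv_mem hU)) hi
  have h3 := PJ_conj_UJ hx (BB_le_PJ (UU_le_BB x hU)) (mem_UJ h hm hc hn hv hi)
  simpa [mul_assoc] using mul_mem h2 (inv_mem h3)

theorem co_conj (hm : IsMax D x a w) {m v : S} (hc : IsConj a (m * v)) (hn : NRep D x m w) (hv : (v : G) ∈ UU D x)
    (hi : D.IsPosRoot (w⁻¹ (D.simple i))) {u : G} (hS : u ∈ S) (hu : u ∈ XJ D x (O i)) (hj : j.1 ∈ O i) {t : K}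
    (ht : Co D x j u t) : Co D x j ((m : G)⁻¹ * u * m) t := by
  simpa using (Co.of_UJ h.st hj (conj_co h hm hc hn hv hi hS hu)).mul h.st ht

theorem fix_simple (hnt : NT D x S O) (hm : IsMax D x a w) (hi : D.IsPosRoot (w⁻¹ (D.simple i))) :
    w (D.simple i) = D.simple i := by
  have hx := h.st
  obtain ⟨hw, hρ⟩ := max_W h hm
  obtain ⟨m, v, hc, hn, hv⟩ := exists_nf h hm
  have hp : ∀ r, D.IsPosRoot r → D.InRootSub (O i) r → D.IsPosRoot (w⁻¹ r) := fun r h1 h2 =>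
    W_pos_of_J (inv_mem hw) (fun j hj => h.pos_orb hρ.inv_right hi hj) h1 h2
  have h1 : D.IsPosRoot (w (D.simple i)) ∧ D.InRootSub (O i) (w (D.simple i)) := by
    by_contra h1
    refine (co_conj h hm hc hn hv hi (z i).2 (h.zmem i) (h.sub.self i) (h.zco i)).notMem h.faith one_ne_zero
      (hn.conj_XS' hx (fun r hr => And.intro (hp r hr.1 hr.2) fun e => h1 ?_) (h.zmem i))
    rw [← e, perm_apply_inv]; exact hr
  obtain ⟨j, hj⟩ := simple_of_W (inv_mem hw) h1.1 (perm_inv_apply w _) fun j hj => hp _ (simple_pos j)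
    (simple_inRootSub.2 (by_contra fun h2 => hj ((inRootSub_iff_rc.1 h1.2).2 j h2)))
  by_contra h2
  have h3 : j.1 ∈ O i := simple_inRootSub.1 (hj ▸ h1.2)
  obtain ⟨c, -, hc'⟩ := (hn.inv hx).acts hx
  obtain ⟨u, hS, hu, t, t', h4, h5, h6⟩ := hnt i j h3 (fun e => h2 (e ▸ hj)) w hw hj (c (D.simple j))
  refine h6 ((co_conj h hm hc hn hv hi hS hu (h.sub.self i) h4).unique h.faith ?_)
  have h7 : (x (D.simple j) t')⁻¹ * u ∈ XJ D x (O i) :=
    mul_mem (inv_mem (x_mem_XS (by exact ⟨simple_pos j, simple_inRootSub.2 h3⟩) _)) hu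
  have h8 := h.faith.mem_XS_inter (one_mem _) (isClosed_XJ (O i)) (isClosed_pos_ne j) (fun _ hk => hk.1) (fun _ hk => hk.1) h7 h5
  have h9 := hn.conj_XS' hx (T := {r | D.IsPosRoot r ∧ r ≠ D.simple i}) (fun r hr => And.intro (hp r hr.1.1 hr.1.2)
    fun e => hr.2.2 (by rw [← hj, ← e, perm_apply_inv])) h8
  have h10 := hc' (D.simple j) t'
  rw [inv_inv, ← hj, perm_inv_apply, hj] at h10
  rw [Co, ← h10]
  simpa [mul_assoc] using h9

theorem dom (hnt : NT D x S O) (hm : IsMax D x a w) : Dom D w :=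
  ⟨(max_W h hm).1, fun i => (pos_or_neg (W_lt (inv_mem (max_W h hm).1) (simple_lt i))).imp_left (fix_simple h hnt hm)⟩

/-- The normal form of a conjugate of maximal displacement. -/
theorem max_nf (hnt : NT D x S O) (hm : IsMax D x a w) : ∃ m v : S, IsConj a (m * v) ∧ NRep D x m w ∧ (v : G) ∈ UU D x ∧
    ∀ i : Fin D.rank, i.1 ∈ KS D w → (v : G) ∈ UJ D x (O i) ∧ (∀ j : Fin D.rank, j.1 ∈ O i → j.1 ∈ KS D w) ∧
      ∀ u ∈ S, u ∈ XJ D x (O i) → (m : G)⁻¹ * u * m = u := by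
  obtain ⟨m, v, hc, hn, hv⟩ := exists_nf h hm
  have hd := dom h hnt hm
  refine ⟨m, v, hc, hn, hv, fun i hi => ?_⟩
  have h1 : D.IsPosRoot (w⁻¹ (D.simple i)) := (hd.fix' (simple_inRootSub.2 hi)).symm ▸ simple_pos i
  have h2 : ∀ j : Fin D.rank, j.1 ∈ O i → j.1 ∈ KS D w := fun j hj =>
    fix_simple h hnt hm (h.pos_orb (max_W h hm).2.inv_right h1 hj)
  refine ⟨mem_UJ h hm hc hn hv h1, h2, fun u hS hu => mul_inv_eq_one.1 (h.faith.eq_one_of_UJ_LJ
    (conj_co h hm hc hn hv h1 hS hu) (Subgroup.mem_sup_right (XS_mono x (fun _ hr => hr.2) (show _ ∈ XJ D x (O i) from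
      mul_mem (hn.conj_XS' h.st (fun r hr => ?_) hu) (inv_mem hu)))))⟩
  rwa [show w⁻¹ r = r from by rw [Equiv.Perm.inv_eq_iff_eq, fix_sub hd.1 h2 hr.2]]

theorem max_ne (hnt : NT D x S O) (hm : IsMax D x a w) (ha : a ≠ 1) : ∃ i : Fin D.rank, i.1 ∉ KS D w := by
  by_contra! h1
  have hx := h.st
  obtain ⟨m, v, hc, hn, hv, h2⟩ := max_nf h hnt hm
  obtain rfl : w = 1 := eq_one_of_simple_pos hn.mem_W fun i => (h1 i).symm ▸ simple_pos i
  have h3 := hn.mem_HH hx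
  obtain ⟨n, h4⟩ := h.exists_n0
  obtain ⟨y, hy, -, h5⟩ := h.exists_cell (n * (m * v) * n⁻¹)
  obtain rfl := eq_one_of_len hy (Nat.le_zero.1 (len_one (D := D) ▸ hm.2 _ _ (hc.trans (isConj_iff.2 ⟨n, rfl⟩)) h5))
  have h6 : (v : G) = 1 := conj_eq_one_iff.1 (h.faith.eq_one_of_VV_BB (IsFaith.conj_UU_mem_VV hx h4 hv) (by
    simpa [mul_assoc] using mul_mem (inv_mem (HH_le_BB x (hx.NN_conj_HH h4.mem_NN h3))) (hx.mem_cell_one.1 h5)))
  obtain ⟨c, h7⟩ := hx.acts_of_mem_HH (inv_mem h3)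
  have h8 : ∀ i : Fin D.rank, torChar c (wt D (D.simple i)) = 1 := fun i => Units.ext (by
    have := (h.zco i).acts h7
    rw [inv_inv, (h2 i (h1 i)).2.2 _ (z i).2 (h.zmem i), mul_one] at this
    exact this.unique h.faith (h.zco i))
  have h9 : (m : G)⁻¹ = 1 := h.chev.HH_ext (inv_mem h3) (one_mem _) h7 (Acts.one x) fun s _ => by
    have : ∀ T : Finset (Fin D.rank), torChar c (∑ i ∈ T, rc D s i • wt D (D.simple i)) = 1 := fun T => by
      induction T using Finset.induction_on with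
      | empty => simp [torChar_zero]
      | insert i T hi ih => rw [Finset.sum_insert hi, torChar_add, ih, torChar_smul, h8]; simp
    rw [wt_eq_rc, this]; rfl
  rw [show m * v = 1 from Subtype.ext (by rw [Subgroup.coe_mul, h6, inv_eq_one.1 h9, mul_one]; rfl)] at hc
  exact ha (isConj_one_left.1 hc)

/-- The cyclic shift. -/
theorem shift (hnt : NT D x S O) (hm : IsMax D x a w) {s t : Fin D.rank} (hs : O s = {s.1}) (ht : O t = {t.1})
    (h1 : s.1 ∈ KS D w) (h2 : t.1 ∉ KS D w) (h3 : sref D t (D.simple s) = sref D s (D.simple t))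
    (h4 : w (D.simple t) = D.neg (sref D s (D.simple t))) : IsMax D x a (sref D s * (sref D t * w) * sref D t * sref D s) := by
  have hx := h.st
  have hd := dom h hnt hm
  have hw := hd.1
  have hst : D.simple t ≠ D.simple s := fun e => h2 (simple_inj e ▸ h1)
  have hp := sref_pos (simple_pos t) hst
  have hi : ∀ i r, sref D i (sref D i r) = r := fun i => reflectRoot_invol i
  obtain ⟨ns, h5⟩ := h.exists_nJ s
  obtain ⟨nt, h6⟩ := h.exists_nJ t
  rw [hs, wJ_singleton] at h5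
  rw [ht, wJ_singleton] at h6
  obtain ⟨m, v, hc, hn, hv⟩ := exists_nf h hm
  have e1 := len_sref_mul_of_neg hw ((hd.2 t).resolve_left h2)
  have e2 := len_sref_mul_of_neg (mul_mem (sref_mem t) hw) (i := s) (by
    rw [_root_.mul_inv_rev, sref_inv, Equiv.Perm.mul_apply, h3]
    exact hd.neg hp fun k => h2 (simple_inRootSub.1 ((inRootSub_WJ (sref_mem_WJ h1)).1 k)))
  have hw1 := mul_mem (sref_mem s) (mul_mem (sref_mem t) hw)
  have p1 : D.IsPosRoot ((sref D s * (sref D t * w)) (D.simple t)) := by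
    simp only [Equiv.Perm.mul_apply]
    rw [h4, W_neg (sref_mem t) hp.1, ← h3, hi, sref_neg_simple]
    exact simple_pos s
  have p2 : D.IsPosRoot ((sref D s * (sref D t * w) * sref D t) (D.simple s)) := by
    have := conj_sref hw (i := s) (j := s) h1
    rw [mul_inv_eq_iff_eq_mul] at this
    simp only [Equiv.Perm.mul_apply]
    rw [h3, ← Equiv.Perm.mul_apply w, this, Equiv.Perm.mul_apply, h4, W_neg (sref_mem s) hp.1, hi, sref_neg_simple]
    exact hp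
  have e3 := len_mul_sref_of_pos hw1 p1
  have e4 := len_mul_sref_of_pos (mul_mem hw1 (sref_mem t)) p2
  refine ⟨⟨ns * (nt * (m * v)) * nt⁻¹ * ns⁻¹, hc.trans (isConj_iff.2 ⟨ns * nt, by group⟩), ?_⟩,
    fun g y k1 k2 => (hm.2 g y k1 k2).trans (by omega)⟩
  refine hx.cell_mul_sref_of_pos (hx.cell_mul_sref_of_pos ?_ (sref_inv (D := D) t ▸ (h6.inv hx).mem_cell) p1)
    (sref_inv (D := D) s ▸ (h5.inv hx).mem_cell) p2
  simpa [mul_assoc] using Cell.mul_right (h5.mul hx (h6.mul hx hn)).mem_cell (UU_le_BB x hv)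

end TwD

section Mat

variable {F : Type*} [Field F] [hM : MatFacts D] [hC : ChainFacts D]

theorem nrep_col {n : GL D.Idx F} (hn : NRep D (xu D F) n w) {s : ℕ} (hs : s < D.nroots) :
    ∃ c : F, c ≠ 0 ∧ n.val *ᵥ bas D F s = c • bas D F (w s) := by
  obtain ⟨l, rfl, h1⟩ := hn
  have key : ∀ l : List (Fin D.rank), ∃ c : F, c ≠ 0 ∧ (nWd D (xu D F) l).val *ᵥ bas D F s = c • bas D F (wordW D l s) := by
    intro l
    induction l with
    | nil => exact ⟨1, one_ne_zero, by simp⟩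
    | cons i l ih =>
      obtain ⟨c, hc, e⟩ := ih
      refine ⟨c * H7.eta D i (wordW D l s), mul_ne_zero hc (left_ne_zero_of_mul_eq_one (H7.eta_sq i _)), ?_⟩
      rw [nWd_cons, Units.val_mul, ← mulVec_mulVec, e, mulVec_smul, nE_xu, nu_val,
        nMat_simple_root i (W_lt (wordW_mem l) hs), smul_smul, wordW_cons]
      rfl
  obtain ⟨a, ha⟩ := exists_dg_of_mem_HH h1
  obtain ⟨c, hc, e⟩ := key l
  refine ⟨_, mul_ne_zero hc (torChar a (wt D (wordW D l s))).ne_zero, ?_⟩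
  rw [mul_inv_eq_iff_eq_mul.1 ha, Units.val_mul, ← mulVec_mulVec, e, mulVec_smul, dg_val,
    charDiag_root _ (W_lt (wordW_mem l) hs), smul_smul]

omit hN hC in
theorem UU_col {u : GL D.Idx F} (hu : u ∈ UU D (xu D F)) {θ : ℕ} (hθ : θ + 1 = D.nroots) :
    u.val *ᵥ bas D F θ = bas D F θ := by
  have h0 : θ < D.nroots := by omega
  have h1 := raises_XS (ordL D) (m := 1) one_pos (fun j hj => by rw [ordL_wt]; exact pos_iff'.1 hj) hu
  have h2 : ∀ r < D.nroots, ordv D r ≤ ordv D θ := fun r hr =>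
    (show r ≤ θ by omega).eq_or_lt.elim (fun e => by rw [e]) fun e => (ordv_lt e h0).le
  rw [← one_mulVec (bas D F θ), mulVec_mulVec, mul_one, mulVec_root _ h0, mulVec_root _ h0]
  funext c
  refine h1 _ _ (Int.lt_add_one_iff.2 ?_)
  rcases c with c | c
  · have := h2 _ (neg_lt h0)
    rw [ordv_neg h0] at this
    simp only [wtI, Sum.elim_inl, Sum.elim_inr, map_zero, ordL_wt]; omega
  · exact h2 c c.2

theorem nf_entry {m v : D.group F} (hn : NRep D (xg D F) m w) (hv : v ∈ UU D (xg D F)) {θ : ℕ} (hθ : θ + 1 = D.nroots)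
    (h0 : θ < D.nroots) {r : ℕ} (hr : r < D.nroots) (e : w θ = r) :
    ((m * v : D.group F) : GL D.Idx F).val (Sum.inr ⟨r, hr⟩) (Sum.inr ⟨θ, h0⟩) ≠ 0 := by
  obtain ⟨c, hc, h1⟩ := nrep_col (hn.map (D.group F).subtype) h0
  refine (entry_eq _ h0 _).trans_ne ?_
  rw [Subgroup.coe_mul, Units.val_mul, ← mulVec_mulVec, UU_col (mem_XS_xg.1 hv) hθ]
  erw [h1]
  simpa [e, bas_inr] using hc

end Mat

end Cfsg.Agent.H9.AH
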