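import Cfsg.Agent.H9.AH5

/-! The groups `E6`, `E7`, `E8`, `²E6`: opposite long roots, and no class product is a class for `q ≥ 3`. -/

set_option autoImplicit false
set_option linter.unusedSectionVars false

namespace Cfsg.Agent.H9.AH

open Cfsg.Lie Matrix Cfsg.Agent.H8 Cfsg.Agent.H7

/-- The opposition involution of `E6`. -/
def stE6 (i : ℕ) : ℕ := [5, 1, 4, 3, 2, 0].getD i 0

theorem starG2 : ∀ i, (star chevG2 i).1 = id i.1 := star_of_word (D := chevG2)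
  (show List (Fin 2) from [0, 1, 0, 1, 0, 1]) id (by decide +kernel)

theorem starD4 : ∀ i, (star chevD4 i).1 = id i.1 := star_of_word (D := chevD4)
  (show List (Fin 4) from [0, 1, 0, 2, 1, 0, 3, 1, 0, 2, 1, 3]) id (by decide +kernel)

theorem starF4 : ∀ i, (star chevF4 i).1 = id i.1 := star_of_word (D := chevF4)
  (show List (Fin 4) from [0, 1, 0, 2, 1, 0, 2, 1, 2, 3, 2, 1, 0, 2, 1, 2, 3, 2, 1, 0, 2, 1, 2, 3]) id (by decide +kernel)

theorem starE6 : ∀ i, (star chevE6 i).1 = stE6 i := star_of_word (D := chevE6)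
  (show List (Fin 6) from [0, 1, 2, 0, 3, 1, 2, 0, 3, 2, 4, 3, 1, 2, 0, 3, 2, 4, 3, 1, 5, 4, 3, 1, 2, 0, 3, 2, 4, 3, 1, 5, 4, 3,
    2, 0]) stE6 (by decide +kernel)

theorem starE7 : ∀ i, (star chevE7 i).1 = id i.1 := star_of_word (D := chevE7)
  (show List (Fin 7) from [0, 1, 2, 0, 3, 1, 2, 0, 3, 2, 4, 3, 1, 2, 0, 3, 2, 4, 3, 1, 5, 4, 3, 1, 2, 0, 3, 2, 4, 3, 1, 5, 4, 3,
    2, 0, 6, 5, 4, 3, 1, 2, 0, 3, 2, 4, 3, 1, 5, 4, 3, 2, 0, 6, 5, 4, 3, 1, 2, 3, 4, 5, 6]) id (by decide +kernel)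

theorem starE8 : ∀ i, (star chevE8 i).1 = id i.1 := star_of_word (D := chevE8)
  (show List (Fin 8) from [0, 1, 2, 0, 3, 1, 2, 0, 3, 2, 4, 3, 1, 2, 0, 3, 2, 4, 3, 1, 5, 4, 3, 1, 2, 0, 3, 2, 4, 3, 1, 5, 4, 3,
    2, 0, 6, 5, 4, 3, 1, 2, 0, 3, 2, 4, 3, 1, 5, 4, 3, 2, 0, 6, 5, 4, 3, 1, 2, 3, 4, 5, 6, 7, 6, 5, 4, 3, 1, 2, 0, 3, 2, 4, 3, 1,
    5, 4, 3, 2, 0, 6, 5, 4, 3, 1, 2, 3, 4, 5, 6, 7, 6, 5, 4, 3, 1, 2, 0, 3, 2, 4, 3, 1, 5, 4, 3, 2, 0, 6, 5, 4, 3, 1, 2, 3, 4, 5,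
    6, 7]) id (by decide +kernel)

theorem topG2 : chkTop chevG2 twG2 tcG2 11 1 = true := by decide +kernel
theorem topD4 : chkTop chevD4 twD4 tcD4 23 1 = true := by decide +kernel
theorem topF4 : chkTop chevF4 H8.twF4 tcF4 47 3 = true := by decide +kernel
theorem topE6 : chkTop chevE6 H8.twE6 tcE6 71 1 = true := by decide +kernel
theorem topE7 : chkTop chevE7 twE7 tcE7 125 0 = true := by decide +kernel
theorem topE8 : chkTop chevE8 twE8 tcE8 239 7 = true := by decide +kernel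

theorem maxE6 : chkMax chevE6 H8.twE6 tcE6 stE6 (fun i => i == 1 || i == 3) (fun k => k / 2 % 2) [56, 46, 42, 39, 37, 36]
    (fun _ => false) 1 = true := by decide +kernel

theorem maxE7 : chkMax chevE7 twE7 tcE7 id (fun _ => true) (fun k => k % 2 + k / 8 % 2) [93, 78, 73, 69, 66, 64, 63]
    (fun _ => false) 0 = true := by decide +kernel

theorem maxE8 : chkMax chevE8 twE8 tcE8 id (fun _ => true) id [120, 121, 123, 126, 130, 135, 141, 162]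
    (fun _ => false) 7 = true := by decide +kernel

variable {K : Type*} [Field K]

theorem oppE6 {a : (⊤ : Subgroup (chevE6.group K))} (ha : a ≠ 1) : Opp ⊤ la2E6.hθ a := by
  have h := twD_un' chevE6 (xg chevE6 K) H7.isChev_xg H7.GG_xg
  obtain ⟨w, h1, h2⟩ := TwD.exists_good h nt_un tablesE6 starE6 (fun _ _ => rfl) (by decide) maxE6 ha
  exact TwD.opp h nt_un tablesE6 topE6 la2E6 h1 (h2.resolve_right (by simp))

theorem oppE7 {a : (⊤ : Subgroup (chevE7.group K))} (ha : a ≠ 1) : Opp ⊤ la2E7.hθ a := by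
  have h := twD_un' chevE7 (xg chevE7 K) H7.isChev_xg H7.GG_xg
  obtain ⟨w, h1, h2⟩ := TwD.exists_good h nt_un tablesE7 starE7 (fun _ _ => rfl) (by decide) maxE7 ha
  exact TwD.opp h nt_un tablesE7 topE7 la2E7 h1 (h2.resolve_right (by simp))

theorem oppE8 {a : (⊤ : Subgroup (chevE8.group K))} (ha : a ≠ 1) : Opp ⊤ la2E8.hθ a := by
  have h := twD_un' chevE8 (xg chevE8 K) H7.isChev_xg H7.GG_xg
  obtain ⟨w, h1, h2⟩ := TwD.exists_good h nt_un tablesE8 starE8 (fun _ _ => rfl) (by decide) maxE8 ha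
  exact TwD.opp h nt_un tablesE8 topE8 la2E8 h1 (h2.resolve_right (by simp))

theorem exists_ne01 [Fintype K] (h : 3 ≤ Fintype.card K) : ∃ u : K, u ≠ 0 ∧ u ≠ 1 := by
  obtain ⟨t, ht⟩ := exists_pow_ne (K := K) (q := 2) one_lt_two h
  exact ⟨t, by rintro rfl; simp at ht, by rintro rfl; simp at ht⟩

theorem noCP_E6 [Fintype K] (hq : 3 ≤ Fintype.card K) : NoCP (chevE6.group K) :=
  let ⟨_, h0, h1⟩ := exists_ne01 hq
  NoCP.congr (G' := (⊤ : Subgroup (chevE6.group K))) (fun _ _ _ h => CP.opp_false (S := ⊤) la2E6 h0 h1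
    (fun _ _ => ⟨Subgroup.mem_top _, Subgroup.mem_top _⟩) h (oppE6 h.ha) (oppE6 h.hb))
    Subgroup.topEquiv.symm

theorem noCP_E7 [Fintype K] (hq : 3 ≤ Fintype.card K) : NoCP (chevE7.group K) :=
  let ⟨_, h0, h1⟩ := exists_ne01 hq
  NoCP.congr (G' := (⊤ : Subgroup (chevE7.group K))) (fun _ _ _ h => CP.opp_false (S := ⊤) la2E7 h0 h1
    (fun _ _ => ⟨Subgroup.mem_top _, Subgroup.mem_top _⟩) h (oppE7 h.ha) (oppE7 h.hb))
    Subgroup.topEquiv.symm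

theorem noCP_E8 [Fintype K] (hq : 3 ≤ Fintype.card K) : NoCP (chevE8.group K) :=
  let ⟨_, h0, h1⟩ := exists_ne01 hq
  NoCP.congr (G' := (⊤ : Subgroup (chevE8.group K))) (fun _ _ _ h => CP.opp_false (S := ⊤) la2E8 h0 h1
    (fun _ _ => ⟨Subgroup.mem_top _, Subgroup.mem_top _⟩) h (oppE8 h.ha) (oppE8 h.hb))
    Subgroup.topEquiv.symm

section Tw

variable {G : Type*} [Group G] {x : ℕ → K → G} {q : ℕ}

theorem nt_2E6 (hx : IsSt chevE6 x) (hq : ∃ t : K, t ^ q ≠ t) :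
    NT chevE6 x (twS x (e6Words K q)) fun i => {j | j ∈ oLE6 i} := by
  intro i j h1 h2 _ _ _ c
  obtain ⟨t, ht⟩ := hq
  obtain ⟨r, s, h3, h4, h5, h6, h7⟩ : ∃ r s, (r, s) ∈ [(56, 36), (15, 35), (42, 37), (29, 34)] ∧
      (chevE6.IsPosRoot r ∧ chevE6.InRootSub {j | j ∈ oLE6 i} r) ∧ (chevE6.IsPosRoot s ∧ chevE6.InRootSub {j | j ∈ oLE6 i} s) ∧
      chevE6.simple i ≠ chevE6.simple j ∧
      (r = chevE6.simple i ∧ s = chevE6.simple j ∨ s = chevE6.simple i ∧ r = chevE6.simple j) := by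
    have : ∀ i j : Fin chevE6.rank, j.1 ∈ oLE6 i → j ≠ i → ∃ p ∈ [(56, 36), (15, 35), (42, 37), (29, 34)],
        (chevE6.IsPosRoot p.1 ∧ chevE6.InRootSub {j | j ∈ oLE6 i} p.1) ∧
        (chevE6.IsPosRoot p.2 ∧ chevE6.InRootSub {j | j ∈ oLE6 i} p.2) ∧ chevE6.simple i ≠ chevE6.simple j ∧
        (p.1 = chevE6.simple i ∧ p.2 = chevE6.simple j ∨ p.2 = chevE6.simple i ∧ p.1 = chevE6.simple j) := by
      decide +kernel
    obtain ⟨p, hp, h3⟩ := this i j h1 h2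
    exact ⟨p.1, p.2, hp, h3⟩
  by_contra! H
  have key := fun t : K => H _ (mem_e6b h3 t) (mul_mem (x_mem_XS h4 _) (x_mem_XS h5 _)) _ _
    (co_e6 hx ⟨h4.1, h5.1⟩ t (t ^ q) i) (co_e6 hx ⟨h4.1, h5.1⟩ t (t ^ q) j)
  have k1 := key 1
  have k2 := key t
  rcases h7 with ⟨rfl, rfl⟩ | ⟨rfl, rfl⟩ <;> simp only [h6, h6.symm, if_true, if_false, add_zero, zero_add, one_pow,
    mul_one] at k1 k2 <;> rw [← k1, one_mul] at k2
  exacts [ht k2.symm, ht k2]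

variable {φ : K →+* K} {σ : chevE6.group K →* chevE6.group K}
  (h : TwD chevE6 (xg chevE6 K) σ rhoE6 pfE6 (twF H7.twE6 φ) (twS (xg chevE6 K) (e6Words K q)) (fun i => {j | j ∈ oLE6 i})
    (fun _ => q) (zE6 (xg chevE6 K) q))
include h

theorem opp2E6 (hq : ∃ t : K, t ^ q ≠ t) {a : twS (xg chevE6 K) (e6Words K q)} (ha : a ≠ 1) : Opp _ la2E6.hθ a := by
  obtain ⟨w, h1, h2⟩ := TwD.exists_good h (nt_2E6 h.st hq) tablesE6 starE6 (fun i hi => by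
    rw [(by decide +kernel : ∀ i : Fin chevE6.rank, (i.1 == 1 || i.1 == 3) = true → oLE6 i = [i.1]) i hi]; simp)
    (by decide) maxE6 ha
  exact TwD.opp h (nt_2E6 h.st hq) tablesE6 topE6 la2E6 h1 (h2.resolve_right (by simp))

theorem mem_2E6 {r : ℕ} (hr : r < chevE6.nroots ∧ twT H7.twE6 r = (r, 1, 1)) {t : K} (ht : φ t = t) :
    xg chevE6 K r t ∈ twS (xg chevE6 K) (e6Words K q) :=
  TwD.x_mem' h hr.1 (by rw [h.tw.map, show rhoE6 r = r from congrArg Prod.fst hr.2]; simp [twF, hr.2, ht])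

end Tw

theorem exists_twD_2E6 [Fintype K] {q : ℕ} (hK : Fintype.card K = q ^ 2) : ∃ (φ : K →+* K) (σ : _), (∀ t, φ t = t ^ q) ∧
    TwD chevE6 (xg chevE6 K) σ rhoE6 pfE6 (twF H7.twE6 φ) (twS (xg chevE6 K) (e6Words K q)) (fun i => {j | j ∈ oLE6 i})
      (fun _ => q) (zE6 (xg chevE6 K) q) := by
  obtain ⟨φ, hφ⟩ := exists_frob hK two_ne_zero
  have h2 : ∀ t, φ (φ t) = t := fun t => by rw [hφ, hφ, ← pow_mul, ← sq, ← hK, FiniteField.pow_card]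
  obtain ⟨σ, hσ⟩ := exists_twistE6 (H7.isChev_xg (F := K)) H7.GG_xg φ
  exact ⟨φ, σ, hφ, twD_E6 H7.isChev_xg H7.GG_xg hφ h2 hσ⟩

theorem noCP_2E6 [Fintype K] {q : ℕ} (hK : Fintype.card K = q ^ 2) (hq : 3 ≤ q) : NoCP (twistedE6 K q) := by
  obtain ⟨φ, σ, hφ, h⟩ := exists_twD_2E6 hK
  have h1 := exists_pow_ne (K := K) (q := q) (by omega) (by rw [hK]; nlinarith)
  obtain ⟨t, ht⟩ := exists_pow_ne (K := K) (q := q + 2) (by omega) (by rw [hK]; nlinarith)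
  have h2 : φ (t ^ (q + 1)) = t ^ (q + 1) := by
    rw [hφ, ← pow_mul, add_mul, ← sq, ← hK, pow_add, FiniteField.pow_card, one_mul, pow_succ']
  have h3 : ∀ r ∈ [71, 46, 70], r < chevE6.nroots ∧ twT H7.twE6 r = (r, 1, 1) := by decide +kernel
  refine NoCP.congr (fun _ _ _ k => k.opp_false la2E6 (u := t ^ (q + 1)) (pow_ne_zero _ ?_) (fun e => ht ?_)
    (fun r hr => ⟨mem_2E6 h (h3 r hr) (map_one φ), mem_2E6 h (h3 r hr) h2⟩) (opp2E6 h h1 k.ha) (opp2E6 h h1 k.hb))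
    (twEquiv (e6Words K q)).symm
  · rintro rfl; simp at ht
  · rw [pow_succ, e, one_mul]

end Cfsg.Agent.H9.AH
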