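import Cfsg.Agent.H9.KC4

/-! Counting conditions: involutions, Frobenius' theorem for `p`-elements, elements of order eight. -/

set_option autoImplicit false
set_option linter.unusedSectionVars false

namespace Cfsg.Agent.H9.KC

open Subgroup Finset

variable {G : Type*} [Group G] [Finite G]

theorem even_of_real {z t : G} (h : t * z * t⁻¹ = z⁻¹) (h2 : t * t = 1) (z1 : z ≠ 1) :
    orderOf z = 2 ∨ 2 ∣ ez z := by
  have tn : t ∈ normalizer (zpowers z : Set G) := mem_norm.2 (by rw [h, zpowers_inv])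
  let σ : (zpowers z).normalizerMonoidHom.range := ⟨_, ⟨t, tn⟩, rfl⟩
  by_cases e : σ = 1
  · have : t * z * t⁻¹ = z := congrArg (fun s : (zpowers z).normalizerMonoidHom.range =>
      (s.1 ⟨z, mem_zpowers z⟩).1) e
    exact Or.inl (orderOf_eq_prime (by rw [pow_two]; nth_rw 1 [← this, h]; simp) z1)
  · refine Or.inr (orderOf_eq_prime (p := 2) (x := σ) (Subtype.ext ?_) e ▸ orderOf_dvd_natCard σ)
    rw [pow_two]
    have : (⟨t, tn⟩ * ⟨t, tn⟩ : normalizer (zpowers z : Set G)) = 1 := Subtype.ext h2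
    exact (map_mul _ _ _).symm.trans (by rw [this, map_one]; rfl)

theorem sq_of_ord {t : G} (h : orderOf t = 2) : t * t = 1 := by rw [← pow_two, ← h, pow_orderOf_eq_one]

theorem ez_one : ez (1 : G) = 1 := Nat.eq_one_of_mul_eq_one_left (by simpa using mz_mul_ez (1 : G))

open Classical in
theorem bf_upper [Fintype G] : #{t : G | orderOf t = 2} ^ 2 ≤ #{t : G | orderOf t = 2} +
    ∑ z : G, if orderOf z = 2 ∨ 2 ∣ ez z then cz z else 0 := by
  set I : Finset G := {t : G | orderOf t = 2} with hI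
  have mI : ∀ t, t ∈ I → t * t = 1 := fun t ht => sq_of_ord (by simpa [hI] using ht)
  rw [pow_two, ← card_product, card_eq_sum_card_fiberwise (f := fun p : G × G => p.1 * p.2) (t := univ)
    (fun _ _ => mem_univ _), ← add_sum_erase _ _ (mem_univ 1)]
  refine add_le_add (card_le_card_of_injOn Prod.fst (fun p hp => (mem_product.1 (mem_filter.1 hp).1).1)
    fun p hp q hq e => Prod.ext e (mul_left_cancel (a := p.1) (by
      rw [(mem_filter.1 hp).2, e, (mem_filter.1 hq).2])))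
    (le_trans (sum_le_sum fun z hz => ?_) (sum_le_sum_of_subset (erase_subset 1 _)))
  rcases (filter (fun p : G × G => p.1 * p.2 = z) (I ×ˢ I)).eq_empty_or_nonempty with e | ⟨p, hp⟩
  · simp [e]
  have key : ∀ p ∈ filter (fun p : G × G => p.1 * p.2 = z) (I ×ˢ I), p.1 * z * p.1⁻¹ = z⁻¹ := fun p hp => by
    obtain ⟨h1, rfl⟩ := mem_filter.1 hp
    rw [← mul_assoc, mI _ (mem_product.1 h1).1, one_mul, mul_inv_rev,
      inv_eq_of_mul_eq_one_left (mI _ (mem_product.1 h1).2)]
  rw [if_pos (even_of_real (key p hp) (mI _ (mem_product.1 (mem_filter.1 hp).1).1) (mem_erase.1 hz).1),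
    cz, Nat.card_eq_fintype_card, Fintype.card_subtype]
  refine card_le_card_of_injOn (fun q => p.1⁻¹ * q.1) (fun q hq => ?_) fun q hq r hr e => ?_
  · have := (key q hq).trans (key p hp).symm
    simp only [coe_filter, mem_univ, true_and, Set.mem_setOf_eq, mem_centralizer_singleton_iff]
    calc p.1⁻¹ * q.1 * z = p.1⁻¹ * (q.1 * z * q.1⁻¹) * q.1 := by group
      _ = _ := by rw [this]; group
  · have e := mul_left_cancel e
    exact Prod.ext e (mul_left_cancel (a := q.1) (by rw [(mem_filter.1 hq).2, e, (mem_filter.1 hr).2]))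

theorem cent_eq_zp {x : G} (h : cz x = orderOf x) : centralizer {x} = zpowers x :=
  (eq_of_le_of_card_ge (zpowers_le.2 (mem_centralizer_singleton_iff.2 rfl))
    (by rw [Nat.card_zpowers]; exact h.le)).symm

theorem inv_zp {t x y : G} (h : t * x * t⁻¹ = x⁻¹) (hy : y ∈ zpowers x) : t * y * t⁻¹ = y⁻¹ := by
  obtain ⟨k, rfl⟩ := mem_zpowers_iff.1 hy
  rw [← conj_zpow, h, inv_zpow]

theorem inv_ex {x : G} (hp : (orderOf x).Prime) (hc : cz x = orderOf x) (he : 2 ∣ ez x) :
    Odd (orderOf x) ∧ ∃ t, t * t = 1 ∧ t * x * t⁻¹ = x⁻¹ := by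
  have od : Odd (orderOf x) := hp.odd_of_ne_two fun e => by
    have := he.trans (Dvd.intro_left _ (mz_mul_ez x))
    rw [e] at this; simp at this
  obtain ⟨σ, h⟩ := exists_prime_orderOf_dvd_card' (G := (zpowers x).normalizerMonoidHom.range) 2 he
  obtain ⟨⟨n, hn⟩, e⟩ := σ.2
  have h1 : ∀ y (hy : y ∈ zpowers x), (σ.1 ⟨y, hy⟩).1 = n * y * n⁻¹ := fun y hy => by rw [← e]; rfl
  have m1 : n * x * n⁻¹ ∈ zpowers x := (mem_normalizer_iff.1 hn x).1 (mem_zpowers x)
  have h2 : n * (n * x * n⁻¹) * n⁻¹ = x := by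
    have := congrArg (fun s : (zpowers x).normalizerMonoidHom.range => (s.1 ⟨x, mem_zpowers x⟩).1)
      (show σ * σ = 1 by rw [← pow_two, ← h, pow_orderOf_eq_one])
    rw [← h1 _ m1, show (⟨_, m1⟩ : zpowers x) = σ.1 ⟨x, mem_zpowers x⟩ from Subtype.ext (h1 _ _).symm]
    exact this
  have cm : ∀ y ∈ zpowers x, Commute y x := fun y hy =>
    mem_centralizer_singleton_iff.1 (cent_eq_zp hc ▸ hy)
  have h3 : n * x * n⁻¹ = x⁻¹ := by
    by_contra hne
    have y1 : n * x * n⁻¹ * x ≠ 1 := fun e => hne (eq_inv_of_mul_eq_one_left e)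
    have := Fact.mk (show (Nat.card (zpowers x)).Prime by rwa [Nat.card_zpowers])
    have g := zpowers_eq_top_of_prime_card rfl (show (⟨_, mul_mem m1 (mem_zpowers x)⟩ : zpowers x) ≠ 1 from
      fun e => y1 (congrArg Subtype.val e))
    refine (show σ ≠ 1 by rintro rfl; simp at h) (Subtype.ext (MulEquiv.toMonoidHom_injective
      (MonoidHom.eq_of_eqOn_dense (s := {⟨_, mul_mem m1 (mem_zpowers x)⟩})
        (by rw [← zpowers_eq_closure, g]) ?_)))
    rintro _ rfl
    refine Subtype.ext ((h1 _ _).trans ?_)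
    calc n * (n * x * n⁻¹ * x) * n⁻¹ = n * (n * x * n⁻¹) * n⁻¹ * (n * x * n⁻¹) := by group
      _ = _ := by rw [h2, ← (cm _ m1).eq]; rfl
  refine ⟨od, n, ?_, h3⟩
  have h4 : n * n ∈ zpowers x := cent_eq_zp hc ▸ mem_centralizer_singleton_iff.2 (by
    conv_rhs => rw [← h2]
    group)
  have h5 := inv_zp h3 h4
  have h6 : (n * n) ^ 2 = 1 := by
    rw [pow_two]; nth_rw 1 [show n * n = (n * n)⁻¹ by rw [← h5]; group]; simp
  exact orderOf_eq_one_iff.1 (Nat.eq_one_of_dvd_coprimes (Nat.coprime_two_left.2 od)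
    (orderOf_dvd_of_pow_eq_one h6) (orderOf_dvd_of_mem_zpowers h4))

theorem conj_dih {t x y : G} (od : Odd (orderOf x)) (h : t * x * t⁻¹ = x⁻¹) (hy : y ∈ zpowers x) :
    IsConj t (y * t) := by
  obtain ⟨k, hk⟩ := (od.of_dvd_nat (orderOf_dvd_of_mem_zpowers hy))
  refine isConj_iff.2 ⟨y ^ (k + 1), ?_⟩
  have := inv_zp h (inv_mem (pow_mem hy (k + 1)))
  calc y ^ (k + 1) * t * (y ^ (k + 1))⁻¹ = y ^ (k + 1) * (t * (y ^ (k + 1))⁻¹ * t⁻¹) * t := by group
    _ = y ^ (2 * k + 1) * y * t := by rw [this]; group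
    _ = _ := by rw [← hk, pow_orderOf_eq_one, one_mul]

open Classical in
theorem bf_lower [Fintype G] : #{t : G | orderOf t = 2} +
    (∑ z : G, if (orderOf z).Prime ∧ cz z = orderOf z ∧ 2 ∣ ez z then cz z else 0) ≤
    ∑ t : G, if orderOf t = 2 then Nat.card G / cz t else 0 := by
  set J : Finset (G × G) := {p | orderOf p.1 = 2 ∧ IsConj p.1 p.2} with hJ
  have h1 : #J = ∑ t : G, if orderOf t = 2 then Nat.card G / cz t else 0 := by
    rw [card_eq_sum_card_fiberwise (f := Prod.fst) (t := univ) (fun _ _ => mem_univ _)]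
    refine sum_congr rfl fun t _ => ?_
    split_ifs with h
    · rw [← idx_eq, H1.index_centralizer_eq, Nat.card_eq_fintype_card, Fintype.card_subtype]
      refine card_bij (fun p _ => p.2) (fun p hp => ?_) (fun p hp q hq e => ?_) fun u hu => ?_
      · simp only [hJ, mem_filter, mem_univ, true_and] at hp ⊢
        exact hp.2 ▸ hp.1.2
      · exact Prod.ext ((mem_filter.1 hp).2.trans (mem_filter.1 hq).2.symm) e
      · exact ⟨(t, u), by simpa [hJ, h] using hu, rfl⟩
    · rw [card_eq_zero, filter_eq_empty_iff]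
      rintro p hp rfl
      exact h (mem_filter.1 hp).2.1
  rw [← h1, card_eq_sum_card_fiberwise (s := J) (f := fun p : G × G => p.1 * p.2) (t := univ)
    (fun _ _ => mem_univ _), ← add_sum_erase _ _ (mem_univ 1), ← add_sum_erase _ _ (mem_univ 1),
    if_neg (by simp [Nat.not_prime_one]), zero_add]
  refine add_le_add (card_le_card_of_injOn (fun t => (t, t)) (fun t ht => ?_)
    fun p _ q _ e => (Prod.ext_iff.1 e).1) (sum_le_sum fun z _ => ?_)
  · have : orderOf t = 2 := by simpa using ht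
    simpa [hJ, this, sq_of_ord this] using ⟨1, by simp⟩
  split_ifs with h
  swap; · exact Nat.zero_le _
  obtain ⟨od, t, t1, t2⟩ := inv_ex h.1 h.2.1 h.2.2
  rw [cz, cent_eq_zp h.2.1, Nat.card_eq_fintype_card, Fintype.card_subtype]
  refine card_le_card_of_injOn (fun y => (y * t, (y * t)⁻¹ * z)) (fun y hy => ?_)
    fun p _ q _ e => mul_right_cancel (Prod.ext_iff.1 e).1
  have hy : y ∈ zpowers z := by simpa using hy
  have c1 := conj_dih od t2 hy
  have tn : t ≠ 1 := by
    rintro rfl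
    have : orderOf z ∣ 2 := orderOf_dvd_of_pow_eq_one (by
      rw [pow_two]; nth_rw 1 [show z = z⁻¹ by simpa using t2]; simp)
    exact h.1.one_lt.ne' (Nat.eq_one_of_dvd_coprimes (Nat.coprime_two_left.2 od) this dvd_rfl)
  have ti : t⁻¹ = t := inv_eq_of_mul_eq_one_left t1
  have e : (y * t)⁻¹ * z = y * z⁻¹ * t := by
    have := inv_zp t2 (mul_mem (inv_mem hy) (mem_zpowers z))
    calc (y * t)⁻¹ * z = t * (y⁻¹ * z) * t⁻¹ * t := by rw [mul_inv_rev, ti, mul_assoc _ t t, t1]; group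
      _ = z⁻¹ * y * t := by rw [this]; group
      _ = _ := by
        rw [← (Commute.inv_right (mem_centralizer_singleton_iff.1 (cent_eq_zp h.2.1 ▸ hy) :
          Commute y z)).eq]
  simp only [hJ, coe_filter, mem_filter, mem_univ, true_and, Set.mem_setOf_eq, mul_inv_cancel_left,
    and_true]
  refine ⟨?_, e ▸ c1.symm.trans (conj_dih od t2 (mul_mem hy (inv_mem (mem_zpowers z))))⟩
  rw [← (Eqv.of_isConj c1).ord]
  exact orderOf_eq_prime (by rw [pow_two, t1]) tn

theorem frob_p {p : ℕ} [Fact p.Prime] (S : Sylow p G) :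
    Nat.card S ∣ Nat.card {z : G // z ^ Nat.card S = 1} := by
  set n := Nat.card S with hn
  let τ : {z : G // z ^ n = 1} → ℕ → G ⧸ (S : Subgroup G) := fun z i => (z.1 ^ i : G)
  let T : SubMulAction (S : Subgroup G) (ℕ → G ⧸ (S : Subgroup G)) := ⟨Set.range τ, by
    rintro h _ ⟨z, rfl⟩
    refine ⟨⟨h.1 * z.1 * h.1⁻¹, by rw [conj_pow, z.2]; simp⟩, funext fun i => ?_⟩
    refine QuotientGroup.eq.2 ?_
    rw [conj_pow]
    simp [mul_assoc]⟩
  letI : MulAction (S : Subgroup G) T := T.mulAction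
  have key : ∀ t : T, Nonempty ({z // (⟨τ z, z, rfl⟩ : T) = t} ≃ MulAction.stabilizer (S : Subgroup G) t) := by
    rintro ⟨_, x, rfl⟩
    have k1 : ∀ h : G, (∀ i : ℕ, ((h * x.1 ^ i : G) : G ⧸ (S : Subgroup G)) = (x.1 ^ i : G)) →
        ∀ i : ℕ, (((x.1 * h) ^ i : G) : G ⧸ (S : Subgroup G)) = (x.1 ^ i : G) := fun h hh i => by
      induction i with
      | zero => simp
      | succ i ih =>
        have e1 := congrArg (fun q => (x.1 * h) • q) ih
        have e2 := congrArg (fun q => x.1 • q) (hh i)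
        simp only [MulAction.Quotient.smul_coe, smul_eq_mul, mul_assoc] at e1 e2
        rw [pow_succ', pow_succ', mul_assoc, e1, e2]
    have k2 : ∀ y : G, ((y ^ n : G) : G ⧸ (S : Subgroup G)) = (x.1 ^ n : G) → y ^ n = 1 := fun y h => by
      rw [x.2, eq_comm, QuotientGroup.eq, inv_one, one_mul] at h
      obtain ⟨k, hk⟩ := IsPGroup.exists_card_eq S.isPGroup'
      have h1 : y ^ (n * n) = 1 := by
        rw [pow_mul]; exact congrArg Subtype.val (pow_card_eq_one' (x := (⟨_, h⟩ : (S : Subgroup G))))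
      obtain ⟨j, -, hj⟩ := (Nat.dvd_prime_pow Fact.out).1 (show orderOf y ∣ p ^ (k + k) by
        rw [pow_add, ← hk]; exact orderOf_dvd_of_pow_eq_one h1)
      refine orderOf_dvd_iff_pow_eq_one.1 ?_
      rw [hn, Sylow.card_eq_multiplicity, hj]
      exact pow_dvd_pow _ ((Nat.Prime.pow_dvd_iff_le_factorization Fact.out Nat.card_pos.ne').1
        (hj ▸ orderOf_dvd_natCard y))
    refine ⟨⟨fun z => ⟨⟨x.1⁻¹ * z.1.1, ?_⟩, Subtype.ext (funext fun i => ?_)⟩,
      fun h => ⟨⟨x.1 * h.1.1, k2 _ (k1 _ (fun i => congrFun (congrArg Subtype.val h.2) i) n)⟩,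
        Subtype.ext (funext (k1 _ fun i => congrFun (congrArg Subtype.val h.2) i))⟩,
      fun z => by simp, fun h => by simp⟩⟩
    · have := congrFun (congrArg Subtype.val z.2) 1
      simpa [τ] using QuotientGroup.eq.1 this.symm
    · have h1 := congrArg (fun q => (x.1⁻¹ * z.1.1) • q) (congrFun (congrArg Subtype.val z.2) i)
      have h2 := congrArg (fun q => x.1⁻¹ • q) (congrFun (congrArg Subtype.val z.2) (i + 1))
      simp only [τ, MulAction.Quotient.smul_coe, smul_eq_mul, pow_succ', inv_mul_cancel_left,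
        mul_assoc] at h1 h2
      exact (show ((x.1⁻¹ * z.1.1 * x.1 ^ i : G) : G ⧸ (S : Subgroup G)) = (x.1 ^ i : G) by
        rw [mul_assoc, ← h1, h2])
  have e1 := (Equiv.sigmaFiberEquiv fun z => (⟨τ z, z, rfl⟩ : T)).symm.trans
    (Equiv.sigmaCongrRight fun t => (key t).some)
  have e2 : (Σ t : T, MulAction.stabilizer (S : Subgroup G) t) ≃
      Σ h : (S : Subgroup G), MulAction.fixedBy T h :=
    ⟨fun a => ⟨a.2.1, a.1, a.2.2⟩, fun a => ⟨a.2.1, a.1, a.2.2⟩, fun _ => rfl, fun _ => rfl⟩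
  rw [Nat.card_congr (e1.trans (e2.trans (MulAction.sigmaFixedByEquivOrbitsProdGroup _ _))),
    Nat.card_prod]
  exact dvd_mul_left _ _

theorem idx2 {H K : Subgroup G} (h : H ≤ K) (hc : Nat.card K = 2 * Nat.card H) {a b : G} (ha : a ∈ K)
    (hb : b ∈ K) : a * b ∈ H ↔ (a ∈ H ↔ b ∈ H) := by
  have h1 := (H.subgroupOf K).index_mul_card
  rw [Nat.card_congr (subgroupOfEquivOfLe h).toEquiv, hc] at h1
  exact mul_mem_iff_of_index_two (Nat.eq_of_mul_eq_mul_right Nat.card_pos h1) (a := ⟨a, ha⟩) (b := ⟨b, hb⟩)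

theorem inv_of_four {v y : G} (ho : orderOf v = 4) (hc : cz v = 4)
    (hy : y ∈ normalizer (zpowers v : Set G)) (hn : y ∉ zpowers v) : y * v * y⁻¹ = v⁻¹ := by
  classical
  obtain ⟨k, hk, e⟩ := mem_image.1 (mem_zpowers_iff_mem_range_orderOf.1
    ((mem_normalizer_iff.1 hy v).1 (mem_zpowers v)))
  have o : orderOf (v ^ k) = 4 := by
    rw [e, ← ho]; exact (Eqv.of_isConj (isConj_iff.2 ⟨y, rfl⟩)).ord.symm
  rw [orderOf_pow, ho] at o
  rw [mem_range, ho] at hk
  interval_cases k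
  · simp at o
  · exact absurd (cent_eq_zp (hc.trans ho.symm) ▸ mem_centralizer_singleton_iff.2 (by
      conv_rhs => rw [← pow_one v, e]
      group)) hn
  · simp at o
  · rw [← e, eq_inv_iff_mul_eq_one, ← pow_succ, show 3 + 1 = orderOf v from ho.symm, pow_orderOf_eq_one]

theorem sq_of_four {v y : G} (ho : orderOf v = 4) (hy : y ∈ zpowers v) (h1 : y ≠ 1) (h2 : y * y = 1) :
    y = v ^ 2 := by
  classical
  obtain ⟨k, hk, rfl⟩ := mem_image.1 (mem_zpowers_iff_mem_range_orderOf.1 hy)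
  rw [← pow_add, ← orderOf_dvd_iff_pow_eq_one, ho] at h2
  rw [mem_range, ho] at hk
  interval_cases k <;> simp_all

theorem nz_four {v : G} (ho : orderOf v = 4) (hc : cz v = 4) (h : 8 ∣ Nat.card G) : nz v = 8 := by
  have h1 := Sylow.prime_pow_dvd_card_normalizer (p := 2) (n := 2) h (H := zpowers v)
    (by rw [Nat.card_zpowers, ho]; rfl)
  have h2 := cz_mul_ez v
  rw [hc] at h2
  have h3 := Nat.le_of_dvd (by rw [ho]; decide) (Dvd.intro_left _ (mz_mul_ez v))
  rw [ho, show Nat.totient 4 = 2 by decide] at h3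
  have : 0 < nz v := Nat.card_pos
  unfold nz at *
  omega

theorem ord_eight {v : G} (ho : orderOf v = 4) (hc : cz v = 4) (h : 16 ∣ Nat.card G) :
    ∃ y : G, orderOf y = 8 := by
  have cD := nz_four ho hc (Dvd.dvd.trans (by norm_num) h)
  obtain ⟨T, cT, DT⟩ := Sylow.exists_subgroup_card_pow_succ (p := 2) (n := 3) h cD
  set D := normalizer (zpowers v : Set G)
  have i1 := @idx2 _ _ _ _ _ DT (cT.trans (by rw [show Nat.card D = 8 from cD]; rfl))
  have i2 := @idx2 _ _ _ _ _ (le_normalizer (H := zpowers v)) (cD.trans (by rw [Nat.card_zpowers, ho]))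
  obtain ⟨s, sT, sD⟩ := SetLike.exists_of_lt (lt_of_le_of_ne DT fun e => by
    rw [← e, show Nat.card D = 8 from cD] at cT; omega)
  have vD : v ∈ D := le_normalizer (mem_zpowers v)
  have ow : orderOf (s * v * s⁻¹) = 4 := by rw [← ho]; exact (Eqv.of_isConj (isConj_iff.2 ⟨s, rfl⟩)).ord.symm
  have wD : s * v * s⁻¹ ∈ D := by
    rw [i1 (mul_mem sT (DT vD)) (inv_mem sT), i1 sT (DT vD), inv_mem_iff]; tauto
  have wn : s * v * s⁻¹ ∉ zpowers v := fun e => sD (mem_norm.2 (eq_of_le_of_card_ge (zpowers_le.2 e)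
    (by rw [Nat.card_zpowers, Nat.card_zpowers, ow, ho])))
  generalize hw : s * v * s⁻¹ = w at *
  have w2 : w * w = v ^ 2 := sq_of_four ho ((i2 wD wD).2 Iff.rfl) (fun e => by
    have := orderOf_dvd_of_pow_eq_one ((pow_two w).trans e)
    rw [ow] at this; omega) (by rw [← pow_two, ← pow_two, ← pow_mul, show 2 * 2 = 4 from rfl, ← ow,
      pow_orderOf_eq_one])
  have key : ∀ y : G, y * y ∈ D → y * y ∉ zpowers v → orderOf y = 8 := fun y h1 h2 => by
    have h3 : y * y * w⁻¹ ∈ zpowers v := by rw [i2 h1 (inv_mem wD), inv_mem_iff]; tauto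
    have h4 := inv_zp (inv_of_four ho hc wD wn) h3
    have h5 : y ^ 4 = v ^ 2 := by
      rw [← w2]
      calc y ^ 4 = y * y * w⁻¹ * (w * (y * y * w⁻¹) * w⁻¹) * (w * w) := by
            simp [pow_succ, mul_assoc]
        _ = _ := by rw [h4]; group
    refine orderOf_eq_prime_pow (p := 2) (n := 2) ?_ ?_
    · rw [show 2 ^ 2 = 4 from rfl, h5, ← orderOf_dvd_iff_pow_eq_one, ho]; norm_num
    · rw [show 2 ^ (2 + 1) = 4 * 2 from rfl, pow_mul, h5, ← pow_mul, show 2 * 2 = 4 from rfl, ← ho,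
        pow_orderOf_eq_one]
  have s2 : s * s ∈ D := (i1 sT sT).2 Iff.rfl
  by_cases e : s * s ∈ zpowers v
  · have e1 : s * v * (s * v) = w * (s * s * v) := by rw [← hw]; group
    have m := mul_mem e (mem_zpowers v)
    refine ⟨s * v, key _ (e1 ▸ mul_mem wD (le_normalizer m)) ?_⟩
    rw [e1, mul_mem_cancel_right m]
    exact wn
  · exact ⟨s, key s s2 e⟩

end Cfsg.Agent.H9.KC
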