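import Cfsg.Agent.H9.AH2
import Cfsg.Agent.H8.RootTables

/-! The long root triples of the tables. -/

set_option autoImplicit false

namespace Cfsg.Agent.H9.AH

open Cfsg.Lie Cfsg.Agent.H8

/-- Check of `LA2`. -/
def chkLA2 (D : ChevalleyDatum) (TW TC θ β γ : ℕ) : Bool :=
  decide (θ < D.nroots) && decide (β < D.nroots) && decide (γ < D.nroots) &&
  allTo D.rank (fun i => decide (pk TW D.rank θ i = pk TW D.rank β i + pk TW D.rank γ i)) &&
  allTo D.nroots (fun r => (decide (r = θ) || decide (pkA D TW TC θ r < 2)) && decide (pkA D TW TC β r ≤ 2) &&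
    decide (pkA D TW TC γ r ≤ 2)) &&
  decide (pkA D TW TC θ β = 1) && decide (pkA D TW TC θ γ = 1) && decide (pkA D TW TC β θ = 1) &&
  decide (pkA D TW TC γ θ = 1)

theorem la2_of_check {D : ChevalleyDatum} {TW TC θ β γ : ℕ} (hT : chkTables D TW TC = true)
    (h : chkLA2 D TW TC θ β γ = true) : LA2 D θ β γ := by
  simp only [chkLA2, Bool.and_eq_true, decide_eq_true_eq, allTo_iff, Bool.or_eq_true] at h
  obtain ⟨⟨⟨⟨⟨⟨⟨⟨h1, h2⟩, h3⟩, h4⟩, h5⟩, h6⟩, h7⟩, h8⟩, h9⟩ := h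
  refine ⟨h1, h2, h3, funext fun i => ?_, fun r hr e => ?_, fun r hr => ?_, fun r hr => ?_, ?_, ?_, ?_, ?_⟩
  · rw [Pi.add_apply, wt_eq_pk hT h1, wt_eq_pk hT h2, wt_eq_pk hT h3, h4 i i.2]
  · rw [A_eq_pk hT h1 hr]; exact (h5 r hr).1.1.resolve_left e
  · rw [A_eq_pk hT h2 hr]; exact (h5 r hr).1.2
  · rw [A_eq_pk hT h3 hr]; exact (h5 r hr).2
  · rw [A_eq_pk hT h1 h2, h6]
  · rw [A_eq_pk hT h1 h3, h7]
  · rw [A_eq_pk hT h2 h1, h8]
  · rw [A_eq_pk hT h3 h1, h9]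

theorem la2G2 : LA2 chevG2 11 6 10 := la2_of_check tablesG2 (by decide +kernel)
theorem la2F4 : LA2 chevF4 47 24 46 := la2_of_check tablesF4 (by decide +kernel)
theorem la2D4 : LA2 chevD4 23 14 22 := la2_of_check tablesD4 (by decide +kernel)
theorem la2E6 : LA2 chevE6 71 46 70 := la2_of_check tablesE6 (by decide +kernel)
theorem la2E7 : LA2 chevE7 125 93 124 := la2_of_check tablesE7 (by decide +kernel)
theorem la2E8 : LA2 chevE8 239 120 238 := la2_of_check tablesE8 (by decide +kernel)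

end Cfsg.Agent.H9.AH
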