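import Cfsg.Agent.H9.AH4
import Cfsg.Agent.H7.TwOutE6

/-! Shifting the polar node out of the fixed set; opposite long roots. -/

set_option autoImplicit false
set_option linter.unusedSectionVars false

namespace Cfsg.Agent.H9.AH

open Cfsg.Lie Matrix Cfsg.Agent.H8 Cfsg.Agent.H7

variable {D : ChevalleyDatum} {K : Type*} [Field K] {G : Type*} [Group G] {x : ℕ → K → G}
  [hD : RootFacts D] [hN : NFacts D] {w : Equiv.Perm ℕ}

/-- The conditions satisfied by `δ = w_K r`. -/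
def PB (TW TC l : ℕ) (st : ℕ → ℕ) (k r δ : ℕ) : Bool :=
  allTo l fun i => if k.testBit i then decide (pk TW l δ i = - pk TW l r (st i)) else decide (pk TC l δ i = pk TC l r i)

variable (D) in
/-- One shift. -/
def stepB (TW TC : ℕ) (st : ℕ → ℕ) (fx : ℕ → Bool) (μ : ℕ → ℕ) (k s t : ℕ) : Bool :=
  k.testBit s && !k.testBit t && fx s && fx t && decide (st t = t) && decide (μ (k - 2 ^ s + 2 ^ t) < μ k) &&
  decide (D.reflectRoot t (D.simple s) = D.reflectRoot s (D.simple t)) && decide (k - 2 ^ s + 2 ^ t < 2 ^ D.rank) &&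
  allTo D.nroots (fun δ => !PB TW TC D.rank st k (D.simple t) δ || decide (δ = D.reflectRoot s (D.simple t))) &&
  allTo D.rank fun j => (k - 2 ^ s + 2 ^ t).testBit j == allTo D.rank fun i =>
    k.testBit i || decide (pk TC D.rank (D.reflectRoot t (D.reflectRoot s (D.simple j))) i = 0)

variable (D) in
/-- Every admissible set containing `p` is exceptional or can be shifted. -/
def chkMax (TW TC : ℕ) (st : ℕ → ℕ) (fx : ℕ → Bool) (μ : ℕ → ℕ) (R0 : List ℕ) (ex : ℕ → Bool) (p : ℕ) : Bool :=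
  allTo (2 ^ D.rank) fun k => !k.testBit p || ex k || allTo D.rank k.testBit ||
    R0.any (fun r => decide (r < D.nroots) && !anyTo D.nroots (PB TW TC D.rank st k r)) ||
    anyTo D.rank fun s => anyTo D.rank fun t => stepB D TW TC st fx μ k s t

variable (D) in
/-- `k` encodes the fixed fundamental roots. -/
def Msk (w : Equiv.Perm ℕ) (k : ℕ) : Prop := ∀ i : Fin D.rank, k.testBit i = true ↔ i.1 ∈ KS D w

omit hD hN in
theorem exists_msk (w : Equiv.Perm ℕ) : ∃ k < 2 ^ D.rank, Msk D w k := by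
  classical
  exact ⟨Nat.ofBits fun i : Fin D.rank => decide (i.1 ∈ KS D w), Nat.ofBits_lt_two_pow _, fun i => by
    rw [Nat.testBit_ofBits_lt _ _ i.2]; simp⟩

omit hN in
theorem Dom.pb (h : Dom D w) {TW TC k : ℕ} {st : ℕ → ℕ} (hT : chkTables D TW TC = true) (hst : ∀ i, (star D i).1 = st i)
    (hk : Msk D w k) {r : ℕ} (hr : r < D.nroots) : PB TW TC D.rank st k r (wJ D (KS D w) r) = true := by
  have h1 := W_lt (wJ_mem_W (KS D w)) hr
  refine allTo_iff.2 fun i hi => ?_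
  split_ifs with h2
  · rw [decide_eq_true_eq, ← wt_eq_pk hT h1 ⟨i, hi⟩, ← hst ⟨i, hi⟩, ← wt_eq_pk hT hr, ← A_simple, ← A_simple,
      ← A_neg_left (simple_lt _), ← h.wJ_simple ((hk ⟨i, hi⟩).1 h2), A_W' (wJ_mem_W _), wJ_inv]
  · rw [decide_eq_true_eq, ← cor_eq_pk hT h1 ⟨i, hi⟩, ← cor_eq_pk hT hr ⟨i, hi⟩,
      cor_WJ (wJ_mem _) r (mt (hk ⟨i, hi⟩).2 h2)]

omit hN in
theorem star_of_word (l : List (Fin D.rank)) (st : ℕ → ℕ)
    (h : ∀ i : Fin D.rank, st i < D.rank ∧ l.foldr (fun i s => D.reflectRoot i s) (D.simple i) = D.neg (D.simple (st i)))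
    (i : Fin D.rank) : (star D i).1 = st i := by
  have h1 : ∀ s, wordW D l s = l.foldr (fun i s => D.reflectRoot i s) s := fun s => by
    clear h
    induction l with
    | nil => rfl
    | cons i l ih => rw [wordW_cons, Equiv.Perm.mul_apply, ih]; rfl
  have h2 := eq_w0 (wordW_mem l) fun _ hr => W_neg_of_J (J := Set.univ) (wordW_mem l) (fun i _ => by
    rw [h1, (h i).2]; exact neg_simple_neg ⟨_, (h i).1⟩) hr (inRootSub_iff.2 ⟨hr.1, by simp⟩)
  have h3 := w0_simple (D := D) i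
  rw [← h2, h1, (h i).2] at h3
  exact (congrArg Fin.val (simple_inj (i := ⟨_, (h i).1⟩) (neg_inj (simple_lt ⟨_, (h i).1⟩) (simple_lt _) h3))).symm

variable (D) in
/-- The highest root. -/
def chkTop (TW TC θ p : ℕ) : Bool :=
  decide (θ + 1 = D.nroots) && allTo D.rank (fun i => decide (0 ≤ pk TW D.rank θ i) && (decide (i = p) ||
    decide (pk TW D.rank θ i = 0))) && allTo D.nroots fun δ => anyTo D.rank (fun i => decide (0 < pk TW D.rank δ i)) ||
      decide (δ = D.neg θ) || anyTo D.nroots fun r => decide (r ≠ δ) && decide (2 ≤ pkA D TW TC δ r)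

omit hN in
theorem Dom.top (h : Dom D w) {TW TC θ p β γ : ℕ} (hT : chkTables D TW TC = true) (hc : chkTop D TW TC θ p = true)
    (hL : LA2 D θ β γ) (hp : p ∉ KS D w) : w θ = D.neg θ := by
  simp only [chkTop, Bool.and_eq_true, decide_eq_true_eq, allTo_iff, anyTo_iff, Bool.or_eq_true] at hc
  obtain ⟨⟨-, h1⟩, h2⟩ := hc
  have h3 := W_lt h.1 hL.hθ
  have h4 := h.antidom (θ := θ) (fun i => by rw [wt_eq_pk hT hL.hθ]; exact (h1 i i.2).1) fun i hi => by
    rw [wt_eq_pk hT hL.hθ]; exact (h1 i i.2).2.resolve_left fun e => hp (e ▸ hi)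
  rcases h2 _ h3 with (⟨i, hi, h5⟩ | h5) | ⟨r, hr, h5, h6⟩
  · exact absurd (wt_eq_pk hT h3 ⟨i, hi⟩ ▸ h4 ⟨i, hi⟩) (not_le.2 h5)
  · exact h5
  · rw [← A_eq_pk hT h3 hr, A_W' h.1] at h6
    exact absurd (hL.top _ (W_lt (inv_mem h.1) hr) fun e => h5 (by rw [← e, perm_apply_inv])) (not_lt.2 h6)

namespace TwD

variable {σ : G →* G} {ρ : Equiv.Perm ℕ} {π : Fin D.rank → Fin D.rank} {f : ℕ → K → K} {S : Subgroup G}
  {O : Fin D.rank → Set ℕ} {e : Fin D.rank → ℕ} {z : Fin D.rank → S} (h : TwD D x σ ρ π f S O e z) {a : S}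
include h

/-- The node `p` can be moved out of the fixed set, up to the listed exceptions. -/
theorem exists_good (hnt : NT D x S O) {TW TC p : ℕ} {st μ : ℕ → ℕ} {fx ex : ℕ → Bool} {R0 : List ℕ}
    (hT : chkTables D TW TC = true) (hst : ∀ i, (star D i).1 = st i) (hfx : ∀ i : Fin D.rank, fx i = true → O i = {i.1})
    (hp : p < D.rank) (hc : chkMax D TW TC st fx μ R0 ex p = true) (ha : a ≠ 1) :
    ∃ w, IsMax D x a w ∧ (p ∉ KS D w ∨ ∃ k, Msk D w k ∧ ex k = true) := by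
  suffices H : ∀ n k w, μ k < n → k < 2 ^ D.rank → IsMax D x a w → Msk D w k →
      ∃ w, IsMax D x a w ∧ (p ∉ KS D w ∨ ∃ k, Msk D w k ∧ ex k = true) by
    obtain ⟨w, hw⟩ := exists_max h a
    obtain ⟨k, h1, h2⟩ := exists_msk (D := D) w
    exact H _ k w (Nat.lt_succ_self _) h1 hw h2
  intro n
  induction n with
  | zero => exact fun _ _ h => absurd h (Nat.not_lt_zero _)
  | succ n ih =>
  intro k w h1 h2 hm hk
  have hd := dom h hnt hm
  have h3 := allTo_iff.1 hc k h2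
  simp only [Bool.or_eq_true, Bool.not_eq_true', List.any_eq_true, Bool.and_eq_true, decide_eq_true_eq, allTo_iff,
    anyTo_iff] at h3
  rcases h3 with (((h3 | h3) | h3) | ⟨r, -, h3, h4⟩) | ⟨s, hs, t, ht, h3⟩
  · exact ⟨w, hm, Or.inl fun h4 => by simp [(hk ⟨p, hp⟩).2 h4] at h3⟩
  · exact ⟨w, hm, Or.inr ⟨k, hk, h3⟩⟩
  · obtain ⟨i, hi⟩ := max_ne h hnt hm ha
    exact absurd ((hk i).1 (h3 i i.2)) hi
  · rw [anyTo_iff.2 ⟨_, W_lt (wJ_mem_W _) h3, hd.pb hT hst hk h3⟩] at h4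
    exact absurd h4 (by simp)
  simp only [stepB, Bool.or_eq_true, Bool.not_eq_true', Bool.and_eq_true, decide_eq_true_eq, allTo_iff,
    beq_iff_eq] at h3
  obtain ⟨⟨⟨⟨⟨⟨⟨⟨⟨c1, c2⟩, c3⟩, c4⟩, c5⟩, c6⟩, c7⟩, c8⟩, c9⟩, c10⟩ := h3
  lift s to Fin D.rank using hs
  lift t to Fin D.rank using ht
  have h5 : wJ D (KS D w) (D.simple t) = sref D s (D.simple t) :=
    (c9 _ (W_lt (wJ_mem_W _) (simple_lt t))).resolve_left (by simp [hd.pb hT hst hk (simple_lt t)])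
  refine ih _ _ (by omega) c8 (shift h hnt hm (hfx s c3) (hfx t c4) ((hk s).1 c1) (fun e => by simp [(hk t).2 e] at c2) c7
    ?_) fun j => ?_
  · nth_rewrite 1 [hd.eq]
    rw [Equiv.Perm.mul_apply, w0_simple, show star D t = t from Fin.ext ((hst t).trans c5),
      W_neg (wJ_mem_W _) (simple_lt t), h5]
  have h6 := W_lt (sref_mem t) (W_lt (sref_mem s) (simple_lt j))
  rw [c10 j j.2, KS, Set.mem_ofPred_eq, allTo_iff]
  simp only [Equiv.Perm.mul_apply]
  rw [← Equiv.Perm.eq_inv_iff_eq, ← Equiv.Perm.eq_inv_iff_eq, sref_inv, sref_inv, hd.fix_iff h6, inRootSub_iff]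
  simp only [Bool.or_eq_true, decide_eq_true_eq]
  refine ⟨fun c => ⟨h6, fun i hi => (cor_eq_pk hT h6 i).trans ((c i i.2).resolve_left (mt (hk i).1 hi))⟩,
    fun c i hi => or_iff_not_imp_left.2 fun hi' => (cor_eq_pk hT h6 ⟨i, hi⟩).symm.trans (c.2 ⟨i, hi⟩ (mt (hk ⟨i, hi⟩).2 hi'))⟩

theorem x_mem' {r : ℕ} {t : K} (hr : r < D.nroots) (hf : σ (x r t) = x r t) : x r t ∈ S :=
  (pos_or_neg hr).elim (fun h1 => h.sub.mem_of_UU h.tw h.faith (x_mem_UU x h1 t) hf)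
    fun h1 => h.sub.mem_of_VV h.tw h.faith (x_mem_VV x h1 t) hf

end TwD

variable (D x) in
/-- An untwisted group as a twisting datum. -/
theorem twD_un' (hx : IsChev D x) (hG : GG x = ⊤) : TwD D x (MonoidHom.id G) 1 id (fun _ t => t) ⊤ (fun i => {i.1}) (fun _ => 1)
    fun i => ⟨x (D.simple i) 1, trivial⟩ where
  sub := ⟨hG.ge, fun _ _ => rfl, fun _ => rfl, fun _ _ h => ⟨0, Fin.ext h.symm⟩,
    fun _ => let ⟨n, hn⟩ := NRep.exists_rep _ (wJ_mem_W _); ⟨n, trivial, hn⟩, fun _ _ _ _ => trivial⟩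
  tw := ⟨fun _ _ => rfl, fun _ => Iff.rfl, fun _ => Iff.rfl, fun _ _ => rfl, fun _ => rfl, fun _ _ _ h => h, fun _ _ _ _ => rfl⟩
  chev := hx
  top := hG
  pi_mem _ := rfl
  orb _ _ h := congrArg _ h
  exp _ _ := by simp
  gen M h1 h2 := hG ▸ hx.toIsSt.GG_le_of_pm_simple
    (fun i t => h1 i ⟨trivial, x_mem_XS (by exact ⟨simple_pos i, simple_inRootSub.2 rfl⟩) t⟩) fun i t => h2 i ⟨trivial,
      x_mem_XS (by exact ⟨(neg_neg_iff (simple_lt i)).2 (simple_pos i), H8.inRootSub_neg (simple_inRootSub.2 rfl)⟩) t⟩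
  zmem i := x_mem_XS (by exact ⟨simple_pos i, simple_inRootSub.2 rfl⟩) 1
  zco i := Co.self i 1
  zpi _ := rfl

omit hN in
theorem nt_un : NT D x ⊤ fun i => {i.1} := fun _ _ h1 h2 => absurd (Fin.ext h1) h2

section Mat

variable [hM : MatFacts D] [hC : ChainFacts D]

/-- The matrix of an element of a subgroup of the Chevalley group. -/
def mat (S : Subgroup (D.group K)) : S →* Matrix D.Idx D.Idx K :=
  (Units.coeHom _).comp ((D.group K).subtype.comp S.subtype)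

variable {σ : D.group K →* D.group K} {ρ : Equiv.Perm ℕ} {π : Fin D.rank → Fin D.rank} {f : ℕ → K → K}
  {S : Subgroup (D.group K)} {O : Fin D.rank → Set ℕ} {e : Fin D.rank → ℕ} {z : Fin D.rank → S}

/-- Some conjugate maps the highest root vector to an opposite one. -/
def Opp (S : Subgroup (D.group K)) {θ : ℕ} (hθ : θ < D.nroots) (a : S) : Prop :=
  ∃ a', IsConj a a' ∧ mat S a' (Sum.inr ⟨D.neg θ, neg_lt hθ⟩) (Sum.inr ⟨θ, hθ⟩) ≠ 0

theorem TwD.opp (h : TwD D (xg D K) σ ρ π f S O e z) (hnt : NT D (xg D K) S O) {TW TC θ p β γ : ℕ}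
    (hT : chkTables D TW TC = true) (hc : chkTop D TW TC θ p = true) (hL : LA2 D θ β γ) {a : S}
    (hm : IsMax D (xg D K) a w) (hp : p ∉ KS D w) : Opp S hL.hθ a := by
  obtain ⟨m, v, h1, h2, h3⟩ := TwD.exists_nf h hm
  have h4 := (TwD.dom h hnt hm).top hT hc hL hp
  simp only [chkTop, Bool.and_eq_true, decide_eq_true_eq] at hc
  exact ⟨_, h1, nf_entry h2 h3 hc.1.1 hL.hθ _ h4⟩

omit hN in
theorem CP.opp_false {θ β γ : ℕ} (hL : LA2 D θ β γ) {u : K} (h0 : u ≠ 0) (h1 : u ≠ 1)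
    (hx : ∀ r ∈ [θ, β, γ], xg D K r 1 ∈ S ∧ xg D K r u ∈ S) {a b c : S} (h : CP a b c) (ha : Opp S hL.hθ a)
    (hb : Opp S hL.hθ b) : False := by
  obtain ⟨a', h2, h3⟩ := ha
  obtain ⟨b', h4, h5⟩ := hb
  exact hL.ext (ρ := mat S) h0 h1 (fun r hr => ⟨⟨⟨_, (hx r hr).1⟩, rfl⟩, ⟨_, (hx r hr).2⟩, rfl⟩)
    ((h.congr h2 h4).trace (mat S)) h3 h5

end Mat

end Cfsg.Agent.H9.AH
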