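import Cfsg.Agent.H9.ModelRA

/-! Upper bounds for centralisers from lists of conjugates; products of actions. -/

set_option autoImplicit false

namespace Cfsg.Agent.H9

open Cfsg.Agent.L0 (ev ev_nil ev_cons ev_append ev_mem nthW nthW_mem nthW_eq map_ev ev_congr)

/-- two tables side by side -/
noncomputable def catT (T : ℕ → ℕ → ℕ) (k : ℕ) (TX : ℕ → ℕ → ℕ) (c s : ℕ) : ℕ :=
  Bool.rec (motive := fun _ => ℕ) (T c s) (TX c (Nat.sub s k)) (Nat.ble k s)

/-- the word packed in a number -/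
noncomputable def unW (fuel : ℕ) : ℕ → List ℕ :=
  Nat.rec (motive := fun _ => ℕ → List ℕ) (fun _ => [])
    (fun _ ih n => Nat.rec (motive := fun _ => List ℕ) []
      (fun s _ => s :: force (Nat.shiftRight n 7) ih []) (Nat.land n 127)) fuel

/-- the conjugate of the letter `it` by a reversed word -/
noncomputable def cjF (T : ℕ → ℕ → ℕ) (iv : ℕ → List ℕ) (it : ℕ) (w : List ℕ) (b : ℕ) : ℕ :=
  trR T w (force (trI T iv w b) (fun d => T d it) 0)

/-- the code of the conjugate number `j` -/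
noncomputable def cjC (T : ℕ → ℕ → ℕ) (iv : ℕ → List ℕ) (it N : ℕ) (P : List ℕ) (W : ℕ → List ℕ)
    (j : ℕ) : ℕ := code N P (cjF T iv it (W j))

/-- the codes of the conjugates increase -/
noncomputable def cj0B (T : ℕ → ℕ → ℕ) (iv : ℕ → List ℕ) (k it N : ℕ) (P : List ℕ) (W : ℕ → List ℕ)
    (j : ℕ) : Bool :=
  ltB k (W j) && (Nat.beq j 0 ||
    force (Nat.pred j) (fun i => Nat.blt (cjC T iv it N P W i) (cjC T iv it N P W j)) false)

/-- the same, and the conjugates fix `β` -/
noncomputable def cj1B (T : ℕ → ℕ → ℕ) (iv : ℕ → List ℕ) (k it N β : ℕ) (P : List ℕ)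
    (W : ℕ → List ℕ) (j : ℕ) : Bool :=
  cj0B T iv k it N P W j && Nat.beq (cjF T iv it (W j) β) β

theorem code_congr {N : ℕ} {P : List ℕ} {X Y : ℕ → ℕ} (h : ∀ b ∈ P, X b = Y b) :
    code N P X = code N P Y := by
  induction P with
  | nil => rfl
  | cons b P ih =>
    show code N P X * N + X b = code N P Y * N + Y b
    rw [h b List.mem_cons_self, ih fun c hc => h c (List.mem_cons_of_mem _ hc)]

theorem cent_mul_le {G : Type*} [Group G] [Finite G] (t : G) (y : ℕ → G) (m : ℕ)
    (hinj : ∀ i < m, ∀ j < m, (y i)⁻¹ * t * y i = (y j)⁻¹ * t * y j → i = j) (Y : Set G)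
    (hY : ∀ j < m, ∀ z, z * t = t * z → z * y j ∈ Y) :
    m * Nat.card (Subgroup.centralizer ({t} : Set G)) ≤ Nat.card Y := by
  let F : Fin m × Subgroup.centralizer ({t} : Set G) → Y := fun p =>
    ⟨p.2 * y p.1, hY _ p.1.2 _ (Subgroup.mem_centralizer_singleton_iff.mp p.2.2)⟩
  have key : ∀ (z : Subgroup.centralizer ({t} : Set G)) (x : G),
      ((z : G) * x)⁻¹ * t * (z * x) = x⁻¹ * t * x := fun z x => by
    have := Subgroup.mem_centralizer_singleton_iff.mp z.2
    rw [mul_inv_rev, mul_assoc, ← mul_assoc t, ← this]; group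
  have hF : Function.Injective F := by
    rintro ⟨i, z⟩ ⟨j, z'⟩ e
    have e' : (z : G) * y i = z' * y j := congrArg Subtype.val e
    obtain rfl : i = j := Fin.ext (hinj _ i.2 _ j.2 (by rw [← key z, e', key]))
    rw [Subtype.ext (mul_right_cancel e')]
  simpa using Nat.card_le_card_of_injective F hF

namespace RA

variable {G : Type*} [Group G] {N : ℕ} {A : RA G N} {g : ℕ → G} {k : ℕ} {T : ℕ → ℕ → ℕ}

theorem Tab.cat (hT : A.Tab g k T) (TX : ℕ → ℕ → ℕ) : A.Tab g k (catT T k TX) := fun s hs c hc => by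
  unfold catT
  rw [L0.CT.ble_false hs]; exact hT s hs c hc

theorem Tab.cjF (hT : A.Tab g k T) {iv : ℕ → List ℕ} (hi : Inv g k iv) {it : ℕ} (ht : it < k)
    {w : List ℕ} (hw : ∀ s ∈ w, s < k) :
    A.Fn ((ev g w.reverse)⁻¹ * g it * ev g w.reverse) (H9.cjF T iv it w) :=
  ((hT.trI hi hw).comp (Y := fun d => T d it) (fun c hc => hT it ht c hc)).comp (hT.trR hw)

theorem cj0_spec (hT : A.Tab g k T) {iv : ℕ → List ℕ} (hi : Inv g k iv) {it : ℕ} (ht : it < k)
    {P : List ℕ} (hP : ltB N P = true) {W : ℕ → List ℕ} {m : ℕ}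
    (h : ∀ j < m, cj0B T iv k it N P W j = true) : (∀ j < m, ∀ s ∈ W j, s < k) ∧
    ∀ i < m, ∀ j < m, (ev g (W i).reverse)⁻¹ * g it * ev g (W i).reverse =
      (ev g (W j).reverse)⁻¹ * g it * ev g (W j).reverse → i = j := by
  have h' : ∀ j < m, (∀ s ∈ W j, s < k) ∧
      (j = 0 ∨ cjC T iv it N P W (j - 1) < cjC T iv it N P W j) := fun j hj => by
    have := h j hj
    simpa only [cj0B, force_eq, Bool.and_eq_true, Bool.or_eq_true, ltB_iff, Nat.blt_eq,
      Nat.beq_eq, Nat.pred_eq_sub_one] using this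
  refine ⟨fun j hj => (h' j hj).1, fun i hi' j hj e => ?_⟩
  refine inj_of_incr (V := cjC T iv it N P W) (fun c hc => (h' c hc).2) i hi' j hj
    (code_congr fun b hb => ?_)
  rw [hT.cjF hi ht (h' i hi').1 b (ltB_iff.mp hP b hb), hT.cjF hi ht (h' j hj).1 b
    (ltB_iff.mp hP b hb), e]

/-- the bound from a list of conjugates -/
theorem cent_le0 [Finite G] (hT : A.Tab g k T) {B : List ℕ} (hB : A.IsBase B) {iv : ℕ → List ℕ}
    {it : ℕ} {P : List ℕ} {W : ℕ → List ℕ} {m n n0 : ℕ} (hn : Nat.card G ≤ n)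
    (hs : (invB T k B iv && Nat.blt it k && ltB N P && Nat.blt n (m * (n0 + 1))) = true)
    (h : ∀ j < m, cj0B T iv k it N P W j = true) :
    Nat.card (Subgroup.centralizer ({g it} : Set G)) ≤ n0 := by
  simp only [Bool.and_eq_true, Nat.blt_eq] at hs
  have := cent_mul_le (g it) _ m (cj0_spec hT (inv_of hT hB hs.1.1.1) hs.1.1.2 hs.1.2 h).2 Set.univ
    fun _ _ _ _ => trivial
  rw [Nat.card_univ] at this
  exact Nat.le_of_lt_succ (Nat.lt_of_mul_lt_mul_left (a := m) ((this.trans hn).trans_lt hs.2))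

/-- the bound from the conjugates fixing a point -/
theorem cent_le1 [Finite G] (hT : A.Tab g k T) {B : List ℕ} (hB : A.IsBase B) {iv : ℕ → List ℕ}
    {it : ℕ} {P F : List ℕ} {W : ℕ → List ℕ} {m n n0 n1 β : ℕ} (hn : Nat.card G ≤ n)
    (h1 : n1 * Nat.card (A.Fix [β]) ≤ Nat.card G)
    (hs : (invB T k B iv && Nat.blt it k && ltB N P && Nat.blt β N &&
      Nat.blt (F.length * n) (n1 * m * (n0 + 1))) = true)
    (hF : ∀ c < N, fixB (fun c => T c it) F c = true)
    (h : ∀ j < m, cj1B T iv k it N β P W j = true) :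
    Nat.card (Subgroup.centralizer ({g it} : Set G)) ≤ n0 := by
  classical
  simp only [Bool.and_eq_true, Nat.blt_eq] at hs
  obtain ⟨⟨⟨⟨s1, s2⟩, s3⟩, hβ⟩, s4⟩ := hs
  have hi := inv_of hT hB s1
  simp only [cj1B, Bool.and_eq_true, Nat.beq_eq] at h
  obtain ⟨a1, a2⟩ := cj0_spec hT hi s2 s3 fun j hj => (h j hj).1
  have a3 := cent_mul_le (g it) _ m a2 {y | A.act β y⁻¹ ∈ F} fun j hj z hz => by
    refine fixB_spec (x := g it) (fun c hc => hT it s2 c hc) (A.lt hβ _) (hF _ (A.lt hβ _)) ?_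
    have e := (h j hj).2
    rw [hT.cjF hi s2 (a1 j hj) β hβ] at e
    conv_rhs => rw [← e]
    rw [← A.mul hβ, ← A.mul hβ]
    congr 1
    rw [mul_inv_rev, mul_assoc, mul_assoc, mul_assoc, mul_inv_cancel_left, mul_right_inj,
      eq_mul_inv_iff_mul_eq, mul_assoc, ← hz, inv_mul_cancel_left]
  have a4 : Nat.card {y | A.act β y⁻¹ ∈ F} ≤ F.length * Nat.card (A.Fix [β]) := by
    have hr : ∀ d, ∃ r : G, ∀ y, A.act β y⁻¹ = d → A.act β (y⁻¹ * r) = β := fun d => by
      by_cases hd : ∃ y, A.act β y⁻¹ = d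
      · obtain ⟨y, hy⟩ := hd
        refine ⟨y, fun y' hy' => ?_⟩
        have := act_inv (A := A) hβ y⁻¹
        rwa [inv_inv, hy, ← hy', ← A.mul hβ] at this
      · exact ⟨1, fun y hy => absurd ⟨y, hy⟩ hd⟩
    choose r hr using hr
    let Φ : {y | A.act β y⁻¹ ∈ F} → F.toFinset × A.Fix [β] := fun y =>
      (⟨_, List.mem_toFinset.mpr y.2⟩, ⟨_, (A.mem_Fix_cons hβ).mpr
        ⟨by rw [Fix_nil]; trivial, hr _ y rfl⟩⟩)
    have hΦ : Function.Injective Φ := fun y y' e => by
      have e1 : A.act β (y : G)⁻¹ = A.act β (y' : G)⁻¹ := congrArg (fun p => p.1.1) e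
      have e2 : (y : G)⁻¹ * r (A.act β (y : G)⁻¹) = (y' : G)⁻¹ * r (A.act β (y' : G)⁻¹) :=
        congrArg (fun p => p.2.1) e
      rw [e1] at e2
      exact Subtype.ext (inv_injective (mul_right_cancel e2))
    have := Nat.card_le_card_of_injective Φ hΦ
    rw [Nat.card_prod, Nat.card_eq_fintype_card (α := F.toFinset), Fintype.card_coe] at this
    exact this.trans (Nat.mul_le_mul_right _ (List.toFinset_card_le F))
  refine Nat.le_of_lt_succ (Nat.lt_of_mul_lt_mul_left (a := n1 * m) (lt_of_le_of_lt ?_ s4))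
  calc n1 * m * _ = n1 * (m * _) := mul_assoc _ _ _
    _ ≤ n1 * (F.length * Nat.card (A.Fix [β])) := Nat.mul_le_mul_left _ (a3.trans a4)
    _ = F.length * (n1 * Nat.card (A.Fix [β])) := by ring
    _ ≤ F.length * n := Nat.mul_le_mul_left _ (h1.trans hn)

theorem orbit_mul_le [Finite G] (hT : A.Tab g k T) {L : Lv} {Ls : List Lv}
    (h : ChainChk T N k (L :: Ls) []) : L.n * Nat.card (A.Fix [L.β]) ≤ Nat.card G := by
  have hL := lvOK_of hT h.1 h.2.1
  have e := A.card_eq_orbit_mul (A.Fix []) (A.Fix [L.β]) hL.hβ fun x => A.mem_Fix_cons hL.hβ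
  have h1 := Set.ncard_le_ncard (hL.image_sub hT).2 (orbit_finite _ hL.hβ)
  rw [Set.ncard_coe_finset, (hL.image_sub hT).1] at h1
  exact ((Nat.mul_le_mul_right _ h1).trans e.ge).trans (Subgroup.card_le_card_group _)

theorem Good.card_cons [Finite G] (hT : A.Tab g k T) {L : Lv} {Ls : List Lv} {bs : List ℕ}
    (h : A.Good g k T (L :: Ls) bs) :
    Nat.card (A.Fix bs) = L.n * Nat.card (A.Fix (L.β :: bs)) := by
  rw [A.card_eq_orbit_mul (A.Fix bs) (A.Fix (L.β :: bs)) h.1.hβ fun x => A.mem_Fix_cons h.1.hβ,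
    ← (h.1.image_sub hT).1, ← Set.ncard_coe_finset]
  congr 2
  refine Set.Subset.antisymm ?_ (h.1.image_sub hT).2
  rintro _ ⟨x, hx, rfl⟩
  obtain ⟨i, hi, e⟩ := h.2.1 x hx
  simp only [Finset.coe_image, Finset.coe_range, Set.mem_image, Set.mem_Iio]
  exact ⟨i, hi, e.symm⟩

theorem Good.card [Finite G] (hT : A.Tab g k T) {Ls : List Lv} {bs : List ℕ}
    (h : A.Good g k T Ls bs) : Nat.card (A.Fix bs) = chainOrd Ls := by
  induction Ls generalizing bs with
  | nil => have h' : A.Fix bs = ⊥ := h; rw [h']; simp [chainOrd]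
  | cons L Ls ih => rw [h.card_cons hT, ih h.2.2]; rfl

theorem Good.append {L1 L2 : List Lv} {bs : List ℕ} (h : A.Good g k T (L1 ++ L2) bs) :
    A.Good g k T L2 ((L1.map Lv.β).reverse ++ bs) := by
  induction L1 generalizing bs with
  | nil => exact h
  | cons L L1 ih => simpa using ih h.2.2

theorem chainOrd_append (L1 L2 : List Lv) : chainOrd (L1 ++ L2) = chainOrd L1 * chainOrd L2 := by
  induction L1 with
  | nil => simp [chainOrd]
  | cons L L1 ih => simp [chainOrd, ih, mul_assoc]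

/-- pull back along a homomorphism -/
def pull {H : Type*} [Group H] (A : RA G N) (f : H →* G) : RA H N where
  act c x := A.act c (f x)
  lt hc _ := A.lt hc _
  one hc := by rw [map_one, A.one hc]
  mul hc x y := by rw [map_mul, A.mul hc]

/-- the action of the product on the disjoint union -/
def prod {L : Type*} [Group L] {M : ℕ} (A : RA G N) (A2 : RA L M) : RA (G × L) (N + M) where
  act c x := if c < N then A.act c x.1 else N + A2.act (c - N) x.2
  lt := by
    intro c hc x
    split_ifs with h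
    · have := A.lt h x.1; omega
    · have := A2.lt (c := c - N) (by omega) x.2; omega
  one hc := by
    split_ifs with h
    · exact A.one h
    · rw [Prod.snd_one, A2.one (by omega)]; omega
  mul := by
    intro c hc x y
    by_cases h : c < N
    · simp only [if_pos h, if_pos (A.lt h _)]; exact A.mul h _ _
    · simp only [if_neg h]
      rw [if_neg (by omega), Nat.add_sub_cancel_left, Prod.snd_mul, A2.mul (by omega)]

end RA

/-- the table of the product -/
noncomputable def prodT (T : ℕ → ℕ → ℕ) (N k : ℕ) (T' : ℕ → ℕ → ℕ) (c s : ℕ) : ℕ :=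
  Bool.rec (motive := fun _ => ℕ) (Bool.rec (motive := fun _ => ℕ) (T c s) c (Nat.ble k s))
    (Bool.rec (motive := fun _ => ℕ) c (Nat.add N (T' (Nat.sub c N) (Nat.sub s k))) (Nat.ble k s))
    (Nat.ble N c)

/-- the letters of the product -/
def prodG {G L : Type*} [One G] [One L] (g : ℕ → G) (k : ℕ) (l : ℕ → L) (s : ℕ) : G × L :=
  if s < k then (g s, 1) else (1, l (s - k))

namespace RA

variable {G : Type*} [Group G] {N : ℕ} {A : RA G N} {g : ℕ → G} {k : ℕ} {T : ℕ → ℕ → ℕ}
  {L : Type*} [Group L] {M : ℕ} {A2 : RA L M} {l : ℕ → L} {k2 : ℕ} {T' : ℕ → ℕ → ℕ}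

theorem prod_left {c : ℕ} (h : c < N) (x : G × L) : (A.prod A2).act c x = A.act c x.1 := if_pos h

theorem prod_right (c : ℕ) (x : G × L) : (A.prod A2).act (N + c) x = N + A2.act c x.2 := by
  show ite _ _ _ = _
  rw [if_neg (by omega), Nat.add_sub_cancel_left]

theorem Tab.prod (hT : A.Tab g k T) (hT2 : A2.Tab l k2 T') :
    (A.prod A2).Tab (prodG g k l) (k + k2) (prodT T N k T') := by
  intro s hs c hc
  unfold prodT prodG
  by_cases h : c < N
  · rw [L0.CT.ble_false h, prod_left h]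
    by_cases h1 : s < k
    · rw [L0.CT.ble_false h1, if_pos h1]; exact hT s h1 c h
    · rw [Nat.ble_eq_true_of_le (not_lt.mp h1), if_neg h1]; exact (A.one h).symm
  · obtain ⟨d, rfl⟩ := Nat.exists_eq_add_of_le (not_lt.mp h)
    rw [Nat.ble_eq_true_of_le (not_lt.mp h), prod_right]
    by_cases h1 : s < k
    · rw [L0.CT.ble_false h1, if_pos h1, A2.one (by omega)]
    · rw [Nat.ble_eq_true_of_le (not_lt.mp h1), if_neg h1]
      show N + T' (N + d - N) (s - k) = _
      rw [Nat.add_sub_cancel_left, hT2 _ (by omega) d (by omega)]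

theorem IsBase.prod {B B2 : List ℕ} (h : A.IsBase B) (h2 : A2.IsBase B2) :
    (A.prod A2).IsBase (B ++ B2.map (Nat.add N)) := by
  refine ⟨fun b hb => ?_, fun x hx => Prod.ext (h.2 _ fun b hb => ?_) (h2.2 _ fun b hb => ?_)⟩
  · rcases List.mem_append.mp hb with hb | hb
    · have := h.1 b hb; omega
    · obtain ⟨c, hc, rfl⟩ := List.mem_map.mp hb
      exact Nat.add_lt_add_left (h2.1 c hc) N
  · rw [← prod_left (A2 := A2) (h.1 b hb)]; exact hx b (List.mem_append_left _ hb)
  · have := hx _ (List.mem_append_right _ (List.mem_map_of_mem hb))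
    exact Nat.add_left_cancel ((prod_right b x).symm.trans this)

/-- the action of the group generated by some words on an invariant set of points -/
theorem exists_restrict (hT : A.Tab g k T) {Wh : List (List ℕ)} (hW : allL Wh (ltB k) = true)
    {u : ℕ → ℕ} {TC : ℕ → ℕ → ℕ} {M' : ℕ} (h : ∀ c < M', subB T u TC Wh N M' c = true) :
    ∃ (K : Subgroup G) (A' : RA K M') (h : ℕ → K), A'.Tab h Wh.length TC ∧
      (∀ s, (h s : G) = ev g (nthW Wh s)) ∧ (∀ S : Subgroup K, (∀ s < Wh.length, h s ∈ S) → S = ⊤) ∧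
      (∀ c < M', u c < N) ∧ (∀ c < M', ∀ d < M', u c = u d → c = d) ∧
      ∀ x : K, ∀ c < M', u (A'.act c x) = A.act (u c) x := by
  have hu : ∀ c < M', u c < N := fun c hc => (subB_spec (h c hc)).1.1
  have hw : ∀ s, ∀ y ∈ nthW Wh s, y < k := fun s y hy => by
    rcases nthW_mem Wh s with h1 | h1
    · rw [h1] at hy; simp at hy
    · exact ltB_iff.mp ((allL_iff _ _).mp hW _ h1) y hy
  have hinj := inj_of_incr fun c hc => (subB_spec (h c hc)).1.2
  let K := Subgroup.closure {x | ∃ s < Wh.length, x = ev g (nthW Wh s)}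
  have hm : ∀ s, ev g (nthW Wh s) ∈ K := fun s => by
    by_cases hs : s < Wh.length
    · exact Subgroup.subset_closure ⟨s, hs, rfl⟩
    · rw [nthW_eq, List.getD_eq_default _ _ (not_lt.mp hs)]; exact one_mem _
  have hgen : ∀ S : Subgroup K, (∀ s < Wh.length, (⟨_, hm s⟩ : K) ∈ S) → S = ⊤ := fun S hS => by
    rw [eq_top_iff]
    intro x _
    have : K ≤ S.map K.subtype := (Subgroup.closure_le _).mpr (by
      rintro _ ⟨s, hs, rfl⟩
      exact ⟨_, hS s hs, rfl⟩)
    obtain ⟨y, hy, e⟩ := this x.2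
    exact (Subtype.ext e : y = x) ▸ hy
  obtain ⟨A', h1, h2⟩ := exists_ra_gen (N := M') (k := Wh.length) (T := TC)
    (fun (c : ℕ) (x : K) => if c < N then A.act c x else c)
    (fun c => by split_ifs with hc; exacts [A.one hc, rfl])
    (fun c a b => by
      by_cases hc : c < N
      · simp only [if_pos hc, if_pos (A.lt hc _)]; exact A.mul hc _ _
      · simp only [if_neg hc]) (MonoidHom.id _) Function.surjective_id u hinj
    (fun x hx c hc => by
      have : x = 1 := hx
      rw [this, if_pos (hu c hc)]; exact A.one (hu c hc))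
    (fun s => ⟨_, hm s⟩)
    (fun s hs c hc => ⟨((subB_spec (h c hc)).2 s hs).1, by
      rw [if_pos (hu c hc), ((subB_spec (h c hc)).2 s hs).2, hT.tr (hw s) _ (hu c hc)]⟩) hgen
  exact ⟨K, A', _, h1, fun _ => rfl, hgen, hu, hinj, fun x c hc => by
    have := h2 x c hc
    rwa [if_pos (hu c hc)] at this⟩

/-- the base points of a Schreier certificate form a base of the group generated -/
theorem ss_base [Finite G] (hT : A.Tab g k T) {B : List ℕ} (hB : A.IsBase B) {iv : ℕ → List ℕ}
    {Ls : List SS} (h : SSChk T N k B iv Ls) : ∀ x ∈ genM g k (nextM Ls),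
      (∀ L ∈ Ls, L.β < N → A.act L.β x = L.β) → x = 1 := by
  induction Ls with
  | nil =>
    have : genM g k (nextM []) = ⊥ := by
      rw [genM, Subgroup.closure_eq_bot_iff]
      rintro _ ⟨s, -, h1, -⟩
      simp [nextM] at h1
    rw [this]; exact fun x hx _ => hx
  | cons L Ls ih =>
    obtain ⟨⟨hβ, hn⟩, hc, hr⟩ := h
    have ih' := ih hr
    set W : ℕ → List ℕ := fun c => wkR T L.β L.tree L.fuel c [] with hW
    have spec : ∀ c < N, L.mem c = true → (∀ s ∈ W c, s < k) ∧ ∀ s < k, L.gm.testBit s = true →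
        L.mem (T c s) = true ∧ ∃ v : List ℕ, (∀ y ∈ v, y < k ∧ (nextM Ls).testBit y = true) ∧
          agree B (fun b => H9.trR T v (H9.trR T (W (T c s)) (T b s))) (H9.trR T (W c)) = true := by
      intro c hcN hm
      have h1 := hc c hcN
      unfold ssB at h1
      rw [hm] at h1
      simp only [forceL_eq, Bool.and_eq_true, ltB_iff, allLt_iff] at h1
      refine ⟨h1.1, fun s hs hg => ?_⟩
      have h2 := h1.2 s hs
      rw [tb_eq, hg] at h2
      have h3 : (L.mem (T c s) && siftR T (fun b => H9.trR T (W (T c s)) (T (H9.trI T iv (W c) b) s))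
        (fun v => (allL v fun y => Nat.blt y k && tb (nextM Ls) y) &&
          agree B (fun b => H9.trR T v (H9.trR T (W (T c s)) (T b s))) (H9.trR T (W c))) Ls []) = true := h2
      rw [Bool.and_eq_true] at h3
      obtain ⟨v, hv⟩ := siftR_spec h3.2
      simp only [Bool.and_eq_true, allL_iff, Nat.blt_eq, tb_eq] at hv
      exact ⟨h3.1, v, hv⟩
    have key : ∀ x ∈ genM g k L.gm, L.mem (A.act L.β x) = true ∧
        x * ev g (W (A.act L.β x)).reverse ∈ genM g k (nextM Ls) := by
      apply closure_sub_of_closed (C := {x | L.mem (A.act L.β x) = true ∧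
        x * ev g (W (A.act L.β x)).reverse ∈ genM g k (nextM Ls)})
      · rw [Set.mem_ofPred_eq, A.one hβ]
        refine ⟨?_, by simp [hW, wkR_self]⟩
        unfold SS.mem
        cases L.tree L.β with
        | zero => exact Nat.beq_refl _
        | succ _ => rfl
      · rintro _ ⟨s, hs, hg, rfl⟩ x ⟨h1, h2⟩
        have hcN := A.lt hβ x
        obtain ⟨a1, a2⟩ := spec _ hcN h1
        obtain ⟨a3, v, a4, a5⟩ := a2 s hs hg
        have e : A.act L.β (x * g s) = T (A.act L.β x) s := by rw [A.mul hβ, hT s hs _ hcN]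
        rw [Set.mem_ofPred_eq, e]
        refine ⟨a3, ?_⟩
        have a6 := (spec _ (e ▸ A.lt hβ _) a3).1
        have a7 : A.Fn (g s) fun b => T b s := fun b hb => hT s hs b hb
        have a8 := hB.eq ((a7.comp (hT.trR a6)).comp (hT.trR fun y hy => (a4 y hy).1)) (hT.trR a1) a5
        have a9 : ev g v.reverse ∈ genM g k (nextM Ls) := ev_mem g _ fun y hy =>
          Subgroup.subset_closure ⟨y, (a4 y (List.mem_reverse.mp hy)).1,
            (a4 y (List.mem_reverse.mp hy)).2, rfl⟩
        rw [← a8] at h2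
        simpa [mul_assoc] using mul_mem h2 (inv_mem a9)
    intro x hx hf
    have h1 := (key x hx).2
    rw [hf L List.mem_cons_self hβ] at h1
    exact ih' x (by simpa [hW, wkR_self] using h1) fun L' hL' => hf L' (List.mem_cons_of_mem _ hL')

end RA

end Cfsg.Agent.H9
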