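import Cfsg.Agent.H9.Cent
import Cfsg.Prelude.Def_Transfer
import Cfsg.Prelude.Def_Solvable
import Cfsg.Prelude.Def_SporadicB

/-! The structure of a centraliser from a diagonal subgroup of a product. -/

set_option autoImplicit false

namespace Cfsg.Agent.H9

open Cfsg.Agent.L0 (ev ev_nil ev_cons ev_append ev_mem nthW nthW_mem nthW_eq map_ev ev_congr)

namespace RA

/-- the facts on a group `C` with a homomorphism onto `L` -/
structure CentOK {C L : Type*} [Group C] [Group L] {M : ℕ} (A : RA C M) (h : ℕ → C) (k : ℕ)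
    (T : ℕ → ℕ → ℕ) (B : List ℕ) (L1 L2 : List Lv) (φ : C →* L) : Prop where
  tab : A.Tab h k T
  base : A.IsBase B
  good : A.Good h k T (L1 ++ L2) []
  ker : φ.ker = A.Fix ((L1.map Lv.β).reverse ++ [])
  surj : Function.Surjective φ

theorem Good.pull {G H : Type*} [Group G] [Group H] {N : ℕ} {A : RA G N} {g : ℕ → G} {k : ℕ}
    {T : ℕ → ℕ → ℕ} (e : H ≃* G) {Ls : List Lv} {bs : List ℕ} (h : A.Good g k T Ls bs) :
    (A.pull e.toMonoidHom).Good (fun s => e.symm (g s)) k T Ls bs := by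
  induction Ls generalizing bs with
  | nil =>
    have h' : A.Fix bs = ⊥ := h
    show _ = ⊥
    rw [eq_bot_iff]
    intro x hx
    have : e x ∈ A.Fix bs := hx
    rw [h'] at this
    exact e.map_eq_one_iff.mp this
  | cons L Ls ih =>
    refine ⟨⟨h.1.hβ, fun s hs => ⟨(h.1.sm s hs).1, fun b hb hN => ?_⟩, h.1.lt, h.1.inj, h.1.wk⟩,
      fun x hx => h.2.1 (e x) hx, ih h.2.2⟩
    show A.act b (e (e.symm _)) = b
    rw [e.apply_symm_apply]; exact (h.1.sm s hs).2 b hb hN

variable {G : Type*} [Group G] {N : ℕ} {A : RA G N} {g : ℕ → G} {k : ℕ} {T : ℕ → ℕ → ℕ}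
  {L : Type*} [Group L] {M2 : ℕ} {A2 : RA L M2} {l : ℕ → L} {k2 : ℕ} {T' : ℕ → ℕ → ℕ}

theorem cent_of [Finite G] (hT : A.Tab g k T) {B : List ℕ} (hB : A.IsBase B) (hT2 : A2.Tab l k2 T')
    {B2 : List ℕ} (hB2 : A2.IsBase B2) {it n0 nL : ℕ}
    (hC : Nat.card (Subgroup.centralizer ({g it} : Set G)) ≤ n0) (hL : Nat.card L ≤ nL)
    {Wh : List (List ℕ)} {u : ℕ → ℕ} {TC : ℕ → ℕ → ℕ} {M : ℕ}
    (hsub : ∀ c < M, subB (prodT T N k T') u TC Wh (N + M2) M c = true)
    {SW : List (ℕ × List ℕ)} (hslp : ∀ c < M, slp2B TC SW Wh.length c = true) {kh : ℕ}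
    {B' : List ℕ} {iv : ℕ → List ℕ} {Ls : List SS} (hss : SSChk TC M kh B' iv Ls) {L1 L2 : List Lv}
    (hch : ChainChk TC M kh (L1 ++ L2) [])
    (hs : (allL Wh (ltB (k + k2)) && Nat.blt it k &&
      agree B (H9.tr (prodT T N k T') (nthW Wh 0)) (H9.tr (prodT T N k T') [it]) &&
      Nat.blt 0 Wh.length &&
      (allL Wh fun w => agree B (H9.tr (prodT T N k T') (it :: w))
        (H9.tr (prodT T N k T') (w ++ [it]))) && ltB M B' &&
      decide (B'.map u = B ++ B2.map (Nat.add N)) &&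
      decide ((L1.map Lv.β).map u = B2.map (Nat.add N)) &&
      (allL Ls fun L => Nat.blt (u L.β) N) && slp2W SW Wh.length &&
      Nat.beq (Wh.length + SW.length) kh && allLt Wh.length (tb (nextM Ls)) &&
      Nat.beq (chainOrd (L1 ++ L2)) n0 && Nat.beq (chainOrd L1) nL) = true) :
    ∃ (φ : Subgroup.centralizer ({g it} : Set G) →* L)
      (A' : RA (Subgroup.centralizer ({g it} : Set G)) M)
      (h : ℕ → Subgroup.centralizer ({g it} : Set G)),
      (h 0 : G) = g it ∧ CentOK A' h kh TC B' L1 L2 φ := by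
  simp only [Bool.and_eq_true, Nat.blt_eq, decide_eq_true_eq, ltB_iff, Nat.beq_eq, allLt_iff,
    tb_eq] at hs
  obtain ⟨⟨⟨⟨⟨⟨⟨⟨⟨⟨⟨⟨⟨s1, s2⟩, s3⟩, s4⟩, s5⟩, s6⟩, s7⟩, s8⟩, s9⟩, s10⟩, s11⟩, s12⟩, s13⟩, s14⟩ := hs
  have hL0 := hB2.finite
  have hP := hT.prod hT2
  obtain ⟨K, A', h0, h1, h2, h3, h4, h5, h6⟩ := exists_restrict hP s1 hsub
  obtain ⟨h, h7, h8⟩ := h1.extend2 s10 hslp
  rw [s11] at h7
  have hb : A'.IsBase B' := ⟨s6, fun x hx => Subtype.ext ((hB.prod hB2).2 _ fun b hb => by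
    rw [← s7] at hb
    obtain ⟨c, hc, rfl⟩ := List.mem_map.mp hb
    rw [← h6 x c (s6 c hc), hx c hc])⟩
  have htop : genM h kh (nextM Ls) = ⊤ := h3 _ fun s hs =>
    Subgroup.subset_closure ⟨s, by omega, s12 s hs, (h8 s hs).symm⟩
  have fst : ∀ {w : List ℕ}, (∀ s ∈ w, s < k + k2) →
      A.Fn (ev (prodG g k l) w).1 (H9.tr (prodT T N k T') w) := fun hw c hc => by
    rw [hP.tr hw c (by omega), prod_left hc]
  have e0 : prodG g k l it = (g it, 1) := if_pos s2
  let π : K →* G := (MonoidHom.fst G L).comp K.subtype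
  have hinj : Function.Injective π := (injective_iff_map_eq_one π).mpr fun x hx =>
    ss_base h7 hb hss x (htop ▸ Subgroup.mem_top x) fun L hL hβ => h5 _ (A'.lt hβ _) _ hβ (by
      have a1 := Nat.blt_eq.mp ((allL_iff _ _).mp s9 L hL)
      have a2 : (x.1).1 = 1 := hx
      rw [h6 x _ hβ, prod_left a1, a2, A.one a1])
  have hle : π.range ≤ Subgroup.centralizer {g it} := by
    have := h3 ((Subgroup.centralizer {g it}).comap π) fun s hs => by
      rw [Subgroup.mem_comap, Subgroup.mem_centralizer_singleton_iff]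
      have a0 : nthW Wh s ∈ Wh := by
        rw [nthW_eq, List.getD_eq_getElem _ _ hs]; exact List.getElem_mem hs
      have a1 := ltB_iff.mp ((allL_iff _ _).mp s1 _ a0)
      have a2 := hB.eq (fst (lt_cons (by omega) a1)) (fst (lt_append a1 (lt_one (by omega))))
        ((allL_iff _ _).mp s5 _ a0)
      rw [ev_append, ev_cons, L0.ev_singleton, e0, ← h2] at a2
      exact a2.symm
    rintro _ ⟨x, rfl⟩
    exact (this ▸ Subgroup.mem_top x : x ∈ (Subgroup.centralizer {g it}).comap π)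
  have c1 := chainOrd_le h7 hch
  rw [Fix_nil, Subgroup.card_top, s13] at c1
  have c2 : Nat.card π.range = Nat.card K := (Nat.card_congr (MonoidHom.ofInjective hinj).toEquiv).symm
  have heq : π.range = Subgroup.centralizer {g it} :=
    Subgroup.eq_of_le_of_card_ge hle (by omega)
  have c3 : Nat.card K ≤ chainOrd (L1 ++ L2) := by rw [← c2, heq, s13]; exact hC
  obtain ⟨c4, hg⟩ := card_eq_of_chain h7 hch c3
  let e : Subgroup.centralizer ({g it} : Set G) ≃* K :=
    ((MonoidHom.ofInjective hinj).trans (MulEquiv.subgroupCongr heq)).symm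
  have he : ∀ x : K, ((e.symm x : Subgroup.centralizer ({g it} : Set G)) : G) = (x : G × L).1 :=
    fun _ => rfl
  let ψ : K →* L := (MonoidHom.snd G L).comp K.subtype
  have hlt : ∀ b ∈ L1.map Lv.β, b < M := fun b hb => by
    obtain ⟨L, hL, rfl⟩ := List.mem_map.mp hb
    exact hg.β_lt L (List.mem_append_left _ hL)
  have hker : ψ.ker = A'.Fix ((L1.map Lv.β).reverse ++ []) := by
    ext x
    rw [MonoidHom.mem_ker, mem_Fix, List.append_nil]
    constructor
    · intro hx b hb hM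
      have a1 : u b ∈ B2.map (Nat.add N) := s8 ▸ List.mem_map_of_mem (List.mem_reverse.mp hb)
      obtain ⟨c, hc, a2⟩ := List.mem_map.mp a1
      refine h5 _ (A'.lt hM _) _ hM ?_
      rw [h6 x b hM, ← a2]
      exact (prod_right c _).trans (by rw [show (x : G × L).2 = 1 from hx, A2.one (hB2.1 c hc)]; rfl)
    · intro hx
      refine hB2.2 _ fun c hc => ?_
      have a1 : N + c ∈ (L1.map Lv.β).map u := s8 ▸ List.mem_map_of_mem (f := Nat.add N) hc
      obtain ⟨b, hb, a2⟩ := List.mem_map.mp a1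
      have a3 := h6 x b (hlt b hb)
      rw [hx b (List.mem_reverse.mpr hb) (hlt b hb), a2, prod_right] at a3
      exact (Nat.add_left_cancel a3).symm
  have hsurj : Function.Surjective ψ := by
    have a1 := hg.append.card h7
    have a2 := ψ.ker.card_mul_index
    rw [Subgroup.index_ker, c4, chainOrd_append, hker, a1, mul_comm] at a2
    have a3 : 0 < chainOrd L2 := a1 ▸ Nat.card_pos
    rw [← MonoidHom.range_eq_top]
    exact Subgroup.eq_top_of_le_card _ (by rw [Nat.eq_of_mul_eq_mul_right a3 a2, s14]; exact hL)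
  refine ⟨ψ.comp e.toMonoidHom, A'.pull e.toMonoidHom, fun s => e.symm (h s), ?_, fun s hs c hc => ?_,
    ⟨s6, fun x hx => e.map_eq_one_iff.mp (hb.2 _ hx)⟩, hg.pull e, ?_,
    hsurj.comp e.surjective⟩
  · have a0 : nthW Wh 0 ∈ Wh := by
      rw [nthW_eq, List.getD_eq_getElem _ _ s4]; exact List.getElem_mem s4
    rw [he, h8 0 s4, h2, hB.eq (fst (ltB_iff.mp ((allL_iff _ _).mp s1 _ a0)))
      (fst (lt_one (by omega))) s3, L0.ev_singleton, e0]
  · show _ = A'.act c (e (e.symm _))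
    rw [e.apply_symm_apply]; exact h7 s hs c hc
  · ext x
    exact SetLike.ext_iff.mp hker (e x)

end RA

end Cfsg.Agent.H9
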