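import Cfsg.Agent.H9.Cent2

/-! Criteria for extraspecial groups, double covers and the largest normal `p`-subgroup. -/

set_option autoImplicit false

namespace Cfsg.Agent.H9

open scoped commutatorElement

theorem isCoatom_bot_two : IsCoatom (⊥ : Subgroup (Multiplicative (ZMod 2))) := by
  have : Fact (Nat.card (Multiplicative (ZMod 2))).Prime := ⟨by simpa using Nat.prime_two⟩
  exact ⟨bot_ne_top, fun K hK => (K.eq_bot_or_eq_top_of_prime_card).resolve_left hK.ne'⟩

theorem extraspecial_of {Q : Type*} [Group Q] [Finite Q] {m : ℕ} (hm : 0 < m)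
    (hc : Nat.card Q = 2 ^ (m + 1)) {z : Q} (hz : z ≠ 1) (hz2 : z * z = 1)
    (hcen : ∀ x, x * z = z * x) (q p : ℕ → Q)
    (h1 : ∀ x, ∀ j < m, x * q j = q j * x ∨ x * q j = q j * x * z)
    (h2 : ∀ i < m, ∀ j < m, p i * q j = q j * p i ↔ i ≠ j) : IsExtraspecial 2 Q := by
  classical
  let χ : Q →* (Fin m → Multiplicative (ZMod 2)) := MonoidHom.mk'
    (fun x j => if x * q j = q j * x then 1 else Multiplicative.ofAdd 1) fun x y => by
      funext j
      have key : ∀ a : Q, a * z ≠ a := fun a h => hz (mul_eq_left.mp h)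
      rw [Pi.mul_apply]
      by_cases hx : x * q j = q j * x <;> by_cases hy : y * q j = q j * y
      · rw [if_pos hx, if_pos hy, if_pos (by rw [mul_assoc, hy, ← mul_assoc, hx, mul_assoc]), mul_one]
      · rw [if_pos hx, if_neg hy, if_neg, one_mul]
        rw [mul_assoc, (h1 y j j.2).resolve_left hy, ← mul_assoc, ← mul_assoc, hx, mul_assoc (q j)]
        exact key _
      · rw [if_neg hx, if_pos hy, if_neg, mul_one]
        rw [mul_assoc, hy, ← mul_assoc, (h1 x j j.2).resolve_left hx, mul_assoc _ z, ← hcen,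
          ← mul_assoc, mul_assoc (q j)]
        exact key _
      · rw [if_neg hx, if_neg hy, if_pos]
        · exact (by decide : (1 : Multiplicative (ZMod 2)) =
            Multiplicative.ofAdd 1 * Multiplicative.ofAdd 1)
        rw [mul_assoc, (h1 y j j.2).resolve_left hy, ← mul_assoc, ← mul_assoc,
          (h1 x j j.2).resolve_left hx, mul_assoc _ z, ← hcen, ← mul_assoc, mul_assoc _ z, hz2,
          mul_one, mul_assoc]
  have hχ : ∀ x j, χ x j = if x * q j = q j * x then 1 else Multiplicative.ofAdd 1 := fun _ _ => rfl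
  have hsurj : Function.Surjective χ := fun f => by
    refine Pi.mulSingle_induction (fun f => f ∈ χ.range) f (one_mem _) (fun _ _ => mul_mem) ?_
    intro i a
    have ha : a = 1 ∨ a = Multiplicative.ofAdd 1 := by revert a; decide
    rcases ha with rfl | rfl
    · rw [Pi.mulSingle_one]; exact one_mem _
    · refine ⟨p i, funext fun j => ?_⟩
      rw [hχ]
      by_cases hij : j = i
      · rw [hij, Pi.mulSingle_eq_same, if_neg (by rw [h2 i i.2 i i.2]; simp)]
      · rw [Pi.mulSingle_eq_of_ne hij, if_pos ((h2 i i.2 j j.2).mpr fun e => hij (Fin.ext e.symm))]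
  have hz3 : orderOf z = 2 := orderOf_eq_prime (by rw [sq, hz2]) hz
  have hcen' : Subgroup.zpowers z ≤ Subgroup.center Q :=
    (Subgroup.zpowers_le).mpr (Subgroup.mem_center_iff.mpr hcen)
  have hc2 : Subgroup.center Q ≤ χ.ker := fun x hx => funext fun j => by
    rw [hχ, if_pos (Subgroup.mem_center_iff.mp hx _).symm]; rfl
  have hk : Nat.card χ.ker = 2 := by
    have := χ.ker.card_mul_index
    rw [Subgroup.index_ker, MonoidHom.range_eq_top.mpr hsurj, Subgroup.card_top, hc, pow_succ'] at this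
    simpa using this
  have e1 : Subgroup.zpowers z = χ.ker := Subgroup.eq_of_le_of_card_ge (hcen'.trans hc2)
    (by rw [hk, Nat.card_zpowers, hz3])
  have e2 : Subgroup.center Q = Subgroup.zpowers z := le_antisymm (e1 ▸ hc2) hcen'
  have hcom : z = ⁅(p 0)⁻¹, (q 0)⁻¹⁆ := by
    have := (h1 (p 0) 0 hm).resolve_left (by rw [h2 0 hm 0 hm]; simp)
    rw [commutatorElement_def, inv_inv, inv_inv, mul_assoc, this]
    group
  refine ⟨⟨IsPGroup.of_card hc, le_antisymm ?_ ?_, le_antisymm ?_ ?_⟩, ?_⟩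
  · rw [e2, e1]
    intro x hx
    funext j
    exact frattini_le_coatom (Subgroup.isCoatom_comap_of_surjective
      (φ := (Pi.evalMonoidHom _ j).comp χ) ((Function.surjective_eval j).comp hsurj)
      isCoatom_bot_two) hx
  · rw [e2, Subgroup.zpowers_le, frattini, Order.radical]
    simp only [Subgroup.mem_iInf]
    intro K hK
    by_contra hn
    have h3 : K ⊔ Subgroup.zpowers z = ⊤ := hK.2 _ (lt_of_le_of_ne le_sup_left fun e =>
      hn (e ▸ Subgroup.mem_sup_right (Subgroup.mem_zpowers z)))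
    have : (Subgroup.zpowers z).Normal := e2 ▸ inferInstance
    have h4 : ∀ x, ∃ a ∈ K, ∃ b ∈ Subgroup.center Q, a * b = x := fun x => by
      rw [e2, ← Subgroup.mem_sup_of_normal_right, h3]; trivial
    obtain ⟨a, ha, b, hb, e⟩ := h4 (p 0)⁻¹
    obtain ⟨c, hc, d, hd, e'⟩ := h4 (q 0)⁻¹
    have h5 := Subgroup.mem_center_iff.mp hb
    have h6 := Subgroup.mem_center_iff.mp hd
    apply hn
    have h7 : ⁅a * b, c * d⁆ = ⁅a, c⁆ := by
      rw [commutatorElement_def, commutatorElement_def, mul_inv_rev, mul_inv_rev, mul_assoc a b,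
        ← h5, ← mul_assoc a, mul_assoc _ b, mul_inv_cancel_left, ← mul_assoc a, mul_assoc _ d,
        ← h6]
      group
    rw [hcom, ← e, ← e', h7, commutatorElement_def]
    exact mul_mem (mul_mem (mul_mem ha hc) (inv_mem ha)) (inv_mem hc)
  · rw [e2, e1]; exact Abelianization.commutator_subset_ker χ
  · rw [e2, Subgroup.zpowers_le, hcom]
    exact Subgroup.commutator_mem_commutator (Subgroup.mem_top _) (Subgroup.mem_top _)
  · rw [e2, Nat.card_zpowers, hz3]

theorem le_of_index {C : Type*} [Group C] [Finite C] {p : ℕ} [Fact p.Prime] {N H : Subgroup C}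
    [hN : N.Normal] (hp : IsPGroup p N) (hi : ¬ p ∣ H.index) : N ≤ H := by
  obtain ⟨x, hx⟩ := hp.nonempty_fixed_point_of_prime_not_dvd_card (C ⧸ H) hi
  obtain ⟨x, rfl⟩ := QuotientGroup.mk_surjective x
  intro n hn
  have := hx ⟨_, hN.conj_mem _ (inv_mem hn) x⟩
  have h1 : ((x * n⁻¹ * x⁻¹ * x : C) : C ⧸ H) = x := this
  simpa using QuotientGroup.eq.mp h1

theorem nonsplit_of {C L : Type*} [Group C] [Group L] [Finite C] (φ : C →* L)
    (hs : Function.Surjective φ) (hk : Nat.card φ.ker = 2) (hL : Subgroup.center L = ⊥) {t x : C}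
    (ht : t ≠ 1) (ht2 : t * t = 1) (htc : t ∈ Subgroup.center C) (hx : x * x = t) :
    IsNonsplitDoubleCover C L := by
  have h1 : Subgroup.center C ≤ φ.ker := fun y hy => by
    rw [MonoidHom.mem_ker, ← Subgroup.mem_bot, ← hL, Subgroup.mem_center_iff]
    intro a
    obtain ⟨a, rfl⟩ := hs a
    rw [← map_mul, ← map_mul, Subgroup.mem_center_iff.mp hy]
  have h2 : Subgroup.zpowers t ≤ Subgroup.center C := Subgroup.zpowers_le.mpr htc
  have h3 : Subgroup.zpowers t = φ.ker := Subgroup.eq_of_le_of_card_ge (h2.trans h1)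
    (by rw [hk, Nat.card_zpowers, orderOf_eq_prime (by rw [sq, ht2]) ht])
  have h4 : Subgroup.center C = φ.ker := le_antisymm h1 (h3 ▸ h2)
  refine ⟨h4 ▸ hk, ⟨(QuotientGroup.quotientMulEquivOfEq h4).trans
    (QuotientGroup.quotientKerEquivOfSurjective φ hs)⟩, fun K hK => ?_⟩
  obtain ⟨⟨⟨a, ha⟩, ⟨b, hb⟩⟩, e⟩ := hK.2 x
  have e' : a * b = x := e
  have h5 : a * a = 1 := by
    have := pow_card_eq_one' (x := (⟨a, h4 ▸ ha⟩ : φ.ker))
    rw [hk, sq] at this
    exact congrArg Subtype.val this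
  have h6 : t = b * b := by
    rw [← hx, ← e', mul_assoc, ← mul_assoc b, Subgroup.mem_center_iff.mp ha b, mul_assoc,
      ← mul_assoc, h5, one_mul]
  exact ht (Subgroup.disjoint_def.mp hK.disjoint htc (h6 ▸ mul_mem hb hb))

open Cfsg.Agent.L0 (ev ev_nil ev_cons ev_append ev_mem)

/-- the word fixes the points of the list -/
noncomputable def fxB (T : ℕ → ℕ → ℕ) (B w : List ℕ) : Bool := RA.agree B (tr T w) fun b => b

/-- the list enumerates the group generated by the letters `gs` -/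
noncomputable def enumB (T : ℕ → ℕ → ℕ) (N k : ℕ) (B : List ℕ) (CL : List (ℕ × List ℕ))
    (gs : List ℕ) : Bool :=
  listB T N k B CL (gs.map fun s => [s]) && (allL CL fun c => allL c.2 fun y => decide (y ∈ gs)) &&
    decide (CL.map Prod.fst).Nodup

/-- the involutions of the list are conjugate to the letter `it` -/
noncomputable def clsB (T : ℕ → ℕ → ℕ) (k it : ℕ) (B : List ℕ) (CL CW : List (ℕ × List ℕ)) : Bool :=
  allL CL fun c => fxB T B c.2 || !(fxB T B (c.2 ++ c.2)) || anyL CW fun y =>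
    Nat.beq y.1 c.1 && ltB k y.2 && RA.agree B (tr T (c.2 ++ y.2)) (tr T (y.2 ++ [it]))

/-- the commutation rules of an extraspecial group -/
noncomputable def extraB (T : ℕ → ℕ → ℕ) (k m : ℕ) (B bs : List ℕ) (Ls : List Lv)
    (q p : ℕ → List ℕ) : Bool :=
  Nat.blt 0 k && Nat.blt 0 m && fxB T bs [0] && !(fxB T B [0]) && fxB T B [0, 0] &&
  (allLt m fun j => ltB k (q j) && ltB k (p j) && fxB T bs (q j) && fxB T bs (p j) &&
    allLt m fun i => !(Bool.xor (RA.agree B (tr T (p i ++ q j)) (tr T (q j ++ p i))) (!(Nat.beq i j)))) &&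
  allL Ls fun L => allLt k fun s => !(tb L.sm s) || allLt m fun j =>
    RA.agree B (tr T (s :: q j)) (tr T (q j ++ [s])) ||
      RA.agree B (tr T (s :: q j)) (tr T (q j ++ [s, 0]))

/-- commuting involutions of the list generate at most a four-group together with the letter `0` -/
noncomputable def rankB (T : ℕ → ℕ → ℕ) (B : List ℕ) (CL : List (ℕ × List ℕ)) : Bool :=
  allL CL fun x => !(fxB T B (x.2 ++ x.2)) || fxB T B x.2 || RA.agree B (tr T x.2) (tr T [0]) ||
    allL CL fun y => !(fxB T B (y.2 ++ y.2)) ||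
      !(RA.agree B (tr T (x.2 ++ y.2)) (tr T (y.2 ++ x.2))) || fxB T B y.2 ||
      RA.agree B (tr T y.2) (tr T [0]) || RA.agree B (tr T y.2) (tr T x.2) ||
      RA.agree B (tr T y.2) (tr T (x.2 ++ [0]))

namespace RA

variable {G : Type*} [Group G] {N : ℕ} {A : RA G N} {g : ℕ → G} {k : ℕ} {T : ℕ → ℕ → ℕ}

theorem agree_iff (hT : A.Tab g k T) {B : List ℕ} (hB : A.IsBase B) {v w : List ℕ}
    (hv : ∀ s ∈ v, s < k) (hw : ∀ s ∈ w, s < k) :
    agree B (H9.tr T v) (H9.tr T w) = true ↔ ev g v = ev g w :=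
  ⟨hB.eq (hT.tr hv) (hT.tr hw), fun e => by
    by_contra h
    exact hB.ne (hT.tr hv) (hT.tr hw) (Bool.eq_false_iff.mpr h) e⟩

theorem fxB_iff (hT : A.Tab g k T) {B : List ℕ} (hB : A.IsBase B) {v : List ℕ}
    (hv : ∀ s ∈ v, s < k) : fxB T B v = true ↔ ev g v = 1 :=
  agree_iff hT hB (w := []) hv (by simp)

theorem fxB_fix (hT : A.Tab g k T) {B : List ℕ} (hB : ∀ b ∈ B, b < N) {v : List ℕ}
    (hv : ∀ s ∈ v, s < k) : fxB T B v = true ↔ ev g v ∈ A.Fix B := by
  rw [fxB, agree, allL_iff, mem_Fix]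
  refine forall₂_congr fun b hb => ?_
  rw [hT.tr hv b (hB b hb), Nat.beq_eq]
  exact ⟨fun h _ => h, fun h => h (hB b hb)⟩

theorem enumB_spec [Finite G] (hT : A.Tab g k T) {B : List ℕ} (hB : A.IsBase B)
    {CL : List (ℕ × List ℕ)} {gs : List ℕ} (h : enumB T N k B CL gs = true) :
    ∃ H : Subgroup G, Nat.card H = CL.length ∧ (∀ c ∈ CL, ∀ s ∈ c.2, s < k) ∧
      ∀ x, x ∈ H ↔ ∃ c ∈ CL, x = ev g c.2 := by
  classical
  simp only [enumB, Bool.and_eq_true, decide_eq_true_eq, allL_iff] at h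
  obtain ⟨⟨h1, h2⟩, h3⟩ := h
  have h4 := listB_spec hT hB h1
  simp only [listB, Bool.and_eq_true, allL_iff, ltB_iff, Nat.beq_eq] at h1
  have h5 : ∀ x, x ∈ Subgroup.closure {x | ∃ w ∈ gs.map fun s => [s], x = ev g w} ↔
      ∃ c ∈ CL, x = ev g c.2 := fun x => ⟨h4 x, by
    rintro ⟨c, hc, rfl⟩
    exact ev_mem g _ fun y hy => Subgroup.subset_closure
      ⟨_, List.mem_map_of_mem (h2 c hc y hy), (L0.ev_singleton _ _).symm⟩⟩
  refine ⟨_, ?_, fun c hc => (h1.1.1 c hc).1, h5⟩
  have h6 : (CL.map fun c => ev g c.2).Nodup := by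
    refine List.Nodup.map_on (fun c hc d hd e => ?_) (List.Nodup.of_map _ h3)
    refine List.inj_on_of_nodup_map h3 hc hd ?_
    rw [(h1.1.1 c hc).2, (h1.1.1 d hd).2]
    refine code_congr fun b hb => ?_
    rw [hT.tr (h1.1.1 c hc).1 b (hB.1 b hb), hT.tr (h1.1.1 d hd).1 b (hB.1 b hb), e]
  rw [← List.length_map (fun c => ev g c.2), ← List.toFinset_card_of_nodup h6,
    ← Set.ncard_coe_finset, ← Nat.card_coe_set_eq]
  refine Nat.card_congr (Equiv.subtypeEquivRight fun x => (h5 x).trans ?_)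
  simp [eq_comm]

theorem one_class [Finite G] (hT : A.Tab g k T) {B : List ℕ} (hB : A.IsBase B) {n e it : ℕ}
    (hn : Nat.card G = n) {CL CW : List (ℕ × List ℕ)} {gs : List ℕ}
    (h : (enumB T N k B CL gs && clsB T k it B CL CW && Nat.blt it k && Nat.beq CL.length (2 ^ e) &&
      !(Nat.beq (n % (2 ^ e * 2)) 0)) = true) :
    ∀ x y : G, orderOf x = 2 → orderOf y = 2 → IsConj x y := by
  simp only [Bool.and_eq_true, Nat.blt_eq, Nat.beq_eq, Bool.not_eq_true'] at h
  obtain ⟨⟨⟨⟨h1, h2⟩, h3⟩, h4⟩, h5⟩ := h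
  obtain ⟨H, a1, a2, a3⟩ := enumB_spec hT hB h1
  rw [h4] at a1
  let P : Sylow 2 G := (IsPGroup.of_card a1).toSylow (by
    rintro ⟨d, hd⟩
    refine Nat.ne_of_beq_eq_false h5 ?_
    rw [← hn, ← H.card_mul_index, a1, hd, ← mul_assoc, Nat.mul_mod_right])
  suffices key : ∀ x : G, orderOf x = 2 → IsConj x (g it) from
    fun x y hx hy => (key x hx).trans (key y hy).symm
  intro x hx
  obtain ⟨Q, hQ⟩ := (IsPGroup.of_card (p := 2) (n := 1) (G := Subgroup.zpowers x)
    (by rw [Nat.card_zpowers, hx, pow_one])).exists_le_sylow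
  obtain ⟨u, hu⟩ := MulAction.exists_smul_eq G Q P
  have h6 : u * x * u⁻¹ ∈ H := by
    show _ ∈ (P : Subgroup G)
    rw [← hu, Sylow.coe_subgroup_smul]
    exact Subgroup.smul_mem_pointwise_smul x (MulAut.conj u) _ (hQ (Subgroup.mem_zpowers x))
  obtain ⟨c, hc, e1⟩ := (a3 _).mp h6
  have h7 := (allL_iff _ _).mp h2 c hc
  simp only [Bool.or_eq_true, Bool.not_eq_true', anyL_iff, Bool.and_eq_true, ltB_iff] at h7
  rcases h7 with (h7 | h7) | ⟨y, -, ⟨-, b1⟩, b2⟩
  · rw [fxB_iff hT hB (a2 c hc), ← e1, conj_eq_one_iff] at h7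
    rw [h7, orderOf_one] at hx
    exact absurd hx (by norm_num)
  · rw [Bool.eq_false_iff, Ne, fxB_iff hT hB (lt_append (a2 c hc) (a2 c hc)), ev_append, ← e1,
      conj_mul, conj_eq_one_iff, ← sq, ← hx] at h7
    exact absurd (pow_orderOf_eq_one x) h7
  · rw [agree_iff hT hB (lt_append (a2 c hc) b1) (lt_append b1 (lt_one h3)), ev_append, ev_append,
      L0.ev_singleton, ← e1] at b2
    refine isConj_iff.mpr ⟨(ev g y.2)⁻¹ * u, ?_⟩
    rw [eq_comm, ← mul_left_cancel_iff (a := ev g y.2), ← b2]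
    group

namespace CentOK

variable {L : Type*} [Group L] {B : List ℕ} {L1 L2 : List Lv} {φ : G →* L}

theorem card_ker [Finite G] (h : CentOK A g k T B L1 L2 φ) : Nat.card φ.ker = chainOrd L2 := by
  rw [h.ker]; exact h.good.append.card h.tab

theorem iso [Finite G] (h : CentOK A g k T B L1 [] φ) : Nonempty (G ≃* L) :=
  ⟨MulEquiv.ofBijective φ ⟨(MonoidHom.ker_eq_bot_iff φ).mp
    (Subgroup.eq_bot_of_card_le _ h.card_ker.le), h.surj⟩⟩

theorem mem_ker (h : CentOK A g k T B L1 L2 φ) {w : List ℕ} (hw : ∀ s ∈ w, s < k) :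
    fxB T (L1.map Lv.β) w = true ↔ ev g w ∈ φ.ker := by
  rw [fxB_fix h.tab (fun b hb => by
    obtain ⟨L, hL, rfl⟩ := List.mem_map.mp hb
    exact h.good.β_lt L (List.mem_append_left _ hL)) hw, h.ker, mem_Fix, mem_Fix]
  simp

theorem extra [Finite G] (h : CentOK A g k T B L1 L2 φ) (hz : g 0 ∈ Subgroup.center G) {m : ℕ}
    {q p : ℕ → List ℕ} (hm : chainOrd L2 = 2 ^ (m + 1))
    (hs : extraB T k m B (L1.map Lv.β) L2 q p = true) : IsExtraspecial 2 φ.ker := by
  simp only [extraB, Bool.and_eq_true, Nat.blt_eq, allLt_iff, allL_iff, ltB_iff, Bool.or_eq_true,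
    Bool.not_eq_true', tb_eq] at hs
  obtain ⟨⟨⟨⟨⟨⟨s0, s1⟩, s2⟩, s3⟩, s4⟩, s5⟩, s6⟩ := hs
  rw [h.mem_ker (lt_one s0), L0.ev_singleton] at s2
  rw [Bool.eq_false_iff, Ne, fxB_iff h.tab h.base (lt_one s0), L0.ev_singleton] at s3
  rw [fxB_iff h.tab h.base (lt_cons s0 (lt_one s0)), ev_cons, L0.ev_singleton] at s4
  have hz' := Subgroup.mem_center_iff.mp hz
  have key : ∀ x ∈ φ.ker, ∀ j < m, x * ev g (q j) = ev g (q j) * x ∨
      x * ev g (q j) = ev g (q j) * x * g 0 := by
    intro x hx j hj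
    let S : Subgroup G :=
      { carrier := {x | x * ev g (q j) = ev g (q j) * x ∨ x * ev g (q j) = ev g (q j) * x * g 0}
        one_mem' := Or.inl (by simp)
        mul_mem' := by
          rintro x y (hx | hx) (hy | hy)
          · left; rw [mul_assoc, hy, ← mul_assoc, hx, mul_assoc]
          · right; rw [mul_assoc, hy, ← mul_assoc, ← mul_assoc, hx, mul_assoc _ x]
          · right; rw [mul_assoc, hy, ← mul_assoc, hx, mul_assoc _ (g 0), ← hz', ← mul_assoc,
              mul_assoc _ x]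
          · left; rw [mul_assoc, hy, ← mul_assoc, ← mul_assoc, hx, mul_assoc _ (g 0), ← hz',
              ← mul_assoc, mul_assoc _ (g 0), s4, mul_one, mul_assoc]
        inv_mem' := by
          rintro x (hx | hx)
          · left; rw [inv_mul_eq_iff_eq_mul, ← mul_assoc, hx, mul_inv_cancel_right]
          · right
            rw [inv_mul_eq_iff_eq_mul, ← mul_assoc, ← mul_assoc, hx, mul_assoc _ (g 0), ← hz',
              ← mul_assoc, mul_inv_cancel_right, mul_assoc, s4, mul_one] }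
    refine h.good.append.mem_closure h.tab (H := S) (fun L hL s hs hb => ?_) (h.ker ▸ hx)
    have a1 := (s5 j hj).1.1.1.1
    rcases (s6 L hL s hs).resolve_left (by simp [hb]) j hj with a2 | a2
    · rw [agree_iff h.tab h.base (lt_cons hs a1) (lt_append a1 (lt_one hs)), ev_append, ev_cons,
        L0.ev_singleton] at a2
      exact Or.inl a2
    · rw [agree_iff h.tab h.base (lt_cons hs a1) (lt_append a1 (lt_cons hs (lt_one s0))), ev_append,
        ev_cons, ev_cons, L0.ev_singleton, ← mul_assoc] at a2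
      exact Or.inr a2
  refine extraspecial_of s1 (h.card_ker.trans hm) (z := ⟨_, s2⟩) (fun e => s3 (congrArg Subtype.val e))
    (Subtype.ext s4) (fun x => Subtype.ext (hz' x))
    (fun j => if hj : j < m then ⟨_, (h.mem_ker (s5 j hj).1.1.1.1).mp (s5 j hj).1.1.2⟩ else 1)
    (fun j => if hj : j < m then ⟨_, (h.mem_ker (s5 j hj).1.1.1.2).mp (s5 j hj).1.2⟩ else 1)
    (fun x j hj => ?_) fun i hi j hj => ?_
  · rw [dif_pos hj]
    exact (key x x.2 j hj).imp Subtype.ext Subtype.ext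
  · rw [dif_pos hi, dif_pos hj, Subtype.ext_iff]
    have a1 := (s5 j hj).2 i hi
    have a2 := agree_iff h.tab h.base (lt_append (s5 i hi).1.1.1.2 (s5 j hj).1.1.1.1)
      (lt_append (s5 j hj).1.1.1.1 (s5 i hi).1.1.1.2)
    rw [ev_append, ev_append] at a2
    refine a2.symm.trans ?_
    have a3 : ∀ {a b : Bool}, (a ^^ b) = false → a = b := by decide
    rw [a3 a1, Bool.not_eq_true', ← Bool.not_eq_true, Nat.beq_eq]

theorem pCore_eq [Finite G] {L0 : Lv} (h : CentOK A g k T B (L0 :: L1) L2 φ) {e : ℕ}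
    (he : chainOrd L2 = 2 ^ e) (hs : (!(Nat.beq (L0.n % 2) 0) && allL ((L0 :: L1).map Lv.β) fun b =>
      anyL (List.range L0.n) fun i => Nat.beq (L0.pts i) b) = true) : pCore 2 G = φ.ker := by
  simp only [Bool.and_eq_true, Bool.not_eq_true', allL_iff, anyL_iff, List.mem_range,
    Nat.beq_eq] at hs
  refine le_antisymm (sSup_le ?_) (le_sSup ⟨inferInstance, IsPGroup.of_card (h.card_ker.trans he)⟩)
  rintro K ⟨h1, h2⟩
  have h3 : K ≤ A.Fix [L0.β] := le_of_index h2 fun hd => by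
    have a1 := Good.card_cons h.tab h.good
    rw [Fix_nil, Subgroup.card_top, ← (A.Fix [L0.β]).card_mul_index, mul_comm] at a1
    rw [Nat.eq_of_mul_eq_mul_right Nat.card_pos a1] at hd
    exact Nat.ne_of_beq_eq_false hs.1 (Nat.mod_eq_zero_of_dvd hd)
  intro x hx
  rw [h.ker, List.append_nil]
  intro b hb _
  obtain ⟨i, hi, rfl⟩ := hs.2 b (List.mem_reverse.mp hb)
  obtain ⟨y, -, hy⟩ := h.good.1.mem_orbit h.tab hi
  have hβ := h.good.1.hβ
  have := h3 (h1.conj_mem x hx y) _ List.mem_cons_self hβ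
  rw [← hy, ← A.mul hβ]
  conv_rhs => rw [← this]
  rw [← A.mul hβ, inv_mul_cancel_right]

theorem complement [Finite G] (h : CentOK A g k T B L1 L2 φ) {CL : List (ℕ × List ℕ)} {gs : List ℕ}
    (hs : (enumB T N k B CL gs && Nat.beq CL.length (chainOrd L1) &&
      allL CL fun c => fxB T B c.2 || !(fxB T (L1.map Lv.β) c.2)) = true) :
    ∃ H : Subgroup G, φ.ker.IsComplement' H := by
  simp only [Bool.and_eq_true, Bool.not_eq_true', allL_iff, Nat.beq_eq, Bool.or_eq_true] at hs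
  obtain ⟨H, a1, a2, a3⟩ := enumB_spec h.tab h.base hs.1.1
  refine ⟨H, Subgroup.isComplement'_of_card_mul_and_disjoint ?_ (Subgroup.disjoint_def.mpr ?_)⟩
  · have := h.good.card h.tab
    rw [Fix_nil, Subgroup.card_top, chainOrd_append] at this
    rw [this, a1, hs.1.2, h.card_ker, mul_comm]
  · intro x hx hH
    obtain ⟨c, hc, rfl⟩ := (a3 x).mp hH
    rw [← h.mem_ker (a2 c hc)] at hx
    exact (fxB_iff h.tab h.base (a2 c hc)).mp ((hs.2 c hc).resolve_right (by simp [hx]))

theorem rank_le [Finite G] (h : CentOK A g k T B L1 L2 φ) {CL : List (ℕ × List ℕ)} {gs : List ℕ}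
    (hs : (enumB T N k B CL gs && Nat.beq CL.length (chainOrd L2) && Nat.blt 0 k &&
      (allL CL fun c => fxB T (L1.map Lv.β) c.2) && rankB T B CL) = true) :
    ∀ E : Subgroup φ.ker, IsElementaryAbelian 2 E → Nat.card E ≤ 2 ^ 2 := by
  classical
  simp only [Bool.and_eq_true, allL_iff, Nat.beq_eq, Nat.blt_eq] at hs
  obtain ⟨⟨⟨⟨s1, s2⟩, s0⟩, s3⟩, s4⟩ := hs
  obtain ⟨H, a1, a2, a3⟩ := enumB_spec h.tab h.base s1
  have a4 : H = φ.ker := Subgroup.eq_of_le_of_card_ge (fun x hx => by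
    obtain ⟨c, hc, rfl⟩ := (a3 x).mp hx
    exact (h.mem_ker (a2 c hc)).mp (s3 c hc)) (by rw [a1, s2, h.card_ker])
  intro E hE
  have key : ∀ x ∈ E, ∀ y ∈ E, ((x : G) = 1 ∨ (x : G) = g 0) ∨
      (y : G) ∈ ({1, g 0, (x : G), x * g 0} : Finset G) := by
    intro x hx y hy
    obtain ⟨c, hc, e1⟩ := (a3 x).mp (a4 ▸ x.2)
    obtain ⟨d, hd, e2⟩ := (a3 y).mp (a4 ▸ y.2)
    have b1 : (x : G) * x = 1 := by rw [← sq]; exact congrArg Subtype.val (hE.2 x hx)
    have b2 : (y : G) * y = 1 := by rw [← sq]; exact congrArg Subtype.val (hE.2 y hy)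
    have b3 : (x : G) * y = y * x :=
      congrArg (fun z : E => ((z : φ.ker) : G)) (hE.1.is_comm.comm ⟨x, hx⟩ ⟨y, hy⟩)
    have c1 := a2 c hc
    have c2 := a2 d hd
    have := (allL_iff _ _).mp s4 c hc
    simp only [Bool.or_eq_true, Bool.not_eq_true', allL_iff, Bool.eq_false_iff, Ne] at this
    rw [fxB_iff h.tab h.base c1, fxB_iff h.tab h.base (lt_append c1 c1),
      agree_iff h.tab h.base c1 (lt_one s0), ev_append, L0.ev_singleton, ← e1] at this
    rcases this with ((b4 | b4) | b4) | b4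
    · exact absurd b1 b4
    · exact Or.inl (Or.inl b4)
    · exact Or.inl (Or.inr b4)
    have b5 := b4 d hd
    rw [fxB_iff h.tab h.base c2, fxB_iff h.tab h.base (lt_append c2 c2),
      agree_iff h.tab h.base c2 (lt_one s0), agree_iff h.tab h.base c2 c1,
      agree_iff h.tab h.base c2 (lt_append c1 (lt_one s0)),
      agree_iff h.tab h.base (lt_append c1 c2) (lt_append c2 c1)] at b5
    simp only [ev_append, L0.ev_singleton, ← e1, ← e2] at b5
    right
    simp only [Finset.mem_insert, Finset.mem_singleton]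
    tauto
  have key2 : ∃ x : G, ∀ y ∈ E, (y : G) ∈ ({1, g 0, x, x * g 0} : Finset G) := by
    by_cases hx : ∃ x ∈ E, ¬ ((x : G) = 1 ∨ (x : G) = g 0)
    · obtain ⟨x, hx, hn⟩ := hx
      exact ⟨x, fun y hy => (key x hx y hy).resolve_left hn⟩
    · refine ⟨1, fun y hy => ?_⟩
      have : (y : G) = 1 ∨ (y : G) = g 0 := by_contra fun hn => hx ⟨y, hy, hn⟩
      simp only [Finset.mem_insert, Finset.mem_singleton]
      tauto
  obtain ⟨x, hx⟩ := key2
  let F : E → ({1, g 0, x, x * g 0} : Finset G) := fun y => ⟨_, hx y y.2⟩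
  have := Nat.card_le_card_of_injective F fun y y' e =>
    Subtype.ext (Subtype.ext (congrArg (fun z : ({1, g 0, x, x * g 0} : Finset G) => z.1) e))
  rw [Nat.card_eq_fintype_card (α := ({1, g 0, x, x * g 0} : Finset G)), Fintype.card_coe] at this
  exact this.trans Finset.card_le_four

end CentOK

end RA

end Cfsg.Agent.H9
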