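import Cfsg.Agent.H9.Cent3

/-! Numbered actions of alternating groups and of matrix groups over the field with two elements. -/

set_option autoImplicit false

namespace Cfsg.Agent.H9

open Cfsg.Agent.L0 (ev ev_nil ev_cons ev_append ev_mem)

namespace RA

/-- an action on a numbered type -/
def ofEquiv {G X : Type*} [Group G] {N : ℕ} (e : X ≃ Fin N) (r : X → G → X) (r1 : ∀ x, r x 1 = x)
    (rm : ∀ x a b, r x (a * b) = r (r x a) b) : RA G N where
  act c x := if h : c < N then e (r (e.symm ⟨c, h⟩) x) else c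
  lt hc _ := by rw [dif_pos hc]; exact Fin.is_lt _
  one hc := by rw [dif_pos hc, r1, e.apply_symm_apply]
  mul hc x y := by rw [dif_pos hc, dif_pos hc, dif_pos (Fin.is_lt _), rm, e.symm_apply_apply]

variable {G : Type*} [Group G] {N : ℕ} {A : RA G N} {g : ℕ → G} {k : ℕ} {T : ℕ → ℕ → ℕ}

theorem tab_of (h : (allLt k fun s => allLt N fun c => Nat.beq (T c s) (A.act c (g s))) = true) :
    A.Tab g k T := fun s hs c hc =>
  Nat.eq_of_beq_eq_true ((allLt_iff _ _).mp ((allLt_iff _ _).mp h s hs) c hc)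

/-- letters commuting with a given letter, as an alphabet of the centraliser -/
theorem exists_cent (hT : A.Tab g k T) {B : List ℕ} (hB : A.IsBase B) {it k' : ℕ} {sel : ℕ → ℕ}
    (h : (Nat.blt it k && allLt k' fun s => Nat.blt (sel s) k &&
      agree B (H9.tr T [sel s, it]) (H9.tr T [it, sel s])) = true) :
    ∃ (A' : RA (Subgroup.centralizer ({g it} : Set G)) N)
      (l : ℕ → Subgroup.centralizer ({g it} : Set G)),
      A'.Tab l k' (fun c s => T c (sel s)) ∧ A'.IsBase B := by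
  simp only [Bool.and_eq_true, Nat.blt_eq, allLt_iff] at h
  refine ⟨A.pull (Subgroup.subtype _), fun s => if hs : s < k' then ⟨g (sel s), ?_⟩ else 1,
    fun s hs c hc => ?_, hB.1, fun x hx => Subtype.ext (hB.2 _ hx)⟩
  · have := (agree_iff hT hB (lt_cons (h.2 s hs).1 (lt_one h.1))
      (lt_cons h.1 (lt_one (h.2 s hs).1))).mp (h.2 s hs).2
    simpa [Subgroup.mem_centralizer_singleton_iff] using this
  · simp only [dif_pos hs]
    exact hT _ (h.2 s hs).1 c hc

theorem order_two (hT : A.Tab g k T) {B : List ℕ} (hB : A.IsBase B) {it : ℕ}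
    (h : (Nat.blt it k && !(fxB T B [it]) && fxB T B [it, it]) = true) : orderOf (g it) = 2 := by
  simp only [Bool.and_eq_true, Nat.blt_eq, Bool.not_eq_true', Bool.eq_false_iff, Ne] at h
  rw [fxB_iff hT hB (lt_one h.1.1), fxB_iff hT hB (lt_cons h.1.1 (lt_one h.1.1))] at h
  exact orderOf_eq_prime (by simpa [sq] using h.2) (by simpa using h.1.2)

theorem mem_center_cent {t : G} {x : Subgroup.centralizer ({t} : Set G)} (h : (x : G) = t) :
    x ∈ Subgroup.center (Subgroup.centralizer ({t} : Set G)) :=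
  Subgroup.mem_center_iff.mpr fun y => Subtype.ext (by
    rw [Subgroup.coe_mul, Subgroup.coe_mul, h]
    exact Subgroup.mem_centralizer_singleton_iff.mp y.2)

theorem CentOK.nonsplit [Finite G] {L : Type*} [Group L] {B : List ℕ} {L1 L2 : List Lv} {φ : G →* L}
    (h : CentOK A g k T B L1 L2 φ) (hz : g 0 ∈ Subgroup.center G) (hL : Subgroup.center L = ⊥)
    {w : List ℕ} (hs : (Nat.blt 0 k && !(fxB T B [0]) && fxB T B [0, 0] && ltB k w &&
      agree B (H9.tr T (w ++ w)) (H9.tr T [0]) && Nat.beq (chainOrd L2) 2) = true) :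
    IsNonsplitDoubleCover G L := by
  simp only [Bool.and_eq_true, Nat.blt_eq, Bool.not_eq_true', Bool.eq_false_iff, Ne, ltB_iff,
    Nat.beq_eq] at hs
  obtain ⟨⟨⟨⟨⟨s1, s2⟩, s3⟩, s4⟩, s5⟩, s6⟩ := hs
  rw [fxB_iff h.tab h.base (lt_one s1), L0.ev_singleton] at s2
  rw [fxB_iff h.tab h.base (lt_cons s1 (lt_one s1)), ev_cons, L0.ev_singleton] at s3
  rw [agree_iff h.tab h.base (lt_append s4 s4) (lt_one s1), ev_append, L0.ev_singleton] at s5
  exact nonsplit_of φ h.surj (h.card_ker.trans s6) hL s2 s3 hz s5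

end RA

/-- the action of the alternating group -/
def altRA (n : ℕ) : RA (alternatingGroup (Fin n)) n :=
  RA.ofEquiv (Equiv.refl _) (fun c σ => σ.1⁻¹ c) (fun _ => rfl) fun _ _ _ => rfl

theorem altRA_base (n : ℕ) : (altRA n).IsBase (List.range n) :=
  ⟨fun _ => List.mem_range.mp, fun x hx => Subtype.ext (inv_eq_one.mp (Equiv.ext fun c => by
    have := hx c (List.mem_range.mpr c.2)
    exact Fin.ext ((dif_pos c.2).symm.trans this)))⟩

/-- three-cycles -/
def altL (n s : ℕ) : alternatingGroup (Fin (n + 3)) :=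
  if h : s ≤ n then ⟨Equiv.swap 0 1 * Equiv.swap 0 ⟨s + 2, by omega⟩, by
    rw [Equiv.Perm.mem_alternatingGroup, map_mul, Equiv.Perm.sign_swap zero_ne_one,
      Equiv.Perm.sign_swap (Fin.ne_of_val_ne (by simp))]
    simp⟩ else 1

/-- the table of the three-cycles -/
noncomputable def altT (c s : ℕ) : ℕ :=
  Nat.rec (motive := fun _ => ℕ) 1 (fun c' _ => Nat.rec (motive := fun _ => ℕ) (Nat.add s 2)
    (fun d _ => Bool.rec (motive := fun _ => ℕ) c 0 (Nat.beq d s)) c') c

theorem alt5_tab : (altRA 5).Tab (altL 2) 3 altT := RA.tab_of (by decide +kernel)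

theorem alt8_tab : (altRA 8).Tab (altL 5) 6 altT := RA.tab_of (by decide +kernel)

theorem card_alt5 : Nat.card (alternatingGroup (Fin 5)) ≤ 60 := by
  rw [nat_card_alternatingGroup]; simp [Nat.factorial]

theorem card_alt8 : Nat.card (alternatingGroup (Fin 8)) ≤ 20160 := by
  rw [nat_card_alternatingGroup]; simp [Nat.factorial]

/-- the regular action of the group of order two -/
def twoRA : RA (Multiplicative (ZMod 2)) 2 :=
  RA.ofEquiv (X := ZMod 2) (Equiv.refl (Fin 2)) (fun c x => c + x.toAdd) (by simp) (by simp [add_assoc])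

theorem twoRA_base : twoRA.IsBase [0] := ⟨by simp, by decide⟩

theorem twoRA_tab : twoRA.Tab (fun _ => Multiplicative.ofAdd 1) 1 fun c _ => Nat.sub 1 c :=
  RA.tab_of (by decide +kernel)

/-- the action of a group of matrices on row vectors -/
def matRA {L ι : Type*} [Group L] [Fintype ι] [DecidableEq ι] {n : ℕ} (e : ι ≃ Fin n)
    (f : L →* Matrix ι ι (ZMod 2)) : RA L (2 ^ n) :=
  RA.ofEquiv (X := ι → ZMod 2) ((e.arrowCongr (Equiv.refl (Fin 2))).trans finFunctionFinEquiv)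
    (fun v x => Matrix.vecMul v (f x)) (by simp) (by simp)

/-- the image of a numbered vector under a matrix -/
def matAct {ι : Type*} [Fintype ι] {n : ℕ} (e : ι ≃ Fin n) (M : Matrix ι ι (ZMod 2)) (c : ℕ) : ℕ :=
  if h : c < 2 ^ n then ((e.arrowCongr (Equiv.refl (Fin 2))).trans finFunctionFinEquiv
    (Matrix.vecMul (α := ZMod 2)
      (((e.arrowCongr (Equiv.refl (Fin 2))).trans finFunctionFinEquiv).symm ⟨c, h⟩) M) : ℕ) else c

theorem matRA_act {L ι : Type*} [Group L] [Fintype ι] [DecidableEq ι] {n : ℕ} (e : ι ≃ Fin n)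
    (f : L →* Matrix ι ι (ZMod 2)) (c : ℕ) (x : L) : (matRA e f).act c x = matAct e (f x) c := rfl

theorem matRA_base {L ι : Type*} [Group L] [Fintype ι] [DecidableEq ι] {n : ℕ} (e : ι ≃ Fin n)
    {f : L →* Matrix ι ι (ZMod 2)} (hf : Function.Injective f) {B : List ℕ}
    (h1 : ∀ b ∈ B, b < 2 ^ n) (h2 : ∀ i < n, 2 ^ i ∈ B) : (matRA e f).IsBase B := by
  refine ⟨h1, fun x hx => hf (Matrix.ext fun i j => ?_)⟩
  let E : (ι → ZMod 2) ≃ Fin (2 ^ n) :=
    (e.arrowCongr (Equiv.refl (Fin 2))).trans finFunctionFinEquiv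
  have a1 : (E (Pi.single i 1) : ℕ) = 2 ^ (e i : ℕ) := by
    have : e.arrowCongr (Equiv.refl (Fin 2)) (Pi.single i (1 : ZMod 2)) = Pi.single (e i) 1 := by
      funext a
      obtain ⟨a, rfl⟩ := e.surjective a
      show (Pi.single i 1 : ι → ZMod 2) (e.symm (e a)) = (Pi.single (e i) 1 : Fin n → ZMod 2) (e a)
      simp [Pi.single_apply]
    show (finFunctionFinEquiv (e.arrowCongr (Equiv.refl (Fin 2)) (Pi.single i (1 : ZMod 2))) : ℕ) = _
    rw [this, finFunctionFinEquiv_single]; simp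
  have a2 := hx _ (h2 _ (e i).2)
  rw [← a1] at a2
  have a3 : (E (Matrix.vecMul (E.symm (E (Pi.single i 1))) (f x)) : ℕ) = E (Pi.single i 1) :=
    (dif_pos (E (Pi.single i 1)).2).symm.trans a2
  have a4 := congrFun (E.injective (Fin.ext a3)) j
  rw [E.symm_apply_apply, Matrix.single_one_vecMul] at a4
  rw [map_one, Matrix.one_apply, ← Pi.single_apply, Pi.single_comm]
  exact a4

/-- the transvections of `SL(5,2)` -/
def slL (s : ℕ) : Matrix.SpecialLinearGroup (Fin 5) (ZMod 2) :=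
  if h : Fin.ofNat 5 (s / 4) ≠ Fin.ofNat 5 (s / 4 + 1 + s % 4) then
    Matrix.SpecialLinearGroup.transvection h 1 else 1

/-- the table of the transvections -/
def slT (c s : ℕ) : ℕ := Nat.xor c (Nat.shiftLeft (Nat.land (Nat.shiftRight c (Nat.div s 4)) 1)
  (Nat.mod (Nat.add (Nat.add (Nat.div s 4) 1) (Nat.mod s 4)) 5))

theorem exists_sl5 : ∃ A : RA (Matrix.SpecialLinearGroup (Fin 5) (ZMod 2)) 32,
    A.Tab slL 20 slT ∧ A.IsBase [1, 2, 4, 8, 16] :=
  ⟨matRA (n := 5) (Equiv.refl _) Matrix.SpecialLinearGroup.coeMonoidHom,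
    RA.tab_of (by decide +kernel),
    matRA_base (n := 5) _ Subtype.val_injective (by decide) (by decide)⟩

theorem card_sl5 : Nat.card (Matrix.SpecialLinearGroup (Fin 5) (ZMod 2)) ≤ 9999360 := by
  refine (Nat.card_le_card_of_injective _ Matrix.SpecialLinearGroup.toGL_injective).trans ?_
  rw [Matrix.card_GL_field]
  simp [Fin.prod_univ_succ]

theorem slL_zero {s : Matrix.SpecialLinearGroup (Fin 5) (ZMod 2)}
    (hs : (s : Matrix (Fin 5) (Fin 5) (ZMod 2)) = Matrix.transvection 0 1 1) : s = slL 0 :=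
  Subtype.ext hs

/-- the matrix packed in a number -/
def mat6 (a : ℕ) : Matrix (Fin 3 ⊕ Fin 3) (Fin 3 ⊕ Fin 3) (ZMod 2) :=
  Matrix.of fun i j => if a.testBit (6 * finSumFinEquiv i + finSumFinEquiv j) then 1 else 0

theorem exists_sp6 {k : ℕ} {a : ℕ → ℕ} {T : ℕ → ℕ → ℕ} {B : List ℕ}
    (h1 : ∀ s < k, mat6 (a s) * Matrix.J _ _ * (mat6 (a s)).transpose = Matrix.J _ _)
    (h2 : (allLt k fun s => allLt 64 fun c =>
      Nat.beq (T c s) (matAct (finSumFinEquiv (m := 3) (n := 3)) (mat6 (a s)) c)) = true)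
    (h3 : ∀ b ∈ B, b < 2 ^ (3 + 3)) (h4 : ∀ i < 3 + 3, 2 ^ i ∈ B) :
    ∃ (A : RA (Matrix.symplecticGroup (Fin 3) (ZMod 2)) 64)
      (l : ℕ → Matrix.symplecticGroup (Fin 3) (ZMod 2)), A.Tab l k T ∧ A.IsBase B := by
  let f : Matrix.symplecticGroup (Fin 3) (ZMod 2) →* Matrix (Fin 3 ⊕ Fin 3) (Fin 3 ⊕ Fin 3) (ZMod 2) :=
    { toFun := Subtype.val, map_one' := rfl, map_mul' := fun _ _ => rfl }
  have hf : Function.Injective f := Subtype.val_injective
  have key : ∃ (A : RA (Matrix.symplecticGroup (Fin 3) (ZMod 2)) (2 ^ (3 + 3)))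
      (l : ℕ → Matrix.symplecticGroup (Fin 3) (ZMod 2)), A.Tab l k T ∧ A.IsBase B := by
    refine ⟨matRA finSumFinEquiv f,
      fun s => if hs : s < k then ⟨mat6 (a s), SymplecticGroup.mem_iff.mpr (h1 s hs)⟩ else 1,
      fun s hs c hc => ?_, matRA_base _ hf h3 h4⟩
    rw [matRA_act]
    simp only [dif_pos hs]
    exact Nat.eq_of_beq_eq_true ((allLt_iff _ _).mp ((allLt_iff _ _).mp h2 s hs) c hc)
  exact key

end Cfsg.Agent.H9
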