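import Mathlib

/-! A sieve on class data (orders, centralizer orders) of finite simple groups: definitions. -/

set_option autoImplicit false

namespace Cfsg.Agent.H9.KC

/-- bit mask of the primes below `512` -/
def prM : ℕ := 1703806605896072823853452820875856471690324421502329734630516674131882609769400962334582631898191304282096542762193211716358712101421767999181276463114412

/-- primality test -/
def pr (n : ℕ) : Bool := bif Nat.ble n 511 then Nat.testBit prM n else decide n.Prime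

/-- a packet of classes -/
structure Pk where
  ix : ℕ
  o : ℕ
  m : ℕ
  e : ℕ
  ps : List ℕ
  pt : List ℕ

/-- strict evaluation -/
noncomputable def frc (n : ℕ) (k : ℕ → Bool) : Bool := Nat.rec (k 0) (fun m _ => k (Nat.succ m)) n

theorem frc_eq (n : ℕ) (k : ℕ → Bool) : frc n k = k n := by cases n <;> rfl

/-- disjunction -/
noncomputable def or' (a b : Bool) : Bool := Bool.rec b true a

/-- conjunction -/
noncomputable def and' (a b : Bool) : Bool := Bool.rec false b a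

/-- implication -/
noncomputable def imp' (a b : Bool) : Bool := Bool.rec true b a

theorem or'_eq (a b : Bool) : or' a b = (a || b) := by cases a <;> rfl

theorem and'_eq (a b : Bool) : and' a b = (a && b) := by cases a <;> rfl

theorem imp'_eq (a b : Bool) : imp' a b = (!a || b) := by cases a <;> rfl

/-- `List.all` -/
noncomputable def al {α : Type} (l : List α) (p : α → Bool) : Bool :=
  List.rec true (fun a _ ih => Bool.rec false ih (p a)) l

/-- `List.any` -/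
noncomputable def an {α : Type} (l : List α) (p : α → Bool) : Bool :=
  List.rec false (fun a _ ih => Bool.rec ih true (p a)) l

theorem al_eq {α : Type} (l : List α) (p : α → Bool) : al l p = l.all p := by
  induction l with
  | nil => rfl
  | cons a l ih => rw [List.all_cons, ← ih]; unfold al; cases h : p a <;> simp [h]

theorem an_eq {α : Type} (l : List α) (p : α → Bool) : an l p = l.any p := by
  induction l with
  | nil => rfl
  | cons a l ih => rw [List.any_cons, ← ih]; unfold an; cases h : p a <;> simp [h]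

/-- membership test -/
noncomputable def mem (a : ℕ) (l : List ℕ) : Bool := an l (Nat.beq a)

/-- divisibility test -/
def dv (a b : ℕ) : Bool := Nat.beq (Nat.mod b a) 0

/-- final conditions on `(o, m, e, c)` -/
def FinOK (Q : List (ℕ × ℕ × ℕ × ℕ)) (g : ℕ) : Prop :=
  (∀ q ∈ Q, q.2.2.2 * q.2.2.1 ∣ g) ∧ g ∣ Q.foldr (fun q z => Nat.lcm q.2.2.2 z) 1 ∧
  (∀ q ∈ Q, ∀ r ∈ Q, pr r.1 = true → ¬ g / q.2.2.2 ∣ r.1 ^ 64) ∧
  (Q.map fun q => if q.1 = 2 then g / q.2.2.2 else 0).sum ^ 2 ≤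
    (Q.map fun q => if q.1 = 2 then g / q.2.2.2 else 0).sum +
      g * (Q.map fun q => if q.1 = 2 ∨ 2 ∣ q.2.2.1 then q.2.1 else 0).sum ∧
  (Q.map fun q => if q.1 = 2 then g / q.2.2.2 else 0).sum +
      g * (Q.map fun q => if pr q.1 = true ∧ q.2.2.2 = q.1 ∧ 2 ∣ q.2.2.1 then q.2.1 else 0).sum ≤
    (Q.map fun q => if q.1 = 2 then (g / q.2.2.2) ^ 2 else 0).sum ∧
  (∀ r ∈ Q, pr r.1 = true → ¬ r.1 ∣ g / Nat.gcd g (r.1 ^ 64) → Nat.gcd g (r.1 ^ 64) ∣
    1 + (Q.map fun q => if q.1 ∣ Nat.gcd g (r.1 ^ 64) then q.2.1 * (g / q.2.2.2) else 0).sum) ∧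
  ((∃ q ∈ Q, q.2.2.2 = 3) → (Q.map fun q => if q.1 = 2 then 1 else 0).sum ≤ 1) ∧
  ((∃ q ∈ Q, q.1 = 4 ∧ q.2.2.2 = 4) → 16 ∣ g → ∃ q ∈ Q, q.1 = 8)

instance (Q : List (ℕ × ℕ × ℕ × ℕ)) (g : ℕ) : Decidable (FinOK Q g) := by
  unfold FinOK; infer_instance

/-- the quadruple of an assigned packet -/
def quad (y : Pk × ℕ × ℕ × ℕ) : ℕ × ℕ × ℕ × ℕ := (y.1.o, y.1.m, y.1.e, y.2.1)

/-- powers of `p` times `c` up to `hi` -/
noncomputable def loopP (p hi : ℕ) (k : ℕ → Bool) (f : ℕ) : ℕ → Bool :=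
  Nat.rec (fun _ => false) (fun _ ih c => imp' (Nat.ble c hi) (and' (k c) (frc (Nat.mul c p) ih))) f

theorem loopP_succ (p hi : ℕ) (k : ℕ → Bool) (f c : ℕ) : loopP p hi k (f + 1) c =
    (!Nat.ble c hi || (k c && loopP p hi k f (c * p))) := by
  rw [← imp'_eq, ← and'_eq, ← frc_eq (c * p) (loopP p hi k f)]; rfl

/-- smooth multiples of `c` up to `hi` -/
noncomputable def smooth (hi : ℕ) (k : ℕ → Bool) (ps : List ℕ) : ℕ → Bool :=
  List.rec k (fun p _ ih => loopP p hi ih 200) ps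

/-- the prime of a cyclic Sylow subgroup generated by the packet, else `0` -/
noncomputable def cap (x : Pk) (c : ℕ) : ℕ :=
  List.rec 0 (fun p l _ => List.rec
    (Bool.rec (Bool.rec (Nat.mul p x.o) 0 (dv p x.e)) 0 (dv (Nat.mul p x.o) c)) (fun _ _ _ => 0) l) x.ps

/-- compatibility of two assigned packets -/
noncomputable def pairOK (x : Pk) (ce k : ℕ) (y : Pk × ℕ × ℕ × ℕ) : Bool :=
  and' (imp' (mem x.ix y.1.pt) (dv y.2.2.1 ce)) (and' (imp' (dv k y.2.2.1) (Nat.beq k 0))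
    (imp' (dv y.2.2.2 ce) (Nat.beq y.2.2.2 0)))

/-- the cyclic Sylow condition -/
noncomputable def capOK (S : List Pk) (x : Pk) (k : ℕ) : Bool :=
  or' (Nat.beq k 0) (and' (!dv 2 x.o) (and' (!Nat.beq x.e 1)
    (al S fun y => and' (!dv k y.o) (imp' (Nat.beq y.o x.o) (Nat.beq y.ix x.ix)))))

/-- the least possible centralizer order -/
noncomputable def base (x : Pk) (A : List (Pk × ℕ × ℕ × ℕ)) : ℕ :=
  List.rec x.o (fun y _ z => Bool.rec z (Nat.lcm y.2.1 z) (mem x.ix y.1.pt)) A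

/-- `x` cannot be the next packet -/
noncomputable def blocked (U : List Pk) (x : Pk) : Bool :=
  an U fun y => and' (Nat.ble (Nat.succ x.ix) y.ix)
    (or' (mem x.ix y.pt) (and' (Nat.beq y.o x.o) (Nat.beq y.m x.m)))

/-- removal of a packet -/
noncomputable def del (U : List Pk) (i : ℕ) : List Pk :=
  List.rec [] (fun y l ih => Bool.rec (y :: ih) l (Nat.beq y.ix i)) U

/-- assignment of centralizer orders in increasing order -/
noncomputable def asg (fin : List (ℕ × ℕ × ℕ × ℕ) → ℕ → Bool) (S : List Pk) (f : ℕ) :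
    List Pk → List (Pk × ℕ × ℕ × ℕ) → ℕ → ℕ → ℕ → ℕ → ℕ → Bool :=
  Nat.rec (fun _ _ _ _ _ _ _ => false) (fun _ ih U A n a b c0 i0 => Bool.rec
    (frc (Nat.div (Nat.mul b (Nat.succ (Nat.mul 2 n))) (Nat.mul 2 a)) fun hi =>
      al U fun x => or' (blocked U x) (frc (Nat.mul b x.m) fun bm => frc (base x A) (smooth hi (fun c =>
        or' (Nat.ble (Nat.succ c) c0) (or' (and' (Nat.beq c c0) (Nat.ble i0 x.ix))
        (or' (Nat.ble (Nat.mul a c) bm) (frc (cap x c) fun k => frc (Nat.mul c x.e) fun ce =>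
        imp' (capOK S x k) (imp' (al A (pairOK x ce k)) (frc (Nat.sub (Nat.mul a c) bm) fun a1 =>
        frc (Nat.mul b c) fun b1 => frc (Nat.gcd a1 b1) fun d => frc (Nat.div a1 d) fun a2 =>
        frc (Nat.div b1 d) fun b2 => frc (Nat.sub n x.m) fun n2 =>
        ih (del U x.ix) ((x, c, ce, k) :: A) n2 a2 b2 c x.ix)))))) x.ps)))
    (imp' (dv a b) (fin (A.map quad) (Nat.div b a))) (Nat.beq n 0)) f

theorem asg_succ (fin : List (ℕ × ℕ × ℕ × ℕ) → ℕ → Bool) (S : List Pk) (f : ℕ) (U : List Pk)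
    (A : List (Pk × ℕ × ℕ × ℕ)) (n a b c0 i0 : ℕ) : asg fin S (f + 1) U A n a b c0 i0 =
    bif Nat.beq n 0 then !dv a b || fin (A.map quad) (b / a) else
    U.all fun x => blocked U x || smooth (b * (2 * n + 1) / (2 * a)) (fun c =>
      Nat.ble (c + 1) c0 || ((Nat.beq c c0 && Nat.ble i0 x.ix) || (Nat.ble (a * c) (b * x.m) ||
      (!capOK S x (cap x c) || (!A.all (pairOK x (c * x.e) (cap x c)) ||
      asg fin S f (del U x.ix) ((x, c, c * x.e, cap x c) :: A) (n - x.m)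
        ((a * c - b * x.m) / Nat.gcd (a * c - b * x.m) (b * c))
        (b * c / Nat.gcd (a * c - b * x.m) (b * c)) c x.ix))))) x.ps (base x A) := by
  unfold asg
  cases h : Nat.beq n 0 <;> simp only [h, frc_eq, or'_eq, and'_eq, imp'_eq, al_eq] <;> rfl

/-- all choices of pointers -/
noncomputable def allPt (S : List Pk) (o : ℕ) (ps : List ℕ) : (List ℕ → Bool) → Bool :=
  List.rec (fun k => k []) (fun r _ ih k => al S fun x =>
    imp' (Nat.beq (Nat.mul x.o r) o) (ih fun l => k (x.ix :: l))) ps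

/-- multiplicities `1, …, n` -/
noncomputable def allM (k : ℕ → Bool) (n : ℕ) : Bool :=
  Nat.rec true (fun n ih => and' (k (Nat.succ n)) ih) n

/-- the new list of orders -/
noncomputable def addO (lo : ℕ) (os : List (ℕ × ℕ × List ℕ)) (o ph : ℕ) (ps : List ℕ) :
    List (ℕ × ℕ × List ℕ) :=
  Bool.rec ((o, ph, ps) :: os) os (Nat.beq o lo)

/-- one step of the enumeration of skeletons -/
noncomputable def step (rc : List Pk → List (ℕ × ℕ × List ℕ) → ℕ → ℕ → ℕ → ℕ → Bool)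
    (S : List Pk) (os : List (ℕ × ℕ × List ℕ)) (i n lo lm : ℕ) : Bool :=
  frc (Nat.succ i) fun j => and' (al os fun d => frc d.1 fun e => allM (fun m => frc (Nat.mul e m) fun ph =>
      frc (Nat.succ ph) fun q => or' (Nat.ble (Nat.succ q) lo) (or' (and' (Nat.beq q lo) (Nat.ble (Nat.succ m) lm))
      (imp' (pr q) (frc (Nat.sub n m) fun n2 => rc (⟨i, q, m, e, [q], []⟩ :: S)
        (addO lo os q ph [q]) j n2 q m)))) n)
  (al os fun p => imp' (mem p.1 p.2.2) (al os fun d => frc (Nat.mul p.1 d.1) fun o =>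
    or' (Nat.beq d.1 1) (or' (Nat.ble (Nat.succ o) lo) (imp' (al d.2.2 (Nat.ble p.1))
    (frc (Bool.rec (Nat.mul (Nat.pred p.1) d.2.1) (Nat.mul p.1 d.2.1) (mem p.1 d.2.2)) fun ph =>
    (fun ps : List ℕ => allM (fun m => or' (and' (Nat.beq o lo) (Nat.ble (Nat.succ m) lm)) (imp' (dv m ph)
      (frc (Nat.sub n m) fun n2 => frc (Nat.div ph m) fun e => allPt S o ps fun pt =>
        rc (⟨i, o, m, e, ps, pt⟩ :: S) (addO lo os o ph ps) j n2 o m))) n)
      (Bool.rec (p.1 :: d.2.2) d.2.2 (mem p.1 d.2.2)))))))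

theorem step_eq (rc : List Pk → List (ℕ × ℕ × List ℕ) → ℕ → ℕ → ℕ → ℕ → Bool)
    (S : List Pk) (os : List (ℕ × ℕ × List ℕ)) (i n lo lm : ℕ) : step rc S os i n lo lm =
  ((os.all fun d => allM (fun m => Nat.ble (d.1 * m + 2) lo || ((Nat.beq (d.1 * m + 1) lo && Nat.ble (m + 1) lm) ||
      (!pr (d.1 * m + 1) || rc (⟨i, d.1 * m + 1, m, d.1, [d.1 * m + 1], []⟩ :: S)
        (addO lo os (d.1 * m + 1) (d.1 * m) [d.1 * m + 1]) (i + 1) (n - m) (d.1 * m + 1) m))) n) &&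
  os.all fun p => !mem p.1 p.2.2 || os.all fun d => Nat.beq d.1 1 || (Nat.ble (p.1 * d.1 + 1) lo ||
    (!d.2.2.all (fun r => Nat.ble p.1 r) ||
    (fun (ph : ℕ) (ps : List ℕ) => allM (fun m => (Nat.beq (p.1 * d.1) lo && Nat.ble (m + 1) lm) || (!dv m ph ||
      allPt S (p.1 * d.1) ps fun pt => rc (⟨i, p.1 * d.1, m, ph / m, ps, pt⟩ :: S)
        (addO lo os (p.1 * d.1) ph ps) (i + 1) (n - m) (p.1 * d.1) m)) n)
      (bif mem p.1 d.2.2 then p.1 * d.2.1 else (p.1 - 1) * d.2.1)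
      (bif mem p.1 d.2.2 then d.2.2 else p.1 :: d.2.2)))) := by
  unfold step
  simp only [frc_eq, or'_eq, and'_eq, imp'_eq, al_eq]
  congr 2
  funext p
  congr 2
  funext d
  cases mem p.1 d.2.2 <;> rfl

/-- a hash value used to split the computation -/
noncomputable def hsh (S : List Pk) : ℕ :=
  List.rec 0 (fun x _ z => Nat.add (Nat.mul z 31) (Nat.add (Nat.mul x.o 9) x.m)) S

/-- enumeration of skeletons -/
noncomputable def sk (K T R r R' r' : ℕ) (fin : List (ℕ × ℕ × ℕ × ℕ) → ℕ → Bool) (f : ℕ) :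
    List Pk → List (ℕ × ℕ × List ℕ) → ℕ → ℕ → ℕ → ℕ → Bool :=
  Nat.rec (fun _ _ _ _ _ _ => false) (fun _ ih S os i n lo lm =>
    or' (and' (or' (Nat.beq i T) (and' (Nat.beq n 0) (Nat.ble i T))) (!Nat.beq (Nat.mod (hsh S) R) r))
    (Bool.rec (step ih S os i n lo lm)
      (or' (Nat.ble (os.countP fun d => mem d.1 d.2.2) 2) (imp' (Nat.beq (Nat.mod (hsh S) R') r')
        (asg fin S (K + 1) S [] K 1 1 0 0)))
      (Nat.beq n 0))) f

theorem sk_succ (K T R r R' r' : ℕ) (fin : List (ℕ × ℕ × ℕ × ℕ) → ℕ → Bool) (f : ℕ) (S : List Pk)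
    (os : List (ℕ × ℕ × List ℕ)) (i n lo lm : ℕ) : sk K T R r R' r' fin (f + 1) S os i n lo lm =
    (((Nat.beq i T || (Nat.beq n 0 && Nat.ble i T)) && !Nat.beq (hsh S % R) r) ||
    bif Nat.beq n 0 then
      Nat.ble (os.countP fun d => mem d.1 d.2.2) 2 || (!Nat.beq (hsh S % R') r' ||
        asg fin S (K + 1) S [] K 1 1 0 0)
    else step (sk K T R r R' r' fin f) S os i n lo lm) := by
  unfold sk
  cases h : Nat.beq n 0 <;> simp only [h, or'_eq, and'_eq, imp'_eq] <;> rfl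

/-- the surviving data for nine classes -/
def acc9 : List (ℕ × List (ℕ × ℕ × ℕ × ℕ)) := [
  (1092, [(13, 2, 6, 13), (2, 1, 1, 12), (7, 3, 2, 7), (3, 1, 2, 6), (6, 1, 2, 6)]),
  (20160, [(2, 1, 1, 64), (4, 1, 2, 16), (3, 1, 2, 9), (4, 1, 2, 8), (7, 2, 3, 7), (5, 2, 2, 5)]),
  (20160, [(2, 1, 1, 64), (4, 1, 2, 16), (3, 1, 2, 9), (8, 1, 4, 8), (7, 2, 3, 7), (5, 2, 2, 5)]),
  (2520, [(3, 1, 2, 36), (2, 1, 1, 24), (6, 1, 2, 12), (3, 1, 2, 9), (7, 2, 3, 7), (5, 1, 4, 5), (4, 1, 2, 4)]),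
  (336, [(2, 1, 1, 16), (2, 1, 1, 12), (4, 1, 2, 8), (4, 1, 2, 8), (4, 1, 2, 8), (7, 1, 6, 7), (3, 1, 2, 6), (6, 1, 2, 6)]),
  (336, [(2, 1, 1, 16), (2, 1, 1, 12), (4, 1, 2, 8), (8, 2, 2, 8), (7, 1, 6, 7), (3, 1, 2, 6), (6, 1, 2, 6)]),
  (504, [(3, 1, 2, 9), (3, 1, 2, 9), (3, 1, 2, 9), (3, 1, 2, 9), (2, 1, 1, 8), (7, 3, 2, 7)]),
  (504, [(3, 1, 2, 9), (9, 3, 2, 9), (2, 1, 1, 8), (7, 3, 2, 7)]),
  (720, [(2, 1, 1, 16), (3, 1, 2, 9), (4, 1, 2, 8), (4, 1, 2, 8), (4, 1, 2, 8), (4, 1, 2, 8), (4, 1, 2, 8), (5, 1, 4, 5)]),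
  (720, [(2, 1, 1, 16), (3, 1, 2, 9), (4, 1, 2, 8), (4, 1, 2, 8), (4, 1, 2, 8), (4, 2, 1, 8), (5, 1, 4, 5)]),
  (720, [(2, 1, 1, 16), (3, 1, 2, 9), (4, 1, 2, 8), (4, 1, 2, 8), (4, 1, 2, 8), (8, 2, 2, 8), (5, 1, 4, 5)]),
  (720, [(2, 1, 1, 16), (3, 1, 2, 9), (4, 1, 2, 8), (4, 2, 1, 8), (4, 2, 1, 8), (5, 1, 4, 5)]),
  (720, [(2, 1, 1, 16), (3, 1, 2, 9), (4, 1, 2, 8), (4, 2, 1, 8), (8, 2, 2, 8), (5, 1, 4, 5)]),
  (720, [(2, 1, 1, 16), (3, 1, 2, 9), (4, 1, 2, 8), (8, 2, 2, 8), (8, 2, 2, 8), (5, 1, 4, 5)]),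
  (720, [(2, 1, 1, 16), (4, 2, 1, 16), (3, 1, 2, 9), (8, 2, 2, 8), (5, 1, 4, 5), (4, 1, 2, 4)])]

/-- the final test for nine classes -/
def fin9 (Q : List (ℕ × ℕ × ℕ × ℕ)) (g : ℕ) : Bool := !decide (FinOK Q g) || decide ((g, Q) ∈ acc9)

/-- one part of the computation -/
noncomputable def part (r R' r' : ℕ) : Bool := sk 8 5 151 r R' r' fin9 10 [] [(1, 1, [])] 0 8 1 0

end Cfsg.Agent.H9.KC
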