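import Cfsg.Agent.H9.KC0

/-! Soundness of the class data sieve: assignment of centralizer orders. -/

set_option autoImplicit false

namespace Cfsg.Agent.H9.KC

/-- abstract class data -/
structure Dat where
  N : ℕ
  g : ℕ
  O : ℕ → ℕ
  M : ℕ → ℕ
  E : ℕ → ℕ
  C : ℕ → ℕ
  pw : ℕ → ℕ → ℕ

namespace Dat

variable (D : Dat)

/-- packet `x` is a prime power of packet `y` -/
def Up (y x : ℕ) : Prop := ∃ r, r.Prime ∧ r ∣ D.O y ∧ r ≠ D.O y ∧ D.pw y r = x

/-- the quadruple of a packet -/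
def qd (i : ℕ) : ℕ × ℕ × ℕ × ℕ := (D.O i, D.M i, D.E i, D.C i)

/-- the conditions satisfied by the class data of a simple group -/
structure Valid (K : ℕ) : Prop where
  one_lt : ∀ i < D.N, 1 < D.O i
  sorted : ∀ i j, i < j → j < D.N → D.O i < D.O j ∨ (D.O i = D.O j ∧
    (D.M i < D.M j ∨ (D.M i = D.M j ∧ D.C j ≤ D.C i)))
  me : ∀ i < D.N, D.M i * D.E i = (D.O i).totient
  sumM : ∑ i ∈ Finset.range D.N, D.M i = K
  aut : ∀ i < D.N, (D.O i).Prime → D.E i = 1 ∨ ∃ j < D.N, D.O j = D.E i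
  divs : ∀ i < D.N, ∀ d, d ∣ D.O i → 1 < d → ∃ j < D.N, D.O j = d
  ptr : ∀ i < D.N, ∀ r, r.Prime → r ∣ D.O i → r ≠ D.O i → D.pw i r < D.N ∧
    D.O (D.pw i r) * r = D.O i ∧ D.C i ∣ D.C (D.pw i r) ∧
    D.C i * D.E i ∣ D.C (D.pw i r) * D.E (D.pw i r)
  oc : ∀ i < D.N, D.O i ∣ D.C i
  sm : ∀ i < D.N, ∀ q, q.Prime → ¬ q ∣ D.O i → ∀ a, q ^ (a + 1) ∣ D.C i →
    ∃ y < D.N, D.Up y i ∧ q ^ (a + 1) ∣ D.C y
  sum : ∑ i ∈ Finset.range D.N, (D.M i : ℚ) / D.C i + 1 / D.g = 1
  two : ∀ i < D.N, 0 < D.C i ∧ 2 * D.C i ≤ D.g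
  gpos : 0 < D.g
  capv : ∀ i < D.N, ∀ p, p.Prime → (∀ r, r.Prime → r ∣ D.O i → r = p) → ¬ p * D.O i ∣ D.C i →
    ¬ p ∣ D.E i → ¬ 2 ∣ D.O i ∧ D.E i ≠ 1 ∧ ¬ p * D.O i ∣ D.g ∧ ∀ j < D.N, D.O j = D.O i → j = i
  ce : ∀ i < D.N, D.C i * D.E i ∣ D.g
  three : ∃ i < D.N, ∃ j < D.N, ∃ k < D.N, (D.O i).Prime ∧ (D.O j).Prime ∧ (D.O k).Prime ∧
    D.O i ≠ D.O j ∧ D.O i ≠ D.O k ∧ D.O j ≠ D.O k

/-- a record agrees with the data -/
structure Rep (x : Pk) : Prop where
  lt : x.ix < D.N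
  o : x.o = D.O x.ix
  m : x.m = D.M x.ix
  e : x.e = D.E x.ix
  ps : ∀ p, p ∈ x.ps ↔ p.Prime ∧ p ∣ x.o
  pt : ∀ j, j ∈ x.pt ↔ D.Up x.ix j

end Dat

theorem mem_iff {a : ℕ} {l : List ℕ} : mem a l = true ↔ a ∈ l := by
  simp [mem, an_eq]

theorem dv_iff {a b : ℕ} : dv a b = true ↔ a ∣ b := by
  rw [dv, Nat.beq_eq, Nat.dvd_iff_mod_eq_zero]; rfl

theorem beq_false {a b : ℕ} : Nat.beq a b = false ↔ a ≠ b := by
  rw [Bool.eq_false_iff, Ne, Nat.beq_eq]

theorem loopP_sound {p hi : ℕ} (hp : 0 < p) {k : ℕ → Bool} : ∀ (f c : ℕ), loopP p hi k f c = true →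
    ∀ a, c * p ^ a ≤ hi → k (c * p ^ a) = true
  | 0, _, h, _, _ => absurd h Bool.false_ne_true
  | f + 1, c, h, a, ha => by
    have : c ≤ hi := le_trans (Nat.le_mul_of_pos_right _ (pow_pos hp a)) ha
    simp only [loopP_succ, Nat.ble_eq_true_of_le this, Bool.not_true, Bool.false_or,
      Bool.and_eq_true] at h
    cases a with
    | zero => simpa using h.1
    | succ a =>
      rw [pow_succ', ← mul_assoc] at ha ⊢
      exact loopP_sound hp f _ h.2 a ha

theorem smooth_sound {hi : ℕ} {k : ℕ → Bool} : ∀ (ps : List ℕ) (c : ℕ), (∀ p ∈ ps, p.Prime) →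
    smooth hi k ps c = true → ∀ w, w ≠ 0 → c * w ≤ hi → (∀ q, q.Prime → q ∣ w → q ∈ ps) →
    k (c * w) = true
  | [], c, _, h, w, _, _, hq => by
    obtain rfl : w = 1 := Nat.eq_one_iff_not_exists_prime_dvd.2 fun q h1 h2 => by simpa using hq q h1 h2
    rw [mul_one]; exact h
  | p :: ps, c, hp, h, w, hw, hc, hq => by
    have pp := hp p (by simp)
    obtain ⟨a, u, hu, rfl⟩ := Nat.exists_eq_pow_mul_and_not_dvd hw p pp.ne_one
    have u0 : u ≠ 0 := by rintro rfl; simp at hw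
    rw [← mul_assoc] at hc ⊢
    refine smooth_sound ps _ (fun r hr => hp r (by simp [hr])) (loopP_sound pp.pos 200 c h a
      (le_trans (Nat.le_mul_of_pos_right _ (Nat.pos_of_ne_zero u0)) hc)) u u0 hc fun q h1 h2 => ?_
    rcases List.mem_cons.1 (hq q h1 (h2.mul_left _)) with rfl | e
    exacts [absurd h2 hu, e]

theorem exists_min (f : Pk → ℕ) : ∀ U : List Pk, U ≠ [] →
    ∃ x ∈ U, ∀ y ∈ U, f x < f y ∨ (f x = f y ∧ y.ix ≤ x.ix)
  | [], h => absurd rfl h
  | [x], _ => ⟨x, by simp, by simp⟩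
  | x :: z :: U, _ => by
    obtain ⟨w, hw, h⟩ := exists_min f (z :: U) (by simp)
    by_cases e : f x < f w ∨ (f x = f w ∧ w.ix ≤ x.ix)
    · refine ⟨x, by simp, fun y hy => ?_⟩
      rcases List.mem_cons.1 hy with rfl | hy
      · simp
      · have := h y hy; omega
    · refine ⟨w, List.mem_cons_of_mem _ hw, fun y hy => ?_⟩
      rcases List.mem_cons.1 hy with rfl | hy
      · omega
      · exact h y hy

theorem base_cons (x : Pk) (y : Pk × ℕ × ℕ × ℕ) (A : List (Pk × ℕ × ℕ × ℕ)) : base x (y :: A) =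
    bif mem x.ix y.1.pt then Nat.lcm y.2.1 (base x A) else base x A := by
  unfold base; cases h : mem x.ix y.1.pt <;> simp only [h] <;> rfl

theorem base_dvd (x : Pk) {t : ℕ} (ho : x.o ∣ t) : ∀ A : List (Pk × ℕ × ℕ × ℕ),
    (∀ y ∈ A, x.ix ∈ y.1.pt → y.2.1 ∣ t) → base x A ∣ t
  | [], _ => ho
  | y :: A, h => by
    have ih := base_dvd x ho A fun z hz => h z (List.mem_cons_of_mem _ hz)
    rw [base_cons]
    cases e : mem x.ix y.1.pt
    · exact ih
    · exact Nat.lcm_dvd (h y (by simp) (mem_iff.1 e)) ih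

theorem dvd_base (x : Pk) : ∀ A : List (Pk × ℕ × ℕ × ℕ), ∀ y ∈ A, x.ix ∈ y.1.pt → y.2.1 ∣ base x A
  | [], _, h, _ => by simp at h
  | z :: A, y, h, hx => by
    have ih := dvd_base x A y
    rw [base_cons]
    rcases List.mem_cons.1 h with rfl | h
    · rw [mem_iff.2 hx]; exact Nat.dvd_lcm_left _ _
    · cases mem x.ix z.1.pt
      · exact ih h hx
      · exact (ih h hx).trans (Nat.dvd_lcm_right _ _)

theorem del_cons (y : Pk) (U : List Pk) (i : ℕ) :
    del (y :: U) i = bif Nat.beq y.ix i then U else y :: del U i := by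
  unfold del; cases h : Nat.beq y.ix i <;> simp only [h] <;> rfl

theorem perm_del {U : List Pk} (hn : (U.map Pk.ix).Nodup) {x : Pk} (hx : x ∈ U) :
    U.Perm (x :: del U x.ix) := by
  induction U with
  | nil => simp at hx
  | cons z U ih =>
    rw [List.map_cons, List.nodup_cons] at hn
    rw [del_cons]
    rcases List.mem_cons.1 hx with rfl | hx
    · simp
    · have : z.ix ≠ x.ix := fun e => hn.1 (List.mem_map.2 ⟨x, hx, e.symm⟩)
      rw [beq_false.2 this]
      exact ((ih hn.2 hx).cons z).trans (List.Perm.swap _ _ _)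

variable {D : Dat} {K : ℕ}

theorem Dat.Valid.mpos (V : D.Valid K) {i : ℕ} (hi : i < D.N) : 0 < D.M i :=
  Nat.pos_of_mul_pos_right (by rw [V.me i hi]; exact Nat.totient_pos.2 (by have := V.one_lt i hi; omega))

theorem cap_spec (V : D.Valid K) {x : Pk} (hx : D.Rep x) (h : cap x (D.C x.ix) ≠ 0) :
    ¬ 2 ∣ x.o ∧ x.e ≠ 1 ∧ ¬ cap x (D.C x.ix) ∣ D.g ∧ ∀ j < D.N, D.O j = x.o → j = x.ix := by
  have h1 := hx.ps
  unfold cap at h ⊢
  rcases hp : x.ps with _ | ⟨p, _ | ⟨q, l⟩⟩ <;> rw [hp] at h h1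
  · exact absurd rfl h
  · dsimp only at h ⊢
    cases e1 : dv (Nat.mul p x.o) (D.C x.ix) <;> cases e2 : dv p x.e <;> rw [e1, e2] at h <;>
      try exact absurd rfl h
    rw [Bool.eq_false_iff, Ne, dv_iff, hx.o] at e1
    rw [Bool.eq_false_iff, Ne, dv_iff, hx.e] at e2
    rw [hx.o, hx.e]
    exact V.capv _ hx.lt p ((h1 p).1 (by simp)).1
      (fun r r1 r2 => by simpa using (h1 r).2 ⟨r1, hx.o ▸ r2⟩) e1 e2
  · exact absurd rfl h

theorem asg_sound (V : D.Valid K) {fin : List (ℕ × ℕ × ℕ × ℕ) → ℕ → Bool} {S : List Pk}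
    (hS : ∀ x ∈ S, D.Rep x) : ∀ (f : ℕ) (U : List Pk) (A : List (Pk × ℕ × ℕ × ℕ)) (n a b c0 i0 : ℕ),
    asg fin S f U A n a b c0 i0 = true →
    (U.map Pk.ix ++ A.map fun y => y.1.ix).Perm (List.range D.N) → (∀ x ∈ U, D.Rep x) →
    (∀ y ∈ A, D.Rep y.1 ∧ y.2 = (D.C y.1.ix, D.C y.1.ix * y.1.e, cap y.1 (D.C y.1.ix))) →
    n = (U.map Pk.m).sum → 0 < a → 0 < b →
    (a : ℚ) / b = (U.map fun x => (x.m : ℚ) / D.C x.ix).sum + 1 / D.g →
    (∀ x ∈ U, c0 < D.C x.ix ∨ (c0 = D.C x.ix ∧ x.ix < i0)) →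
    ∃ Q, Q.Perm ((List.range D.N).map D.qd) ∧ fin Q D.g = true
  | 0, _, _, _, _, _, _, _, h, _, _, _, _, _, _, _, _ => absurd h Bool.false_ne_true
  | f + 1, U, A, n, a, b, c0, i0, h, hp, hU, hA, hn, ha, hb, hq, hc => by
    have gq : (0 : ℚ) < D.g := by exact_mod_cast V.gpos
    have bq : (0 : ℚ) < b := by exact_mod_cast hb
    by_cases U0 : U = []
    · subst U0
      obtain rfl : n = 0 := hn
      have e : b = a * D.g := by
        simp only [List.map_nil, List.sum_nil, zero_add] at hq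
        field_simp at hq
        exact_mod_cast hq.symm
      simp only [asg_succ, Nat.beq_refl, cond_true, e, dv_iff.2 (dvd_mul_right a D.g), Bool.not_true,
        Bool.false_or, Nat.mul_div_cancel_left _ ha] at h
      refine ⟨_, ?_, h⟩
      refine List.Perm.trans (List.Perm.of_eq ?_) (List.Perm.map D.qd (by simpa using hp))
      rw [List.map_map]
      refine List.map_congr_left fun y hy => ?_
      obtain ⟨h1, h2⟩ := hA y hy
      simp [quad, Dat.qd, h1.o, h1.m, h1.e, h2]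
    obtain ⟨x, hx, hm⟩ := exists_min (fun x => D.C x.ix) U U0
    have rx := hU x hx
    have nd : (U.map Pk.ix ++ A.map fun y => y.1.ix).Nodup := hp.nodup_iff.2 List.nodup_range
    have pf := perm_del (List.Nodup.of_append_left nd) hx
    set U' := del U x.ix with hU'
    have sub : ∀ y ∈ U', y ∈ U ∧ y.ix ≠ x.ix := fun y hy => by
      refine ⟨pf.mem_iff.2 (List.mem_cons_of_mem _ hy), fun e => ?_⟩
      have := (pf.map Pk.ix).nodup_iff.1 (List.Nodup.of_append_left nd)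
      exact (List.nodup_cons.1 this).1 (List.mem_map.2 ⟨y, hy, e⟩)
    have mp : ∀ y ∈ U, 0 < y.m := fun y hy => (hU y hy).m ▸ V.mpos (hU y hy).lt
    have n1 : n = x.m + (U'.map Pk.m).sum := by rw [hn, (pf.map _).sum_eq]; simp
    have n0 : Nat.beq n 0 = false := by
      have := mp x hx
      rw [Bool.eq_false_iff, Ne, Nat.beq_eq]; omega
    simp only [asg_succ, n0, cond_false, List.all_eq_true] at h
    have cp := (V.two _ rx.lt).1
    have cq : (0 : ℚ) < D.C x.ix := by exact_mod_cast cp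
    have up : ∀ y, D.Rep y → x.ix ∈ y.pt → D.C y.ix ∣ D.C x.ix ∧ x.ix < y.ix ∧
        D.C y.ix * D.E y.ix ∣ D.C x.ix * D.E x.ix := fun y hy e => by
      obtain ⟨r, r1, r2, r3, r4⟩ := (hy.pt _).1 e
      obtain ⟨-, p2, p3, p4⟩ := V.ptr _ hy.lt r r1 r2 r3
      rw [r4] at p2 p3 p4
      refine ⟨p3, ?_, p4⟩
      have l1 : D.O x.ix < D.O y.ix := by
        have := V.one_lt _ rx.lt
        have := r1.one_lt
        rw [← p2]; nlinarith
      by_contra l2
      rcases (not_lt.1 l2).eq_or_lt with e | e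
      · rw [e] at l1; omega
      · have := V.sorted _ _ e rx.lt; omega
    have nb : blocked U x = false := by
      rw [Bool.eq_false_iff]
      simp only [blocked, an_eq, and'_eq, or'_eq, Ne, List.any_eq_true, Bool.and_eq_true, Bool.or_eq_true, Nat.ble_eq,
        Nat.beq_eq, mem_iff]
      rintro ⟨y, hy, h1, h2⟩
      have h3 := hm y hy
      have ry := hU y hy
      rcases h2 with h2 | ⟨h2, h4⟩
      · have := Nat.le_of_dvd cp (up y ry h2).1
        omega
      · rw [ry.o, rx.o] at h2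
        rw [ry.m, rx.m] at h4
        have := V.sorted _ _ h1 ry.lt
        omega
    have h := h x hx
    rw [nb, Bool.false_or] at h
    obtain ⟨w, hw⟩ : base x A ∣ D.C x.ix := base_dvd x (rx.o ▸ V.oc _ rx.lt) A fun y hy e => by
      rw [(hA y hy).2]; exact (up _ (hA y hy).1 e).1
    have sumU : (U.map fun x => (x.m : ℚ) / D.C x.ix).sum =
        x.m / D.C x.ix + (U'.map fun x => (x.m : ℚ) / D.C x.ix).sum := by
      rw [(pf.map _).sum_eq]; simp
    have nn : 0 ≤ (U'.map fun x => (x.m : ℚ) / D.C x.ix).sum :=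
      List.sum_nonneg fun z hz => by obtain ⟨y, -, rfl⟩ := List.mem_map.1 hz; positivity
    have hhi : D.C x.ix ≤ b * (2 * n + 1) / (2 * a) := by
      rw [Nat.le_div_iff_mul_le (by omega)]
      have h1 : (U.map fun x => (x.m : ℚ) / D.C x.ix).sum ≤ (U.map fun y => (y.m : ℚ) / D.C x.ix).sum :=
        List.sum_le_sum fun y hy => by
          have : D.C x.ix ≤ D.C y.ix := by have := hm y hy; omega
          gcongr
      have h2 : (U.map fun y => (y.m : ℚ) / D.C x.ix).sum = n / D.C x.ix := by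
        rw [hn]; simp [div_eq_mul_inv, List.sum_map_mul_right, Function.comp_def]
      have h3 : (1 : ℚ) / D.g ≤ 1 / (2 * D.C x.ix) := by
        have : (2 * D.C x.ix : ℚ) ≤ D.g := by exact_mod_cast (V.two _ rx.lt).2
        gcongr
      have h4 : (a : ℚ) / b ≤ (2 * n + 1) / (2 * D.C x.ix) := by
        rw [hq, add_div, mul_div_mul_left _ _ (by norm_num)]; linarith
      rw [div_le_div_iff₀ bq (by positivity)] at h4
      have : (D.C x.ix * (2 * a) : ℚ) ≤ b * (2 * n + 1) := by linarith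
      exact_mod_cast this
    have h := smooth_sound x.ps _ (fun p hp => ((rx.ps p).1 hp).1) h w (by rintro rfl; omega)
      (hw ▸ hhi) fun q q1 q2 => by
        refine (rx.ps q).2 ⟨q1, ?_⟩
        by_contra q3
        obtain ⟨v, hv⟩ : ∃ v, (D.C x.ix).factorization q = v + 1 := Nat.exists_eq_add_one.2
          (q1.factorization_pos_of_dvd cp.ne' (hw ▸ q2.mul_left _))
        obtain ⟨j, j1, j2, j3⟩ := V.sm _ rx.lt q q1 (rx.o ▸ q3) v (hv ▸ Nat.ordProj_dvd _ _)
        have j4 := hp.mem_iff.2 (List.mem_range.2 j1)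
        rcases List.mem_append.1 j4 with j4 | j4
        · obtain ⟨y, hy, rfl⟩ := List.mem_map.1 j4
          have := up y (hU y hy) (((hU y hy).pt _).2 j2)
          have h1 := Nat.le_of_dvd cp this.1
          have := hm y hy
          omega
        obtain ⟨y, hy, rfl⟩ := List.mem_map.1 j4
        have := dvd_base x A y hy (((hA y hy).1.pt _).2 j2)
        rw [(hA y hy).2] at this
        refine Nat.pow_succ_factorization_not_dvd cp.ne' q1 ?_
        rw [hv, pow_succ]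
        conv_rhs => rw [hw]
        exact mul_dvd_mul (j3.trans this) q2
    rw [← hw] at h
    have gt : b * x.m < a * D.C x.ix := by
      have : (x.m : ℚ) / D.C x.ix < a / b := by
        have : (0 : ℚ) < 1 / D.g := by positivity
        rw [hq, sumU]; linarith
      rw [div_lt_div_iff₀ cq bq, mul_comm] at this
      exact_mod_cast this
    have k1 : capOK S x (cap x (D.C x.ix)) = true := by
      by_cases e : cap x (D.C x.ix) = 0
      · simp [capOK, or'_eq, e]
      obtain ⟨s1, s2, s3, s4⟩ := cap_spec V rx e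
      simp only [capOK, or'_eq, and'_eq, imp'_eq, al_eq, Bool.or_eq_true, Bool.and_eq_true, Bool.not_eq_true', Bool.eq_false_iff, Ne,
        dv_iff, Nat.beq_eq, List.all_eq_true]
      refine Or.inr ⟨s1, s2, fun y hy => ⟨fun e => s3 (e.trans ?_), ?_⟩⟩
      · rw [(hS y hy).o]
        exact ((V.oc _ (hS y hy).lt).mul_right _).trans (V.ce _ (hS y hy).lt)
      · by_cases e : y.o = x.o
        · exact Or.inr (s4 _ (hS y hy).lt ((hS y hy).o ▸ e))
        · exact Or.inl e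
    have k2 : A.all (pairOK x (D.C x.ix * x.e) (cap x (D.C x.ix))) = true := by
      rw [List.all_eq_true]
      intro y hy
      obtain ⟨ry, e⟩ := hA y hy
      simp only [pairOK, and'_eq, imp'_eq, Bool.or_eq_true, Bool.and_eq_true, Bool.not_eq_true', Bool.eq_false_iff, Ne,
        dv_iff, Nat.beq_eq, mem_iff, e, ry.e, rx.e]
      refine ⟨?_, ?_, ?_⟩
      · by_cases e : x.ix ∈ y.1.pt
        exacts [Or.inr (up _ ry e).2.2, Or.inl e]
      · by_cases e : cap x (D.C x.ix) = 0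
        exacts [Or.inr e, Or.inl fun d => (cap_spec V rx e).2.2.1 (d.trans (V.ce _ ry.lt))]
      · by_cases e : cap y.1 (D.C y.1.ix) = 0
        exacts [Or.inr e, Or.inl fun d => (cap_spec V ry e).2.2.1 (d.trans (V.ce _ rx.lt))]
    have k3 := hc x hx
    simp only [k1, k2, Bool.not_true, Bool.false_or, Bool.or_eq_true, Bool.and_eq_true, Nat.ble_eq,
      Nat.beq_eq] at h
    have h := ((h.resolve_left (by omega)).resolve_left (by omega)).resolve_left (by omega)
    set G := Nat.gcd (a * D.C x.ix - b * x.m) (b * D.C x.ix) with hG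
    have G0 : 0 < G := Nat.gcd_pos_of_pos_right _ (Nat.mul_pos hb cp)
    have G1 : G ∣ a * D.C x.ix - b * x.m := Nat.gcd_dvd_left _ _
    have G2 : G ∣ b * D.C x.ix := Nat.gcd_dvd_right _ _
    refine asg_sound V hS f _ _ _ _ _ _ _ h ?_ (fun y hy => hU y (sub y hy).1) ?_
      (by rw [n1, Nat.add_sub_cancel_left])
      (Nat.div_pos (Nat.le_of_dvd (by omega) G1) G0)
      (Nat.div_pos (Nat.le_of_dvd (Nat.mul_pos hb cp) G2) G0) ?_ fun y hy => ?_
    · refine List.Perm.trans ?_ hp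
      rw [List.map_cons]
      exact List.perm_middle.trans ((pf.map Pk.ix).symm.append_right _)
    · intro y hy
      rcases List.mem_cons.1 hy with rfl | hy
      exacts [⟨rx, rfl⟩, hA y hy]
    · have Gq : (G : ℚ) ≠ 0 := by exact_mod_cast G0.ne'
      rw [Nat.cast_div G1 Gq, Nat.cast_div G2 Gq, Nat.cast_sub gt.le, div_div_div_cancel_right₀ Gq]
      rw [sumU, add_assoc] at hq
      rw [← sub_eq_iff_eq_add'.2 hq]
      push_cast
      field_simp
    · have := hm y (sub y hy).1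
      have := (sub y hy).2
      omega

end Cfsg.Agent.H9.KC
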