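import Cfsg.Agent.H9.KC1

/-! Soundness of the class data sieve: skeletons. -/

set_option autoImplicit false

namespace Cfsg.Agent.H9.KC

theorem pr_iff {n : ℕ} : pr n = true ↔ n.Prime := by
  unfold pr
  cases h : Nat.ble n 511
  · simp
  · have : ∀ n ≤ 511, Nat.testBit prM n = true ↔ n.Prime := by decide +kernel
    exact this n (Nat.le_of_ble_eq_true h)

theorem allM_sound {k : ℕ → Bool} : ∀ n, allM k n = true → ∀ m, 0 < m → m ≤ n → k m = true
  | 0, _, m, h1, h2 => by omega
  | n + 1, h, m, h1, h2 => by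
    have h : k (n + 1) = true ∧ allM k n = true := by
      rw [← Bool.and_eq_true, ← and'_eq]; exact h
    rcases h2.eq_or_lt with rfl | e
    exacts [h.1, allM_sound n h.2 m h1 (by omega)]

theorem allPt_sound {S : List Pk} {o : ℕ} (f : ℕ → ℕ) : ∀ (ps : List ℕ) (k : List ℕ → Bool),
    allPt S o ps k = true → (∀ r ∈ ps, ∃ x ∈ S, x.ix = f r ∧ x.o * r = o) → k (ps.map f) = true
  | [], _, h, _ => h
  | r :: ps, k, h, hf => by
    obtain ⟨x, hx, e1, e2⟩ := hf r (by simp)
    have h : al S (fun x => imp' (Nat.beq (x.o * r) o) (allPt S o ps fun l => k (x.ix :: l))) = true := h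
    have := List.all_eq_true.1 (al_eq S _ ▸ h) x hx
    rw [imp'_eq, e2, Nat.beq_refl, Bool.not_true, Bool.false_or, e1] at this
    exact allPt_sound f ps _ this fun s hs => hf s (by simp [hs])

variable {D : Dat} {K : ℕ}

/-- the invariant of the skeleton enumeration -/
structure Inv (D : Dat) (K : ℕ) (S : List Pk) (os : List (ℕ × ℕ × List ℕ)) (i n lo lm : ℕ) : Prop where
  le : i ≤ D.N
  ix : S.map Pk.ix = (List.range i).reverse
  rep : ∀ x ∈ S, D.Rep x
  sum : n + ∑ j ∈ Finset.range i, D.M j = K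
  good : ∀ d ∈ os, d.2.1 = d.1.totient ∧ ∀ p, p ∈ d.2.2 ↔ p.Prime ∧ p ∣ d.1
  one : ∃ d ∈ os, d.1 = 1
  all : ∀ j < i, ∃ d ∈ os, d.1 = D.O j
  hlo : ∃ d ∈ os, d.1 = lo
  ord : ∀ j, i ≤ j → j < D.N → lo < D.O j ∨ (lo = D.O j ∧ lm ≤ D.M j)

theorem Inv.next (V : D.Valid K) {S : List Pk} {os : List (ℕ × ℕ × List ℕ)} {i n lo lm : ℕ}
    (I : Inv D K S os i n lo lm) (hi : i < D.N) (hm : D.M i ≤ n) {ps pt : List ℕ}
    (h1 : ∀ p, p ∈ ps ↔ p.Prime ∧ p ∣ D.O i) (h2 : ∀ j, j ∈ pt ↔ D.Up i j) :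
    Inv D K (⟨i, D.O i, D.M i, D.E i, ps, pt⟩ :: S) (addO lo os (D.O i) (D.O i).totient ps) (i + 1)
      (n - D.M i) (D.O i) (D.M i) := by
  have sub : ∀ d ∈ os, d ∈ addO lo os (D.O i) (D.O i).totient ps := fun d hd => by
    unfold addO; cases Nat.beq (D.O i) lo <;> simp [hd]
  have new : ∃ d ∈ addO lo os (D.O i) (D.O i).totient ps, d.1 = D.O i := by
    unfold addO
    cases e : Nat.beq (D.O i) lo
    · simp
    · rw [Nat.beq_eq] at e; simpa [e] using I.hlo
  refine ⟨hi, by simp [I.ix, List.range_succ], fun x hx => ?_, ?_, fun d hd => ?_, ?_, fun j hj => ?_,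
    new, fun j h3 h4 => ?_⟩
  · rcases List.mem_cons.1 hx with rfl | hx
    exacts [⟨hi, rfl, rfl, rfl, h1, h2⟩, I.rep x hx]
  · have := I.sum
    rw [Finset.sum_range_succ]; omega
  · unfold addO at hd
    cases e : Nat.beq (D.O i) lo <;> rw [e] at hd
    · rcases List.mem_cons.1 hd with rfl | hd
      exacts [⟨rfl, h1⟩, I.good d hd]
    · exact I.good d hd
  · obtain ⟨d, hd, e⟩ := I.one
    exact ⟨d, sub d hd, e⟩
  · rcases (Nat.lt_succ_iff.1 hj).eq_or_lt with rfl | e
    · exact new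
    · obtain ⟨d, hd, e⟩ := I.all j e
      exact ⟨d, sub d hd, e⟩
  · have := V.sorted i j h3 h4
    omega

theorem step_sound (V : D.Valid K) {rc : List Pk → List (ℕ × ℕ × List ℕ) → ℕ → ℕ → ℕ → ℕ → Bool}
    {S : List Pk} {os : List (ℕ × ℕ × List ℕ)} {i n lo lm : ℕ} (I : Inv D K S os i n lo lm)
    (hn : n ≠ 0) (h : step rc S os i n lo lm = true) :
    ∃ S' os' n' lo' lm', Inv D K S' os' (i + 1) n' lo' lm' ∧ rc S' os' (i + 1) n' lo' lm' = true := by
  have s1 := I.sum
  have hi : i < D.N := lt_of_le_of_ne I.le fun e => by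
    have := V.sumM
    rw [e] at s1; omega
  have hm : D.M i ≤ n := by
    have h1 := V.sumM
    have h2 : ∑ j ∈ Finset.range (i + 1), D.M j ≤ ∑ j ∈ Finset.range D.N, D.M j :=
      Finset.sum_le_sum_of_subset (Finset.range_mono hi)
    rw [Finset.sum_range_succ] at h2; omega
  have lt : ∀ j < D.N, D.O j < D.O i → j < i := fun j h1 h2 => by
    by_contra e
    rcases (not_lt.1 e).eq_or_lt with rfl | e
    · omega
    · have := V.sorted _ _ e h1; omega
  have dvs : ∀ d, d ∣ D.O i → 1 < d → d < D.O i → ∃ t ∈ os, t.1 = d := fun d h1 h2 h3 => by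
    obtain ⟨j, j1, rfl⟩ := V.divs i hi d h1 h2
    exact I.all j (lt j j1 h3)
  have od := I.ord i le_rfl hi
  have mp := V.mpos hi
  have o1 := V.one_lt i hi
  have me := V.me i hi
  simp only [step_eq, Bool.and_eq_true, List.all_eq_true] at h
  by_cases hp : (D.O i).Prime
  · rw [Nat.totient_prime hp] at me
    have eo : D.E i * D.M i + 1 = D.O i := by rw [mul_comm]; omega
    obtain ⟨d, hd, e⟩ : ∃ d ∈ os, d.1 = D.E i := by
      rcases V.aut i hi hp with e | ⟨j, j1, j2⟩
      · rw [e]; exact I.one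
      · rw [← j2]
        refine I.all j (lt j j1 ?_)
        have := Nat.le_mul_of_pos_right (D.E i) mp
        omega
    have := allM_sound _ (h.1 d hd) _ mp hm
    rw [e, eo, pr_iff.2 hp, show D.E i * D.M i = (D.O i).totient by rw [Nat.totient_prime hp]; omega] at this
    simp only [Bool.not_true, Bool.false_or, Bool.or_eq_true, Bool.and_eq_true, Nat.ble_eq,
      Nat.beq_eq] at this
    refine ⟨_, _, _, _, _, I.next V hi hm (fun p => ?_) (fun j => ?_), (this.resolve_left (by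
      have := Nat.totient_prime hp; omega)).resolve_left (by omega)⟩
    · simp only [List.mem_singleton]
      exact ⟨fun e => by rw [e]; exact ⟨hp, dvd_rfl⟩, fun e => (Nat.prime_dvd_prime_iff_eq e.1 hp).1 e.2⟩
    · simp only [List.not_mem_nil, false_iff]
      rintro ⟨r, r1, r2, r3, -⟩
      exact r3 ((Nat.prime_dvd_prime_iff_eq r1 hp).1 r2)
  have pp := Nat.minFac_prime o1.ne'
  obtain ⟨w, hw⟩ := Nat.minFac_dvd (D.O i)
  set p := (D.O i).minFac with hp'
  have w1 : 1 < w := by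
    rcases w with _ | _ | w
    · omega
    · rw [zero_add, mul_one] at hw; exact absurd (hw ▸ pp) hp
    · omega
  have p1 := pp.one_lt
  obtain ⟨P, hP, eP⟩ := dvs p (Dvd.intro _ hw.symm) p1 (by rw [hw]; nlinarith)
  obtain ⟨W, hW, eW⟩ := dvs w (Dvd.intro_left _ hw.symm) w1 (by rw [hw]; nlinarith)
  obtain ⟨g1, g2⟩ := I.good W hW
  have k1 : mem P.1 P.2.2 = true := mem_iff.2 (((I.good P hP).2 _).2 ⟨eP ▸ pp, dvd_rfl⟩)
  have k2 : W.2.2.all (fun r => Nat.ble p r) = true := List.all_eq_true.2 fun r hr => by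
    rw [Nat.ble_eq]
    obtain ⟨r1, r2⟩ := (g2 r).1 hr
    exact Nat.minFac_le_of_dvd r1.two_le (hw ▸ (eW ▸ r2).mul_left _)
  have h := h.2 P hP
  rw [k1, Bool.not_true, Bool.false_or, List.all_eq_true] at h
  have h := h W hW
  have k3 : (bif mem p W.2.2 then p * W.2.1 else (p - 1) * W.2.1) = (D.O i).totient := by
    rw [hw, g1, eW]
    cases e : mem p W.2.2
    · rw [Bool.eq_false_iff, Ne, mem_iff, g2, eW] at e
      exact (Nat.totient_mul_of_prime_of_not_dvd pp fun d => e ⟨pp, d⟩).symm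
    · rw [mem_iff, g2, eW] at e
      exact (Nat.totient_mul_of_prime_of_dvd pp e.2).symm
  have k4 : ∀ r, r ∈ (bif mem p W.2.2 then W.2.2 else p :: W.2.2) ↔ r.Prime ∧ r ∣ D.O i := fun r => by
    have : r.Prime ∧ r ∣ D.O i ↔ r = p ∨ r ∈ W.2.2 := by
      rw [hw, g2, eW]
      refine ⟨fun e => ((Nat.Prime.dvd_mul e.1).1 e.2).imp
        (Nat.prime_dvd_prime_iff_eq e.1 pp).1 fun d => ⟨e.1, d⟩, ?_⟩
      rintro (rfl | e)
      exacts [⟨pp, dvd_mul_right _ _⟩, ⟨e.1, e.2.mul_left _⟩]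
    rw [this]
    cases e : mem p W.2.2
    · simp
    · rw [mem_iff] at e
      simp only [cond_true]
      exact ⟨Or.inr, fun d => d.elim (· ▸ e) id⟩
  rw [eP, eW, k2, k3, ← hw] at h
  generalize (bif mem p W.2.2 then W.2.2 else p :: W.2.2) = ps at h k4
  simp only [Bool.not_true, Bool.false_or, Bool.or_eq_true, Nat.ble_eq, Nat.beq_eq] at h
  have h := allM_sound _ ((h.resolve_left (by omega)).resolve_left (by omega)) _ mp hm
  rw [dv_iff.2 (Dvd.intro _ me), show (D.O i).totient / D.M i = D.E i by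
    rw [← me, Nat.mul_div_cancel_left _ mp]] at h
  simp only [Bool.not_true, Bool.false_or, Bool.or_eq_true, Bool.and_eq_true, Nat.ble_eq,
    Nat.beq_eq] at h
  have ne : ∀ r, r.Prime → r ≠ D.O i := fun r hr e => hp (e ▸ hr)
  have h := allPt_sound (D.pw i) _ _ (h.resolve_left (by omega)) fun r hr => by
    obtain ⟨r1, r2⟩ := (k4 r).1 hr
    obtain ⟨q1, q2, -⟩ := V.ptr i hi r r1 r2 (ne r r1)
    have q3 : D.pw i r < i := lt _ q1 (by
      have := V.one_lt _ q1
      have := r1.one_lt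
      rw [← q2]; nlinarith)
    obtain ⟨x, hx, e⟩ := List.mem_map.1 (show D.pw i r ∈ S.map Pk.ix by simpa [I.ix] using q3)
    exact ⟨x, hx, e, by rw [(I.rep x hx).o, e, q2]⟩
  refine ⟨_, _, _, _, _, I.next V hi hm k4 fun j => ?_, h⟩
  simp only [List.mem_map, k4]
  exact ⟨fun ⟨r, r1, r2⟩ => ⟨r, r1.1, r1.2, ne r r1.1, r2⟩, fun ⟨r, r1, r2, _, r4⟩ => ⟨r, ⟨r1, r2⟩, r4⟩⟩

/-- the hash value of the data -/
def Dat.hs (D : Dat) (i : ℕ) : ℕ :=
  (List.range i).reverse.foldr (fun j z => z * 31 + (D.O j * 9 + D.M j)) 0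

theorem hsh_eq : ∀ S : List Pk, (∀ x ∈ S, D.Rep x) →
    hsh S = (S.map Pk.ix).foldr (fun j z => z * 31 + (D.O j * 9 + D.M j)) 0
  | [], _ => rfl
  | x :: S, h => by
    rw [List.map_cons, List.foldr_cons, ← hsh_eq S fun y hy => h y (List.mem_cons_of_mem _ hy),
      ← (h x (by simp)).o, ← (h x (by simp)).m]
    rfl

theorem sk_sound (V : D.Valid K) {T R R' : ℕ} {fin : List (ℕ × ℕ × ℕ × ℕ) → ℕ → Bool} :
    ∀ (f : ℕ) (S : List Pk) (os : List (ℕ × ℕ × List ℕ)) (i n lo lm : ℕ),
    Inv D K S os i n lo lm → sk K T R (D.hs (min T D.N) % R) R' (D.hs D.N % R') fin f S os i n lo lm = true →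
    ∃ Q, Q.Perm ((List.range D.N).map D.qd) ∧ fin Q D.g = true
  | 0, _, _, _, _, _, _, _, h => absurd h Bool.false_ne_true
  | f + 1, S, os, i, n, lo, lm, I, h => by
    have hh : hsh S = D.hs i := by rw [hsh_eq S I.rep, I.ix]; rfl
    have hi : n = 0 → i = D.N := fun hn => by
      by_contra e
      have hi := lt_of_le_of_ne I.le e
      have h1 := V.sumM
      have h2 : ∑ j ∈ Finset.range (i + 1), D.M j ≤ ∑ j ∈ Finset.range D.N, D.M j :=
        Finset.sum_le_sum_of_subset (Finset.range_mono hi)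
      have h3 := I.sum
      have := V.mpos hi
      rw [Finset.sum_range_succ] at h2; omega
    simp only [sk_succ, hh, Bool.or_eq_true, Bool.and_eq_true, Nat.beq_eq, Bool.not_eq_true', beq_false,
      Nat.ble_eq] at h
    have h := h.resolve_left (by
      rintro ⟨e1, e⟩
      have := I.le
      exact e (by rw [show min T D.N = i by omega]))
    by_cases hn : n = 0
    · obtain rfl := hi hn
      subst hn
      simp only [Nat.beq_refl, cond_true, Bool.or_eq_true, Nat.ble_eq, Bool.not_true,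
        Bool.false_or] at h
      have key : ∀ φ : ℕ → ℚ, (S.map fun x => φ x.ix).sum = ∑ j ∈ Finset.range D.N, φ j := fun φ => by
        rw [show (S.map fun x => φ x.ix) = (S.map Pk.ix).map φ by simp, I.ix, List.map_reverse,
          List.sum_reverse, Finset.sum_list_map_count, List.toFinset_range]
        refine Finset.sum_congr rfl fun j hj => by simp [List.count_range, Finset.mem_range.1 hj]
      refine asg_sound V I.rep _ _ _ _ _ _ _ _ (h.resolve_left ?_) (by simp [I.ix]) I.rep (by simp) ?_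
        one_pos one_pos ?_ fun x hx => Or.inl (V.two _ (I.rep x hx).lt).1
      · obtain ⟨a, ha, b, hb, c, hc, p1, p2, p3, n1, n2, n3⟩ := V.three
        have : ∀ j < D.N, (D.O j).Prime →
            D.O j ∈ ((os.filter fun d => mem d.1 d.2.2).map Prod.fst).toFinset := fun j h1 h2 => by
          obtain ⟨d, hd, e⟩ := I.all j h1
          exact List.mem_toFinset.2 (List.mem_map.2 ⟨d, List.mem_filter.2
            ⟨hd, mem_iff.2 (((I.good d hd).2 _).2 ⟨e ▸ h2, dvd_rfl⟩)⟩, e⟩)
        have h3 := Finset.card_le_card (show ({D.O a, D.O b, D.O c} : Finset ℕ) ⊆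
            ((os.filter fun d => mem d.1 d.2.2).map Prod.fst).toFinset by
          simp only [Finset.insert_subset_iff, Finset.singleton_subset_iff]
          exact ⟨this a ha p1, this b hb p2, this c hc p3⟩)
        have h4 := List.toFinset_card_le ((os.filter fun d => mem d.1 d.2.2).map Prod.fst)
        rw [Finset.card_eq_three.2 ⟨_, _, _, n1, n2, n3, rfl⟩] at h3
        rw [List.length_map, ← List.countP_eq_length_filter] at h4
        omega
      · have := key fun j => D.M j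
        rw [← List.map_congr_left (f := fun x : Pk => (x.m : ℚ)) fun x hx => by rw [(I.rep x hx).m]] at this
        have h1 := V.sumM
        apply Nat.cast_injective (R := ℚ)
        rw [← h1]; push_cast; rw [← this, List.map_map]; rfl
      · rw [List.map_congr_left (g := fun x : Pk => (D.M x.ix : ℚ) / D.C x.ix) fun x hx => by
          rw [(I.rep x hx).m], key fun j => (D.M j : ℚ) / D.C j, V.sum]
        simp
    rw [beq_false.2 hn, cond_false] at h
    obtain ⟨S', os', n', lo', lm', I', h'⟩ := step_sound V I hn h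
    exact sk_sound V f _ _ _ _ _ _ I' h'

theorem Inv.init (V : D.Valid K) : Inv D K [] [(1, 1, [])] 0 K 1 0 :=
  ⟨Nat.zero_le _, rfl, by simp, by simp, by simpa using fun p => Nat.Prime.ne_one, by simp, by simp, by simp,
    fun j _ h => Or.inl (V.one_lt j h)⟩

end Cfsg.Agent.H9.KC
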