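import Cfsg.Agent.H9.KC2

/-! Packets of conjugacy classes: elements generating conjugate cyclic subgroups. -/

set_option autoImplicit false
set_option linter.unusedSectionVars false

namespace Cfsg.Agent.H9.KC

open Subgroup

variable {G : Type*} [Group G] [Finite G]

/-- order of the centralizer -/
noncomputable abbrev cz (x : G) : ℕ := Nat.card (centralizer ({x} : Set G))

/-- order of the normalizer of the cyclic subgroup -/
noncomputable abbrev nz (x : G) : ℕ := Nat.card (normalizer (zpowers x : Set G))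

/-- order of the automizer -/
noncomputable def ez (x : G) : ℕ := Nat.card (zpowers x).normalizerMonoidHom.range

/-- number of classes in the packet -/
noncomputable def mz (x : G) : ℕ := (orderOf x).totient / ez x

/-- generating conjugate cyclic subgroups -/
def Eqv (x y : G) : Prop := ∃ g, zpowers (g * x * g⁻¹) = zpowers y

theorem zp_conj (g x : G) : zpowers (g * x * g⁻¹) = (zpowers x).map (MulAut.conj g).toMonoidHom := by
  rw [MonoidHom.map_zpowers]; rfl

theorem Eqv.rfl (x : G) : Eqv x x := ⟨1, by simp⟩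

theorem Eqv.symm {x y : G} : Eqv x y → Eqv y x := fun ⟨g, h⟩ => ⟨g⁻¹, by
  rw [zp_conj, ← h, ← zp_conj]; simp [mul_assoc]⟩

theorem Eqv.trans {x y z : G} : Eqv x y → Eqv y z → Eqv x z := fun ⟨g, h⟩ ⟨g', h'⟩ => ⟨g' * g, by
  rw [← h', zp_conj g' y, ← h, ← zp_conj]; simp [mul_assoc]⟩

theorem Eqv.of_isConj {x y : G} (h : IsConj x y) : Eqv x y := by
  obtain ⟨g, rfl⟩ := isConj_iff.1 h
  exact ⟨g, _root_.rfl⟩

theorem cent_eq (x : G) : centralizer ({x} : Set G) = centralizer (zpowers x : Set G) := by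
  rw [zpowers_eq_closure, centralizer_closure]

theorem cz_conj (g x : G) : cz (g * x * g⁻¹) = cz x :=
  Nat.card_congr ((MulAut.conj g).symm.toEquiv.subtypeEquiv fun y => by
    simp only [mem_centralizer_singleton_iff, MulEquiv.toEquiv_eq_coe, EquivLike.coe_coe,
      MulAut.conj_symm_apply]
    constructor
    · intro h
      have := congrArg (fun z => g⁻¹ * z * g) h
      simpa [mul_assoc] using this
    · intro h
      have := congrArg (fun z => g * z * g⁻¹) h
      simpa [mul_assoc] using this)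

theorem nz_conj (g x : G) : nz (g * x * g⁻¹) = nz x := by
  unfold nz
  rw [zp_conj, ← map_equiv_normalizer_eq, card_map_of_injective (MulAut.conj g).injective]

theorem Eqv.ord {x y : G} : Eqv x y → orderOf x = orderOf y := fun ⟨g, h⟩ => by
  rw [← Nat.card_zpowers y, ← h, zp_conj, card_map_of_injective (MulAut.conj g).injective,
    Nat.card_zpowers]

theorem Eqv.cz {x y : G} : Eqv x y → cz x = cz y := fun ⟨g, h⟩ => by
  rw [← cz_conj g x]; unfold KC.cz; rw [cent_eq, cent_eq, h]

theorem Eqv.nz {x y : G} : Eqv x y → nz x = nz y := fun ⟨g, h⟩ => by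
  rw [← nz_conj g x]; unfold KC.nz; rw [h]

theorem cent_le_norm (x : G) : centralizer ({x} : Set G) ≤ normalizer (zpowers x : Set G) :=
  cent_eq x ▸ centralizer_le_normalizer _

theorem cz_mul_ez (x : G) : cz x * ez x = nz x := by
  have h := (zpowers x).normalizerMonoidHom.ker.card_mul_index
  rw [index_ker, normalizerMonoidHom_ker, ← cent_eq,
    Nat.card_congr (subgroupOfEquivOfLe (cent_le_norm x)).toEquiv] at h
  exact h

theorem cz_pos (x : G) : 0 < cz x := Nat.card_pos

theorem Eqv.ez {x y : G} (h : Eqv x y) : ez x = ez y :=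
  Nat.eq_of_mul_eq_mul_left (cz_pos x) (by rw [cz_mul_ez, h.nz, h.cz, cz_mul_ez])

theorem Eqv.mz {x y : G} (h : Eqv x y) : mz x = mz y := by rw [KC.mz, h.ord, h.ez, KC.mz]

theorem mz_mul_ez (x : G) : mz x * ez x = (orderOf x).totient := by
  refine Nat.div_mul_cancel ?_
  rw [← Nat.card_zpowers, ← IsCyclic.card_mulAut]
  exact card_subgroup_dvd_card _

theorem Eqv.pow {x y : G} (h : Eqv x y) (r : ℕ) : Eqv (x ^ r) (y ^ r) := by
  obtain ⟨g, h⟩ := h
  have key : ∀ a b : G, zpowers a = zpowers b → zpowers (a ^ r) ≤ zpowers (b ^ r) := fun a b e => by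
    obtain ⟨k, rfl⟩ := mem_zpowers_iff.1 (e ▸ mem_zpowers a)
    rw [zpowers_le, ← zpow_natCast (b ^ k), ← zpow_mul, mul_comm, zpow_mul, zpow_natCast]
    exact zpow_mem (mem_zpowers _) _
  exact ⟨g, by rw [← conj_pow]; exact le_antisymm (key _ _ h) (key _ _ h.symm)⟩

theorem eqv_pow_self {x : G} {r : ℕ} (h : r.Coprime (orderOf x)) : Eqv x (x ^ r) :=
  ⟨1, by
    rw [one_mul, inv_one, mul_one]
    exact le_antisymm (zpowers_le.2 (mem_zpowers_pow_iff.2 h)) (zpowers_le.2 (pow_mem (mem_zpowers x) r))⟩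

theorem card_gen (x : G) : Nat.card {y // zpowers y = zpowers x} = (orderOf x).totient := by
  classical
  have := Fintype.ofFinite (zpowers x)
  rw [← IsCyclic.card_orderOf_eq_totient (α := zpowers x) (by rw [← Nat.card_eq_fintype_card,
    Nat.card_zpowers]), ← Fintype.card_subtype, ← Nat.card_eq_fintype_card]
  refine Nat.card_congr ⟨fun y => ⟨⟨y.1, y.2.le (mem_zpowers _)⟩, ?_⟩, fun y => ⟨y.1.1, ?_⟩,
    fun _ => rfl, fun _ => rfl⟩
  · rw [orderOf_mk, ← Nat.card_zpowers, y.2, Nat.card_zpowers]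
  · exact eq_of_le_of_card_ge (zpowers_le.2 y.1.2) (by
      rw [Nat.card_zpowers, Nat.card_zpowers, orderOf_coe, y.2])

theorem mem_norm {x g : G} : g ∈ normalizer (zpowers x : Set G) ↔ zpowers (g * x * g⁻¹) = zpowers x := by
  rw [mem_normalizer_iff_map_conj_eq, zp_conj]; rfl

/-- size of the packet -/
noncomputable def pz (x : G) : ℕ := Nat.card {y // Eqv x y}

theorem pz_mul_nz (x : G) : pz x * nz x = (orderOf x).totient * Nat.card G := by
  rw [← card_gen, ← Nat.card_prod, pz, ← Nat.card_prod]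
  have hc : ∀ y : {y // Eqv x y}, ∃ g, zpowers (g * y.1 * g⁻¹) = zpowers x := fun y => Eqv.symm y.2
  choose f hf using hc
  refine Nat.card_eq_of_bijective (fun p => (⟨p.2.1 * (f p.1 * p.1.1 * (f p.1)⁻¹) * p.2.1⁻¹, by
    rw [zp_conj, hf, ← zp_conj]; exact mem_norm.1 p.2.2⟩, p.2.1 * f p.1)) ⟨?_, ?_⟩
  · rintro ⟨y, n⟩ ⟨y', n'⟩ h
    simp only [Prod.mk.injEq, Subtype.mk.injEq] at h
    obtain rfl : y = y' := Subtype.ext (by
      have : ∀ a b c : G, a * (b * c * b⁻¹) * a⁻¹ = (a * b) * c * (a * b)⁻¹ := fun a b c => by group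
      have h1 := h.1
      simp only [this, h.2] at h1
      simpa using h1)
    rw [Subtype.ext (mul_right_cancel h.2)]
  · rintro ⟨⟨z, hz⟩, g⟩
    have e : Eqv x (g⁻¹ * z * g) := Eqv.symm ⟨g, by simpa [mul_assoc] using hz⟩
    refine ⟨(⟨_, e⟩, ⟨g * (f ⟨_, e⟩)⁻¹, mem_norm.2 ?_⟩), ?_⟩
    · have := hf ⟨_, e⟩
      generalize f ⟨_, e⟩ = u at this
      rw [zp_conj, ← this, ← zp_conj, this, ← hz]
      simp [mul_assoc]
    · simp [mul_assoc]

theorem pz_mul_cz (x : G) : pz x * cz x = mz x * Nat.card G := by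
  have h := pz_mul_nz x
  rw [← cz_mul_ez, ← mz_mul_ez] at h
  have : 0 < ez x := Nat.card_pos
  exact Nat.eq_of_mul_eq_mul_right this (by linarith)

theorem cz_dvd (x : G) : cz x ∣ Nat.card G := card_subgroup_dvd_card _

theorem pz_eq (x : G) : pz x = mz x * (Nat.card G / cz x) :=
  Nat.eq_of_mul_eq_mul_right (cz_pos x) (by
    rw [pz_mul_cz, mul_assoc, Nat.div_mul_cancel (cz_dvd x)])

/-- sorted representatives of the packets -/
structure Reps (G : Type*) [Group G] where
  N : ℕ
  x : ℕ → G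
  ne : ∀ i < N, x i ≠ 1
  cover : ∀ z ≠ 1, ∃ i < N, Eqv (x i) z
  inj : ∀ i < N, ∀ j < N, Eqv (x i) (x j) → i = j
  sorted : ∀ i j, i < j → j < N → orderOf (x i) < orderOf (x j) ∨ (orderOf (x i) = orderOf (x j) ∧
    (mz (x i) < mz (x j) ∨ (mz (x i) = mz (x j) ∧ cz (x j) ≤ cz (x i))))

theorem exists_reps : Nonempty (Reps G) := by
  classical
  have := Fintype.ofFinite G
  let s : Setoid G := ⟨Eqv, Eqv.rfl, Eqv.symm, Eqv.trans⟩
  let r : G → G → Prop := fun a b => orderOf a < orderOf b ∨ (orderOf a = orderOf b ∧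
    (mz a < mz b ∨ (mz a = mz b ∧ cz b ≤ cz a)))
  have : Std.Total r := ⟨fun a b => by simp only [r]; omega⟩
  have : IsTrans G r := ⟨fun a b c => by simp only [r]; omega⟩
  let R : Finset G := (Finset.univ.erase 1).image fun z => (Quotient.mk s z).out
  let l := R.toList.insertionSort r
  have hm : ∀ y, y ∈ l ↔ ∃ z ≠ 1, (Quotient.mk s z).out = y := fun y => by simp [l, R]
  have ho : ∀ z, Eqv (Quotient.mk s z).out z := fun z => Quotient.mk_out (s := s) z
  have nd : l.Nodup := (List.perm_insertionSort r _).nodup_iff.2 R.nodup_toList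
  have hg : ∀ i (h : i < l.length), l.getD i 1 = l[i] := fun i h => List.getD_eq_getElem _ _ h
  refine ⟨⟨l.length, fun i => l.getD i 1, fun i hi e => ?_, fun z hz => ?_, fun i hi j hj e => ?_,
    fun i j h1 h2 => ?_⟩⟩
  · obtain ⟨z, hz, e'⟩ := (hm _).1 (List.getElem_mem hi)
    have := (ho z).ord
    rw [e', ← hg, e, orderOf_one] at this
    exact hz (orderOf_eq_one_iff.1 this.symm)
  · obtain ⟨i, hi, e⟩ := List.getElem_of_mem ((hm _).2 ⟨z, hz, rfl⟩)
    exact ⟨i, hi, by rw [hg i hi, e]; exact ho z⟩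
  · obtain ⟨z, -, e1⟩ := (hm _).1 (List.getElem_mem hi)
    obtain ⟨w, -, e2⟩ := (hm _).1 (List.getElem_mem hj)
    rw [hg i hi, hg j hj, ← e1, ← e2] at e
    have : Quotient.mk s z = Quotient.mk s w := Quotient.sound ((ho z).symm.trans (e.trans (ho w)))
    exact (nd.getElem_inj_iff (hi := hi) (hj := hj)).1 (by rw [← e1, ← e2, this])
  · rw [hg i (h1.trans h2), hg j h2]
    exact List.pairwise_iff_getElem.1 (List.pairwise_insertionSort r _) i j _ _ h1

theorem Reps.sum_eq [Fintype G] (R : Reps G) (f : G → ℕ) (hf : ∀ x y, Eqv x y → f x = f y) :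
    ∑ z, f z = f 1 + ∑ i ∈ Finset.range R.N, pz (R.x i) * f (R.x i) := by
  classical
  choose ι h1 h2 using R.cover
  rw [← Finset.add_sum_erase _ _ (Finset.mem_univ 1), ← Finset.sum_fiberwise_of_maps_to
    (t := Finset.range R.N) (g := fun z => if h : z ≠ 1 then ι z h else 0) fun z hz => by
      rw [dif_pos (Finset.mem_erase.1 hz).1]; exact Finset.mem_range.2 (h1 _ _)]
  congr 1
  refine Finset.sum_congr rfl fun i hi => ?_
  have hi := Finset.mem_range.1 hi
  have : ∀ z, z ∈ (Finset.univ.erase 1).filter (fun z => (if h : z ≠ 1 then ι z h else 0) = i) ↔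
      Eqv (R.x i) z := fun z => by
    simp only [Finset.mem_filter, Finset.mem_erase, Finset.mem_univ, and_true]
    refine ⟨fun ⟨h, e⟩ => by rw [dif_pos h] at e; exact e ▸ h2 z h, fun e => ?_⟩
    have h : z ≠ 1 := by
      rintro rfl
      exact R.ne i hi (orderOf_eq_one_iff.1 (by simpa using e.ord))
    exact ⟨h, by rw [dif_pos h]; exact R.inj _ (h1 _ _) _ hi ((h2 z h).trans e.symm)⟩
  rw [Finset.sum_congr rfl fun z hz => (hf _ _ ((this z).1 hz)).symm, Finset.sum_const, smul_eq_mul,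
    pz, Nat.subtype_card _ this]

end Cfsg.Agent.H9.KC
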