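import Cfsg.Agent.H9.KC3
import Cfsg.Agent.H3.NA

/-! Local conditions on the class data of a finite simple group. -/

set_option autoImplicit false
set_option linter.unusedSectionVars false

namespace Cfsg.Agent.H9.KC

open Subgroup Cfsg.Agent.H1
open scoped ComplexConjugate

variable {G : Type*} [Group G] [Finite G]

theorem cent_ne_top [IsSimpleGroup G] (hG : ¬ IsMulCommutative G) {x : G} (hx : x ≠ 1) :
    centralizer ({x} : Set G) ≠ ⊤ := fun e => by
  have h : x ∈ center G := mem_center_iff.2 fun g => mem_centralizer_singleton_iff.1 (e ▸ mem_top g)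
  rcases IsSimpleGroup.eq_bot_or_eq_top_of_normal (center G) inferInstance with e | e <;> rw [e] at h
  · exact hx (mem_bot.1 h)
  · exact hG ⟨⟨fun a b => mem_center_iff.1 (e ▸ mem_top b) a⟩⟩

theorem two_cz_le [IsSimpleGroup G] (hG : ¬ IsMulCommutative G) {x : G} (hx : x ≠ 1) :
    2 * cz x ≤ Nat.card G := by
  rw [← (centralizer ({x} : Set G)).index_mul_card]
  exact Nat.mul_le_mul_right _ (one_lt_index_of_ne_top (cent_ne_top hG hx))

theorem idx_eq (x : G) : (centralizer ({x} : Set G)).index = Nat.card G / cz x := by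
  rw [← (centralizer ({x} : Set G)).index_mul_card, Nat.mul_div_cancel _ (cz_pos x)]

theorem burn [IsSimpleGroup G] (hG : ¬ IsMulCommutative G) {x : G} (hx : x ≠ 1) {p : ℕ}
    (hp : p.Prime) (k : ℕ) : ¬ Nat.card G / cz x ∣ p ^ k := fun h => by
  classical
  have := Fintype.ofFinite G
  rw [← idx_eq] at h
  have h1 := sum_irr_mul_conj x 1
  rw [if_neg (by simpa using hx), ← Finset.add_sum_erase _ _
    (Finset.mem_univ ⟨fun _ => 1, isIrrCharacter_one⟩)] at h1
  have p0 : (p : ℂ) ≠ 0 := by exact_mod_cast hp.ne_zero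
  have h2 : IsIntegral ℤ ((∑ χ ∈ Finset.univ.erase (⟨fun _ => 1, isIrrCharacter_one⟩ : IrrCharacter G),
      (χ : G → ℂ) x * conj ((χ : G → ℂ) 1)) / p) := by
    rw [Finset.sum_div]
    refine IsIntegral.sum _ fun χ hχ => ?_
    have np : H3.NQ.NP (χ : G → ℂ) := ⟨χ.2, fun e => (Finset.mem_erase.1 hχ).1 (Subtype.ext e)⟩
    obtain ⟨n, -, hn⟩ := IsIrrCharacter.exists_one_eq χ.2
    by_cases e : p ∣ n
    · obtain ⟨m, rfl⟩ := e
      rw [hn, map_natCast, Nat.cast_mul, mul_left_comm, mul_div_cancel_left₀ _ p0]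
      exact (IsCharacter.isIntegral np.ch x).mul (isIntegral_algebraMap (x := (m : ℤ)))
    · rw [np.burn hG hn hx (Nat.Coprime.coprime_dvd_left h
        (Nat.Coprime.pow_left _ ((Nat.Prime.coprime_iff_not_dvd hp).2 e)))]
      simpa using isIntegral_zero
  rw [(show ∀ w : ℂ, (1 : ℂ) * conj 1 + w = 0 → w = (-1 : ℤ) from fun w e => by
    simp only [map_one, mul_one] at e; push_cast; linear_combination e) _ h1] at h2
  have := H2.dvd_of_isIntegral (a := -1) (k := p) (by exact_mod_cast hp.ne_zero) (by simpa using h2)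
  exact hp.not_dvd_one (by exact_mod_cast Int.dvd_neg.1 this)

theorem aut_cyc {x : G} (hp : (orderOf x).Prime) : IsCyclic (zpowers x).normalizerMonoidHom.range := by
  have := ZMod.isCyclic_units_prime (show (Nat.card (zpowers x)).Prime by rwa [Nat.card_zpowers])
  have := isCyclic_of_injective (IsCyclic.mulAutMulEquiv (zpowers x)).toMonoidHom
    (IsCyclic.mulAutMulEquiv (zpowers x)).injective
  infer_instance

theorem exists_ord_ez {x : G} (hp : (orderOf x).Prime) : ∃ h : G, orderOf h = ez x := by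
  obtain ⟨σ, h⟩ := isCyclic_iff_exists_orderOf_eq_natCard.1 (aut_cyc hp)
  obtain ⟨n, hn⟩ := σ.2
  have : ez x ∣ orderOf (n : G) := by
    rw [ez, ← h, orderOf_coe, ← orderOf_coe σ, ← hn]; exact orderOf_map_dvd _ _
  exact ⟨_, orderOf_pow_orderOf_div (orderOf_pos _).ne' this⟩

theorem cen_elt (H : Subgroup G) {q a : ℕ} (hq : q.Prime) (h : q ^ (a + 1) ∣ Nat.card H) :
    ∃ z ∈ H, orderOf z = q ∧ ∃ Q ≤ H, Nat.card Q = q ^ (a + 1) ∧ Q ≤ centralizer {z} := by
  have := Fact.mk hq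
  obtain ⟨Q, hQ⟩ := Sylow.exists_subgroup_card_pow_prime q h
  have hp : IsPGroup q Q := IsPGroup.of_card hQ
  have : Nontrivial Q := Finite.one_lt_card_iff_nontrivial.1 (hQ ▸ Nat.one_lt_pow (by simp) hq.one_lt)
  have := hp.center_nontrivial
  obtain ⟨z, hz⟩ := exists_prime_orderOf_dvd_card' (G := center Q) q
    (((hp.to_subgroup _).card_eq_or_dvd).resolve_left Finite.one_lt_card.ne')
  refine ⟨z.1.1.1, z.1.1.2, by rw [orderOf_coe, orderOf_coe, orderOf_coe, hz], Q.map H.subtype, map_subtype_le _,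
    by rw [card_map_of_injective H.subtype_injective, hQ], ?_⟩
  rintro _ ⟨w, hw, rfl⟩
  exact mem_centralizer_singleton_iff.2 (congrArg (·.1.1) (mem_center_iff.1 z.2 ⟨w, hw⟩))

theorem sm_elt {x : G} {q a : ℕ} (hq : q.Prime) (ho : ¬ q ∣ orderOf x) (h : q ^ (a + 1) ∣ cz x) :
    ∃ y : G, orderOf y = orderOf x * q ∧ Eqv x (y ^ q) ∧ q ^ (a + 1) ∣ cz y := by
  obtain ⟨z, hz, oz, Q, h1, h2, h3⟩ := cen_elt _ hq h
  have c : Commute x z := (mem_centralizer_singleton_iff.1 hz).symm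
  have cp := (Nat.Prime.coprime_iff_not_dvd hq).2 ho
  refine ⟨x * z, by rw [c.orderOf_mul_eq_mul_orderOf_of_coprime (oz ▸ cp.symm), oz], ?_,
    h2 ▸ card_dvd_of_le fun w hw => mem_centralizer_singleton_iff.2 (Commute.mul_right
      (mem_centralizer_singleton_iff.1 (h1 hw)) (mem_centralizer_singleton_iff.1 (h3 hw)))⟩
  rw [c.mul_pow, ← oz, pow_orderOf_eq_one z, mul_one, oz]
  exact eqv_pow_self cp

theorem cz_pow_dvd (x : G) (r : ℕ) : cz x ∣ cz (x ^ r) := card_dvd_of_le fun _ hw =>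
  mem_centralizer_singleton_iff.2 (Commute.pow_right (mem_centralizer_singleton_iff.1 hw) r)

theorem nz_pow_dvd (x : G) (r : ℕ) : nz x ∣ nz (x ^ r) := card_dvd_of_le fun w hw => by
  have key : ∀ a b : G, zpowers a = zpowers b → zpowers (a ^ r) ≤ zpowers (b ^ r) := fun a b e => by
    obtain ⟨k, rfl⟩ := mem_zpowers_iff.1 (e ▸ mem_zpowers a)
    rw [zpowers_le, ← zpow_natCast (b ^ k), ← zpow_mul, mul_comm, zpow_mul, zpow_natCast]
    exact zpow_mem (mem_zpowers _) _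
  have h := mem_norm.1 hw
  rw [mem_norm, ← conj_pow]
  exact le_antisymm (key _ _ h) (key _ _ h.symm)

theorem ord_dvd_cz (x : G) : orderOf x ∣ cz x := by
  rw [← Nat.card_zpowers]
  exact card_dvd_of_le (zpowers_le.2 (mem_centralizer_singleton_iff.2 rfl))

theorem cap_elt [IsSimpleGroup G] (hG : ¬ IsMulCommutative G) {x : G} (hx : x ≠ 1) {p : ℕ}
    (hp : p.Prime) (h1 : ∀ r, r.Prime → r ∣ orderOf x → r = p) (h2 : ¬ p * orderOf x ∣ cz x)
    (h3 : ¬ p ∣ ez x) : ¬ 2 ∣ orderOf x ∧ ez x ≠ 1 ∧ ¬ p * orderOf x ∣ Nat.card G ∧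
      ∀ y : G, orderOf y = orderOf x → Eqv x y := by
  have := Fact.mk hp
  obtain ⟨k, hk⟩ : ∃ k, orderOf x = p ^ k :=
    ⟨_, Nat.eq_prime_pow_of_unique_prime_dvd (orderOf_pos x).ne' fun {r} => h1 r⟩
  have h4 : ¬ p * orderOf x ∣ Nat.card G := fun h => by
    rw [hk, ← pow_succ'] at h h2
    have := Sylow.prime_pow_dvd_card_normalizer h (H := zpowers x) (by rw [Nat.card_zpowers, hk])
    rw [show Nat.card (normalizer (zpowers x : Set G)) = _ from (cz_mul_ez x).symm] at this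
    exact h2 ((Nat.Coprime.pow_left _ ((Nat.Prime.coprime_iff_not_dvd hp).2 h3)).dvd_of_dvd_mul_right this)
  have sy : ∀ y : G, orderOf y = orderOf x → ∃ P : Sylow p G, (P : Subgroup G) = zpowers y := fun y hy =>
    ⟨IsPGroup.toSylow (P := zpowers y) (IsPGroup.of_card (by rw [Nat.card_zpowers, hy, hk])) fun d => h4 (by
      rw [← (zpowers y).index_mul_card, Nat.card_zpowers, hy]; exact Nat.mul_dvd_mul_right d _), rfl⟩
  obtain ⟨P, hP⟩ := sy x rfl
  have h5 : ez x ≠ 1 := fun e => by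
    have h6 := cz_mul_ez x
    rw [e, mul_one] at h6
    have h7 : normalizer ((P : Subgroup G) : Set G) ≤ centralizer ((P : Subgroup G) : Set G) := by
      rw [hP, ← cent_eq, eq_of_le_of_card_ge (cent_le_norm x) h6.ge]
    have h8 := MonoidHom.ker_transferSylow_isComplement' P h7
    rcases IsSimpleGroup.eq_bot_or_eq_top_of_normal _ (MonoidHom.normal_ker
      (MonoidHom.transferSylow P h7)) with e | e <;> rw [e, hP] at h8
    · refine cent_ne_top hG hx (top_le_iff.1 ?_)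
      rw [← isComplement'_bot_left.1 h8]
      exact zpowers_le.2 (mem_centralizer_singleton_iff.2 rfl)
    · exact hx (zpowers_eq_bot.1 (isComplement'_top_left.1 h8))
  refine ⟨fun h => h5 ?_, h5, h4, fun y hy => ?_⟩
  · obtain rfl := h1 2 Nat.prime_two h
    have h6 := Dvd.intro_left _ (mz_mul_ez x)
    have k0 : 0 < k := Nat.pos_of_ne_zero fun e => hx (orderOf_eq_one_iff.1 (by simpa [e] using hk))
    rw [hk, Nat.totient_prime_pow hp k0] at h6
    exact (Nat.Coprime.pow_right _ ((Nat.Prime.coprime_iff_not_dvd hp).2 h3).symm).eq_one_of_dvd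
      (by simpa using h6)
  · obtain ⟨Q, hQ⟩ := sy y hy
    obtain ⟨g, hg⟩ := MulAction.exists_smul_eq G P Q
    exact ⟨g, by rw [zp_conj, ← hP, ← hQ, ← hg]; rfl⟩

theorem three_primes [IsSimpleGroup G] (hG : ¬ IsMulCommutative G) : ∃ p q r : ℕ, p.Prime ∧ q.Prime ∧
    r.Prime ∧ p ∣ Nat.card G ∧ q ∣ Nat.card G ∧ r ∣ Nat.card G ∧ p ≠ q ∧ p ≠ r ∧ q ≠ r := by
  obtain ⟨p, hp, h⟩ := Nat.exists_prime_and_dvd (Finite.one_lt_card (α := G)).ne'
  obtain ⟨v, hv⟩ : ∃ v, (Nat.card G).factorization p = v + 1 :=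
    Nat.exists_eq_add_one.2 (hp.factorization_pos_of_dvd Nat.card_pos.ne' h)
  obtain ⟨z, -, oz, Q, -, h2, h3⟩ := cen_elt (⊤ : Subgroup G) hp (a := v) (by
    rw [card_top, ← hv]; exact Nat.ordProj_dvd _ _)
  have z1 : z ≠ 1 := by rintro rfl; rw [orderOf_one] at oz; exact hp.one_lt.ne oz
  obtain ⟨w, hw⟩ := cz_dvd z
  have e : Nat.card G / cz z = w := by rw [hw, Nat.mul_div_cancel_left _ (cz_pos z)]
  have w0 : w ≠ 0 := by rintro rfl; exact Nat.card_pos.ne' hw
  have np : ¬ p ∣ w := fun d => Nat.pow_succ_factorization_not_dvd (Nat.card_pos (α := G)).ne' hp (by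
    rw [hv, pow_succ]; conv_rhs => rw [hw]
    exact mul_dvd_mul (h2 ▸ card_dvd_of_le h3) d)
  obtain ⟨q, hq, d⟩ := Nat.exists_prime_and_dvd (n := w) fun e1 => burn hG z1 hp 0 (by simp [e, e1])
  obtain ⟨r, hr, d', n⟩ : ∃ r, r.Prime ∧ r ∣ w ∧ r ≠ q := by
    by_contra hn
    push Not at hn
    exact burn hG z1 hq _ (e ▸ (Nat.eq_prime_pow_of_unique_prime_dvd w0 fun {r} => hn r).dvd)
  exact ⟨p, q, r, hp, hq, hr, h, hw ▸ d.mul_left _, hw ▸ d'.mul_left _, fun e => np (e ▸ d),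
    fun e => np (e ▸ d'), n.symm⟩

open Classical in
/-- the index of the packet of an element -/
noncomputable def Reps.idx (R : Reps G) (z : G) : ℕ :=
  if h : z ≠ 1 then (R.cover z h).choose else 0

theorem Reps.idx_spec (R : Reps G) {z : G} (h : z ≠ 1) : R.idx z < R.N ∧ Eqv (R.x (R.idx z)) z := by
  rw [Reps.idx, dif_pos h]; exact (R.cover z h).choose_spec

/-- the class data -/
noncomputable def Reps.dat (R : Reps G) : Dat :=
  ⟨R.N, Nat.card G, fun i => orderOf (R.x i), fun i => mz (R.x i), fun i => ez (R.x i),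
    fun i => cz (R.x i), fun i r => R.idx (R.x i ^ r)⟩

theorem sum_cz [Fintype G] : ∑ g : G, cz g = Nat.card (ConjClasses G) * Nat.card G := by
  rw [← card_comm_eq_card_conjClasses_mul_card, ← Nat.card_sigma]
  exact Nat.card_congr
    { toFun := fun p => ⟨(p.1, p.2.1), (Subgroup.mem_centralizer_singleton_iff.mp p.2.2).symm⟩
      invFun := fun p => ⟨p.1.1, ⟨p.1.2, Subgroup.mem_centralizer_singleton_iff.mpr p.2.symm⟩⟩
      left_inv := fun p => rfl
      right_inv := fun p => rfl }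

theorem cz_one : cz (1 : G) = Nat.card G := by
  rw [cz, show centralizer ({1} : Set G) = ⊤ from top_le_iff.1 fun x _ =>
    mem_centralizer_singleton_iff.2 (by simp), card_top]

theorem Reps.ex_ord (R : Reps G) (z : G) (h : 1 < orderOf z) : ∃ j < R.N, orderOf (R.x j) = orderOf z := by
  obtain ⟨j, h1, h2⟩ := R.cover z (by rintro rfl; simp at h)
  exact ⟨j, h1, h2.ord⟩

theorem Reps.valid [IsSimpleGroup G] (hG : ¬ IsMulCommutative G) (R : Reps G) {K : ℕ}
    (hK : Nat.card (ConjClasses G) = K + 1) : R.dat.Valid K := by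
  have := Fintype.ofFinite G
  have o1 : ∀ i < R.N, 1 < orderOf (R.x i) := fun i hi =>
    lt_of_le_of_ne (orderOf_pos _) fun e => R.ne i hi (orderOf_eq_one_iff.1 e.symm)
  have g0 : 0 < Nat.card G := Nat.card_pos
  have pw : ∀ i < R.N, ∀ r, r.Prime → r ≠ orderOf (R.x i) → R.x i ^ r ≠ 1 := fun i hi r h1 h2 e =>
    h2 (((Nat.dvd_prime h1).1 (orderOf_dvd_of_pow_eq_one e)).resolve_left (o1 i hi).ne').symm
  refine ⟨o1, R.sorted, fun i _ => mz_mul_ez _, ?_, fun i hi hp => ?_, fun i hi d h1 h2 => ?_,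
    fun i hi r r1 r2 r3 => ?_, fun i _ => ord_dvd_cz _, fun i hi q q1 q2 a h => ?_, ?_,
    fun i hi => ⟨cz_pos _, two_cz_le hG (R.ne i hi)⟩, g0, fun i hi p hp h1 h2 h3 => ?_,
    fun i _ => (cz_mul_ez (R.x i)).symm ▸ card_subgroup_dvd_card _, ?_⟩
  · have h := R.sum_eq cz fun _ _ => Eqv.cz
    simp only [sum_cz, hK, pz_mul_cz, ← Finset.sum_mul] at h
    rw [cz_one, add_mul, one_mul, add_comm] at h
    exact (Nat.eq_of_mul_eq_mul_right g0 (Nat.add_left_cancel h)).symm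
  · obtain ⟨h, e⟩ := exists_ord_ez hp
    by_cases e1 : ez (R.x i) = 1
    · exact Or.inl e1
    · obtain ⟨j, j1, j2⟩ := R.ex_ord h (lt_of_le_of_ne (orderOf_pos _) fun d => e1 (e ▸ d.symm))
      exact Or.inr ⟨j, j1, j2.trans e⟩
  · have e := orderOf_pow_orderOf_div (orderOf_pos (R.x i)).ne' h1
    exact e ▸ R.ex_ord _ (e.symm ▸ h2)
  · obtain ⟨h1, h2⟩ := R.idx_spec (pw i hi r r1 r3)
    refine ⟨h1, ?_, ?_, ?_⟩ <;> simp only [Reps.dat, h2.ord, h2.cz, h2.ez, cz_mul_ez]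
    · rw [orderOf_pow_of_dvd r1.ne_zero r2]; exact Nat.div_mul_cancel r2
    exacts [cz_pow_dvd _ _, nz_pow_dvd _ _]
  · obtain ⟨y, y1, y2, y3⟩ := sm_elt q1 q2 h
    have l : 1 < orderOf y := by have := o1 i hi; have := q1.one_lt; rw [y1]; nlinarith
    obtain ⟨j, h1, h2⟩ := R.cover y (by rintro rfl; simp at l)
    have ne : q ≠ orderOf (R.x j) := by
      have := o1 i hi; have := q1.one_lt; rw [h2.ord, y1]; nlinarith
    obtain ⟨h3, h4⟩ := R.idx_spec (pw j h1 q q1 ne)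
    exact ⟨j, h1, ⟨q, q1, (dvd_mul_left _ _).trans (h2.ord.trans y1).symm.dvd, ne,
      R.inj _ h3 _ hi (h4.trans ((h2.pow q).trans y2.symm))⟩, y3.trans h2.cz.symm.dvd⟩
  · have h := R.sum_eq (fun _ => 1) fun _ _ _ => rfl
    simp only [Finset.sum_const, Finset.card_univ, smul_eq_mul, mul_one, ← Nat.card_eq_fintype_card] at h
    have gq : (Nat.card G : ℚ) ≠ 0 := by exact_mod_cast g0.ne'
    have : ∀ i, (mz (R.x i) : ℚ) / cz (R.x i) = pz (R.x i) / Nat.card G := fun i => by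
      rw [div_eq_div_iff (by exact_mod_cast (cz_pos _).ne') gq]
      exact_mod_cast (pz_mul_cz _).symm
    simp only [Reps.dat, this, ← Finset.sum_div, ← add_div]
    rw [div_eq_one_iff_eq gq, add_comm]
    exact_mod_cast h.symm
  · obtain ⟨h4, h5, h6, h7⟩ := cap_elt hG (R.ne i hi) hp h1 h2 h3
    exact ⟨h4, h5, h6, fun j hj e => R.inj _ hj _ hi (h7 _ e).symm⟩
  · obtain ⟨p, q, r, p1, q1, r1, p2, q2, r2, n1, n2, n3⟩ := three_primes hG
    have : ∀ p : ℕ, p.Prime → p ∣ Nat.card G → ∃ j < R.N, orderOf (R.x j) = p := fun p h1 h2 => by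
      have := Fact.mk h1
      obtain ⟨z, e⟩ := exists_prime_orderOf_dvd_card' p h2
      exact e ▸ R.ex_ord z (e.symm ▸ h1.one_lt)
    obtain ⟨i, hi, rfl⟩ := this p p1 p2
    obtain ⟨j, hj, rfl⟩ := this q q1 q2
    obtain ⟨k, hk, rfl⟩ := this r r1 r2
    exact ⟨i, hi, j, hj, k, hk, p1, q1, r1, n1, n2, n3⟩

end Cfsg.Agent.H9.KC
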