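import Cfsg.Agent.H9.KC5
import Cfsg.Agent.H4.K3a

/-! Character conditions: sums over strongly self-centralizing subgroups. -/

set_option autoImplicit false
set_option linter.unusedSectionVars false

namespace Cfsg.Agent.H9.KC

open Subgroup Finset Cfsg.Agent.H1
open scoped ComplexConjugate

variable {G : Type*} [Group G] [Fintype G]

open Classical in
theorem card_conj_mem (A : Finset G) (y : G) :
    #{g : G | g * y * g⁻¹ ∈ A} = #{a ∈ A | IsConj y a} * cz y := by
  rw [card_eq_sum_card_fiberwise (f := fun g => g * y * g⁻¹) (t := {a ∈ A | IsConj y a}) (fun g hg =>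
    mem_coe.2 (mem_filter.2 ⟨(mem_filter.1 (mem_coe.1 hg)).2, isConj_iff.2 ⟨g, rfl⟩⟩)), sum_const_nat]
  intro a ha
  obtain ⟨u, rfl⟩ := isConj_iff.1 (mem_filter.1 ha).2
  rw [cz, Nat.card_eq_fintype_card, Fintype.card_subtype]
  refine card_bij (fun g _ => u⁻¹ * g) (fun g hg => ?_) (fun _ _ _ _ e => mul_left_cancel e)
    fun w hw => ⟨u * w, ?_, by simp⟩
  · have := (mem_filter.1 hg).2
    simp only [mem_filter, mem_univ, true_and, mem_centralizer_singleton_iff]
    calc u⁻¹ * g * y = u⁻¹ * (g * y * g⁻¹) * g := by group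
      _ = _ := by rw [this]; group
  · have : u * w * y * (u * w)⁻¹ = u * y * u⁻¹ := by
      rw [mul_assoc u, mem_centralizer_singleton_iff.1 (mem_filter.1 hw).2]; group
    simp only [mem_filter, mem_univ, true_and, this, and_true]
    exact (mem_filter.1 ha).1

theorem isConj_of_mz {x y : G} (hm : mz x = 1) (h : Eqv x y) : IsConj x y := by
  have h1 := pz_eq x
  rw [hm, one_mul, ← idx_eq, index_centralizer_eq] at h1
  exact (Set.eq_of_subset_of_ncard_le (s := {y | IsConj x y}) (t := {y | Eqv x y})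
    (fun y hy => Eqv.of_isConj hy) h1.le).ge h

/-- the principal character -/
noncomputable abbrev triv : IrrCharacter G := ⟨fun _ => 1, isIrrCharacter_one⟩

open Classical in
/-- the integer valued sums -/
def Tst (h e B : ℕ) (S : IrrCharacter G → ℤ) : Prop :=
  (∀ χ ≠ triv, ∀ d : ℕ, (χ : G → ℂ) 1 = d → (h : ℤ) ∣ d + e * S χ ∧ 0 ≤ d + e * S χ ∧
    e * S χ < (h - 1) * d) ∧ ∑ χ ∈ univ.erase triv, S χ ^ 2 = B

open Classical in
theorem deg_lem [IsSimpleGroup G] (hG : ¬ IsMulCommutative G) (H : Subgroup G) {h e m : ℕ}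
    (hH : Nat.card H = h) (hm : m * e + 1 = h) (m0 : 0 < m) (e0 : 0 < e)
    (hc : ∀ y ∈ H, y ≠ 1 → cz y = h ∧ #{a ∈ ({a | a ∈ H ∧ a ≠ 1} : Finset G) | IsConj y a} = e) :
    ∃ S : IrrCharacter G → ℤ, (∀ χ : IrrCharacter G, (e * S χ : ℂ) =
      ∑ y ∈ ({a | a ∈ H ∧ a ≠ 1} : Finset G), (χ : G → ℂ) y) ∧ Tst h e (m * h - m * m) S := by
  set A : Finset G := {a | a ∈ H ∧ a ≠ 1} with hA
  have mA : ∀ y, y ∈ A ↔ y ∈ H ∧ y ≠ 1 := fun y => by simp [hA]
  have s1 : ∀ f : G → ℂ, ∑ y : H, f y = f 1 + ∑ y ∈ A, f y := fun f => by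
    rw [← sum_subtype_of_mem f (s := univ.filter (· ∈ H)) (by simp) |>.symm.trans
      (sum_congr (by ext; simp) fun _ _ => rfl), ← add_sum_erase (univ.filter (· ∈ H)) f (show 1 ∈ _ by simp)]
    congr 2; ext; simp [hA, and_comm]
  have cA : #A = m * e := by
    have := s1 fun _ => 1
    simp only [sum_const, card_univ, ← Nat.card_eq_fintype_card, hH, nsmul_eq_mul, mul_one] at this
    have : h = 1 + #A := by exact_mod_cast this
    omega
  have eq : (e : ℂ) ≠ 0 := by exact_mod_cast e0.ne'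
  have key : ∀ χ : IrrCharacter G, ∃ s : ℤ, (e * s : ℂ) = ∑ y ∈ A, (χ : G → ℂ) y ∧
      ∀ d : ℕ, (χ : G → ℂ) 1 = d → ∃ a : ℕ, d + e * s = (h * a : ℤ) := fun χ => by
    have ch := IsIrrCharacter.isCharacter χ.2
    obtain ⟨a, -, -, ha, -⟩ := H4.K3.exists_fix ch H H le_rfl
    obtain ⟨d, -, hd⟩ := IsIrrCharacter.exists_one_eq χ.2
    rw [s1, hd, hH] at ha
    have e1 : ∑ y ∈ A, (χ : G → ℂ) y = ((h * a - d : ℤ) : ℂ) := by push_cast; linear_combination ha
    obtain ⟨s, hs⟩ := H2.dvd_of_isIntegral (a := h * a - d) (k := e) (by exact_mod_cast e0.ne') (by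
      rw [← e1, ← sum_fiberwise_of_maps_to (t := A.image ConjClasses.mk) (g := ConjClasses.mk)
        (fun y hy => mem_image_of_mem _ hy), sum_div]
      refine IsIntegral.sum _ fun K hK => ?_
      obtain ⟨y, hy, rfl⟩ := mem_image.1 hK
      rw [sum_congr (s₂ := {a ∈ A | IsConj y a}) (g := fun _ => (χ : G → ℂ) y)
        (by ext; simp only [mem_filter, ConjClasses.mk_eq_mk_iff_isConj, isConj_comm])
        fun z hz => (IsClassFunction.of_isConj (IsCharacter.isClassFunction ch) (mem_filter.1 hz).2.symm),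
        sum_const, (hc y ((mA y).1 hy).1 ((mA y).1 hy).2).2, nsmul_eq_mul, Int.cast_natCast,
        mul_div_cancel_left₀ _ eq]
      exact IsCharacter.isIntegral ch y)
    refine ⟨s, by rw [e1, hs]; push_cast; rfl, fun d' e2 => ⟨a, ?_⟩⟩
    obtain rfl : d = d' := by exact_mod_cast hd.symm.trans e2
    linarith
  choose S h1 h2 using key
  refine ⟨S, h1, fun χ hχ d hd => ?_, ?_⟩
  · obtain ⟨a, ha⟩ := h2 χ d hd
    refine ⟨⟨a, ha⟩, by rw [ha]; positivity, ?_⟩
    have np : H3.NQ.NP (χ : G → ℂ) := ⟨χ.2, fun e => hχ (Subtype.ext e)⟩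
    have h3 : ∑ y ∈ A, ‖(χ : G → ℂ) y‖ < ∑ _y ∈ A, (d : ℝ) :=
      sum_lt_sum_of_nonempty (card_pos.1 (cA ▸ Nat.mul_pos m0 e0)) fun y hy =>
        np.norm_ne hG hd ((mA y).1 hy).2
    have h4 := (norm_sum_le A _).trans_lt h3
    rw [← h1, sum_const, cA, nsmul_eq_mul, show (e * S χ : ℂ) = ((e * S χ : ℤ) : ℂ) by push_cast; rfl,
      Complex.norm_intCast] at h4
    have h5 : ((e * S χ : ℤ) : ℝ) < ((m * e * d : ℕ) : ℤ) := by
      have := le_abs_self ((e * S χ : ℤ) : ℝ)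
      push_cast at *; linarith
    have h6 : e * S χ < ((m * e * d : ℕ) : ℤ) := by exact_mod_cast h5
    rw [← hm]; push_cast at *; linarith
  · have h3 : ∑ χ : IrrCharacter G, (e * S χ : ℂ) * conj (e * S χ : ℂ) = (m * e) * (e * h) := by
      simp only [h1, map_sum, sum_mul_sum]
      rw [sum_comm, sum_congr rfl (g := fun _ => (e * h : ℂ)) fun y hy => by
        rw [sum_comm]
        simp only [sum_irr_mul_conj]
        obtain ⟨c1, c2⟩ := hc y ((mA y).1 hy).1 ((mA y).1 hy).2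
        rw [← sum_filter, sum_const, c2, show Nat.card _ = h from c1, nsmul_eq_mul]]
      simp [cA]
    have h4 : ∑ χ : IrrCharacter G, S χ ^ 2 = m * h := by
      have : (e : ℂ) ^ 2 * ((∑ χ : IrrCharacter G, S χ ^ 2 : ℤ) : ℂ) = e ^ 2 * ((m * h : ℤ) : ℂ) := by
        simp only [map_mul, map_natCast, map_intCast] at h3
        push_cast
        rw [mul_sum]
        exact (sum_congr rfl fun _ _ => by ring).trans (h3.trans (by ring))
      exact_mod_cast mul_left_cancel₀ (pow_ne_zero 2 eq) this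
    have h5 : S triv = m := by
      have := h1 triv
      simp only [sum_const, cA, nsmul_eq_mul, mul_one, Nat.cast_mul, mul_comm (m : ℂ)] at this
      exact_mod_cast mul_left_cancel₀ eq this
    rw [← add_sum_erase _ _ (mem_univ triv), h5] at h4
    rw [Nat.cast_sub (Nat.mul_le_mul_left _ (by nlinarith))]
    push_cast; linarith

open Classical in
theorem deg_prime [IsSimpleGroup G] (hG : ¬ IsMulCommutative G) {x : G} (hp : (orderOf x).Prime)
    (hc : cz x = orderOf x) : ∃ S : IrrCharacter G → ℤ, (∀ χ : IrrCharacter G, (ez x * S χ : ℂ) =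
      ∑ y ∈ ({a | a ∈ zpowers x ∧ a ≠ 1} : Finset G), (χ : G → ℂ) y) ∧
      Tst (orderOf x) (ez x) (mz x * orderOf x - mz x * mz x) S := by
  have h1 := mz_mul_ez x
  have h2 := hp.two_le
  rw [Nat.totient_prime hp] at h1
  have gen : ∀ y ∈ zpowers x, y ≠ 1 → zpowers y = zpowers x := fun y hy y1 =>
    eq_of_le_of_card_ge (zpowers_le.2 hy) (by
      rw [Nat.card_zpowers, Nat.card_zpowers, ((Nat.dvd_prime hp).1
        (orderOf_dvd_of_mem_zpowers hy)).resolve_left (by simpa using y1)])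
  refine deg_lem hG _ (Nat.card_zpowers x) (by omega) (Nat.pos_of_mul_pos_right (by omega : 0 < _ * ez x))
    Nat.card_pos fun y hy y1 => ?_
  have ev : Eqv y x := ⟨1, by simpa using gen y hy y1⟩
  refine ⟨ev.cz.trans hc, Nat.eq_of_mul_eq_mul_right (cz_pos y) ?_⟩
  rw [← card_conj_mem, ← ev.ez, mul_comm, cz_mul_ez, nz, Nat.card_eq_fintype_card, Fintype.card_subtype]
  congr 1; ext g
  simp only [mem_filter, mem_univ, true_and, mem_norm]
  refine ⟨fun h => (gen _ h.1 h.2).trans (gen y hy y1).symm, fun h => ⟨?_, by simpa using y1⟩⟩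
  rw [← gen y hy y1, ← h]; exact mem_zpowers _

open Classical in
theorem deg_nine [IsSimpleGroup G] (hG : ¬ IsMulCommutative G) {x : G} (hc : cz x = 9)
    (h : ∀ y : G, 3 ∣ orderOf y → IsConj x y) : ∃ S : IrrCharacter G → ℤ, Tst 9 8 8 S := by
  have key : ∀ y ∈ centralizer ({x} : Set G), y ≠ 1 → IsConj x y := fun y hy y1 => h y (by
    have h1 : orderOf y ∣ 3 ^ 2 := (orderOf_dvd_natCard _ hy).trans hc.dvd
    obtain ⟨k, -, e⟩ := (Nat.dvd_prime_pow Nat.prime_three).1 h1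
    exact e ▸ dvd_pow_self 3 fun k0 => y1 (by simpa [k0] using e))
  obtain ⟨S, -, hS⟩ := deg_lem hG (centralizer {x}) (e := 8) (m := 1) hc rfl one_pos (by norm_num)
    fun y hy y1 => ⟨(Eqv.of_isConj (key y hy y1)).cz.symm.trans hc, by
      rw [filter_true_of_mem fun a ha => (key y hy y1).symm.trans (key a (by simpa using (mem_filter.1 ha).2.1)
        (mem_filter.1 ha).2.2)]
      rw [cz, Nat.card_eq_fintype_card, Fintype.card_subtype] at hc
      rw [show ({a | a ∈ centralizer {x} ∧ a ≠ 1} : Finset G) = ({a | a ∈ centralizer {x}} : Finset G).erase 1 by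
        ext; simp [and_comm], card_erase_of_mem (by simp), hc]⟩
  exact ⟨S, hS⟩

theorem sq_eq_one_iff_of_ne_zero_aux {a : ℤ} (h : a ^ 2 = 1) : a = 1 ∨ a = -1 := sq_eq_one_iff.1 h

theorem three_inv [IsSimpleGroup G] (hG : ¬ IsMulCommutative G) {r : G} (r1 : r ≠ 1) (hc : cz r = 3)
    {s t : G} (hs : orderOf s = 2) (ht : orderOf t = 2) : IsConj s t := by
  classical
  have ho : orderOf r = 3 := ((Nat.dvd_prime Nat.prime_three).1 (hc ▸ ord_dvd_cz r)).resolve_left
    (by simpa using r1)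
  have hp : (orderOf r).Prime := ho ▸ Nat.prime_three
  have h1 := mz_mul_ez r
  rw [ho, show Nat.totient 3 = 2 by decide] at h1
  have he : ez r = 2 := ((Nat.dvd_prime Nat.prime_two).1 (Dvd.intro_left _ h1)).resolve_left
    (cap_elt hG r1 Nat.prime_three (fun q q1 q2 => (Nat.prime_dvd_prime_iff_eq q1 Nat.prime_three).1 (ho ▸ q2))
      (by rw [ho, hc]; norm_num) fun d => by
        have := d.trans (Dvd.intro_left _ h1); norm_num at this).2.1
  obtain ⟨od, u, u1, u2⟩ := inv_ex hp (hc.trans ho.symm) he.symm.dvd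
  obtain ⟨S, h2, -, h3⟩ := deg_prime hG hp (hc.trans ho.symm)
  have hm : mz r = 1 := by rw [he] at h1; omega
  rw [hm, ho] at h3
  have r3 : r⁻¹ = r ^ 2 := by rw [inv_eq_iff_mul_eq_one, ← pow_succ', ← pow_orderOf_eq_one r, ho]
  have ri : ∀ χ : IrrCharacter G, (χ : G → ℂ) r⁻¹ = (χ : G → ℂ) r := fun χ =>
    u2 ▸ IsCharacter.isClassFunction (IsIrrCharacter.isCharacter χ.2) r u
  have h4 : ∀ χ : IrrCharacter G, (χ : G → ℂ) r = S χ := fun χ => by
    have := h2 χ
    have n : r ≠ r⁻¹ := fun e => by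
      have := orderOf_dvd_of_pow_eq_one (show r ^ 2 = 1 by rw [pow_two]; nth_rw 1 [e]; simp)
      rw [ho] at this; norm_num at this
    rw [he, show ({a | a ∈ zpowers r ∧ a ≠ 1} : Finset G) = {r, r⁻¹} by
      ext y
      simp only [mem_filter, mem_univ, true_and, mem_insert, mem_singleton]
      refine ⟨fun ⟨y1, y2⟩ => ?_, by rintro (rfl | rfl) <;> simp [r1]⟩
      obtain ⟨k, hk, rfl⟩ := mem_image.1 (mem_zpowers_iff_mem_range_orderOf.1 y1)
      rw [mem_range, ho] at hk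
      interval_cases k <;> simp_all, sum_pair n, ri] at this
    push_cast at this
    linear_combination -this / 2
  have key : ∀ s : G, orderOf s = 2 → IsConj u s := fun s hs => by
    by_cases e : H4.K3.cnt s s r = 0
    swap
    · obtain ⟨⟨p, p1, p2⟩⟩ := (Nat.card_ne_zero.1 e).1
      have q1 := sq_of_ord ((Eqv.of_isConj p1).ord.symm.trans hs)
      have q2 := sq_of_ord ((Eqv.of_isConj p2).ord.symm.trans hs)
      have q3 : p * r * p⁻¹ = r⁻¹ := by
        rw [eq_inv_iff_mul_eq_one, ← q2, inv_eq_of_mul_eq_one_left q1]; group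
      have q4 : p * u⁻¹ ∈ zpowers r := cent_eq_zp (hc.trans ho.symm) ▸ mem_centralizer_singleton_iff.2 (by
        have e1 : u⁻¹ * r * u = r⁻¹ := by
          rw [← u2, inv_eq_of_mul_eq_one_left u1]
        calc p * u⁻¹ * r = p * (u⁻¹ * r * u) * p⁻¹ * (p * u⁻¹) := by group
          _ = (p * r * p⁻¹)⁻¹ * (p * u⁻¹) := by rw [e1]; group
          _ = _ := by rw [q3, inv_inv])
      have := conj_dih od u2 q4
      rw [inv_mul_cancel_right] at this
      exact this.trans p1.symm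
    exfalso
    have s1 : s ≠ 1 := by rintro rfl; simp at hs
    have f1 := H4.K3.cnt_formula s s r
    have f2 := sum_irr_mul_conj r s
    have f3 := sum_irr_mul_conj r 1
    rw [if_neg fun c => by have := (Eqv.of_isConj c).ord; omega] at f2
    rw [if_neg (by simpa using r1)] at f3
    rw [e, Nat.cast_zero, zero_mul, zero_mul, eq_comm, mul_eq_zero, or_iff_right card_ne_zero'] at f1
    choose v hv using fun χ : IrrCharacter G =>
      H3.NQ.inv_val (IsIrrCharacter.isCharacter χ.2) (sq_of_ord hs)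
    choose d d0 hd using fun χ : IrrCharacter G => IsIrrCharacter.exists_one_eq χ.2
    set Z := (univ.erase (triv : IrrCharacter G)).filter fun χ => S χ ≠ 0 with hZ
    have red : ∀ f : IrrCharacter G → ℂ, ∑ χ, (S χ : ℂ) * f χ = f triv + ∑ χ ∈ Z, S χ * f χ := fun f => by
      rw [← add_sum_erase _ _ (mem_univ triv), ← h4, one_mul, hZ,
        sum_filter_of_ne (p := fun χ => S χ ≠ 0) fun χ _ h e => h (by simp [e])]
    have z1 : ∑ χ ∈ Z, S χ ^ 2 = 2 := by
      rw [hZ, sum_filter_of_ne (p := fun χ => S χ ≠ 0) fun χ _ h e => h (by simp [e]), h3]; rfl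
    have z2 : ∀ χ ∈ Z, S χ ^ 2 = 1 := fun χ h => by
      have a1 := single_le_sum (f := fun χ => S χ ^ 2) (fun _ _ => sq_nonneg _) h
      have a2 := (mem_filter.1 h).2
      rw [z1] at a1
      have : -1 ≤ S χ ∧ S χ ≤ 1 := by constructor <;> nlinarith
      rcases (by omega : S χ = 1 ∨ S χ = -1) with e | e <;> simp [e]
    obtain ⟨α, β, n, eZ⟩ := card_eq_two.1 (show #Z = 2 by
      rw [sum_congr rfl z2, sum_const, nsmul_one] at z1; exact_mod_cast z1)
    have g1 := red fun χ => v χ * v χ / d χ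
    have g2 := red fun χ => v χ
    have g3 := red fun χ => d χ
    have t1 : (v triv : ℂ) = 1 := (hv triv).symm
    have t2 : (d triv : ℂ) = 1 := (hd triv).symm
    simp only [ri, h4, hv, hd, map_intCast, map_natCast] at f1 f2 f3
    rw [eZ, sum_pair n, t1] at g1 g2
    rw [eZ, sum_pair n, t2] at g3
    rw [(sum_congr rfl fun _ _ => by ring).trans f1, t2] at g1
    rw [f2] at g2
    rw [f3] at g3
    have a0 : (d α : ℂ) ≠ 0 := by exact_mod_cast (d0 α).ne'
    have b0 : (d β : ℂ) ≠ 0 := by exact_mod_cast (d0 β).ne'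
    have mα : α ∈ Z := by simp [eZ]
    have ne : v α ≠ d α := fun e => H3.NQ.NP.ne_one hG (χ := α) ⟨α.2, fun e =>
      (mem_erase.1 (mem_filter.1 mα).1).1 (Subtype.ext e)⟩ s1 (by rw [hv, hd, e]; simp)
    field_simp at g1
    have k1 : (0 : ℤ) = d α * d β + S α * v α ^ 2 * d β + d α * S β * v β ^ 2 := by
      have : (0 : ℂ) = d α * d β + S α * v α ^ 2 * d β + d α * S β * v β ^ 2 := by linear_combination g1
      exact_mod_cast this
    have k2 : (0 : ℤ) = 1 + (S α * v α + S β * v β) := by exact_mod_cast g2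
    have k3 : (0 : ℤ) = 1 + (S α * d α + S β * d β) := by exact_mod_cast g3
    have a1 := d0 α
    have b1 := d0 β
    rcases sq_eq_one_iff_of_ne_zero_aux (z2 α mα) with e1 | e1 <;>
      rcases sq_eq_one_iff_of_ne_zero_aux (z2 β (by simp [eZ])) with e2 | e2 <;> rw [e1, e2] at k1 k2 k3
    · omega
    · obtain e3 : v β = v α + 1 := by omega
      obtain e4 : (d β : ℤ) = d α + 1 := by omega
      rw [e3, e4] at k1
      exact ne (by nlinarith)
    · obtain e3 : v α = v β + 1 := by omega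
      obtain e4 : (d α : ℤ) = d β + 1 := by omega
      rw [e3, e4] at k1 ne
      exact ne (by nlinarith)
    · omega
  exact (key s hs).symm.trans (key t ht)

/-- no sum of `n` vectors from the list has the given value -/
noncomputable def nos (W : List (ℕ × ℕ × ℕ × ℕ)) : ℕ → ℕ → ℕ → ℕ → ℕ → Bool :=
  List.rec (fun n a b c d => !(Nat.beq n 0 && Nat.beq a 0 && Nat.beq b 0 && Nat.beq c 0 && Nat.beq d 0))
    (fun w _ ih n => Nat.rec (ih 0) (fun n ih' a b c d => and' (ih (n + 1) a b c d)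
      (imp' (Nat.ble w.1 a && Nat.ble w.2.1 b && Nat.ble w.2.2.1 c && Nat.ble w.2.2.2 d)
        (frc (a - w.1) fun a => frc (b - w.2.1) fun b => frc (c - w.2.2.1) fun c =>
          frc (d - w.2.2.2) fun d => ih' a b c d))) n) W

theorem nos_sound : ∀ (W : List (ℕ × ℕ × ℕ × ℕ)) (n : ℕ) (L : List (ℕ × ℕ × ℕ × ℕ)), (∀ x ∈ L, x ∈ W) →
    L.length = n → nos W n L.sum.1 L.sum.2.1 L.sum.2.2.1 L.sum.2.2.2 = true → False
  | [], _, L, h1, h2, h => by
    obtain rfl : L = [] := List.eq_nil_iff_forall_not_mem.2 fun x hx => by simpa using h1 x hx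
    subst h2
    exact absurd h (by decide)
  | w :: W, 0, L, h1, h2, h => by
    obtain rfl := List.length_eq_zero_iff.1 h2
    exact nos_sound W 0 [] (by simp) rfl h
  | w :: W, n + 1, L, h1, h2, h => by
    have h : and' (nos W (n + 1) L.sum.1 L.sum.2.1 L.sum.2.2.1 L.sum.2.2.2)
      (imp' (Nat.ble w.1 L.sum.1 && Nat.ble w.2.1 L.sum.2.1 && Nat.ble w.2.2.1 L.sum.2.2.1 &&
        Nat.ble w.2.2.2 L.sum.2.2.2) (frc (L.sum.1 - w.1) fun a => frc (L.sum.2.1 - w.2.1) fun b =>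
          frc (L.sum.2.2.1 - w.2.2.1) fun c => frc (L.sum.2.2.2 - w.2.2.2) fun d =>
            nos (w :: W) n a b c d)) = true := h
    simp only [and'_eq, imp'_eq, frc_eq, Bool.and_eq_true] at h
    by_cases e : w ∈ L
    · have p := List.perm_cons_erase e
      refine nos_sound (w :: W) n (L.erase w) (fun x hx => h1 x (List.mem_of_mem_erase hx))
        (by rw [List.length_erase_of_mem e, h2]; rfl) ?_
      have h := h.2
      rw [p.sum_eq, List.sum_cons] at h
      simpa [Bool.eq_false_iff] using h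
    · exact nos_sound W (n + 1) L (fun x hx => (List.mem_cons.1 (h1 x hx)).resolve_left
        fun d => e (d ▸ hx)) h2 h.1
termination_by W n => (W.length, n)

theorem kill [IsSimpleGroup G] (hG : ¬ IsMulCommutative G) {K : ℕ}
    (hK : Nat.card (ConjClasses G) = K + 1) {h1 e1 B1 h2 e2 B2 h3 e3 B3 g b : ℕ}
    {S1 S2 S3 : IrrCharacter G → ℤ} (T1 : Tst h1 e1 B1 S1) (T2 : Tst h2 e2 B2 S2)
    (T3 : Tst h3 e3 B3 S3) (hg : Nat.card G = g + 1) (hb : g < b * b ∧ B1 < 16 ∧ B2 < 16 ∧ B3 < 16)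
    (W : List (ℕ × ℕ × ℕ × ℕ)) (hW : ∀ d < b, d ∣ g + 1 → 2 ≤ d →
      ∀ s ∈ [-3, -2, -1, 0, 1, 2, (3 : ℤ)], s ^ 2 ≤ B1 ∧ (h1 : ℤ) ∣ d + e1 * s ∧ 0 ≤ d + e1 * s ∧ e1 * s < (h1 - 1) * d →
      ∀ t ∈ [-3, -2, -1, 0, 1, 2, (3 : ℤ)], t ^ 2 ≤ B2 ∧ (h2 : ℤ) ∣ d + e2 * t ∧ 0 ≤ d + e2 * t ∧ e2 * t < (h2 - 1) * d →
      ∀ u ∈ [-3, -2, -1, 0, 1, 2, (3 : ℤ)], u ^ 2 ≤ B3 ∧ (h3 : ℤ) ∣ d + e3 * u ∧ 0 ≤ d + e3 * u ∧ e3 * u < (h3 - 1) * d →
      (d ^ 2, s.natAbs ^ 2, t.natAbs ^ 2, u.natAbs ^ 2) ∈ W)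
    (hn : nos W K g B1 B2 B3 = true) : False := by
  classical
  choose d d0 hd using fun χ : IrrCharacter G => IsIrrCharacter.exists_one_eq χ.2
  have s0 : ∑ χ ∈ univ.erase triv, d χ ^ 2 = g := by
    have := sum_sq_degree (G := G)
    rw [← add_sum_erase _ _ (mem_univ triv), hg] at this
    simp only [hd, one_pow] at this
    have : 1 + ∑ χ ∈ univ.erase triv, d χ ^ 2 = g + 1 := by exact_mod_cast this
    omega
  have k1 : ∀ {h e B S}, @Tst G _ _ h e B S → ∑ χ ∈ univ.erase triv, (S χ).natAbs ^ 2 = B := fun T => by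
    have := T.2
    apply Nat.cast_injective (R := ℤ)
    push_cast
    simp only [sq_abs]
    convert this
  have k2 : ∀ {h e B S}, @Tst G _ _ h e B S → B < 16 → ∀ χ ≠ triv, S χ ^ 2 ≤ B ∧
      S χ ∈ [-3, -2, -1, 0, 1, 2, (3 : ℤ)] := fun {h e B S} T hB χ hχ => by
    have a1 := single_le_sum (s := univ.erase triv) (f := fun χ => S χ ^ 2) (fun _ _ => sq_nonneg _)
      (mem_erase.2 ⟨hχ, mem_univ _⟩)
    have a2 : S χ ^ 2 ≤ B := a1.trans_eq T.2
    have : -3 ≤ S χ ∧ S χ ≤ 3 := by constructor <;> nlinarith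
    refine ⟨a2, ?_⟩
    simp only [List.mem_cons, List.not_mem_nil, or_false]; omega
  refine nos_sound W K ((univ.erase triv).toList.map fun χ =>
    (d χ ^ 2, (S1 χ).natAbs ^ 2, (S2 χ).natAbs ^ 2, (S3 χ).natAbs ^ 2)) (fun x hx => ?_) ?_ ?_
  · obtain ⟨χ, hχ, rfl⟩ := List.mem_map.1 hx
    have hχ := mem_toList.1 hχ
    have ne := (mem_erase.1 hχ).1
    have a1 := single_le_sum (f := fun χ => d χ ^ 2) (fun _ _ => Nat.zero_le _) hχ
    refine hW _ (by nlinarith) (hg ▸ H3.NQ.deg_dvd χ.2 (hd χ)) ?_ _ (k2 T1 hb.2.1 χ ne).2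
      ⟨(k2 T1 hb.2.1 χ ne).1, T1.1 χ ne _ (hd χ)⟩ _ (k2 T2 hb.2.2.1 χ ne).2
      ⟨(k2 T2 hb.2.2.1 χ ne).1, T2.1 χ ne _ (hd χ)⟩ _ (k2 T3 hb.2.2.2 χ ne).2
      ⟨(k2 T3 hb.2.2.2 χ ne).1, T3.1 χ ne _ (hd χ)⟩
    have := H3.NQ.NP.deg_ne_one hG (χ := χ) ⟨χ.2, fun e => ne (Subtype.ext e)⟩
    rw [hd] at this
    have := d0 χ
    have : d χ ≠ 1 := by exact_mod_cast ‹(d χ : ℂ) ≠ 1›
    omega
  · rw [List.length_map, length_toList, card_erase_of_mem (mem_univ _), card_univ,
      ← Nat.card_eq_fintype_card, card_irr_eq_card_conjClasses, hK]; rfl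
  · rw [sum_map_toList]
    simpa only [Prod.fst_sum, Prod.snd_sum, s0, k1 T1, k1 T2, k1 T3] using hn

end Cfsg.Agent.H9.KC
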