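import Cfsg.Agent.H9.KC0

/-! Kernel computations for the class data sieve. -/

set_option autoImplicit false
set_option Elab.async false
set_option maxRecDepth 100000

namespace Cfsg.Agent.H9.KC

theorem p6_0 : part 6 1 0 = true := by decide +kernel

theorem p7_0 : part 7 1 0 = true := by decide +kernel

theorem p12_3 : part 12 11 3 = true := by decide +kernel

theorem p26_4 : part 26 5 4 = true := by decide +kernel

theorem p29_0 : part 29 1 0 = true := by decide +kernel

theorem p40_2 : part 40 5 2 = true := by decide +kernel

theorem p60_0 : part 60 1 0 = true := by decide +kernel

theorem p68_0 : part 68 1 0 = true := by decide +kernel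

theorem p92_0 : part 92 1 0 = true := by decide +kernel

theorem p95_0 : part 95 1 0 = true := by decide +kernel

theorem p100_0 : part 100 1 0 = true := by decide +kernel

theorem p124_0 : part 124 1 0 = true := by decide +kernel

theorem p129_0 : part 129 1 0 = true := by decide +kernel

theorem p132_0 : part 132 1 0 = true := by decide +kernel

theorem p143_0 : part 143 1 0 = true := by decide +kernel

theorem p148_0 : part 148 1 0 = true := by decide +kernel

end Cfsg.Agent.H9.KC
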