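import Cfsg.Agent.H9.KC0

/-! Kernel computations for the class data sieve. -/

set_option autoImplicit false
set_option Elab.async false
set_option maxRecDepth 100000

namespace Cfsg.Agent.H9.KC

theorem p0_0 : part 0 1 0 = true := by decide +kernel

theorem p4_0 : part 4 1 0 = true := by decide +kernel

theorem p11_0 : part 11 1 0 = true := by decide +kernel

theorem p12_5 : part 12 11 5 = true := by decide +kernel

theorem p16_1 : part 16 3 1 = true := by decide +kernel

theorem p22_0 : part 22 1 0 = true := by decide +kernel

theorem p26_2 : part 26 5 2 = true := by decide +kernel

theorem p31_2 : part 31 11 2 = true := by decide +kernel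

theorem p54_0 : part 54 5 0 = true := by decide +kernel

theorem p62_0 : part 62 1 0 = true := by decide +kernel

theorem p65_0 : part 65 1 0 = true := by decide +kernel

theorem p84_0 : part 84 1 0 = true := by decide +kernel

theorem p108_0 : part 108 1 0 = true := by decide +kernel

theorem p111_0 : part 111 1 0 = true := by decide +kernel

theorem p117_0 : part 117 1 0 = true := by decide +kernel

theorem p142_0 : part 142 1 0 = true := by decide +kernel

end Cfsg.Agent.H9.KC
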