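import Cfsg.Agent.H9.KC0

/-! Kernel computations for the class data sieve. -/

set_option autoImplicit false
set_option Elab.async false
set_option maxRecDepth 100000

namespace Cfsg.Agent.H9.KC

theorem p10_0 : part 10 1 0 = true := by decide +kernel

theorem p12_4 : part 12 11 4 = true := by decide +kernel

theorem p13_0 : part 13 1 0 = true := by decide +kernel

theorem p26_3 : part 26 5 3 = true := by decide +kernel

theorem p31_1 : part 31 11 1 = true := by decide +kernel

theorem p53_0 : part 53 1 0 = true := by decide +kernel

theorem p54_2 : part 54 5 2 = true := by decide +kernel

theorem p61_0 : part 61 1 0 = true := by decide +kernel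

theorem p102_0 : part 102 1 0 = true := by decide +kernel

theorem p106_0 : part 106 1 0 = true := by decide +kernel

theorem p107_0 : part 107 1 0 = true := by decide +kernel

theorem p114_0 : part 114 1 0 = true := by decide +kernel

theorem p118_0 : part 118 1 0 = true := by decide +kernel

theorem p131_0 : part 131 1 0 = true := by decide +kernel

theorem p134_0 : part 134 3 0 = true := by decide +kernel

theorem p139_0 : part 139 1 0 = true := by decide +kernel

end Cfsg.Agent.H9.KC
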