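import Cfsg.Agent.H9.KC0

/-! Kernel computations for the class data sieve. -/

set_option autoImplicit false
set_option Elab.async false
set_option maxRecDepth 100000

namespace Cfsg.Agent.H9.KC

theorem p5_0 : part 5 1 0 = true := by decide +kernel

theorem p31_0 : part 31 11 0 = true := by decide +kernel

theorem p31_10 : part 31 11 10 = true := by decide +kernel

theorem p38_0 : part 38 1 0 = true := by decide +kernel

theorem p40_3 : part 40 5 3 = true := by decide +kernel

theorem p42_0 : part 42 1 0 = true := by decide +kernel

theorem p43_0 : part 43 1 0 = true := by decide +kernel

theorem p54_4 : part 54 5 4 = true := by decide +kernel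

theorem p57_0 : part 57 1 0 = true := by decide +kernel

theorem p64_0 : part 64 1 0 = true := by decide +kernel

theorem p66_0 : part 66 1 0 = true := by decide +kernel

theorem p83_0 : part 83 1 0 = true := by decide +kernel

theorem p121_0 : part 121 1 0 = true := by decide +kernel

theorem p144_0 : part 144 1 0 = true := by decide +kernel

theorem p150_0 : part 150 1 0 = true := by decide +kernel

end Cfsg.Agent.H9.KC
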