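import Cfsg.Agent.H9.KC0

/-! Kernel computations for the class data sieve. -/

set_option autoImplicit false
set_option Elab.async false
set_option maxRecDepth 100000

namespace Cfsg.Agent.H9.KC

theorem p1_0 : part 1 1 0 = true := by decide +kernel

theorem p8_0 : part 8 1 0 = true := by decide +kernel

theorem p19_0 : part 19 1 0 = true := by decide +kernel

theorem p31_9 : part 31 11 9 = true := by decide +kernel

theorem p39_0 : part 39 1 0 = true := by decide +kernel

theorem p40_4 : part 40 5 4 = true := by decide +kernel

theorem p50_0 : part 50 1 0 = true := by decide +kernel

theorem p52_0 : part 52 1 0 = true := by decide +kernel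

theorem p54_3 : part 54 5 3 = true := by decide +kernel

theorem p59_0 : part 59 1 0 = true := by decide +kernel

theorem p73_0 : part 73 1 0 = true := by decide +kernel

theorem p91_0 : part 91 1 0 = true := by decide +kernel

theorem p110_0 : part 110 1 0 = true := by decide +kernel

theorem p125_0 : part 125 1 0 = true := by decide +kernel

theorem p128_0 : part 128 1 0 = true := by decide +kernel

theorem p134_1 : part 134 3 1 = true := by decide +kernel

end Cfsg.Agent.H9.KC
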