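import Cfsg.Agent.H9.KC0

/-! Kernel computations for the class data sieve. -/

set_option autoImplicit false
set_option Elab.async false
set_option maxRecDepth 100000

namespace Cfsg.Agent.H9.KC

theorem p31_8 : part 31 11 8 = true := by decide +kernel

theorem p33_0 : part 33 1 0 = true := by decide +kernel

theorem p40_0 : part 40 5 0 = true := by decide +kernel

theorem p45_0 : part 45 1 0 = true := by decide +kernel

theorem p47_0 : part 47 1 0 = true := by decide +kernel

theorem p54_1 : part 54 5 1 = true := by decide +kernel

theorem p70_0 : part 70 1 0 = true := by decide +kernel

theorem p76_0 : part 76 1 0 = true := by decide +kernel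

theorem p79_0 : part 79 1 0 = true := by decide +kernel

theorem p94_0 : part 94 1 0 = true := by decide +kernel

theorem p104_0 : part 104 1 0 = true := by decide +kernel

theorem p116_0 : part 116 1 0 = true := by decide +kernel

theorem p119_0 : part 119 1 0 = true := by decide +kernel

theorem p140_0 : part 140 1 0 = true := by decide +kernel

theorem p146_0 : part 146 1 0 = true := by decide +kernel

theorem p149_0 : part 149 1 0 = true := by decide +kernel

end Cfsg.Agent.H9.KC
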