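import Cfsg.Agent.H9.KC0

/-! Kernel computations for the class data sieve. -/

set_option autoImplicit false
set_option Elab.async false
set_option maxRecDepth 100000

namespace Cfsg.Agent.H9.KC

theorem p3_1 : part 3 3 1 = true := by decide +kernel

theorem p9_0 : part 9 1 0 = true := by decide +kernel

theorem p12_1 : part 12 11 1 = true := by decide +kernel

theorem p12_10 : part 12 11 10 = true := by decide +kernel

theorem p21_0 : part 21 1 0 = true := by decide +kernel

theorem p25_1 : part 25 3 1 = true := by decide +kernel

theorem p31_7 : part 31 11 7 = true := by decide +kernel

theorem p34_0 : part 34 1 0 = true := by decide +kernel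

theorem p46_0 : part 46 1 0 = true := by decide +kernel

theorem p63_0 : part 63 1 0 = true := by decide +kernel

theorem p86_0 : part 86 1 0 = true := by decide +kernel

theorem p87_0 : part 87 1 0 = true := by decide +kernel

theorem p99_0 : part 99 1 0 = true := by decide +kernel

theorem p105_0 : part 105 1 0 = true := by decide +kernel

theorem p112_0 : part 112 1 0 = true := by decide +kernel

theorem p113_0 : part 113 1 0 = true := by decide +kernel

end Cfsg.Agent.H9.KC
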