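import Cfsg.Agent.H9.KC0

/-! Kernel computations for the class data sieve. -/

set_option autoImplicit false
set_option Elab.async false
set_option maxRecDepth 100000

namespace Cfsg.Agent.H9.KC

theorem p3_0 : part 3 3 0 = true := by decide +kernel

theorem p12_0 : part 12 11 0 = true := by decide +kernel

theorem p12_9 : part 12 11 9 = true := by decide +kernel

theorem p18_0 : part 18 1 0 = true := by decide +kernel

theorem p23_0 : part 23 1 0 = true := by decide +kernel

theorem p25_0 : part 25 3 0 = true := by decide +kernel

theorem p27_0 : part 27 1 0 = true := by decide +kernel

theorem p31_6 : part 31 11 6 = true := by decide +kernel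

theorem p36_0 : part 36 1 0 = true := by decide +kernel

theorem p51_0 : part 51 1 0 = true := by decide +kernel

theorem p58_0 : part 58 1 0 = true := by decide +kernel

theorem p82_0 : part 82 1 0 = true := by decide +kernel

theorem p98_0 : part 98 1 0 = true := by decide +kernel

theorem p101_0 : part 101 1 0 = true := by decide +kernel

theorem p103_0 : part 103 1 0 = true := by decide +kernel

theorem p137_0 : part 137 1 0 = true := by decide +kernel

end Cfsg.Agent.H9.KC
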