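import Cfsg.Agent.H9.KC0

/-! Kernel computations for the class data sieve. -/

set_option autoImplicit false
set_option Elab.async false
set_option maxRecDepth 100000

namespace Cfsg.Agent.H9.KC

theorem p3_2 : part 3 3 2 = true := by decide +kernel

theorem p12_8 : part 12 11 8 = true := by decide +kernel

theorem p14_0 : part 14 1 0 = true := by decide +kernel

theorem p15_0 : part 15 1 0 = true := by decide +kernel

theorem p30_0 : part 30 1 0 = true := by decide +kernel

theorem p31_5 : part 31 11 5 = true := by decide +kernel

theorem p56_0 : part 56 1 0 = true := by decide +kernel

theorem p88_0 : part 88 1 0 = true := by decide +kernel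

theorem p90_0 : part 90 1 0 = true := by decide +kernel

theorem p96_0 : part 96 1 0 = true := by decide +kernel

theorem p97_0 : part 97 1 0 = true := by decide +kernel

theorem p123_0 : part 123 1 0 = true := by decide +kernel

theorem p127_0 : part 127 1 0 = true := by decide +kernel

theorem p130_0 : part 130 1 0 = true := by decide +kernel

theorem p135_0 : part 135 1 0 = true := by decide +kernel

theorem p141_0 : part 141 1 0 = true := by decide +kernel

end Cfsg.Agent.H9.KC
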