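import Cfsg.Agent.H9.KC0

/-! Kernel computations for the class data sieve. -/

set_option autoImplicit false
set_option Elab.async false
set_option maxRecDepth 100000

namespace Cfsg.Agent.H9.KC

theorem p12_7 : part 12 11 7 = true := by decide +kernel

theorem p16_2 : part 16 3 2 = true := by decide +kernel

theorem p17_0 : part 17 1 0 = true := by decide +kernel

theorem p24_0 : part 24 1 0 = true := by decide +kernel

theorem p26_1 : part 26 5 1 = true := by decide +kernel

theorem p31_4 : part 31 11 4 = true := by decide +kernel

theorem p35_0 : part 35 1 0 = true := by decide +kernel

theorem p69_0 : part 69 1 0 = true := by decide +kernel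

theorem p72_0 : part 72 1 0 = true := by decide +kernel

theorem p81_0 : part 81 1 0 = true := by decide +kernel

theorem p85_0 : part 85 1 0 = true := by decide +kernel

theorem p93_0 : part 93 1 0 = true := by decide +kernel

theorem p120_0 : part 120 1 0 = true := by decide +kernel

theorem p122_0 : part 122 1 0 = true := by decide +kernel

theorem p133_0 : part 133 1 0 = true := by decide +kernel

theorem p147_0 : part 147 1 0 = true := by decide +kernel

end Cfsg.Agent.H9.KC
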