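import Cfsg.Agent.H9.KC0

/-! Kernel computations for the class data sieve. -/

set_option autoImplicit false
set_option Elab.async false
set_option maxRecDepth 100000

namespace Cfsg.Agent.H9.KC

theorem p2_0 : part 2 1 0 = true := by decide +kernel

theorem p12_6 : part 12 11 6 = true := by decide +kernel

theorem p25_2 : part 25 3 2 = true := by decide +kernel

theorem p26_0 : part 26 5 0 = true := by decide +kernel

theorem p28_0 : part 28 1 0 = true := by decide +kernel

theorem p31_3 : part 31 11 3 = true := by decide +kernel

theorem p41_0 : part 41 1 0 = true := by decide +kernel

theorem p48_0 : part 48 1 0 = true := by decide +kernel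

theorem p67_0 : part 67 1 0 = true := by decide +kernel

theorem p74_0 : part 74 1 0 = true := by decide +kernel

theorem p75_0 : part 75 1 0 = true := by decide +kernel

theorem p77_0 : part 77 1 0 = true := by decide +kernel

theorem p78_0 : part 78 1 0 = true := by decide +kernel

theorem p89_0 : part 89 1 0 = true := by decide +kernel

theorem p109_0 : part 109 1 0 = true := by decide +kernel

theorem p134_2 : part 134 3 2 = true := by decide +kernel

end Cfsg.Agent.H9.KC
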