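import Cfsg.Agent.H9.KCp0
import Cfsg.Agent.H9.KCp1
import Cfsg.Agent.H9.KCp2
import Cfsg.Agent.H9.KCp3
import Cfsg.Agent.H9.KCp4
import Cfsg.Agent.H9.KCp5
import Cfsg.Agent.H9.KCp6
import Cfsg.Agent.H9.KCp7
import Cfsg.Agent.H9.KCp8
import Cfsg.Agent.H9.KCp9
import Cfsg.Agent.H9.KCp10
import Cfsg.Agent.H9.KCp11
import Cfsg.Agent.H9.KC2

/-! The result of the sieve for nine classes. -/

set_option autoImplicit false

namespace Cfsg.Agent.H9.KC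

attribute [local irreducible] part in
theorem all_parts (a b : ℕ) : ∃ R, part (a % 151) R (b % R) = true := by
  have h := Nat.mod_lt a (show 0 < 151 by norm_num)
  generalize a % 151 = r at h
  interval_cases r
  · exact ⟨1, by rw [Nat.mod_one]; exact p0_0⟩
  · exact ⟨1, by rw [Nat.mod_one]; exact p1_0⟩
  · exact ⟨1, by rw [Nat.mod_one]; exact p2_0⟩
  · refine ⟨3, ?_⟩
    have h := Nat.mod_lt b (show 0 < 3 by norm_num)
    generalize b % 3 = s at h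
    interval_cases s
    exacts [p3_0, p3_1, p3_2]
  · exact ⟨1, by rw [Nat.mod_one]; exact p4_0⟩
  · exact ⟨1, by rw [Nat.mod_one]; exact p5_0⟩
  · exact ⟨1, by rw [Nat.mod_one]; exact p6_0⟩
  · exact ⟨1, by rw [Nat.mod_one]; exact p7_0⟩
  · exact ⟨1, by rw [Nat.mod_one]; exact p8_0⟩
  · exact ⟨1, by rw [Nat.mod_one]; exact p9_0⟩
  · exact ⟨1, by rw [Nat.mod_one]; exact p10_0⟩
  · exact ⟨1, by rw [Nat.mod_one]; exact p11_0⟩
  · refine ⟨11, ?_⟩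
    have h := Nat.mod_lt b (show 0 < 11 by norm_num)
    generalize b % 11 = s at h
    interval_cases s
    exacts [p12_0, p12_1, p12_2, p12_3, p12_4, p12_5, p12_6, p12_7, p12_8, p12_9, p12_10]
  · exact ⟨1, by rw [Nat.mod_one]; exact p13_0⟩
  · exact ⟨1, by rw [Nat.mod_one]; exact p14_0⟩
  · exact ⟨1, by rw [Nat.mod_one]; exact p15_0⟩
  · refine ⟨3, ?_⟩
    have h := Nat.mod_lt b (show 0 < 3 by norm_num)
    generalize b % 3 = s at h
    interval_cases s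
    exacts [p16_0, p16_1, p16_2]
  · exact ⟨1, by rw [Nat.mod_one]; exact p17_0⟩
  · exact ⟨1, by rw [Nat.mod_one]; exact p18_0⟩
  · exact ⟨1, by rw [Nat.mod_one]; exact p19_0⟩
  · exact ⟨1, by rw [Nat.mod_one]; exact p20_0⟩
  · exact ⟨1, by rw [Nat.mod_one]; exact p21_0⟩
  · exact ⟨1, by rw [Nat.mod_one]; exact p22_0⟩
  · exact ⟨1, by rw [Nat.mod_one]; exact p23_0⟩
  · exact ⟨1, by rw [Nat.mod_one]; exact p24_0⟩
  · refine ⟨3, ?_⟩
    have h := Nat.mod_lt b (show 0 < 3 by norm_num)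
    generalize b % 3 = s at h
    interval_cases s
    exacts [p25_0, p25_1, p25_2]
  · refine ⟨5, ?_⟩
    have h := Nat.mod_lt b (show 0 < 5 by norm_num)
    generalize b % 5 = s at h
    interval_cases s
    exacts [p26_0, p26_1, p26_2, p26_3, p26_4]
  · exact ⟨1, by rw [Nat.mod_one]; exact p27_0⟩
  · exact ⟨1, by rw [Nat.mod_one]; exact p28_0⟩
  · exact ⟨1, by rw [Nat.mod_one]; exact p29_0⟩
  · exact ⟨1, by rw [Nat.mod_one]; exact p30_0⟩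
  · refine ⟨11, ?_⟩
    have h := Nat.mod_lt b (show 0 < 11 by norm_num)
    generalize b % 11 = s at h
    interval_cases s
    exacts [p31_0, p31_1, p31_2, p31_3, p31_4, p31_5, p31_6, p31_7, p31_8, p31_9, p31_10]
  · exact ⟨1, by rw [Nat.mod_one]; exact p32_0⟩
  · exact ⟨1, by rw [Nat.mod_one]; exact p33_0⟩
  · exact ⟨1, by rw [Nat.mod_one]; exact p34_0⟩
  · exact ⟨1, by rw [Nat.mod_one]; exact p35_0⟩
  · exact ⟨1, by rw [Nat.mod_one]; exact p36_0⟩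
  · exact ⟨1, by rw [Nat.mod_one]; exact p37_0⟩
  · exact ⟨1, by rw [Nat.mod_one]; exact p38_0⟩
  · exact ⟨1, by rw [Nat.mod_one]; exact p39_0⟩
  · refine ⟨5, ?_⟩
    have h := Nat.mod_lt b (show 0 < 5 by norm_num)
    generalize b % 5 = s at h
    interval_cases s
    exacts [p40_0, p40_1, p40_2, p40_3, p40_4]
  · exact ⟨1, by rw [Nat.mod_one]; exact p41_0⟩
  · exact ⟨1, by rw [Nat.mod_one]; exact p42_0⟩
  · exact ⟨1, by rw [Nat.mod_one]; exact p43_0⟩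
  · exact ⟨1, by rw [Nat.mod_one]; exact p44_0⟩
  · exact ⟨1, by rw [Nat.mod_one]; exact p45_0⟩
  · exact ⟨1, by rw [Nat.mod_one]; exact p46_0⟩
  · exact ⟨1, by rw [Nat.mod_one]; exact p47_0⟩
  · exact ⟨1, by rw [Nat.mod_one]; exact p48_0⟩
  · exact ⟨1, by rw [Nat.mod_one]; exact p49_0⟩
  · exact ⟨1, by rw [Nat.mod_one]; exact p50_0⟩
  · exact ⟨1, by rw [Nat.mod_one]; exact p51_0⟩
  · exact ⟨1, by rw [Nat.mod_one]; exact p52_0⟩
  · exact ⟨1, by rw [Nat.mod_one]; exact p53_0⟩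
  · refine ⟨5, ?_⟩
    have h := Nat.mod_lt b (show 0 < 5 by norm_num)
    generalize b % 5 = s at h
    interval_cases s
    exacts [p54_0, p54_1, p54_2, p54_3, p54_4]
  · exact ⟨1, by rw [Nat.mod_one]; exact p55_0⟩
  · exact ⟨1, by rw [Nat.mod_one]; exact p56_0⟩
  · exact ⟨1, by rw [Nat.mod_one]; exact p57_0⟩
  · exact ⟨1, by rw [Nat.mod_one]; exact p58_0⟩
  · exact ⟨1, by rw [Nat.mod_one]; exact p59_0⟩
  · exact ⟨1, by rw [Nat.mod_one]; exact p60_0⟩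
  · exact ⟨1, by rw [Nat.mod_one]; exact p61_0⟩
  · exact ⟨1, by rw [Nat.mod_one]; exact p62_0⟩
  · exact ⟨1, by rw [Nat.mod_one]; exact p63_0⟩
  · exact ⟨1, by rw [Nat.mod_one]; exact p64_0⟩
  · exact ⟨1, by rw [Nat.mod_one]; exact p65_0⟩
  · exact ⟨1, by rw [Nat.mod_one]; exact p66_0⟩
  · exact ⟨1, by rw [Nat.mod_one]; exact p67_0⟩
  · exact ⟨1, by rw [Nat.mod_one]; exact p68_0⟩
  · exact ⟨1, by rw [Nat.mod_one]; exact p69_0⟩
  · exact ⟨1, by rw [Nat.mod_one]; exact p70_0⟩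
  · exact ⟨1, by rw [Nat.mod_one]; exact p71_0⟩
  · exact ⟨1, by rw [Nat.mod_one]; exact p72_0⟩
  · exact ⟨1, by rw [Nat.mod_one]; exact p73_0⟩
  · exact ⟨1, by rw [Nat.mod_one]; exact p74_0⟩
  · exact ⟨1, by rw [Nat.mod_one]; exact p75_0⟩
  · exact ⟨1, by rw [Nat.mod_one]; exact p76_0⟩
  · exact ⟨1, by rw [Nat.mod_one]; exact p77_0⟩
  · exact ⟨1, by rw [Nat.mod_one]; exact p78_0⟩
  · exact ⟨1, by rw [Nat.mod_one]; exact p79_0⟩
  · exact ⟨1, by rw [Nat.mod_one]; exact p80_0⟩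
  · exact ⟨1, by rw [Nat.mod_one]; exact p81_0⟩
  · exact ⟨1, by rw [Nat.mod_one]; exact p82_0⟩
  · exact ⟨1, by rw [Nat.mod_one]; exact p83_0⟩
  · exact ⟨1, by rw [Nat.mod_one]; exact p84_0⟩
  · exact ⟨1, by rw [Nat.mod_one]; exact p85_0⟩
  · exact ⟨1, by rw [Nat.mod_one]; exact p86_0⟩
  · exact ⟨1, by rw [Nat.mod_one]; exact p87_0⟩
  · exact ⟨1, by rw [Nat.mod_one]; exact p88_0⟩
  · exact ⟨1, by rw [Nat.mod_one]; exact p89_0⟩
  · exact ⟨1, by rw [Nat.mod_one]; exact p90_0⟩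
  · exact ⟨1, by rw [Nat.mod_one]; exact p91_0⟩
  · exact ⟨1, by rw [Nat.mod_one]; exact p92_0⟩
  · exact ⟨1, by rw [Nat.mod_one]; exact p93_0⟩
  · exact ⟨1, by rw [Nat.mod_one]; exact p94_0⟩
  · exact ⟨1, by rw [Nat.mod_one]; exact p95_0⟩
  · exact ⟨1, by rw [Nat.mod_one]; exact p96_0⟩
  · exact ⟨1, by rw [Nat.mod_one]; exact p97_0⟩
  · exact ⟨1, by rw [Nat.mod_one]; exact p98_0⟩
  · exact ⟨1, by rw [Nat.mod_one]; exact p99_0⟩
  · exact ⟨1, by rw [Nat.mod_one]; exact p100_0⟩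
  · exact ⟨1, by rw [Nat.mod_one]; exact p101_0⟩
  · exact ⟨1, by rw [Nat.mod_one]; exact p102_0⟩
  · exact ⟨1, by rw [Nat.mod_one]; exact p103_0⟩
  · exact ⟨1, by rw [Nat.mod_one]; exact p104_0⟩
  · exact ⟨1, by rw [Nat.mod_one]; exact p105_0⟩
  · exact ⟨1, by rw [Nat.mod_one]; exact p106_0⟩
  · exact ⟨1, by rw [Nat.mod_one]; exact p107_0⟩
  · exact ⟨1, by rw [Nat.mod_one]; exact p108_0⟩
  · exact ⟨1, by rw [Nat.mod_one]; exact p109_0⟩
  · exact ⟨1, by rw [Nat.mod_one]; exact p110_0⟩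
  · exact ⟨1, by rw [Nat.mod_one]; exact p111_0⟩
  · exact ⟨1, by rw [Nat.mod_one]; exact p112_0⟩
  · exact ⟨1, by rw [Nat.mod_one]; exact p113_0⟩
  · exact ⟨1, by rw [Nat.mod_one]; exact p114_0⟩
  · exact ⟨1, by rw [Nat.mod_one]; exact p115_0⟩
  · exact ⟨1, by rw [Nat.mod_one]; exact p116_0⟩
  · exact ⟨1, by rw [Nat.mod_one]; exact p117_0⟩
  · exact ⟨1, by rw [Nat.mod_one]; exact p118_0⟩
  · exact ⟨1, by rw [Nat.mod_one]; exact p119_0⟩
  · exact ⟨1, by rw [Nat.mod_one]; exact p120_0⟩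
  · exact ⟨1, by rw [Nat.mod_one]; exact p121_0⟩
  · exact ⟨1, by rw [Nat.mod_one]; exact p122_0⟩
  · exact ⟨1, by rw [Nat.mod_one]; exact p123_0⟩
  · exact ⟨1, by rw [Nat.mod_one]; exact p124_0⟩
  · exact ⟨1, by rw [Nat.mod_one]; exact p125_0⟩
  · exact ⟨1, by rw [Nat.mod_one]; exact p126_0⟩
  · exact ⟨1, by rw [Nat.mod_one]; exact p127_0⟩
  · exact ⟨1, by rw [Nat.mod_one]; exact p128_0⟩
  · exact ⟨1, by rw [Nat.mod_one]; exact p129_0⟩
  · exact ⟨1, by rw [Nat.mod_one]; exact p130_0⟩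
  · exact ⟨1, by rw [Nat.mod_one]; exact p131_0⟩
  · exact ⟨1, by rw [Nat.mod_one]; exact p132_0⟩
  · exact ⟨1, by rw [Nat.mod_one]; exact p133_0⟩
  · refine ⟨3, ?_⟩
    have h := Nat.mod_lt b (show 0 < 3 by norm_num)
    generalize b % 3 = s at h
    interval_cases s
    exacts [p134_0, p134_1, p134_2]
  · exact ⟨1, by rw [Nat.mod_one]; exact p135_0⟩
  · exact ⟨1, by rw [Nat.mod_one]; exact p136_0⟩
  · exact ⟨1, by rw [Nat.mod_one]; exact p137_0⟩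
  · exact ⟨1, by rw [Nat.mod_one]; exact p138_0⟩
  · exact ⟨1, by rw [Nat.mod_one]; exact p139_0⟩
  · exact ⟨1, by rw [Nat.mod_one]; exact p140_0⟩
  · exact ⟨1, by rw [Nat.mod_one]; exact p141_0⟩
  · exact ⟨1, by rw [Nat.mod_one]; exact p142_0⟩
  · exact ⟨1, by rw [Nat.mod_one]; exact p143_0⟩
  · exact ⟨1, by rw [Nat.mod_one]; exact p144_0⟩
  · exact ⟨1, by rw [Nat.mod_one]; exact p145_0⟩
  · exact ⟨1, by rw [Nat.mod_one]; exact p146_0⟩
  · exact ⟨1, by rw [Nat.mod_one]; exact p147_0⟩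
  · exact ⟨1, by rw [Nat.mod_one]; exact p148_0⟩
  · exact ⟨1, by rw [Nat.mod_one]; exact p149_0⟩
  · exact ⟨1, by rw [Nat.mod_one]; exact p150_0⟩

theorem sieve9 {D : Dat} (V : D.Valid 8) :
    ∃ Q, Q.Perm ((List.range D.N).map D.qd) ∧ fin9 Q D.g = true := by
  obtain ⟨R, h⟩ := all_parts (D.hs (min 5 D.N)) (D.hs D.N)
  exact sk_sound V _ _ _ _ _ _ _ (Inv.init V) h

end Cfsg.Agent.H9.KC
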