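import Cfsg.Agent.H9.KC6
import Cfsg.Agent.H9.KCq

/-! The class data of simple groups with nine classes. -/

set_option autoImplicit false
set_option linter.unusedSectionVars false

namespace Cfsg.Agent.H9.KC

open Subgroup Finset

theorem FinOK.perm {Q Q' : List (ℕ × ℕ × ℕ × ℕ)} {g : ℕ} (p : Q.Perm Q') (h : FinOK Q' g) :
    FinOK Q g := by
  have : LeftCommutative fun (q : ℕ × ℕ × ℕ × ℕ) z => Nat.lcm q.2.2.2 z :=
    ⟨fun a b c => by rw [← Nat.lcm_assoc, Nat.lcm_comm a.2.2.2, Nat.lcm_assoc]⟩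
  unfold FinOK at h ⊢
  simp only [p.mem_iff, (p.map _).sum_eq, p.foldr_eq]
  exact h

theorem dvd_foldr {q : ℕ × ℕ × ℕ × ℕ} : ∀ {Q : List (ℕ × ℕ × ℕ × ℕ)}, q ∈ Q →
    q.2.2.2 ∣ Q.foldr (fun q z => Nat.lcm q.2.2.2 z) 1
  | r :: Q, h => by
    rcases List.mem_cons.1 h with rfl | h
    exacts [Nat.dvd_lcm_left _ _, (dvd_foldr h).trans (Nat.dvd_lcm_right _ _)]

variable {G : Type*} [Group G] [Fintype G]

theorem Reps.mem_qd (R : Reps G) {q : ℕ × ℕ × ℕ × ℕ} : q ∈ (List.range R.dat.N).map R.dat.qd ↔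
    ∃ i < R.N, (orderOf (R.x i), mz (R.x i), ez (R.x i), cz (R.x i)) = q := by
  simp only [List.mem_map, List.mem_range]; rfl

theorem Reps.sum_qd (R : Reps G) (f : ℕ × ℕ × ℕ × ℕ → ℕ) :
    (((List.range R.dat.N).map R.dat.qd).map f).sum =
      ∑ i ∈ range R.N, f (orderOf (R.x i), mz (R.x i), ez (R.x i), cz (R.x i)) := by
  rw [List.map_map]; rfl

theorem mz_two {x : G} (h : orderOf x = 2) : mz x = 1 :=
  Nat.eq_one_of_mul_eq_one_right (by simpa [h] using mz_mul_ez x)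

theorem Reps.finOK [IsSimpleGroup G] (hG : ¬ IsMulCommutative G) (R : Reps G) :
    FinOK ((List.range R.dat.N).map R.dat.qd) (Nat.card G) := by
  classical
  have hI : ∑ i ∈ range R.N, (if orderOf (R.x i) = 2 then Nat.card G / cz (R.x i) else 0) =
      #{t : G | orderOf t = 2} := by
    rw [card_filter, R.sum_eq _ fun x y h => by rw [h.ord], if_neg (by simp), zero_add]
    refine sum_congr rfl fun i _ => ?_
    split_ifs with h
    · rw [pz_eq, mz_two h, one_mul, mul_one]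
    · rfl
  have hJ : ∀ (P : G → Prop) [DecidablePred P], (∀ x y, Eqv x y → (P x ↔ P y)) → ¬ P 1 → ∑ z, (if P z then cz z else 0) =
      Nat.card G * ∑ i ∈ range R.N, if P (R.x i) then mz (R.x i) else 0 := fun P _ h1 h2 => by
    rw [R.sum_eq _ fun x y h => by simp only [h1 x y h, h.cz], if_neg h2, zero_add, mul_sum]
    refine sum_congr rfl fun i _ => ?_
    split_ifs with h
    · rw [pz_mul_cz, mul_comm]
    · rfl
  unfold FinOK
  simp only [R.sum_qd, R.mem_qd, pr_iff, hI]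
  refine ⟨?_, ?_, ?_, ?_, ?_, ?_, ?_, ?_⟩
  · rintro _ ⟨i, -, rfl⟩
    exact (cz_mul_ez (R.x i)).symm ▸ card_subgroup_dvd_card _
  · refine (Nat.dvd_iff_prime_pow_dvd_dvd _ _).2 fun p k hp h => ?_
    rcases k with _ | k
    · simp
    obtain ⟨z, -, oz, Q, -, h2, h3⟩ := cen_elt (⊤ : Subgroup G) hp (a := k) (by rwa [card_top])
    obtain ⟨i, hi, e⟩ := R.cover z (by rintro rfl; rw [orderOf_one] at oz; exact hp.one_lt.ne oz)
    exact ((h2 ▸ card_dvd_of_le h3).trans e.cz.symm.dvd).trans (dvd_foldr (R.mem_qd.2 ⟨i, hi, rfl⟩))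
  · rintro _ ⟨i, hi, rfl⟩ _ ⟨j, -, rfl⟩ hp
    exact burn hG (R.ne i hi) hp _
  · have := bf_upper (G := G)
    rw [hJ (fun z => orderOf z = 2 ∨ 2 ∣ ez z) (fun x y h => by rw [h.ord, h.ez]) (by simp [ez_one])] at this
    convert this
  · have := bf_lower (G := G)
    rw [hJ (fun z => (orderOf z).Prime ∧ cz z = orderOf z ∧ 2 ∣ ez z)
      (fun x y h => by rw [h.ord, h.ez, h.cz]) (by simp [Nat.not_prime_one]),
      R.sum_eq _ fun x y h => by rw [h.ord, h.cz], if_neg (by simp), zero_add] at this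
    refine le_trans (by convert le_rfl) (this.trans (sum_congr rfl fun i _ => ?_).le)
    split_ifs with h
    · rw [pz_eq, mz_two h, one_mul, pow_two]
    · rfl
  · rintro _ ⟨j, -, rfl⟩ hp hn
    dsimp only at hp hn ⊢
    generalize orderOf (R.x j) = p at hp hn
    have := Fact.mk hp
    obtain ⟨S⟩ : Nonempty (Sylow p G) := inferInstance
    have e : Nat.gcd (Nat.card G) (p ^ 64) = Nat.card S := by
      obtain ⟨k, -, hk⟩ := (Nat.dvd_prime_pow hp).1 (Nat.gcd_dvd_right (Nat.card G) (p ^ 64))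
      obtain ⟨w, hw⟩ := Nat.gcd_dvd_left (Nat.card G) (p ^ 64)
      rw [hk] at hw hn
      rw [hw, Nat.mul_div_cancel_left _ (pow_pos hp.pos k)] at hn
      have w0 : w ≠ 0 := by rintro rfl; simp at hn
      rw [hk, Sylow.card_eq_multiplicity, hw, Nat.factorization_mul (pow_pos hp.pos k).ne' w0,
        hp.factorization_pow, Finsupp.add_apply, Nat.factorization_eq_zero_of_not_dvd hn]
      simp
    have h := frob_p S
    generalize Nat.card S = n at e h
    rw [Nat.card_eq_fintype_card, Fintype.card_subtype, card_filter,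
      R.sum_eq _ fun x y h => by simp only [← orderOf_dvd_iff_pow_eq_one, h.ord], if_pos (by simp)] at h
    simp only [← orderOf_dvd_iff_pow_eq_one, pz_eq, mul_ite, mul_one, mul_zero] at h
    rwa [e]
  · rintro ⟨_, ⟨i, hi, rfl⟩, h⟩
    rw [← card_filter, card_le_one]
    intro a ha b hb
    simp only [mem_filter, mem_range] at ha hb
    exact R.inj _ ha.1 _ hb.1 (Eqv.of_isConj (three_inv hG (R.ne i hi) h ha.2 hb.2))
  · rintro ⟨_, ⟨i, hi, rfl⟩, h1, h2⟩ h
    obtain ⟨y, hy⟩ := ord_eight h1 h2 h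
    obtain ⟨j, hj, e⟩ := R.ex_ord y (by omega)
    exact ⟨_, ⟨j, hj, rfl⟩, e.trans hy⟩

/-- the class data of `G` is the list `Q` -/
structure Has (G : Type*) [Group G] (Q : List (ℕ × ℕ × ℕ × ℕ)) : Prop where
  ex : ∀ q ∈ Q, ∃ x : G, (orderOf x, mz x, ez x, cz x) = q
  mem : ∀ x : G, x ≠ 1 → (orderOf x, mz x, ez x, cz x) ∈ Q
  uniq : ∀ x y : G, x ≠ 1 → (orderOf x, mz x, ez x, cz x) = (orderOf y, mz y, ez y, cz y) →
    Q.count (orderOf x, mz x, ez x, cz x) ≤ 1 → Eqv x y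

theorem has9 [IsSimpleGroup G] (hG : ¬ IsMulCommutative G) (h : Nat.card (ConjClasses G) = 9) :
    ∃ Q, (Nat.card G, Q) ∈ acc9 ∧ Has G Q := by
  obtain ⟨R⟩ := exists_reps (G := G)
  obtain ⟨Q, p, hQ⟩ := sieve9 (R.valid hG h)
  have f : FinOK Q R.dat.g := (R.finOK hG).perm p
  have eq : ∀ x y : G, Eqv x y → (orderOf x, mz x, ez x, cz x) = (orderOf y, mz y, ez y, cz y) :=
    fun x y e => by rw [e.ord, e.mz, e.ez, e.cz]
  refine ⟨Q, show (R.dat.g, Q) ∈ acc9 by simpa [fin9, f] using hQ, fun q hq => ?_, fun x hx => ?_, fun x y hx e hc => ?_⟩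
  · obtain ⟨i, -, e⟩ := R.mem_qd.1 (p.mem_iff.1 hq)
    exact ⟨_, e⟩
  · obtain ⟨i, hi, e⟩ := R.cover x hx
    exact p.mem_iff.2 (R.mem_qd.2 ⟨i, hi, eq _ _ e⟩)
  · obtain ⟨i, hi, e1⟩ := R.cover x hx
    obtain ⟨j, hj, e2⟩ := R.cover y (by
      rintro rfl
      exact hx (by simpa using congrArg Prod.fst e))
    obtain rfl : i = j := by
      rw [p.count_eq, List.count_eq_countP, List.countP_map, List.countP_eq_length_filter,
        ← List.toFinset_card_of_nodup (List.nodup_range.filter _), card_le_one] at hc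
      refine hc i ?_ j ?_ <;> simp only [List.mem_toFinset, List.mem_filter, List.mem_range,
        Function.comp, beq_iff_eq]
      exacts [⟨hi, eq _ _ e1⟩, ⟨hj, (eq _ _ e2).trans e.symm⟩]
    exact e1.symm.trans e2

end Cfsg.Agent.H9.KC
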