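import Cfsg.Agent.H9.KC0

/-! Kernel computations for the class data sieve. -/

set_option autoImplicit false
set_option Elab.async false
set_option maxRecDepth 100000

namespace Cfsg.Agent.H9.KC

theorem p12_2 : part 12 11 2 = true := by decide +kernel

theorem p16_0 : part 16 3 0 = true := by decide +kernel

theorem p20_0 : part 20 1 0 = true := by decide +kernel

theorem p32_0 : part 32 1 0 = true := by decide +kernel

theorem p37_0 : part 37 1 0 = true := by decide +kernel

theorem p40_1 : part 40 5 1 = true := by decide +kernel

theorem p44_0 : part 44 1 0 = true := by decide +kernel

theorem p49_0 : part 49 1 0 = true := by decide +kernel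

theorem p55_0 : part 55 1 0 = true := by decide +kernel

theorem p71_0 : part 71 1 0 = true := by decide +kernel

theorem p80_0 : part 80 1 0 = true := by decide +kernel

theorem p115_0 : part 115 1 0 = true := by decide +kernel

theorem p126_0 : part 126 1 0 = true := by decide +kernel

theorem p136_0 : part 136 1 0 = true := by decide +kernel

theorem p138_0 : part 138 1 0 = true := by decide +kernel

theorem p145_0 : part 145 1 0 = true := by decide +kernel

end Cfsg.Agent.H9.KC
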