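import Cfsg.Agent.H9.KC0

/-! A sharper sieve on class data of finite simple groups with an element of mixed order. -/

set_option autoImplicit false

namespace Cfsg.Agent.H9.KC

/-- a packet of classes with partial pointers `(prime, target)` -/
structure Pd where
  ix : ℕ
  o : ℕ
  m : ℕ
  e : ℕ
  ps : List ℕ
  pq : List (ℕ × ℕ)

/-- strict evaluation with natural values -/
noncomputable def frn (n : ℕ) (k : ℕ → ℕ) : ℕ := Nat.rec (k 0) (fun m _ => k (Nat.succ m)) n

theorem frn_eq (n : ℕ) (k : ℕ → ℕ) : frn n k = k n := by cases n <;> rfl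

/-- strict evaluation of a boolean -/
noncomputable def frb (b : Bool) (k : Bool → Bool) : Bool := Bool.rec (k false) (k true) b

theorem frb_eq (b : Bool) (k : Bool → Bool) : frb b k = k b := by cases b <;> rfl

/-- negation -/
noncomputable def not' (a : Bool) : Bool := Bool.rec true false a

theorem not'_eq (a : Bool) : not' a = !a := by cases a <;> rfl

/-- least common multiple -/
def lc (a b : ℕ) : ℕ := Nat.div (Nat.mul a b) (Nat.gcd a b)

theorem lc_eq (a b : ℕ) : lc a b = Nat.lcm a b := rfl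

/-- `i` is a target -/
noncomputable def tg (i : ℕ) (l : List (ℕ × ℕ)) : Bool := an l fun t => Nat.beq t.2 i

/-- another packet of the same order -/
noncomputable def oth (x y : Pd) : Bool := and' (Nat.beq y.o x.o) (not' (Nat.beq y.ix x.ix))

/-- a sufficient condition for `16 ∣ g` -/
noncomputable def s16 (S : List Pd) : Bool :=
  an S fun x => or' (dv 8 x.o) (or' (and' (Nat.beq x.o 4) (Nat.beq x.e 1))
    (and' (or' (Nat.beq x.o 2) (Nat.beq x.o 4)) (an S (oth x))))

/-- the bound of a packet of prime power order -/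
noncomputable def own1 (S : List Pd) (s : Bool) (x : Pd) (p : ℕ) : ℕ :=
  frn (Bool.rec x.o (Nat.mul p x.o) (and' (not' (dv p x.e)) (or' (Nat.beq p 2) (or' (Nat.beq x.e 1)
    (an S fun y => or' (dv (Nat.mul p x.o) y.o) (oth x y)))))) fun l =>
  Bool.rec l (lc l 8) (and' s (Nat.beq p 2))

/-- the bound of a packet of mixed order -/
noncomputable def own2 (S : List Pd) (x : Pd) (l : List (ℕ × ℕ)) : ℕ :=
  List.rec x.o (fun t _ z => Bool.rec z (frn z fun z => lc z (Nat.mul t.1 t.1))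
    (and' (not' (dv (Nat.mul t.1 t.1) x.o)) (an S fun y => and' (oth x y) (tg t.2 y.pq)))) l

/-- the bound of a packet -/
noncomputable def own (S : List Pd) (s : Bool) (x : Pd) : ℕ :=
  List.rec x.o (fun p l _ => List.rec (own1 S s x p) (fun _ _ _ => own2 S x x.pq) l) x.ps

/-- the bound coming from a power -/
noncomputable def jn (z c ce e : ℕ) : ℕ := frn (lc z c) fun z => frn (Nat.div ce (Nat.gcd ce e)) (lc z)

/-- propagation along the pointers -/
noncomputable def prp (x : Pd) (l : ℕ) (B : List (Pd × ℕ)) : ℕ :=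
  List.rec l (fun y _ z => Bool.rec z (frn z fun z => frn (Nat.mul y.2 y.1.e) fun w => jn z y.2 w x.e)
    (tg x.ix y.1.pq)) B

/-- the scale of the fixed point arithmetic -/
abbrev FF : ℕ := 1099511627776

/-- all bounds, and the sum of the inverses -/
noncomputable def lbs (S : List Pd) (s : Bool) (k : List (Pd × ℕ) → ℕ → Bool) (T : List Pd) :
    List (Pd × ℕ) → ℕ → Bool :=
  List.rec k (fun x _ ih B z => frc (prp x (own S s x) B) fun l =>
    frc (Nat.add z (Nat.succ (Nat.div (Nat.mul x.m 1099511627776) l))) (ih ((x, l) :: B))) T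

/-- the packets that have to come before `x` -/
noncomputable def blk (x : Pd) (S : List Pd) : ℕ :=
  List.rec 0 (fun y _ z => Bool.rec z (Nat.lor (Nat.pow 2 y.ix) z) (and' (Nat.ble (Nat.succ x.ix) y.ix)
    (or' (tg x.ix y.pq) (and' (Nat.beq y.o x.o) (Nat.beq y.m x.m))))) S

/-- the initial list of unassigned packets -/
noncomputable def mkU (S : List Pd) (k : List (Pd × ℕ × ℕ) → ℕ → ℕ → Bool) (B : List (Pd × ℕ)) :
    List (Pd × ℕ × ℕ) → ℕ → ℕ → Bool :=
  List.rec k (fun y _ ih U L R => frc (blk y.1 S) fun b => frc (Nat.mul y.2 y.1.e) fun w =>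
    frc (lc L w) fun L => frc (Bool.rec R (Nat.add R y.1.m) (or' (Nat.beq y.1.o 2) (dv 2 y.1.e)))
    (ih ((y.1, b, y.2) :: U) L)) B

/-- the update of the unassigned packets -/
noncomputable def upd (x : Pd) (c ce : ℕ) (k : List (Pd × ℕ × ℕ) → ℕ → Bool) (U : List (Pd × ℕ × ℕ)) :
    List (Pd × ℕ × ℕ) → ℕ → Bool :=
  List.rec k (fun u _ ih W z => Bool.rec
    (frc (Bool.rec u.2.2 (jn u.2.2 c ce u.1.e) (tg u.1.ix x.pq)) fun l =>
      frc (Nat.add z (Nat.succ (Nat.div (Nat.mul u.1.m 1099511627776)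
        (Nat.mul (Nat.succ (Nat.div (Nat.pred c) l)) l)))) (ih ((u.1, u.2.1, l) :: W)))
    (ih W z) (Nat.beq u.1.ix x.ix)) U

/-- one candidate -/
noncomputable def cnd (R : ℕ) (rc : List (Pd × ℕ × ℕ) → ℕ → List (ℕ × ℕ × ℕ × ℕ) → ℕ → ℕ → ℕ → ℕ → ℕ → ℕ → ℕ → Bool)
    (U : List (Pd × ℕ × ℕ)) (am : ℕ) (A : List (ℕ × ℕ × ℕ × ℕ)) (n a b c0 i0 L gm : ℕ) (x : Pd) (bm c : ℕ) : Bool :=
  or' (Nat.ble (Nat.succ c) c0) (or' (and' (Nat.beq c c0) (Nat.ble i0 x.ix))
    (frc (Nat.mul a c) fun ac => or' (Nat.ble ac bm) (frc (Nat.mul c x.e) fun ce => frc (lc L ce) fun L2 =>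
      frc (Bool.rec gm (Nat.mul (Nat.succ (Nat.mul R c)) c) (and' (Nat.beq x.o 2) (Nat.beq gm 0))) fun g2 =>
      or' (and' (Nat.ble (Nat.succ g2) L2) (not' (Nat.beq g2 0)))
      (frc (Nat.sub ac bm) fun a1 => frc (Nat.mul b c) fun b1 =>
        upd x c ce (fun W z => or' (Nat.ble (Nat.succ (Nat.mul b1 z)) (Nat.mul a1 1099511627776))
          (frc (Nat.gcd a1 b1) fun d => frc (Nat.div a1 d) fun a2 => frc (Nat.div b1 d) fun b2 =>
          frc (Nat.sub n x.m) fun n2 => frc (Nat.lor am (Nat.pow 2 x.ix)) fun am2 =>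
          rc W am2 ((x.o, x.m, x.e, c) :: A) n2 a2 b2 c x.ix L2 g2))
          U [] (Nat.succ (Nat.div 1099511627776 L2))))))

/-- assignment of centralizer orders in increasing order -/
noncomputable def asg2 (fin : List (ℕ × ℕ × ℕ × ℕ) → ℕ → Bool) (R f : ℕ) :
    List (Pd × ℕ × ℕ) → ℕ → List (ℕ × ℕ × ℕ × ℕ) → ℕ → ℕ → ℕ → ℕ → ℕ → ℕ → ℕ → Bool :=
  Nat.rec (fun _ _ _ _ _ _ _ _ _ _ => false) (fun _ ih U am A n a b c0 i0 L gm => Bool.rec
    (frc (Nat.div (Nat.mul b (Nat.succ (Nat.mul 2 n))) (Nat.mul 2 a)) fun hi =>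
      al U fun u => imp' (Nat.beq (Nat.land u.2.1 am) u.2.1) (or' (Nat.ble (Nat.succ hi) u.2.2)
        (frc (Nat.mul b u.1.m) fun bm => smooth hi (cnd R ih U am A n a b c0 i0 L gm u.1 bm) u.1.ps u.2.2)))
    (imp' (dv a b) (fin A (Nat.div b a))) (Nat.beq n 0)) f

/-- at least two members -/
noncomputable def two (P : Pd → Bool) (S : List Pd) : Bool :=
  List.rec false (fun x l ih => Bool.rec ih (an l P) (P x)) S

/-- all choices of pointers -/
noncomputable def allPq (S : List Pd) (o m : ℕ) (ps : List ℕ) : (List (ℕ × ℕ) → Bool) → Bool :=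
  List.rec (fun k => k []) (fun r _ ih k => Bool.rec
    (al S fun x => imp' (and' (Nat.beq (Nat.mul x.o r) o) (dv x.m m)) (ih fun l => k ((r, x.ix) :: l)))
    (ih k) (and' (dv (Nat.mul r r) o) (two (fun x => and' (Nat.beq (Nat.mul x.o r) o) (dv x.m m)) S))) ps

/-- the automizer of an odd prime power is cyclic -/
noncomputable def okE (os : List (ℕ × ℕ × List ℕ)) (ps : List ℕ) (e : ℕ) : Bool :=
  List.rec true (fun p l _ => List.rec (or' (Nat.beq p 2) (an os fun d => Nat.beq d.1 e))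
    (fun _ _ _ => true) l) ps

/-- one step of the enumeration of skeletons -/
noncomputable def step2 (rc : List Pd → List (ℕ × ℕ × List ℕ) → ℕ → ℕ → ℕ → ℕ → Bool)
    (S : List Pd) (os : List (ℕ × ℕ × List ℕ)) (i n lo lm : ℕ) : Bool :=
  frc (Nat.succ i) fun j => and' (al os fun d => frc d.1 fun e => allM (fun m => frc (Nat.mul e m) fun ph =>
      frc (Nat.succ ph) fun q => or' (Nat.ble (Nat.succ q) lo) (or' (and' (Nat.beq q lo) (Nat.ble (Nat.succ m) lm))
      (imp' (pr q) (frc (Nat.sub n m) fun n2 => rc (⟨i, q, m, e, [q], []⟩ :: S)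
        (addO lo os q ph [q]) j n2 q m)))) n)
  (al os fun p => imp' (mem p.1 p.2.2) (al os fun d => frc (Nat.mul p.1 d.1) fun o =>
    or' (Nat.beq d.1 1) (or' (Nat.ble (Nat.succ o) lo) (imp' (al d.2.2 (Nat.ble p.1))
    (frc (Bool.rec (Nat.mul (Nat.pred p.1) d.2.1) (Nat.mul p.1 d.2.1) (mem p.1 d.2.2)) fun ph =>
    (fun ps : List ℕ => allM (fun m => or' (and' (Nat.beq o lo) (Nat.ble (Nat.succ m) lm)) (imp' (dv m ph)
      (frc (Nat.sub n m) fun n2 => frc (Nat.div ph m) fun e => imp' (okE os ps e) (allPq S o m ps fun pq =>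
        rc (⟨i, o, m, e, ps, pq⟩ :: S) (addO lo os o ph ps) j n2 o m)))) n)
      (Bool.rec (p.1 :: d.2.2) d.2.2 (mem p.1 d.2.2)))))))

/-- a hash value used to split the computation -/
noncomputable def hsh2 (S : List Pd) : ℕ :=
  List.rec 0 (fun x _ z => Nat.add (Nat.mul z 31) (Nat.add (Nat.mul x.o 9) x.m)) S

/-- only one prime -/
noncomputable def sgl (x : Pd) : Bool :=
  List.rec true (fun _ l _ => List.rec true (fun _ _ _ => false) l) x.ps

/-- one node of the enumeration of skeletons -/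
noncomputable def node (K : ℕ) (fin : List (ℕ × ℕ × ℕ × ℕ) → ℕ → Bool)
    (rc : List (ℕ × ℕ) → List Pd → List (ℕ × ℕ × List ℕ) → ℕ → ℕ → ℕ → ℕ → Bool)
    (S : List Pd) (os : List (ℕ × ℕ × List ℕ)) (i n lo lm : ℕ) (sp : List (ℕ × ℕ)) : Bool :=
  or' (and' (Nat.beq n 0) (or' (al S sgl) (or' (Nat.ble (os.countP fun d => mem d.1 d.2.2) 2)
    (an sp fun t => not' (Nat.beq (Nat.mod (hsh2 S) t.1) t.2)))))
  (frb (s16 S) fun s => lbs S s (fun B z => or' (Nat.ble z 1099511627775)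
    (Bool.rec (step2 (rc sp) S os i n lo lm)
      (mkU S (fun U L R => asg2 fin R (Nat.succ K) U 0 [] K 1 1 0 0 L 0) B [] (Bool.rec 1 16 s) 0)
      (Nat.beq n 0))) S [] (Nat.add (Nat.div (Nat.mul n 1099511627776) lo) 18325193798))

/-- enumeration of skeletons -/
noncomputable def sk2 (K : ℕ) (fin : List (ℕ × ℕ × ℕ × ℕ) → ℕ → Bool) (f : ℕ) :
    List (ℕ × ℕ) → List Pd → List (ℕ × ℕ × List ℕ) → ℕ → ℕ → ℕ → ℕ → Bool :=
  Nat.rec (fun _ _ _ _ _ _ _ => false) (fun _ ih sp S os i n lo lm =>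
    List.rec (node K fin ih S os i n lo lm [])
      (fun t l _ => imp' (Nat.beq (Nat.mod (hsh2 S) t.1) t.2) (node K fin ih S os i n lo lm l)) sp) f

end Cfsg.Agent.H9.KC
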