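import Cfsg.Agent.H9.KD0
import Cfsg.Agent.H9.KC2

/-! Soundness of the sharper sieve: lower bounds for the centralizer orders. -/

set_option autoImplicit false

namespace Cfsg.Agent.H9.KC

namespace Dat

variable (D : Dat)

/-- a bound for the number of real classes -/
def RR : ℕ := ∑ j ∈ Finset.range D.N, if D.O j = 2 ∨ 2 ∣ D.E j then D.M j else 0

/-- further conditions satisfied by the class data of a simple group -/
structure Valid2 (K : ℕ) : Prop extends D.Valid K where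
  sm2 : ∀ i < D.N, ∀ q, q.Prime → ¬ q ∣ D.O i → ∀ a, q ^ (a + 1) ∣ D.C i →
    ∃ y < D.N, D.O y = D.O i * q ∧ D.pw y q = i ∧ q ^ (a + 1) ∣ D.C y
  mm : ∀ i < D.N, ∀ r, r.Prime → r ∣ D.O i → r ≠ D.O i → D.M (D.pw i r) ∣ D.M i
  aut2 : ∀ i < D.N, ∀ p, p.Prime → p ≠ 2 → (∀ r, r.Prime → r ∣ D.O i → r = p) →
    D.E i = 1 ∨ ∃ j < D.N, D.O j = D.E i
  rel : ∀ i < D.N, ∀ j < D.N, i ≠ j → D.O j = D.O i → ∀ q, q.Prime → q ∣ D.O i → q ≠ D.O i →
    ¬ q * q ∣ D.O i → D.pw i q = D.pw j q → q * q ∣ D.C i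
  s2 : ∀ i < D.N, ∀ j < D.N, i ≠ j → D.O i = D.O j → D.O i = 2 ∨ D.O i = 4 → 16 ∣ D.g
  s4 : ∀ i < D.N, D.O i = 4 → D.E i = 1 → 16 ∣ D.g
  t4 : 16 ∣ D.g → ∀ i < D.N, (∀ r, r.Prime → r ∣ D.O i → r = 2) → 8 ∣ D.C i
  bf : ∀ i < D.N, D.O i = 2 → D.g ≤ (D.RR * D.C i + 1) * D.C i
  mixed : ∃ i < D.N, ∃ p q, p.Prime ∧ q.Prime ∧ p ≠ q ∧ p ∣ D.O i ∧ q ∣ D.O i

/-- a record agrees with the data -/
structure Rp (x : Pd) : Prop where
  lt : x.ix < D.N
  o : x.o = D.O x.ix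
  m : x.m = D.M x.ix
  e : x.e = D.E x.ix
  ps : ∀ p, p ∈ x.ps ↔ p.Prime ∧ p ∣ x.o
  p1 : ∀ t ∈ x.pq, t.1.Prime ∧ t.1 ∣ x.o ∧ t.1 ≠ x.o ∧ D.pw x.ix t.1 = t.2
  p2 : ∀ r, r.Prime → r ∣ x.o → r ≠ x.o → ¬ r * r ∣ x.o → (r, D.pw x.ix r) ∈ x.pq

end Dat

variable {D : Dat} {K : ℕ}

theorem tg_iff {i : ℕ} {l : List (ℕ × ℕ)} : tg i l = true ↔ ∃ t ∈ l, t.2 = i := by
  simp [tg, an_eq]

theorem oth_iff {x y : Pd} : oth x y = true ↔ y.o = x.o ∧ y.ix ≠ x.ix := by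
  simp [oth, and'_eq, not'_eq, beq_false]

theorem Dat.Valid.cg (V : D.Valid K) {i : ℕ} (hi : i < D.N) : D.C i ∣ D.g :=
  (dvd_mul_right _ _).trans (V.ce i hi)

theorem Dat.Valid.up (V : D.Valid K) {i j r : ℕ} (hj : j < D.N) (r1 : r.Prime) (r2 : r ∣ D.O j)
    (r3 : r ≠ D.O j) (e : D.pw j r = i) : i < j ∧ D.O i * r = D.O j ∧ D.C j ∣ D.C i ∧
      D.C j * D.E j ∣ D.C i * D.E i := by
  obtain ⟨p1, p2, p3, p4⟩ := V.ptr _ hj r r1 r2 r3
  rw [e] at p1 p2 p3 p4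
  refine ⟨?_, p2, p3, p4⟩
  have l1 : D.O i < D.O j := by
    have := V.one_lt _ p1
    have := r1.one_lt
    rw [← p2]; nlinarith
  by_contra l2
  rcases (not_lt.1 l2).eq_or_lt with e | e
  · rw [e] at l1; omega
  · have := V.sorted _ _ e p1; omega

theorem Dat.Rp.up (V : D.Valid K) {y : Pd} (hy : D.Rp y) {i : ℕ} (h : tg i y.pq = true) :
    i < y.ix ∧ D.C y.ix ∣ D.C i ∧ D.C y.ix * y.e ∣ D.C i * D.E i := by
  obtain ⟨t, ht, rfl⟩ := tg_iff.1 h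
  obtain ⟨r1, r2, r3, r4⟩ := hy.p1 t ht
  rw [hy.o] at r2 r3
  obtain ⟨h1, -, h2, h3⟩ := V.up hy.lt r1 r2 r3 r4
  exact ⟨h1, h2, hy.e ▸ h3⟩

theorem Dat.Valid.two_mul (V : D.Valid K) {i k : ℕ} (hi : i < D.N) (h : D.O i = 2 ^ k) :
    2 * D.O i ∣ D.g := by
  by_cases h1 : 2 * D.O i ∣ D.C i
  · exact h1.trans (V.cg hi)
  by_cases h2 : 2 ∣ D.E i
  · rw [mul_comm]; exact (mul_dvd_mul (V.oc i hi) h2).trans (V.ce i hi)
  have := V.one_lt i hi
  refine ((V.capv i hi 2 Nat.prime_two (fun r r1 r2 => (Nat.prime_dvd_prime_iff_eq r1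
    Nat.prime_two).1 (r1.dvd_of_dvd_pow (h ▸ r2))) h1 h2).1 ?_).elim
  rw [h] at this ⊢
  exact dvd_pow_self 2 fun e => by simp [e] at this

theorem Dat.Valid.sixty (V : D.Valid K) : 60 ≤ D.g := by
  obtain ⟨i, hi, j, hj, k, hk, p1, p2, p3, n1, n2, n3⟩ := V.three
  have key : ∀ a < D.N, (D.O a).Prime → (if D.O a = 2 then 4 else D.O a) ∣ D.g := fun a ha _ => by
    split_ifs with h
    · have := V.two_mul (k := 1) ha h; rwa [h] at this
    · exact (V.oc a ha).trans (V.cg ha)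
  have cp : ∀ p q : ℕ, p.Prime → q.Prime → p ≠ q →
      (if p = 2 then 4 else p).Coprime (if q = 2 then 4 else q) := fun p q hp hq h => by
    have := (Nat.coprime_primes hp hq).2 h
    split_ifs with h1 h2 h2
    · omega
    · subst h1; exact this.pow_left 2
    · subst h2; exact this.pow_right 2
    · exact this
  have h := Nat.le_of_dvd V.gpos (Nat.Coprime.mul_dvd_of_dvd_of_dvd
    (Nat.Coprime.mul_left (cp _ _ p1 p3 n2) (cp _ _ p2 p3 n3))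
    ((cp _ _ p1 p2 n1).mul_dvd_of_dvd_of_dvd (key i hi p1) (key j hj p2)) (key k hk p3))
  have ge : ∀ p : ℕ, p.Prime → 3 ≤ (if p = 2 then 4 else p) ∧
      ∀ q : ℕ, q.Prime → (if p = 2 then 4 else p) = (if q = 2 then 4 else q) → p = q := fun p hp => by
    have := hp.two_le
    have h4 : ∀ q : ℕ, q.Prime → q ≠ 4 := by rintro _ h rfl; exact absurd h (by decide)
    refine ⟨by split_ifs <;> omega, fun q hq => ?_⟩
    have := h4 p hp
    have := h4 q hq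
    split_ifs <;> omega
  have g1 := (ge _ p1).1
  have g2 := (ge _ p2).1
  have g3 := (ge _ p3).1
  have m1 := mt ((ge _ p1).2 _ p2) n1
  have m2 := mt ((ge _ p1).2 _ p3) n2
  have m3 := mt ((ge _ p2).2 _ p3) n3
  generalize (if D.O i = 2 then 4 else D.O i) = a at *
  generalize (if D.O j = 2 then 4 else D.O j) = b at *
  generalize (if D.O k = 2 then 4 else D.O k) = c at *
  have : ∀ a b c : ℕ, 3 ≤ a → a < b → b < c → 60 ≤ a * b * c := fun a b c h1 h2 h3 =>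
    Nat.mul_le_mul (Nat.mul_le_mul h1 (show 4 ≤ b by omega)) (show 5 ≤ c by omega)
  refine le_trans ?_ h
  rcases lt_or_gt_of_ne m1 with l1 | l1 <;> rcases lt_or_gt_of_ne m2 with l2 | l2 <;>
    rcases lt_or_gt_of_ne m3 with l3 | l3
  · exact this _ _ _ g1 l1 l3
  · rw [mul_right_comm]; exact this _ _ _ g1 l2 l3
  · omega
  · rw [mul_comm, ← mul_assoc]; exact this _ _ _ g3 l2 l1
  · rw [mul_comm a]; exact this _ _ _ g2 l1 l2
  · omega
  · rw [mul_assoc, mul_comm]; exact this _ _ _ g2 l3 l2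
  · rw [mul_comm a, mul_comm, ← mul_assoc]; exact this _ _ _ g3 l3 l1

theorem s16_sound (V : D.Valid2 K) {S : List Pd} (hS : ∀ x ∈ S, D.Rp x) (h : s16 S = true) :
    16 ∣ D.g := by
  simp only [s16, an_eq, or'_eq, and'_eq, List.any_eq_true, Bool.or_eq_true, Bool.and_eq_true, dv_iff,
    Nat.beq_eq, oth_iff] at h
  obtain ⟨x, hx, h⟩ := h
  have rx := hS x hx
  rw [rx.o, rx.e] at h
  rcases h with h | h | ⟨h, y, hy, h1, h2⟩
  · obtain ⟨j, hj, e⟩ := V.divs _ rx.lt 8 h (by norm_num)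
    have := V.toValid.two_mul (k := 3) hj e
    rwa [e] at this
  · exact V.s4 _ rx.lt h.1 h.2
  · exact V.s2 _ rx.lt _ (hS y hy).lt h2.symm (by rw [← h1, (hS y hy).o]) h

theorem own1_dvd (V : D.Valid2 K) {S : List Pd} (hS : ∀ x ∈ S, D.Rp x) {s : Bool}
    (hs : s = true → 16 ∣ D.g) {x : Pd} (rx : D.Rp x) {p : ℕ} (hp : x.ps = [p]) :
    own1 S s x p ∣ D.C x.ix := by
  have h1 := rx.ps
  rw [hp, rx.o] at h1
  have pp := ((h1 p).1 (by simp)).1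
  have h2 : ∀ r, r.Prime → r ∣ D.O x.ix → r = p := fun r r1 r2 => by simpa using (h1 r).2 ⟨r1, r2⟩
  unfold own1
  rw [frn_eq]
  generalize hl : Bool.rec (motive := fun _ => ℕ) x.o (Nat.mul p x.o) _ = l
  have hl : l ∣ D.C x.ix := by
    rw [← hl]
    generalize hb : and' _ _ = b
    cases b
    · exact rx.o ▸ V.oc _ rx.lt
    simp only [an_eq, or'_eq, and'_eq, not'_eq, List.any_eq_true, Bool.or_eq_true, Bool.and_eq_true,
      dv_iff, Nat.beq_eq, oth_iff, Bool.not_eq_true', Bool.eq_false_iff, Ne, rx.o, rx.e] at hb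
    by_contra h3
    obtain ⟨c1, c2, c3, c4⟩ := V.capv _ rx.lt p pp h2 (rx.o ▸ h3) hb.1
    rcases hb.2 with rfl | h | ⟨y, hy, h | h⟩
    · exact c1 ((h1 2).1 (by simp)).2
    · exact c2 h
    · exact c3 (h.trans ((hS y hy).o ▸ (V.oc _ (hS y hy).lt).trans (V.toValid.cg (hS y hy).lt)))
    · exact h.2 (c4 _ (hS y hy).lt ((hS y hy).o ▸ h.1))
  generalize hb : and' s _ = b
  cases b
  · exact hl
  simp only [and'_eq, Bool.and_eq_true, Nat.beq_eq] at hb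
  exact Nat.lcm_dvd hl (V.t4 (hs hb.1) _ rx.lt (hb.2 ▸ h2))

theorem own2_dvd (V : D.Valid2 K) {S : List Pd} (hS : ∀ x ∈ S, D.Rp x) {x : Pd} (rx : D.Rp x) :
    ∀ l : List (ℕ × ℕ), (∀ t ∈ l, t ∈ x.pq) → own2 S x l ∣ D.C x.ix
  | [], _ => show x.o ∣ _ from rx.o ▸ V.oc _ rx.lt
  | t :: l, h => by
    have ih := own2_dvd V hS rx l fun s hs => h s (List.mem_cons_of_mem _ hs)
    change Bool.rec (motive := fun _ => ℕ) (own2 S x l) (frn (own2 S x l) fun z => lc z (t.1 * t.1)) _ ∣ _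
    generalize hb : and' _ _ = b
    cases b
    · exact ih
    simp only [an_eq, and'_eq, not'_eq, List.any_eq_true, Bool.and_eq_true,
      dv_iff, oth_iff, Bool.not_eq_true', Bool.eq_false_iff, Ne, tg_iff] at hb
    obtain ⟨h1, y, hy, ⟨h2, h3⟩, s, hs, e⟩ := hb
    have ry := hS y hy
    obtain ⟨r1, r2, r3, r4⟩ := rx.p1 t (h t (by simp))
    obtain ⟨s1, s2, s3, s4⟩ := ry.p1 s hs
    rw [rx.o] at r2 r3 h1
    rw [ry.o] at s2 s3
    rw [rx.o, ry.o] at h2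
    have u1 := (V.toValid.up rx.lt r1 r2 r3 r4).2.1
    have u2 := (V.toValid.up ry.lt s1 s2 s3 s4).2.1
    have e1 : s.1 = t.1 := Nat.eq_of_mul_eq_mul_left (Nat.pos_of_mul_pos_right (by
      rw [u1]; exact (V.one_lt _ rx.lt).le)) (by rw [u1, ← e, u2, h2])
    rw [frn_eq]
    exact Nat.lcm_dvd ih (V.rel _ rx.lt _ ry.lt (Ne.symm h3) h2 _ r1 r2 r3 h1 (by rw [r4, ← e1, s4, e]))

theorem own_dvd (V : D.Valid2 K) {S : List Pd} (hS : ∀ x ∈ S, D.Rp x) {s : Bool}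
    (hs : s = true → 16 ∣ D.g) {x : Pd} (rx : D.Rp x) : own S s x ∣ D.C x.ix := by
  unfold own
  rcases hp : x.ps with _ | ⟨p, _ | ⟨q, l⟩⟩
  exacts [rx.o ▸ V.oc _ rx.lt, own1_dvd V hS hs rx hp, own2_dvd V hS rx _ fun _ h => h]

theorem jn_eq (z c ce e : ℕ) : jn z c ce e = Nat.lcm (Nat.lcm z c) (ce / Nat.gcd ce e) := by
  unfold jn; rw [frn_eq, frn_eq]; rfl

theorem jn_dvd {z c ce e t : ℕ} (he : 0 < e) (h1 : z ∣ t) (h2 : c ∣ t) (h3 : ce ∣ t * e) :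
    jn z c ce e ∣ t := by
  rw [jn_eq]
  refine Nat.lcm_dvd (Nat.lcm_dvd h1 h2) ?_
  have g0 := Nat.gcd_pos_of_pos_right ce he
  refine (Nat.coprime_div_gcd_div_gcd g0).dvd_of_dvd_mul_right ?_
  refine Nat.dvd_of_mul_dvd_mul_right g0 ?_
  rwa [Nat.div_mul_cancel (Nat.gcd_dvd_left _ _), mul_assoc, Nat.div_mul_cancel (Nat.gcd_dvd_right _ _)]

theorem Dat.Valid.epos (V : D.Valid K) {i : ℕ} (hi : i < D.N) : 0 < D.E i :=
  Nat.pos_of_mul_pos_left (by rw [V.me i hi]; exact Nat.totient_pos.2 (by have := V.one_lt i hi; omega))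

theorem prp_dvd (V : D.Valid K) {x : Pd} (rx : D.Rp x) {l : ℕ} (hl : l ∣ D.C x.ix) :
    ∀ B : List (Pd × ℕ), (∀ y ∈ B, D.Rp y.1 ∧ y.2 ∣ D.C y.1.ix) → prp x l B ∣ D.C x.ix
  | [], _ => hl
  | y :: B, h => by
    have ih := prp_dvd V rx hl B fun s hs => h s (List.mem_cons_of_mem _ hs)
    change Bool.rec (motive := fun _ => ℕ) (prp x l B) (frn (prp x l B) fun z =>
      frn (y.2 * y.1.e) fun w => jn z y.2 w x.e) _ ∣ _
    cases hb : tg x.ix y.1.pq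
    · exact ih
    obtain ⟨h1, h2⟩ := h y (by simp)
    obtain ⟨-, u1, u2⟩ := h1.up V hb
    rw [frn_eq, frn_eq, rx.e]
    exact jn_dvd (V.epos rx.lt) ih (h2.trans u1) ((mul_dvd_mul_right h2 _).trans u2)

theorem fix_le {m l c : ℕ} (hl : 0 < l) (h : l ≤ c) :
    (m : ℚ) / c * 1099511627776 ≤ (m * 1099511627776 / l + 1 : ℕ) := by
  have h1 : ((m * 1099511627776 : ℕ) : ℚ) ≤ (m * 1099511627776 / l + 1 : ℕ) * l := by
    exact_mod_cast (Nat.lt_div_mul_add hl).le.trans (Nat.succ_mul _ _).ge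
  have lq : (0 : ℚ) < l := by exact_mod_cast hl
  have : (l : ℚ) ≤ c := by exact_mod_cast h
  rw [div_mul_eq_mul_div, div_le_iff₀ (by linarith)]
  push_cast at h1 ⊢
  refine h1.trans ?_
  gcongr

theorem lbs_sound (V : D.Valid2 K) {S : List Pd} (hS : ∀ x ∈ S, D.Rp x) {s : Bool}
    (hs : s = true → 16 ∣ D.g) {k : List (Pd × ℕ) → ℕ → Bool} : ∀ (T : List Pd) (B : List (Pd × ℕ)) (z : ℕ),
    (∀ x ∈ T, D.Rp x) → (∀ y ∈ B, D.Rp y.1 ∧ y.2 ∣ D.C y.1.ix) → lbs S s k T B z = true →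
    ∃ B' z', k B' z' = true ∧ B'.map Prod.fst = T.reverse ++ B.map Prod.fst ∧
      (∀ y ∈ B', D.Rp y.1 ∧ y.2 ∣ D.C y.1.ix) ∧
      z + (T.map fun x => (x.m : ℚ) / D.C x.ix).sum * 1099511627776 ≤ z'
  | [], B, z, _, hB, h => ⟨B, z, h, by simp, hB, by simp⟩
  | x :: T, B, z, hT, hB, h => by
    have rx := hT x (by simp)
    have hl := prp_dvd V.toValid rx (own_dvd V hS hs rx) B hB
    have h : frc (prp x (own S s x) B) (fun l => frc (z + (x.m * 1099511627776 / l + 1))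
      (lbs S s k T ((x, l) :: B))) = true := h
    rw [frc_eq, frc_eq] at h
    obtain ⟨B', z', h1, h2, h3, h4⟩ := lbs_sound V hS hs T _ _
      (fun y hy => hT y (List.mem_cons_of_mem _ hy)) (fun y hy => by
        rcases List.mem_cons.1 hy with rfl | hy
        exacts [⟨rx, hl⟩, hB y hy]) h
    refine ⟨B', z', h1, by simp [h2], h3, le_trans ?_ h4⟩
    have c0 := (V.two _ rx.lt).1
    have := fix_le (m := x.m) (Nat.pos_of_dvd_of_pos hl c0) (Nat.le_of_dvd c0 hl)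
    rw [List.map_cons, List.sum_cons, add_mul, Nat.cast_add]
    linarith

theorem blk_spec (V : D.Valid K) {x : Pd} (rx : D.Rp x) {j : ℕ} : ∀ S : List Pd, (∀ y ∈ S, D.Rp y) →
    (blk x S).testBit j = true → j < D.N ∧ x.ix < j ∧ D.C j ≤ D.C x.ix
  | [], _, h => by simp [blk] at h
  | y :: S, hS, h => by
    have ih := blk_spec V rx (j := j) S fun s hs => hS s (List.mem_cons_of_mem _ hs)
    change (Bool.rec (motive := fun _ => ℕ) (blk x S) (2 ^ y.ix ||| blk x S) _).testBit j = true at h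
    generalize hb : and' _ _ = b at h
    cases b
    · exact ih h
    simp only [or'_eq, and'_eq, Bool.or_eq_true, Bool.and_eq_true, Nat.beq_eq, Nat.ble_eq] at hb
    simp only [Nat.testBit_or, Bool.or_eq_true, Nat.testBit_two_pow, decide_eq_true_eq] at h
    have ry := hS y (by simp)
    rcases h with rfl | h
    · refine ⟨ry.lt, hb.1, ?_⟩
      rcases hb.2 with h | ⟨h1, h2⟩
      · exact Nat.le_of_dvd (V.two _ rx.lt).1 (ry.up V h).2.1
      · rw [ry.o, rx.o] at h1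
        rw [ry.m, rx.m] at h2
        have := V.sorted _ _ hb.1 ry.lt
        omega
    · exact ih h

theorem mkU_sound (V : D.Valid K) {S : List Pd} {k : List (Pd × ℕ × ℕ) → ℕ → ℕ → Bool} :
    ∀ (B : List (Pd × ℕ)) (U : List (Pd × ℕ × ℕ)) (L R : ℕ), (∀ y ∈ B, D.Rp y.1 ∧ y.2 ∣ D.C y.1.ix) →
    L ∣ D.g → mkU S k B U L R = true → ∃ L', L' ∣ D.g ∧
      k ((B.map fun y => (y.1, blk y.1 S, y.2)).reverse ++ U) L'
        (R + (B.map fun y => if y.1.o = 2 ∨ 2 ∣ y.1.e then y.1.m else 0).sum) = true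
  | [], U, L, R, _, hL, h => ⟨L, hL, h⟩
  | y :: B, U, L, R, hB, hL, h => by
    have h : frc (blk y.1 S) (fun b => frc (y.2 * y.1.e) fun w => frc (lc L w) fun L =>
      frc (Bool.rec R (R + y.1.m) (or' (Nat.beq y.1.o 2) (dv 2 y.1.e)))
        (mkU S k B ((y.1, b, y.2) :: U) L)) = true := h
    simp only [frc_eq] at h
    obtain ⟨h1, h2⟩ := hB y (by simp)
    obtain ⟨L', h3, h4⟩ := mkU_sound V B _ _ _ (fun s hs => hB s (List.mem_cons_of_mem _ hs))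
      (Nat.lcm_dvd hL ((mul_dvd_mul_right h2 _).trans (h1.e ▸ V.ce _ h1.lt))) h
    refine ⟨L', h3, ?_⟩
    rw [← h4, List.map_cons, List.map_cons, List.sum_cons, List.reverse_cons, List.append_assoc,
      ← add_assoc]
    congr 2
    cases hb : or' (Nat.beq y.1.o 2) (dv 2 y.1.e)
    · rw [if_neg (by simpa [or'_eq, beq_false, Bool.eq_false_iff, dv_iff] using hb)]; rfl
    · rw [if_pos (by simpa [or'_eq, dv_iff] using hb)]

end Cfsg.Agent.H9.KC
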