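import Cfsg.Agent.H9.KD2

/-! Soundness of the sharper sieve: assignment of centralizer orders. -/

set_option autoImplicit false

namespace Cfsg.Agent.H9.KC

variable {D : Dat} {K : ℕ}

theorem exists_min' {α : Type} (f g : α → ℕ) : ∀ U : List α, U ≠ [] →
    ∃ x ∈ U, ∀ y ∈ U, f x < f y ∨ (f x = f y ∧ g y ≤ g x)
  | [], h => absurd rfl h
  | [x], _ => ⟨x, by simp, by simp⟩
  | x :: z :: U, _ => by
    obtain ⟨w, hw, h⟩ := exists_min' f g (z :: U) (by simp)
    by_cases e : f x < f w ∨ (f x = f w ∧ g w ≤ g x)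
    · refine ⟨x, by simp, fun y hy => ?_⟩
      rcases List.mem_cons.1 hy with rfl | hy
      · simp
      · have := h y hy; omega
    · refine ⟨w, List.mem_cons_of_mem _ hw, fun y hy => ?_⟩
      rcases List.mem_cons.1 hy with rfl | hy
      · omega
      · exact h y hy

theorem perm_filter {α : Type} (g : α → ℕ) {U : List α} (hn : (U.map g).Nodup) {x : α} (hx : x ∈ U) :
    U.Perm (x :: U.filter fun y => !Nat.beq (g y) (g x)) := by
  induction U with
  | nil => simp at hx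
  | cons z U ih =>
    rw [List.map_cons, List.nodup_cons] at hn
    rcases List.mem_cons.1 hx with rfl | hx
    · rw [List.filter_cons_of_neg (by simp), List.filter_eq_self.2 fun y hy => by
        rw [beq_false.2 fun e => hn.1 (List.mem_map.2 ⟨y, hy, e⟩)]; rfl]
    · have : g z ≠ g x := fun e => hn.1 (List.mem_map.2 ⟨x, hx, e.symm⟩)
      rw [List.filter_cons_of_pos (by rw [beq_false.2 this]; rfl)]
      exact ((ih hn.2 hx).cons z).trans (List.Perm.swap _ _ _)

/-- the updated record -/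
noncomputable def nw (x : Pd) (c ce : ℕ) (u : Pd × ℕ × ℕ) : Pd × ℕ × ℕ :=
  (u.1, u.2.1, bif tg u.1.ix x.pq then jn u.2.2 c ce u.1.e else u.2.2)

/-- the bound for the contribution of a record -/
def tm (c : ℕ) (u : Pd × ℕ × ℕ) : ℕ := u.1.m * 1099511627776 / (((c - 1) / u.2.2 + 1) * u.2.2) + 1

theorem upd_eq (x : Pd) (c ce : ℕ) (k : List (Pd × ℕ × ℕ) → ℕ → Bool) : ∀ (U W : List (Pd × ℕ × ℕ)) (z : ℕ),
    upd x c ce k U W z = k (((U.filter fun u => !Nat.beq u.1.ix x.ix).map (nw x c ce)).reverse ++ W)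
      (z + (((U.filter fun u => !Nat.beq u.1.ix x.ix).map (nw x c ce)).map (tm c)).sum)
  | [], W, z => rfl
  | u :: U, W, z => by
    change Bool.rec (motive := fun _ => Bool) (frc (Bool.rec u.2.2 (jn u.2.2 c ce u.1.e) (tg u.1.ix x.pq)) fun l =>
      frc (z + (u.1.m * 1099511627776 / (((c - 1) / l + 1) * l) + 1)) (upd x c ce k U ((u.1, u.2.1, l) :: W)))
      (upd x c ce k U W z) (Nat.beq u.1.ix x.ix) = _
    cases h : Nat.beq u.1.ix x.ix
    · rw [List.filter_cons_of_pos (by rw [h]; rfl), frc_eq, frc_eq, upd_eq, List.map_cons, List.map_cons,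
        List.reverse_cons, List.append_assoc, List.sum_cons, add_assoc]
      unfold nw tm
      cases tg u.1.ix x.pq <;> rfl
    · rw [List.filter_cons_of_neg (by rw [h]; simp)]
      exact upd_eq x c ce k U W z

/-- the invariant of an unassigned packet -/
structure UOK (D : Dat) (As : List ℕ) (u : Pd × ℕ × ℕ) : Prop where
  rp : D.Rp u.1
  dv : u.2.2 ∣ D.C u.1.ix
  bk : ∀ j, u.2.1.testBit j = true → j < D.N ∧ u.1.ix < j ∧ D.C j ≤ D.C u.1.ix
  pt : ∀ j ∈ As, ∀ q, q.Prime → ¬ q ∣ D.O u.1.ix → D.O j = D.O u.1.ix * q → D.pw j q = u.1.ix →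
    D.C j ∣ u.2.2

theorem UOK.nw (V : D.Valid K) {As : List ℕ} {u : Pd × ℕ × ℕ} (h : UOK D As u) {x : Pd} (rx : D.Rp x) :
    UOK D (x.ix :: As) (nw x (D.C x.ix) (D.C x.ix * x.e) u) := by
  have h1 : u.2.2 ∣ (KC.nw x (D.C x.ix) (D.C x.ix * x.e) u).2.2 := by
    unfold KC.nw
    cases tg u.1.ix x.pq
    exacts [dvd_rfl, by rw [cond_true, jn_eq]; exact (Nat.dvd_lcm_left _ _).trans (Nat.dvd_lcm_left _ _)]
  refine ⟨h.rp, ?_, h.bk, fun j hj q q1 q2 q3 q4 => ?_⟩
  · unfold KC.nw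
    cases e : tg u.1.ix x.pq
    · exact h.dv
    · obtain ⟨-, u1, u2⟩ := rx.up V e
      rw [cond_true, h.rp.e]
      exact jn_dvd (V.epos h.rp.lt) h.dv u1 u2
  rcases List.mem_cons.1 hj with rfl | hj
  · change D.O x.ix = D.O u.1.ix * q at q3
    change _ = u.1.ix at q4
    have o1 := V.one_lt _ h.rp.lt
    have := rx.p2 q q1 (rx.o ▸ q3 ▸ dvd_mul_left _ _) (by
      rw [rx.o, q3]; have := q1.one_lt; nlinarith) (by
      rw [rx.o, q3]; exact fun d => q2 (Nat.dvd_of_mul_dvd_mul_right q1.pos d))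
    unfold KC.nw
    rw [tg_iff.2 ⟨_, this, q4⟩, cond_true, jn_eq]
    exact (Nat.dvd_lcm_right _ _).trans (Nat.dvd_lcm_left _ _)
  · exact (h.pt j hj q q1 q2 q3 q4).trans h1

theorem tm_le {c t : ℕ} {u : Pd × ℕ × ℕ} (hc : 0 < c) (h1 : c ≤ t) (h2 : u.2.2 ∣ t) :
    (u.1.m : ℚ) / t * 1099511627776 ≤ tm c u := by
  have l0 := Nat.pos_of_dvd_of_pos h2 (by omega)
  obtain ⟨w, rfl⟩ := h2
  refine fix_le (Nat.mul_pos (Nat.succ_pos _) l0) ?_
  rw [mul_comm]
  exact Nat.mul_le_mul_left _ ((Nat.div_lt_iff_lt_mul l0).2 (by rw [mul_comm]; omega))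

theorem cnd_eq (R : ℕ) (rc : List (Pd × ℕ × ℕ) → ℕ → List (ℕ × ℕ × ℕ × ℕ) → ℕ → ℕ → ℕ → ℕ → ℕ → ℕ → ℕ → Bool)
    (U : List (Pd × ℕ × ℕ)) (am : ℕ) (A : List (ℕ × ℕ × ℕ × ℕ)) (n a b c0 i0 L gm : ℕ) (x : Pd) (bm c : ℕ) :
    cnd R rc U am A n a b c0 i0 L gm x bm c = (Nat.ble (c + 1) c0 || ((Nat.beq c c0 && Nat.ble i0 x.ix) ||
      (Nat.ble (a * c) bm || (fun g2 : ℕ => (Nat.ble (g2 + 1) (Nat.lcm L (c * x.e)) && !Nat.beq g2 0) ||
      upd x c (c * x.e) (fun W z => Nat.ble (b * c * z + 1) ((a * c - bm) * 1099511627776) ||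
        rc W (am ||| 2 ^ x.ix) ((x.o, x.m, x.e, c) :: A) (n - x.m)
          ((a * c - bm) / Nat.gcd (a * c - bm) (b * c)) (b * c / Nat.gcd (a * c - bm) (b * c)) c x.ix
          (Nat.lcm L (c * x.e)) g2) U [] (1099511627776 / Nat.lcm L (c * x.e) + 1))
      (bif Nat.beq x.o 2 && Nat.beq gm 0 then (R * c + 1) * c else gm)))) := by
  unfold cnd
  simp only [frc_eq, or'_eq, and'_eq, not'_eq]
  cases (Nat.beq x.o 2 && Nat.beq gm 0) <;> rfl

theorem asg2_succ (fin : List (ℕ × ℕ × ℕ × ℕ) → ℕ → Bool) (R f : ℕ) (U : List (Pd × ℕ × ℕ)) (am : ℕ)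
    (A : List (ℕ × ℕ × ℕ × ℕ)) (n a b c0 i0 L gm : ℕ) : asg2 fin R (f + 1) U am A n a b c0 i0 L gm =
    bif Nat.beq n 0 then !dv a b || fin A (b / a) else
    U.all fun u => !Nat.beq (u.2.1 &&& am) u.2.1 || (Nat.ble (b * (2 * n + 1) / (2 * a) + 1) u.2.2 ||
      smooth (b * (2 * n + 1) / (2 * a)) (cnd R (asg2 fin R f) U am A n a b c0 i0 L gm u.1 (b * u.1.m))
        u.1.ps u.2.2) := by
  unfold asg2
  cases h : Nat.beq n 0 <;> simp only [h, frc_eq, or'_eq, imp'_eq, al_eq] <;> rfl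

theorem asg2_sound (V : D.Valid2 K) {fin : List (ℕ × ℕ × ℕ × ℕ) → ℕ → Bool} :
    ∀ (f : ℕ) (U : List (Pd × ℕ × ℕ)) (am : ℕ) (As : List ℕ) (n a b c0 i0 L gm : ℕ),
    asg2 fin D.RR f U am (As.map D.qd) n a b c0 i0 L gm = true →
    ((U.map fun u => u.1.ix) ++ As).Perm (List.range D.N) → (∀ u ∈ U, UOK D As u) →
    (∀ j ∈ As, am.testBit j = true) → n = (U.map fun u => u.1.m).sum → 0 < a → 0 < b →
    (a : ℚ) / b = (U.map fun u => (u.1.m : ℚ) / D.C u.1.ix).sum + 1 / D.g →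
    (∀ u ∈ U, c0 < D.C u.1.ix ∨ (c0 = D.C u.1.ix ∧ u.1.ix < i0)) → L ∣ D.g → gm = 0 ∨ D.g ≤ gm →
    ∃ Q, Q.Perm ((List.range D.N).map D.qd) ∧ fin Q D.g = true
  | 0, _, _, _, _, _, _, _, _, _, _, h, _, _, _, _, _, _, _, _, _, _ => absurd h Bool.false_ne_true
  | f + 1, U, am, As, n, a, b, c0, i0, L, gm, h, hp, hU, hA, hn, ha, hb, hq, hc, hL, hg => by
    have gq : (0 : ℚ) < D.g := by exact_mod_cast V.gpos
    have bq : (0 : ℚ) < b := by exact_mod_cast hb
    by_cases U0 : U = []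
    · subst U0
      obtain rfl : n = 0 := hn
      have e : b = a * D.g := by
        simp only [List.map_nil, List.sum_nil, zero_add] at hq
        field_simp at hq
        exact_mod_cast hq.symm
      simp only [asg2_succ, Nat.beq_refl, cond_true, e, dv_iff.2 (dvd_mul_right a D.g), Bool.not_true,
        Bool.false_or, Nat.mul_div_cancel_left _ ha] at h
      exact ⟨_, List.Perm.map D.qd (by simpa using hp), h⟩
    obtain ⟨u, hu, hm⟩ := exists_min' (fun u : Pd × ℕ × ℕ => D.C u.1.ix) (fun u => u.1.ix) U U0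
    have ru := hU u hu
    have rx := ru.rp
    have nd : ((U.map fun u => u.1.ix) ++ As).Nodup := hp.nodup_iff.2 List.nodup_range
    have pf := perm_filter _ (List.Nodup.of_append_left nd) hu
    set U' := U.filter fun y => !Nat.beq y.1.ix u.1.ix with hU'
    have sub : ∀ y ∈ U', y ∈ U ∧ y.1.ix ≠ u.1.ix := fun y hy => by
      simpa [hU', beq_false] using hy
    have n1 : n = u.1.m + (U'.map fun u => u.1.m).sum := by rw [hn, (pf.map _).sum_eq]; simp
    have n0 : Nat.beq n 0 = false := by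
      have : 0 < u.1.m := rx.m ▸ V.toValid.mpos rx.lt
      rw [beq_false]; omega
    simp only [asg2_succ, n0, cond_false, List.all_eq_true] at h
    have cp := (V.two _ rx.lt).1
    have cq : (0 : ℚ) < D.C u.1.ix := by exact_mod_cast cp
    have asd : ∀ j < D.N, u.1.ix < j → D.C j ≤ D.C u.1.ix → j ∈ As := fun j h1 h2 h3 => by
      refine (List.mem_append.1 (hp.mem_iff.2 (List.mem_range.2 h1))).resolve_left fun j4 => ?_
      obtain ⟨y, hy, rfl⟩ := List.mem_map.1 j4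
      have := hm y hy
      omega
    have nb : u.2.1 &&& am = u.2.1 := Nat.eq_of_testBit_eq fun j => by
      rw [Nat.testBit_and]
      cases e : u.2.1.testBit j
      · rfl
      · obtain ⟨h1, h2, h3⟩ := ru.bk j e
        exact hA j (asd j h1 h2 h3)
    have h := h u hu
    rw [nb, Nat.beq_refl, Bool.not_true, Bool.false_or] at h
    obtain ⟨w, hw⟩ := ru.dv
    have sumU : (U.map fun u => (u.1.m : ℚ) / D.C u.1.ix).sum =
        u.1.m / D.C u.1.ix + (U'.map fun u => (u.1.m : ℚ) / D.C u.1.ix).sum := by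
      rw [(pf.map _).sum_eq]; simp
    have nn : 0 ≤ (U'.map fun u => (u.1.m : ℚ) / D.C u.1.ix).sum :=
      List.sum_nonneg fun z hz => by obtain ⟨y, -, rfl⟩ := List.mem_map.1 hz; positivity
    have hhi : D.C u.1.ix ≤ b * (2 * n + 1) / (2 * a) := by
      rw [Nat.le_div_iff_mul_le (by omega)]
      have h1 : (U.map fun u => (u.1.m : ℚ) / D.C u.1.ix).sum ≤
          (U.map fun y => (y.1.m : ℚ) / D.C u.1.ix).sum :=
        List.sum_le_sum fun y hy => by
          have : D.C u.1.ix ≤ D.C y.1.ix := by have := hm y hy; omega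
          gcongr
      have h2 : (U.map fun y => (y.1.m : ℚ) / D.C u.1.ix).sum = n / D.C u.1.ix := by
        rw [hn]; simp [div_eq_mul_inv, List.sum_map_mul_right, Function.comp_def]
      have h3 : (1 : ℚ) / D.g ≤ 1 / (2 * D.C u.1.ix) := by
        have : (2 * D.C u.1.ix : ℚ) ≤ D.g := by exact_mod_cast (V.two _ rx.lt).2
        gcongr
      have h4 : (a : ℚ) / b ≤ (2 * n + 1) / (2 * D.C u.1.ix) := by
        rw [hq, add_div, mul_div_mul_left _ _ (by norm_num)]; linarith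
      rw [div_le_div_iff₀ bq (by positivity)] at h4
      have : (D.C u.1.ix * (2 * a) : ℚ) ≤ b * (2 * n + 1) := by linarith
      exact_mod_cast this
    rw [Bool.or_eq_true, Nat.ble_eq] at h
    have h := smooth_sound u.1.ps _ (fun p hp => ((rx.ps p).1 hp).1)
      (h.resolve_left (by have := Nat.le_of_dvd cp ru.dv; omega)) w (by rintro rfl; omega)
      (hw ▸ hhi) fun q q1 q2 => by
        refine (rx.ps q).2 ⟨q1, ?_⟩
        by_contra q3
        rw [rx.o] at q3
        obtain ⟨v, hv⟩ : ∃ v, (D.C u.1.ix).factorization q = v + 1 := Nat.exists_eq_add_one.2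
          (q1.factorization_pos_of_dvd cp.ne' (hw ▸ q2.mul_left _))
        obtain ⟨j, j1, j2, j3, j4⟩ := V.sm2 _ rx.lt q q1 q3 v (hv ▸ Nat.ordProj_dvd _ _)
        obtain ⟨u1, -, u2, -⟩ := V.toValid.up j1 q1 (j2 ▸ dvd_mul_left _ _) (by
          have := V.one_lt _ rx.lt; have := q1.one_lt; rw [j2]; nlinarith) j3
        have := ru.pt j (asd j j1 u1 (Nat.le_of_dvd cp u2)) q q1 q3 j2 j3
        refine Nat.pow_succ_factorization_not_dvd cp.ne' q1 ?_
        rw [hv, pow_succ]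
        conv_rhs => rw [hw]
        exact mul_dvd_mul (j4.trans this) q2
    rw [← hw, cnd_eq] at h
    have gt : b * u.1.m < a * D.C u.1.ix := by
      have : (u.1.m : ℚ) / D.C u.1.ix < a / b := by
        have : (0 : ℚ) < 1 / D.g := by positivity
        rw [hq, sumU]; linarith
      rw [div_lt_div_iff₀ cq bq, mul_comm] at this
      exact_mod_cast this
    have k3 := hc u hu
    have hL2 : Nat.lcm L (D.C u.1.ix * u.1.e) ∣ D.g := Nat.lcm_dvd hL (rx.e ▸ V.ce _ rx.lt)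
    have hg2 : (bif Nat.beq u.1.o 2 && Nat.beq gm 0 then (D.RR * D.C u.1.ix + 1) * D.C u.1.ix else gm) = 0 ∨
        D.g ≤ (bif Nat.beq u.1.o 2 && Nat.beq gm 0 then (D.RR * D.C u.1.ix + 1) * D.C u.1.ix else gm) := by
      cases e : (Nat.beq u.1.o 2 && Nat.beq gm 0)
      · exact hg
      · rw [Bool.and_eq_true, Nat.beq_eq, rx.o] at e
        exact Or.inr (V.bf _ rx.lt e.1)
    generalize (bif Nat.beq u.1.o 2 && Nat.beq gm 0 then (D.RR * D.C u.1.ix + 1) * D.C u.1.ix else gm) = g2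
      at h hg2
    generalize Nat.lcm L (D.C u.1.ix * u.1.e) = L2 at h hL2
    have L0 := Nat.pos_of_dvd_of_pos hL2 V.gpos
    have L1 := Nat.le_of_dvd V.gpos hL2
    simp only [upd_eq, Bool.or_eq_true, Bool.and_eq_true, Nat.ble_eq, Nat.beq_eq, Bool.not_eq_true',
      beq_false, List.append_nil] at h
    rw [← hU'] at h
    have h := (((h.resolve_left (by omega)).resolve_left (by omega)).resolve_left (by omega)).resolve_left
      (by omega)
    have eq1 : ((a * D.C u.1.ix - b * u.1.m : ℕ) : ℚ) / (b * D.C u.1.ix : ℕ) =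
        (U'.map fun u => (u.1.m : ℚ) / D.C u.1.ix).sum + 1 / D.g := by
      rw [sumU, add_assoc] at hq
      rw [Nat.cast_sub gt.le, ← sub_eq_iff_eq_add'.2 hq]
      push_cast
      field_simp
    have h := h.resolve_left (by
      have h1 : (U'.map fun y => (y.1.m : ℚ) / D.C y.1.ix * 1099511627776).sum ≤ (U'.map fun y =>
          ((tm (D.C u.1.ix) (nw u.1 (D.C u.1.ix) (D.C u.1.ix * u.1.e) y) : ℕ) : ℚ)).sum :=
        List.sum_le_sum fun y hy => tm_le (u := nw u.1 (D.C u.1.ix) (D.C u.1.ix * u.1.e) y) cp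
          (by have := hm y (sub y hy).1; omega) ((hU y (sub y hy).1).nw V.toValid rx).dv
      have h2 := fix_le (m := 1) L0 L1
      rw [List.sum_map_mul_right] at h1
      rw [one_mul, Nat.cast_one] at h2
      rw [Nat.succ_le_iff, not_lt, ← Nat.cast_le (α := ℚ), Nat.cast_mul, Nat.cast_mul (b * _),
        (div_eq_iff (by positivity)).1 eq1, mul_right_comm, mul_comm, Nat.cast_add, Nat.cast_list_sum,
        List.map_map, List.map_map, add_mul, add_comm]
      gcongr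
      exacts [h2, h1])
    set G := Nat.gcd (a * D.C u.1.ix - b * u.1.m) (b * D.C u.1.ix) with hG
    have G0 : 0 < G := Nat.gcd_pos_of_pos_right _ (Nat.mul_pos hb cp)
    have G1 : G ∣ a * D.C u.1.ix - b * u.1.m := Nat.gcd_dvd_left _ _
    have G2 : G ∣ b * D.C u.1.ix := Nat.gcd_dvd_right _ _
    have key : ∀ {β : Type} (φ : Pd → β), (((U'.map (nw u.1 (D.C u.1.ix) (D.C u.1.ix * u.1.e))).reverse).map
        fun y => φ y.1).Perm (U'.map fun y => φ y.1) := fun φ => by
      rw [List.map_reverse, List.map_map]; exact List.reverse_perm _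
    refine asg2_sound V f _ _ (u.1.ix :: As) _ _ _ _ _ _ _ (by
      rw [← h, List.map_cons, Dat.qd, ← rx.o, ← rx.m, ← rx.e]) ?_ (fun y hy => ?_) (fun j hj => ?_)
      (by rw [(key Pd.m).sum_eq, n1, Nat.add_sub_cancel_left])
      (Nat.div_pos (Nat.le_of_dvd (by omega) G1) G0)
      (Nat.div_pos (Nat.le_of_dvd (Nat.mul_pos hb cp) G2) G0) ?_ (fun y hy => ?_) hL2 hg2
    · exact ((key Pd.ix).append_right _).trans (List.perm_middle.trans
        (((pf.map fun y => y.1.ix).symm.append_right _).trans hp))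
    · obtain ⟨y, hz, rfl⟩ := List.mem_map.1 (List.mem_reverse.1 hy)
      exact (hU y (sub y hz).1).nw V.toValid rx
    · rw [Nat.testBit_or]
      rcases List.mem_cons.1 hj with rfl | hj
      · simp
      · simp [hA j hj]
    · have Gq : (G : ℚ) ≠ 0 := by exact_mod_cast G0.ne'
      rw [Nat.cast_div G1 Gq, Nat.cast_div G2 Gq, div_div_div_cancel_right₀ Gq, eq1,
        (key fun x => (x.m : ℚ) / D.C x.ix).sum_eq]
    · obtain ⟨y, hz, rfl⟩ := List.mem_map.1 (List.mem_reverse.1 hy)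
      have := hm y (sub y hz).1
      have := (sub y hz).2
      change _ < D.C y.1.ix ∨ (_ = D.C y.1.ix ∧ y.1.ix < _)
      omega

end Cfsg.Agent.H9.KC
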