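import Cfsg.Agent.H9.KD3

/-! Soundness of the sharper sieve: skeletons. -/

set_option autoImplicit false

namespace Cfsg.Agent.H9.KC

theorem allPq_sound {S : List Pd} {o m : ℕ} (f : ℕ → ℕ) : ∀ (ps : List ℕ) (k : List (ℕ × ℕ) → Bool),
    allPq S o m ps k = true → (∀ r ∈ ps, ∃ x ∈ S, x.ix = f r ∧ x.o * r = o ∧ x.m ∣ m) →
    ∃ l, k l = true ∧ (∀ t ∈ l, t.1 ∈ ps ∧ f t.1 = t.2) ∧ ∀ r ∈ ps, ¬ r * r ∣ o → (r, f r) ∈ l
  | [], _, h, _ => ⟨[], h, by simp, by simp⟩
  | r :: ps, k, h, hf => by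
    obtain ⟨x, hx, e1, e2, e3⟩ := hf r (by simp)
    have hf' : ∀ s ∈ ps, ∃ x ∈ S, x.ix = f s ∧ x.o * s = o ∧ x.m ∣ m := fun s hs => hf s (by simp [hs])
    have h : Bool.rec (motive := fun _ => Bool) (al S fun x => imp' (and' (Nat.beq (x.o * r) o) (dv x.m m))
        (allPq S o m ps fun l => k ((r, x.ix) :: l))) (allPq S o m ps k)
        (and' (dv (r * r) o) (two (fun x => and' (Nat.beq (x.o * r) o) (dv x.m m)) S)) = true := h
    generalize hb : and' (dv (r * r) o) _ = b at h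
    cases b
    · have := List.all_eq_true.1 (al_eq S _ ▸ h) x hx
      rw [imp'_eq, and'_eq, e2, Nat.beq_refl, dv_iff.2 e3, e1] at this
      obtain ⟨l, h1, h2, h3⟩ := allPq_sound f ps _ this hf'
      refine ⟨_, h1, fun t ht => ?_, fun s hs d => ?_⟩
      · rcases List.mem_cons.1 ht with rfl | ht
        exacts [by simp, ⟨List.mem_cons_of_mem _ (h2 t ht).1, (h2 t ht).2⟩]
      · rcases List.mem_cons.1 hs with rfl | hs
        exacts [by simp, List.mem_cons_of_mem _ (h3 s hs d)]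
    · rw [and'_eq, Bool.and_eq_true, dv_iff] at hb
      obtain ⟨l, h1, h2, h3⟩ := allPq_sound f ps _ h hf'
      refine ⟨_, h1, fun t ht => ⟨List.mem_cons_of_mem _ (h2 t ht).1, (h2 t ht).2⟩, fun s hs d => ?_⟩
      rcases List.mem_cons.1 hs with rfl | hs
      exacts [absurd hb.1 d, h3 s hs d]

variable {D : Dat} {K : ℕ}

/-- the invariant of the skeleton enumeration -/
structure Inv2 (D : Dat) (K : ℕ) (S : List Pd) (os : List (ℕ × ℕ × List ℕ)) (i n lo lm : ℕ) : Prop where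
  le : i ≤ D.N
  ix : S.map Pd.ix = (List.range i).reverse
  rep : ∀ x ∈ S, D.Rp x
  sum : n + ∑ j ∈ Finset.range i, D.M j = K
  good : ∀ d ∈ os, d.2.1 = d.1.totient ∧ ∀ p, p ∈ d.2.2 ↔ p.Prime ∧ p ∣ d.1
  one : ∃ d ∈ os, d.1 = 1
  all : ∀ j < i, ∃ d ∈ os, d.1 = D.O j
  hlo : ∃ d ∈ os, d.1 = lo
  ord : ∀ j, i ≤ j → j < D.N → lo < D.O j ∨ (lo = D.O j ∧ lm ≤ D.M j)
  pos : 0 < lo

theorem Inv2.next (V : D.Valid K) {S : List Pd} {os : List (ℕ × ℕ × List ℕ)} {i n lo lm : ℕ}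
    (I : Inv2 D K S os i n lo lm) (hi : i < D.N) (hm : D.M i ≤ n) {ps : List ℕ} {pq : List (ℕ × ℕ)}
    (h1 : ∀ p, p ∈ ps ↔ p.Prime ∧ p ∣ D.O i)
    (h2 : ∀ t ∈ pq, t.1.Prime ∧ t.1 ∣ D.O i ∧ t.1 ≠ D.O i ∧ D.pw i t.1 = t.2)
    (h3 : ∀ r, r.Prime → r ∣ D.O i → r ≠ D.O i → ¬ r * r ∣ D.O i → (r, D.pw i r) ∈ pq) :
    Inv2 D K (⟨i, D.O i, D.M i, D.E i, ps, pq⟩ :: S) (addO lo os (D.O i) (D.O i).totient ps) (i + 1)
      (n - D.M i) (D.O i) (D.M i) := by
  have sub : ∀ d ∈ os, d ∈ addO lo os (D.O i) (D.O i).totient ps := fun d hd => by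
    unfold addO; cases Nat.beq (D.O i) lo <;> simp [hd]
  have new : ∃ d ∈ addO lo os (D.O i) (D.O i).totient ps, d.1 = D.O i := by
    unfold addO
    cases e : Nat.beq (D.O i) lo
    · simp
    · rw [Nat.beq_eq] at e; simpa [e] using I.hlo
  refine ⟨hi, by simp [I.ix, List.range_succ], fun x hx => ?_, ?_, fun d hd => ?_, ?_, fun j hj => ?_,
    new, fun j h3 h4 => ?_, (V.one_lt i hi).le⟩
  · rcases List.mem_cons.1 hx with rfl | hx
    exacts [⟨hi, rfl, rfl, rfl, h1, h2, h3⟩, I.rep x hx]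
  · have := I.sum
    rw [Finset.sum_range_succ]; omega
  · unfold addO at hd
    cases e : Nat.beq (D.O i) lo <;> rw [e] at hd
    · rcases List.mem_cons.1 hd with rfl | hd
      exacts [⟨rfl, h1⟩, I.good d hd]
    · exact I.good d hd
  · obtain ⟨d, hd, e⟩ := I.one
    exact ⟨d, sub d hd, e⟩
  · rcases (Nat.lt_succ_iff.1 hj).eq_or_lt with rfl | e
    · exact new
    · obtain ⟨d, hd, e⟩ := I.all j e
      exact ⟨d, sub d hd, e⟩
  · have := V.sorted i j h3 h4
    omega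

theorem step2_eq (rc : List Pd → List (ℕ × ℕ × List ℕ) → ℕ → ℕ → ℕ → ℕ → Bool)
    (S : List Pd) (os : List (ℕ × ℕ × List ℕ)) (i n lo lm : ℕ) : step2 rc S os i n lo lm =
  ((os.all fun d => allM (fun m => Nat.ble (d.1 * m + 2) lo || ((Nat.beq (d.1 * m + 1) lo && Nat.ble (m + 1) lm) ||
      (!pr (d.1 * m + 1) || rc (⟨i, d.1 * m + 1, m, d.1, [d.1 * m + 1], []⟩ :: S)
        (addO lo os (d.1 * m + 1) (d.1 * m) [d.1 * m + 1]) (i + 1) (n - m) (d.1 * m + 1) m))) n) &&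
  os.all fun p => !mem p.1 p.2.2 || os.all fun d => Nat.beq d.1 1 || (Nat.ble (p.1 * d.1 + 1) lo ||
    (!d.2.2.all (fun r => Nat.ble p.1 r) ||
    (fun (ph : ℕ) (ps : List ℕ) => allM (fun m => (Nat.beq (p.1 * d.1) lo && Nat.ble (m + 1) lm) || (!dv m ph ||
      (!okE os ps (ph / m) || allPq S (p.1 * d.1) m ps fun pq => rc (⟨i, p.1 * d.1, m, ph / m, ps, pq⟩ :: S)
        (addO lo os (p.1 * d.1) ph ps) (i + 1) (n - m) (p.1 * d.1) m))) n)
      (bif mem p.1 d.2.2 then p.1 * d.2.1 else (p.1 - 1) * d.2.1)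
      (bif mem p.1 d.2.2 then d.2.2 else p.1 :: d.2.2)))) := by
  unfold step2
  simp only [frc_eq, or'_eq, and'_eq, imp'_eq, al_eq]
  congr 2
  funext p
  congr 2
  funext d
  cases mem p.1 d.2.2 <;> rfl

theorem step2_sound (V : D.Valid2 K) {rc : List Pd → List (ℕ × ℕ × List ℕ) → ℕ → ℕ → ℕ → ℕ → Bool}
    {S : List Pd} {os : List (ℕ × ℕ × List ℕ)} {i n lo lm : ℕ} (I : Inv2 D K S os i n lo lm)
    (hn : n ≠ 0) (h : step2 rc S os i n lo lm = true) :
    ∃ S' os' n' lo' lm', Inv2 D K S' os' (i + 1) n' lo' lm' ∧ rc S' os' (i + 1) n' lo' lm' = true := by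
  have s1 := I.sum
  have hi : i < D.N := lt_of_le_of_ne I.le fun e => by
    have := V.sumM
    rw [e] at s1; omega
  have hm : D.M i ≤ n := by
    have h1 := V.sumM
    have h2 : ∑ j ∈ Finset.range (i + 1), D.M j ≤ ∑ j ∈ Finset.range D.N, D.M j :=
      Finset.sum_le_sum_of_subset (Finset.range_mono hi)
    rw [Finset.sum_range_succ] at h2; omega
  have lt : ∀ j < D.N, D.O j < D.O i → j < i := fun j h1 h2 => by
    by_contra e
    rcases (not_lt.1 e).eq_or_lt with rfl | e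
    · omega
    · have := V.sorted _ _ e h1; omega
  have dvs : ∀ d, d ∣ D.O i → 1 < d → d < D.O i → ∃ t ∈ os, t.1 = d := fun d h1 h2 h3 => by
    obtain ⟨j, j1, rfl⟩ := V.divs i hi d h1 h2
    exact I.all j (lt j j1 h3)
  have od := I.ord i le_rfl hi
  have mp := V.toValid.mpos hi
  have o1 := V.one_lt i hi
  have me := V.me i hi
  have ee : ∀ t, t = D.E i → (t = 1 ∨ ∃ j < D.N, D.O j = t) → ∃ d ∈ os, d.1 = t := by
    rintro _ rfl (e | ⟨j, j1, j2⟩)
    · rw [e]; exact I.one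
    · rw [← j2]
      refine I.all j (lt j j1 ?_)
      have := Nat.le_mul_of_pos_left (D.E i) mp
      have := Nat.totient_lt _ o1
      omega
  simp only [step2_eq, Bool.and_eq_true, List.all_eq_true] at h
  by_cases hp : (D.O i).Prime
  · obtain ⟨d, hd, e⟩ := ee _ rfl (V.aut i hi hp)
    rw [Nat.totient_prime hp] at me
    have eo : D.E i * D.M i + 1 = D.O i := by rw [mul_comm]; omega
    have := allM_sound _ (h.1 d hd) _ mp hm
    rw [e, eo, pr_iff.2 hp, show D.E i * D.M i = (D.O i).totient by rw [Nat.totient_prime hp]; omega] at this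
    simp only [Bool.not_true, Bool.false_or, Bool.or_eq_true, Bool.and_eq_true, Nat.ble_eq,
      Nat.beq_eq] at this
    refine ⟨_, _, _, _, _, I.next V.toValid hi hm (fun p => ?_) (by simp) (fun r r1 r2 r3 _ => ?_),
      (this.resolve_left (by have := Nat.totient_prime hp; omega)).resolve_left (by omega)⟩
    · simp only [List.mem_singleton]
      exact ⟨fun e => by rw [e]; exact ⟨hp, dvd_rfl⟩, fun e => (Nat.prime_dvd_prime_iff_eq e.1 hp).1 e.2⟩
    · exact absurd ((Nat.prime_dvd_prime_iff_eq r1 hp).1 r2) r3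
  have pp := Nat.minFac_prime o1.ne'
  obtain ⟨w, hw⟩ := Nat.minFac_dvd (D.O i)
  set p := (D.O i).minFac with hp'
  have w1 : 1 < w := by
    rcases w with _ | _ | w
    · omega
    · rw [zero_add, mul_one] at hw; exact absurd (hw ▸ pp) hp
    · omega
  have p1 := pp.one_lt
  obtain ⟨P, hP, eP⟩ := dvs p (Dvd.intro _ hw.symm) p1 (by rw [hw]; nlinarith)
  obtain ⟨W, hW, eW⟩ := dvs w (Dvd.intro_left _ hw.symm) w1 (by rw [hw]; nlinarith)
  obtain ⟨g1, g2⟩ := I.good W hW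
  have k1 : mem P.1 P.2.2 = true := mem_iff.2 (((I.good P hP).2 _).2 ⟨eP ▸ pp, dvd_rfl⟩)
  have k2 : W.2.2.all (fun r => Nat.ble p r) = true := List.all_eq_true.2 fun r hr => by
    rw [Nat.ble_eq]
    obtain ⟨r1, r2⟩ := (g2 r).1 hr
    exact Nat.minFac_le_of_dvd r1.two_le (hw ▸ (eW ▸ r2).mul_left _)
  have h := h.2 P hP
  rw [k1, Bool.not_true, Bool.false_or, List.all_eq_true] at h
  have h := h W hW
  have k3 : (bif mem p W.2.2 then p * W.2.1 else (p - 1) * W.2.1) = (D.O i).totient := by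
    rw [hw, g1, eW]
    cases e : mem p W.2.2
    · rw [Bool.eq_false_iff, Ne, mem_iff, g2, eW] at e
      exact (Nat.totient_mul_of_prime_of_not_dvd pp fun d => e ⟨pp, d⟩).symm
    · rw [mem_iff, g2, eW] at e
      exact (Nat.totient_mul_of_prime_of_dvd pp e.2).symm
  have k4 : ∀ r, r ∈ (bif mem p W.2.2 then W.2.2 else p :: W.2.2) ↔ r.Prime ∧ r ∣ D.O i := fun r => by
    have : r.Prime ∧ r ∣ D.O i ↔ r = p ∨ r ∈ W.2.2 := by
      rw [hw, g2, eW]
      refine ⟨fun e => ((Nat.Prime.dvd_mul e.1).1 e.2).imp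
        (Nat.prime_dvd_prime_iff_eq e.1 pp).1 fun d => ⟨e.1, d⟩, ?_⟩
      rintro (rfl | e)
      exacts [⟨pp, dvd_mul_right _ _⟩, ⟨e.1, e.2.mul_left _⟩]
    rw [this]
    cases e : mem p W.2.2
    · simp
    · rw [mem_iff] at e
      simp only [cond_true]
      exact ⟨Or.inr, fun d => d.elim (· ▸ e) id⟩
  rw [eP, eW, k2, k3, ← hw] at h
  generalize (bif mem p W.2.2 then W.2.2 else p :: W.2.2) = ps at h k4
  simp only [Bool.not_true, Bool.false_or, Bool.or_eq_true, Nat.ble_eq, Nat.beq_eq] at h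
  have h := allM_sound _ ((h.resolve_left (by omega)).resolve_left (by omega)) _ mp hm
  have k5 : okE os ps (D.E i) = true := by
    unfold okE
    rcases ps with _ | ⟨q, _ | ⟨_, _⟩⟩
    · rfl
    · change or' (Nat.beq q 2) (an os fun d => Nat.beq d.1 (D.E i)) = true
      simp only [or'_eq, an_eq, Bool.or_eq_true, List.any_eq_true, Nat.beq_eq]
      by_cases e : q = 2
      exacts [Or.inl e, Or.inr (ee _ rfl (V.aut2 i hi q ((k4 q).1 (by simp)).1 e
        fun r r1 r2 => by simpa using (k4 r).2 ⟨r1, r2⟩))]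
    · rfl
  rw [dv_iff.2 (Dvd.intro _ me), show (D.O i).totient / D.M i = D.E i by
    rw [← me, Nat.mul_div_cancel_left _ mp], k5] at h
  simp only [Bool.not_true, Bool.false_or, Bool.or_eq_true, Bool.and_eq_true, Nat.ble_eq,
    Nat.beq_eq] at h
  have ne : ∀ r, r.Prime → r ≠ D.O i := fun r hr e => hp (e ▸ hr)
  obtain ⟨l, h, l1, l2⟩ := allPq_sound (D.pw i) _ _ (h.resolve_left (by omega)) fun r hr => by
    obtain ⟨r1, r2⟩ := (k4 r).1 hr
    obtain ⟨q3, q2, -⟩ := V.toValid.up hi r1 r2 (ne r r1) rfl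
    obtain ⟨x, hx, e⟩ := List.mem_map.1 (show D.pw i r ∈ S.map Pd.ix by simpa [I.ix] using q3)
    exact ⟨x, hx, e, by rw [(I.rep x hx).o, e, q2], by
      rw [(I.rep x hx).m, e]; exact V.mm i hi r r1 r2 (ne r r1)⟩
  exact ⟨_, _, _, _, _, I.next V.toValid hi hm k4 (fun t ht => ⟨((k4 _).1 (l1 t ht).1).1,
    ((k4 _).1 (l1 t ht).1).2, ne _ ((k4 _).1 (l1 t ht).1).1, (l1 t ht).2⟩)
    fun r r1 r2 _ r4 => l2 r ((k4 r).2 ⟨r1, r2⟩) r4, h⟩

theorem hsh2_eq : ∀ S : List Pd, (∀ x ∈ S, D.Rp x) →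
    hsh2 S = (S.map Pd.ix).foldr (fun j z => z * 31 + (D.O j * 9 + D.M j)) 0
  | [], _ => rfl
  | x :: S, h => by
    rw [List.map_cons, List.foldr_cons, ← hsh2_eq S fun y hy => h y (List.mem_cons_of_mem _ hy),
      ← (h x (by simp)).o, ← (h x (by simp)).m]
    rfl

/-- the splitting data agree with the hash values -/
def Mt (h : ℕ → ℕ) : ℕ → List (ℕ × ℕ) → Prop
  | _, [] => True
  | i, t :: l => h i % t.1 = t.2 ∧ Mt h (i + 1) l

theorem Mt.all {h : ℕ → ℕ} {v : ℕ} : ∀ {l : List (ℕ × ℕ)} {i : ℕ}, Mt h i l → (∀ j, i ≤ j → h j = v) →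
    ∀ t ∈ l, v % t.1 = t.2
  | s :: l, i, H, hv, t, ht => by
    rcases List.mem_cons.1 ht with rfl | ht
    exacts [hv i le_rfl ▸ H.1, Mt.all H.2 (fun j hj => hv j (by omega)) t ht]

theorem sum_ix {S : List Pd} {i : ℕ} (h : S.map Pd.ix = (List.range i).reverse) {M : Type} [AddCommMonoid M]
    (φ : ℕ → M) : (S.map fun x => φ x.ix).sum = ∑ j ∈ Finset.range i, φ j := by
  rw [show (S.map fun x => φ x.ix) = (S.map Pd.ix).map φ by simp, h, List.map_reverse, List.sum_reverse]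
  rfl

theorem node_sound (V : D.Valid2 K) {fin : List (ℕ × ℕ × ℕ × ℕ) → ℕ → Bool}
    {rc : List (ℕ × ℕ) → List Pd → List (ℕ × ℕ × List ℕ) → ℕ → ℕ → ℕ → ℕ → Bool}
    {S : List Pd} {os : List (ℕ × ℕ × List ℕ)} {i n lo lm : ℕ} {sp : List (ℕ × ℕ)}
    (I : Inv2 D K S os i n lo lm) (hs : Mt (fun j => D.hs (min j D.N)) (i + 1) sp)
    (h : node K fin rc S os i n lo lm sp = true) :
    (∃ Q, Q.Perm ((List.range D.N).map D.qd) ∧ fin Q D.g = true) ∨
    ∃ S' os' n' lo' lm', Inv2 D K S' os' (i + 1) n' lo' lm' ∧ rc sp S' os' (i + 1) n' lo' lm' = true := by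
  have hh : hsh2 S = D.hs i := by rw [hsh2_eq S I.rep, I.ix]; rfl
  have hi : n = 0 → i = D.N := fun hn => by
    by_contra e
    have hi := lt_of_le_of_ne I.le e
    have h1 := V.sumM
    have h2 : ∑ j ∈ Finset.range (i + 1), D.M j ≤ ∑ j ∈ Finset.range D.N, D.M j :=
      Finset.sum_le_sum_of_subset (Finset.range_mono hi)
    have h3 := I.sum
    have := V.toValid.mpos hi
    rw [Finset.sum_range_succ] at h2; omega
  unfold node at h
  rw [or'_eq, Bool.or_eq_true, frb_eq] at h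
  have h := h.resolve_left (by
    simp only [or'_eq, and'_eq, not'_eq, al_eq, an_eq, Bool.or_eq_true, Bool.and_eq_true, Nat.beq_eq,
      Nat.ble_eq, List.all_eq_true, List.any_eq_true, Bool.not_eq_true', beq_false, hh]
    rintro ⟨hn, h⟩
    obtain rfl := hi hn
    rcases h with h | h | ⟨t, ht, h⟩
    · obtain ⟨j, hj, p, q, p1, q1, ne, p2, q2⟩ := V.mixed
      obtain ⟨x, hx, rfl⟩ := List.mem_map.1 (show j ∈ S.map Pd.ix by simpa [I.ix] using hj)
      have h1 := h x hx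
      have h2 := (I.rep x hx).ps
      rw [← (I.rep x hx).o] at p2 q2
      have h3 := (h2 p).2 ⟨p1, p2⟩
      have h4 := (h2 q).2 ⟨q1, q2⟩
      unfold sgl at h1
      rcases e : x.ps with _ | ⟨r, _ | ⟨_, _⟩⟩ <;> rw [e] at h1 h3 h4
      · simp at h3
      · simp only [List.mem_singleton] at h3 h4; omega
      · exact Bool.false_ne_true h1
    · obtain ⟨a, ha, b, hb, c, hc, p1, p2, p3, n1, n2, n3⟩ := V.three
      have : ∀ j < D.N, (D.O j).Prime →
          D.O j ∈ ((os.filter fun d => mem d.1 d.2.2).map Prod.fst).toFinset := fun j h1 h2 => by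
        obtain ⟨d, hd, e⟩ := I.all j h1
        exact List.mem_toFinset.2 (List.mem_map.2 ⟨d, List.mem_filter.2
          ⟨hd, mem_iff.2 (((I.good d hd).2 _).2 ⟨e ▸ h2, dvd_rfl⟩)⟩, e⟩)
      have h3 := Finset.card_le_card (show ({D.O a, D.O b, D.O c} : Finset ℕ) ⊆
          ((os.filter fun d => mem d.1 d.2.2).map Prod.fst).toFinset by
        simp only [Finset.insert_subset_iff, Finset.singleton_subset_iff]
        exact ⟨this a ha p1, this b hb p2, this c hc p3⟩)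
      have h4 := List.toFinset_card_le ((os.filter fun d => mem d.1 d.2.2).map Prod.fst)
      rw [Finset.card_eq_three.2 ⟨_, _, _, n1, n2, n3, rfl⟩] at h3
      rw [List.length_map, ← List.countP_eq_length_filter] at h4
      omega
    · exact h (hs.all (fun j hj => by rw [min_eq_right (by omega)]) t ht))
  obtain ⟨B, z, h, b1, b2, b3⟩ := lbs_sound V I.rep (s16_sound V I.rep) S [] _ I.rep (by simp) h
  rw [or'_eq, Bool.or_eq_true, Nat.ble_eq] at h
  have sm : (S.map fun x => (x.m : ℚ) / D.C x.ix).sum = ∑ j ∈ Finset.range i, (D.M j : ℚ) / D.C j := by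
    rw [← sum_ix I.ix]
    exact congrArg _ (List.map_congr_left fun x hx => by rw [(I.rep x hx).m])
  have h := h.resolve_left (by
    have h1 := V.sum
    have h2 := V.sumM
    have h3 := I.sum
    rw [← Finset.sum_range_add_sum_Ico _ I.le] at h1 h2
    have lq : (0 : ℚ) < lo := by exact_mod_cast I.pos
    have h4 : ∑ j ∈ Finset.Ico i D.N, (D.M j : ℚ) / D.C j ≤ n / lo := by
      rw [show n = ∑ j ∈ Finset.Ico i D.N, D.M j by omega, Nat.cast_sum, Finset.sum_div]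
      refine Finset.sum_le_sum fun j hj => ?_
      obtain ⟨j1, j2⟩ := Finset.mem_Ico.1 hj
      have := Nat.le_of_dvd (V.two j j2).1 (V.oc j j2)
      have := I.ord j j1 j2
      have : (lo : ℚ) ≤ D.C j := by exact_mod_cast (by omega)
      gcongr
    have h5 := fix_le (m := n) I.pos le_rfl
    have h6 : (1 : ℚ) / D.g ≤ 1 / 60 := by
      have : (60 : ℚ) ≤ D.g := by exact_mod_cast V.toValid.sixty
      gcongr
    change ((n * 1099511627776 / lo + 18325193798 : ℕ) : ℚ) + _ ≤ _ at b3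
    rw [sm] at b3
    push_cast at b3 h5
    rw [not_le, ← Nat.cast_lt (α := ℚ)]
    push_cast
    linarith)
  cases e : Nat.beq n 0 <;> rw [e] at h
  · exact Or.inr (step2_sound V I (beq_false.1 e) h)
  rw [Nat.beq_eq] at e
  obtain rfl := hi e
  subst e
  obtain ⟨L, hL, h⟩ := mkU_sound V.toValid B [] _ 0 b2 (show Bool.rec 1 16 (s16 S) ∣ D.g by
    cases e : s16 S
    exacts [one_dvd _, s16_sound V I.rep e]) h
  rw [List.map_nil, List.append_nil] at b1
  have key : ∀ {β : Type} (φ : Pd → β), (B.map fun y => φ y.1).Perm (S.map φ) := fun φ => by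
    rw [show (B.map fun y => φ y.1) = (B.map Prod.fst).map φ by simp, b1, List.map_reverse]
    exact List.reverse_perm _
  have key2 : ∀ {β : Type} (φ : Pd → β), (((B.map fun y : Pd × ℕ => (y.1, blk y.1 S, y.2)).reverse ++ []).map
      fun u : Pd × ℕ × ℕ => φ u.1).Perm (S.map φ) := fun φ => by
    rw [List.append_nil, List.map_reverse, List.map_map]
    exact (List.reverse_perm _).trans (key φ)
  have hR : 0 + (B.map fun y => if y.1.o = 2 ∨ 2 ∣ y.1.e then y.1.m else 0).sum = D.RR := by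
    rw [zero_add, (key fun x => if x.o = 2 ∨ 2 ∣ x.e then x.m else 0).sum_eq, Dat.RR, ← sum_ix I.ix]
    exact congrArg _ (List.map_congr_left fun x hx => by
      rw [(I.rep x hx).m, (I.rep x hx).o, (I.rep x hx).e])
  rw [hR] at h
  have mem : ∀ u ∈ (B.map fun y : Pd × ℕ => (y.1, blk y.1 S, y.2)).reverse ++ [], UOK D [] u := fun u hu => by
    rw [List.append_nil, List.mem_reverse] at hu
    obtain ⟨y, hy, rfl⟩ := List.mem_map.1 hu
    exact ⟨(b2 y hy).1, (b2 y hy).2, fun j => blk_spec V.toValid (b2 y hy).1 S I.rep, by simp⟩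
  refine Or.inl (asg2_sound V _ _ 0 [] _ _ _ _ _ _ _ h ?_ mem (by simp) ?_ one_pos one_pos ?_
    (fun u hu => Or.inl (V.two _ (mem u hu).rp.lt).1) hL (Or.inl rfl))
  · rw [List.append_nil]
    exact (key2 Pd.ix).trans (I.ix ▸ List.reverse_perm _)
  · rw [(key2 Pd.m).sum_eq, ← V.sumM, ← sum_ix I.ix]
    exact congrArg _ (List.map_congr_left fun x hx => by rw [(I.rep x hx).m])
  · rw [(key2 fun x => (x.m : ℚ) / D.C x.ix).sum_eq, sm, V.sum]
    simp

theorem sk2_sound (V : D.Valid2 K) {fin : List (ℕ × ℕ × ℕ × ℕ) → ℕ → Bool} :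
    ∀ (f : ℕ) (sp : List (ℕ × ℕ)) (S : List Pd) (os : List (ℕ × ℕ × List ℕ)) (i n lo lm : ℕ),
    Inv2 D K S os i n lo lm → Mt (fun j => D.hs (min j D.N)) i sp →
    sk2 K fin f sp S os i n lo lm = true → ∃ Q, Q.Perm ((List.range D.N).map D.qd) ∧ fin Q D.g = true
  | 0, _, _, _, _, _, _, _, _, _, h => absurd h Bool.false_ne_true
  | f + 1, [], S, os, i, n, lo, lm, I, _, h => by
    rcases node_sound V (rc := sk2 K fin f) (sp := []) I trivial h with h | ⟨_, _, _, _, _, I', h⟩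
    exacts [h, sk2_sound V f [] _ _ _ _ _ _ I' trivial h]
  | f + 1, t :: l, S, os, i, n, lo, lm, I, hs, h => by
    have h : imp' (Nat.beq (hsh2 S % t.1) t.2) (node K fin (sk2 K fin f) S os i n lo lm l) = true := h
    have e := hs.1
    dsimp only at e
    rw [min_eq_left I.le] at e
    rw [show hsh2 S = D.hs i by rw [hsh2_eq S I.rep, I.ix]; rfl, imp'_eq, e, Nat.beq_refl] at h
    rcases node_sound V I hs.2 h with h | ⟨_, _, _, _, _, I', h⟩
    exacts [h, sk2_sound V f _ _ _ _ _ _ _ I' hs.2 h]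

theorem Inv2.init (V : D.Valid K) : Inv2 D K [] [(1, 1, [])] 0 K 1 0 :=
  ⟨Nat.zero_le _, rfl, by simp, by simp, by simpa using fun p => Nat.Prime.ne_one, by simp, by simp, by simp,
    fun j _ h => Or.inl (V.one_lt j h), one_pos⟩

/-- all extensions of the splitting data are covered -/
def Cov (P : List (ℕ × ℕ) → Bool) (sp : List (ℕ × ℕ)) : Prop :=
  ∀ h, Mt h 0 sp → ∃ l, Mt h 0 l ∧ P l = true

theorem Cov.leaf {P : List (ℕ × ℕ) → Bool} {sp : List (ℕ × ℕ)} (h : P sp = true) : Cov P sp :=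
  fun _ H => ⟨sp, H, h⟩

theorem Mt.snoc {h : ℕ → ℕ} (R : ℕ) : ∀ {l : List (ℕ × ℕ)} {i : ℕ}, Mt h i l →
    Mt h i (l ++ [(R, h (i + l.length) % R)])
  | [], _, _ => ⟨rfl, trivial⟩
  | t :: l, i, H => ⟨H.1, by
    rw [List.length_cons, ← add_assoc, add_right_comm]; exact Mt.snoc R H.2⟩

theorem Cov.split {P : List (ℕ × ℕ) → Bool} {sp : List (ℕ × ℕ)} (R : ℕ)
    (h : ∀ r < R + 1, Cov P (sp ++ [(R + 1, r)])) : Cov P sp :=
  fun f H => h _ (Nat.mod_lt _ R.succ_pos) f (H.snoc _)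

end Cfsg.Agent.H9.KC
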