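import Cfsg.Agent.H9.KD4
import Cfsg.Agent.H9.KC7
import Cfsg.Agent.H6.Kt5

/-! The class data of a simple group satisfy the conditions of the sharper sieve. -/

set_option autoImplicit false
set_option linter.unusedSectionVars false

namespace Cfsg.Agent.H9.KC

open Subgroup Finset

variable {G : Type*} [Group G] [Fintype G]

/-- the group theoretic facts used by the sharper sieve -/
structure Facts (G : Type*) [Group G] : Prop where
  e1 : ∀ (x : G) (r : ℕ), mz (x ^ r) ∣ mz x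
  e2 : ∀ (x : G) (p : ℕ), p.Prime → p ≠ 2 → (∀ r, r.Prime → r ∣ orderOf x → r = p) →
    ∃ y : G, orderOf y = ez x
  e3 : ∀ (x y : G) (q : ℕ), q.Prime → q ∣ orderOf x → ¬ q * q ∣ orderOf x → orderOf y = orderOf x →
    Eqv (x ^ q) (y ^ q) → ¬ q * q ∣ cz x → Eqv x y
  e4 : ¬ 16 ∣ Nat.card G → ∀ x y : G, orderOf x = orderOf y → orderOf x = 2 ∨ orderOf x = 4 → Eqv x y
  e5 : ¬ 16 ∣ Nat.card G → ∀ x : G, orderOf x = 4 → ez x ≠ 1

theorem Reps.valid2 [IsSimpleGroup G] (hG : ¬ IsMulCommutative G) (R : Reps G) {K : ℕ}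
    (hK : Nat.card (ConjClasses G) = K + 1) (F : Facts G)
    (hm : ∃ x : G, ∃ p q : ℕ, p.Prime ∧ q.Prime ∧ p ≠ q ∧ p ∣ orderOf x ∧ q ∣ orderOf x) :
    R.dat.Valid2 K := by
  have V := R.valid hG hK
  have o1 : ∀ i < R.N, 1 < orderOf (R.x i) := V.one_lt
  have pw : ∀ i < R.N, ∀ r, r.Prime → r ≠ orderOf (R.x i) → R.x i ^ r ≠ 1 := fun i hi r h1 h2 e =>
    h2 (((Nat.dvd_prime h1).1 (orderOf_dvd_of_pow_eq_one e)).resolve_left (o1 i hi).ne').symm
  refine ⟨V, fun i hi q q1 q2 a h => ?_, fun i hi r r1 _ r3 => ?_, fun i hi p p1 p2 h => ?_,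
    fun i hi j hj ne e q q1 q2 q3 q4 h => ?_, fun i hi j hj ne e h => ?_, fun i hi h1 h2 => ?_,
    fun h i _ h2 => H6.Kc.t4' hG h h2, fun i hi h => ?_, ?_⟩
  · obtain ⟨y, y1, y2, y3⟩ := sm_elt q1 q2 h
    have l : 1 < orderOf y := by have := o1 i hi; have := q1.one_lt; rw [y1]; nlinarith
    obtain ⟨j, h1, h2⟩ := R.cover y (by rintro rfl; simp at l)
    have ne : q ≠ orderOf (R.x j) := by
      have := o1 i hi; have := q1.one_lt; rw [h2.ord, y1]; nlinarith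
    obtain ⟨h3, h4⟩ := R.idx_spec (pw j h1 q q1 ne)
    exact ⟨j, h1, h2.ord.trans y1, R.inj _ h3 _ hi (h4.trans ((h2.pow q).trans y2.symm)),
      y3.trans h2.cz.symm.dvd⟩
  · exact (R.idx_spec (pw i hi r r1 r3)).2.mz.dvd.trans (F.e1 _ _)
  · obtain ⟨y, e⟩ := F.e2 _ p p1 p2 h
    by_cases e1 : ez (R.x i) = 1
    · exact Or.inl e1
    · obtain ⟨j, j1, j2⟩ := R.ex_ord y (lt_of_le_of_ne (orderOf_pos _) fun d => e1 (e ▸ d.symm))
      exact Or.inr ⟨j, j1, j2.trans e⟩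
  · by_contra hc
    have h1 := (R.idx_spec (pw i hi q q1 q3)).2
    have h2 := (R.idx_spec (pw j hj q q1 (q3.trans_eq e.symm))).2
    change R.idx _ = R.idx _ at h
    rw [h] at h1
    exact ne (R.inj _ hi _ hj (F.e3 _ _ q q1 q2 q4 e (h1.symm.trans h2) hc))
  · by_contra hc
    exact ne (R.inj _ hi _ hj (F.e4 hc _ _ e h))
  · by_contra hc
    exact F.e5 hc _ h1 h2
  · have f := (R.finOK hG).2.2.2.1
    simp only [R.sum_qd] at f
    have h1 : Nat.card G / cz (R.x i) ≤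
        ∑ j ∈ range R.N, if orderOf (R.x j) = 2 then Nat.card G / cz (R.x j) else 0 :=
      le_trans (if_pos (show orderOf (R.x i) = 2 from h)).ge (single_le_sum
        (f := fun j => if orderOf (R.x j) = 2 then Nat.card G / cz (R.x j) else 0)
        (fun _ _ => Nat.zero_le _) (mem_range.2 hi))
    change _ ≤ _ + Nat.card G * R.dat.RR at f
    change Nat.card G ≤ (_ * cz (R.x i) + 1) * cz (R.x i)
    obtain ⟨s, hs⟩ := cz_dvd (R.x i)
    have c0 := cz_pos (R.x i)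
    generalize (∑ j ∈ range R.N, if orderOf (R.x j) = 2 then Nat.card G / cz (R.x j) else 0) = I at f h1
    rw [hs, Nat.mul_div_cancel_left _ c0] at h1
    rw [hs] at f ⊢
    rw [mul_comm]
    refine Nat.mul_le_mul_right _ (not_lt.1 fun l => ?_)
    generalize cz (R.x i) = c at *
    generalize R.dat.RR = r at *
    obtain ⟨t, rfl⟩ := exists_add_of_le h1
    have := Nat.mul_le_mul_left s l
    have := Nat.le_mul_of_pos_left t (show 0 < s by omega)
    nlinarith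
  · obtain ⟨x, p, q, p1, q1, ne, p2, q2⟩ := hm
    obtain ⟨j, hj, e⟩ := R.cover x (by rintro rfl; rw [orderOf_one] at p2; exact p1.not_dvd_one p2)
    exact ⟨j, hj, p, q, p1, q1, ne, p2.trans e.ord.symm.dvd, q2.trans e.ord.symm.dvd⟩

theorem Reps.has (R : Reps G) {Q : List (ℕ × ℕ × ℕ × ℕ)}
    (p : Q.Perm ((List.range R.dat.N).map R.dat.qd)) : Has G Q := by
  have eq : ∀ x y : G, Eqv x y → (orderOf x, mz x, ez x, cz x) = (orderOf y, mz y, ez y, cz y) :=
    fun x y e => by rw [e.ord, e.mz, e.ez, e.cz]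
  refine ⟨fun q hq => ?_, fun x hx => ?_, fun x y hx e hc => ?_⟩
  · obtain ⟨i, -, e⟩ := R.mem_qd.1 (p.mem_iff.1 hq)
    exact ⟨_, e⟩
  · obtain ⟨i, hi, e⟩ := R.cover x hx
    exact p.mem_iff.2 (R.mem_qd.2 ⟨i, hi, eq _ _ e⟩)
  · obtain ⟨i, hi, e1⟩ := R.cover x hx
    obtain ⟨j, hj, e2⟩ := R.cover y (by
      rintro rfl
      exact hx (by simpa using congrArg Prod.fst e))
    obtain rfl : i = j := by
      rw [p.count_eq, List.count_eq_countP, List.countP_map, List.countP_eq_length_filter,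
        ← List.toFinset_card_of_nodup (List.nodup_range.filter _), card_le_one] at hc
      refine hc i ?_ j ?_ <;> simp only [List.mem_toFinset, List.mem_filter, List.mem_range,
        Function.comp, beq_iff_eq]
      exacts [⟨hi, eq _ _ e1⟩, ⟨hj, (eq _ _ e2).trans e.symm⟩]
    exact e1.symm.trans e2

theorem has_of_cov [IsSimpleGroup G] (hG : ¬ IsMulCommutative G) {K : ℕ}
    (hK : Nat.card (ConjClasses G) = K + 1) (F : Facts G)
    (hm : ∃ x : G, ∃ p q : ℕ, p.Prime ∧ q.Prime ∧ p ≠ q ∧ p ∣ orderOf x ∧ q ∣ orderOf x)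
    {acc : List (ℕ × List (ℕ × ℕ × ℕ × ℕ))} {f : ℕ}
    (h : Cov (fun sp => sk2 K (fun Q g => !decide (FinOK Q g) || decide ((g, Q) ∈ acc)) f sp []
      [(1, 1, [])] 0 K 1 0) []) : ∃ Q, (Nat.card G, Q) ∈ acc ∧ Has G Q := by
  obtain ⟨R⟩ := exists_reps (G := G)
  have V := R.valid2 hG hK F hm
  obtain ⟨l, h1, h2⟩ := h _ trivial
  obtain ⟨Q, p, hQ⟩ := sk2_sound V _ _ _ _ _ _ _ _ (Inv2.init V.toValid) h1 h2
  have f : FinOK Q R.dat.g := (R.finOK hG).perm p
  exact ⟨Q, show (R.dat.g, Q) ∈ acc by simpa [f] using hQ, R.has p⟩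

end Cfsg.Agent.H9.KC
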