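import Cfsg.Agent.H9.KD5
import Cfsg.Agent.H6.Kt7

/-! The facts used by the sharper sieve hold in simple groups. -/

set_option autoImplicit false

namespace Cfsg.Agent.H9.KC

theorem facts {G : Type*} [Group G] [Fintype G] [IsSimpleGroup G] (hG : ¬ IsMulCommutative G) : Facts G :=
  ⟨H6.Kc.mz_pow_dvd, fun _ _ h1 h2 h3 => H6.Kc.exists_ord_ez2 h1 h2 h3,
    fun _ _ _ h1 h2 h3 h4 h5 h6 => H6.Kc.rel_cap h1 h2 h3 h4 h5 h6,
    fun h _ _ h1 h2 => H6.Kc.s16a hG h h1 h2, fun h _ h1 => H6.Kc.s16b hG h h1⟩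

end Cfsg.Agent.H9.KC
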