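import Cfsg.Agent.H1.URe
import Cfsg.Agent.H2.R3a

/-! Rank 3 actions of unitary groups: the geometry of the hyperbolic lines. -/

set_option autoImplicit false
set_option linter.unusedSectionVars false

namespace Cfsg.Agent.H9.UL

open Module H1 H1.UR
open H5 (Sesq IsEps perp perp_anti perp_sup UF)
open scoped Classical

variable {F : Type*} [Field F] {σ : F →+* F} {E : Type*} [AddCommGroup E] [Module F E]
  [FiniteDimensional F E] {B : Sesq σ E} (hB : IsEps B 1) [Fintype F] [Fintype E] {q : ℕ} (hU : UF σ q)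
variable {X : Type*} [MulAction (SUb B) X] [Fintype X] {ω : X}

theorem le_two {S : Submodule F E} (h : finrank F S ≤ 2) {u y : E} (hu : u ∈ S) (hy : y ∈ S) (u0 : u ≠ 0)
    (hyu : y ∉ F ∙ u) : S ≤ (F ∙ u) ⊔ (F ∙ y) := by
  have h1 := Submodule.finrank_lt_finrank_of_lt (show (F ∙ u) < (F ∙ u) ⊔ (F ∙ y) from
    lt_of_le_of_ne le_sup_left fun e => hyu (e ▸ Submodule.mem_sup_right (Submodule.mem_span_singleton_self y)))
  rw [finrank_span_singleton u0] at h1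
  exact (Submodule.eq_of_le_of_finrank_le (sup_le ((Submodule.span_singleton_le_iff_mem _ _).2 hu)
    ((Submodule.span_singleton_le_iff_mem _ _).2 hy)) (by omega)).ge

theorem not_mem_span {u y v : E} (h1 : B u v = 0) (h2 : B y v ≠ 0) : y ∉ F ∙ u := fun h => by
  obtain ⟨c, rfl⟩ := Submodule.mem_span_singleton.1 h
  simp [h1] at h2

include hB hU in
theorem partner {l : Submodule F E} (h : Disjoint l (perp B l)) {u : E} (hu : u ∈ l) (u0 : u ≠ 0)
    (he : B u u = 0) : ∃ y ∈ l, B y y = 0 ∧ B y u = 1 := by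
  obtain ⟨w, hw, h1⟩ : ∃ w ∈ l, B w u ≠ 0 := by
    by_contra hc
    push Not at hc
    exact u0 (Submodule.disjoint_def.1 h u hu fun w hw => hB.refl (hc w hw))
  obtain ⟨a, ha⟩ := exists_iso_adjust hB hU he h1
  refine ⟨(B w u)⁻¹ • (w - a • u), l.smul_mem _ (l.sub_mem hw (l.smul_mem _ hu)), ?_, by simp [he, h1]⟩
  generalize w - a • u = z at ha
  simp [ha]

include hB in
theorem isI_apply {l : Submodule F E} {g : SUb B} (h : IsI B l g) (h2 : finrank F l = 2) {u y : E}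
    (hu : u ∈ l) (hy : y ∈ l) (he : B u u = 0) (h1 : B y y = 0) (h3 : B y u = 1) (z : E) :
    suAct B g z = z - (2 * B z y) • u - (2 * B z u) • y := by
  have h4 : B u y = 1 := by rw [hB.herm, h3, map_one]
  have u0 : u ≠ 0 := by rintro rfl; simp at h3
  have h5 := h.2 (z - B z y • u - B z u • y) (perp_anti B (le_two h2.le hu hy u0
    (not_mem_span he (h3 ▸ one_ne_zero))) (mem_perp_two.2 ⟨by simp [he, h3], by simp [h1, h4]⟩))
  rw [map_sub, map_sub, map_smul, map_smul, h.1 u hu, h.1 y hy] at h5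
  linear_combination (norm := module) h5

theorem Ln.sub {l l' : Submodule F E} (h : Ln B ω l) (h' : Ln B ω l')
    {u : E} (he : B u u = 0) (hu : u ∈ l) (hu' : u ∈ l') {y y' : E} (hy : y ∈ l) (hy' : y' ∈ l')
    (h1 : B y y = 0) (h1' : B y' y' = 0) (h3 : B y u = 1) (h3' : B y' u = 1) :
    (2 : F) • (y' - y) ∈ (uD hB he).A ω := by
  obtain ⟨d, -, g, e, hg⟩ := h
  obtain ⟨d', -, g', e', hg'⟩ := h'
  have h4 : B u y' = 1 := by rw [hB.herm, h3', map_one]
  have ad : Adm B ((2 : F) • (y' - y)) u (-4 * B y y') := ⟨he, by simp [h3, h3'], by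
    simp only [map_smul, map_sub, map_smulₛₗ, LinearMap.smul_apply, LinearMap.sub_apply, map_mul, map_neg,
      map_ofNat, h1, h1', hB.herm y y', smul_eq_mul]
    ring⟩
  refine ⟨_, ad, ?_⟩
  have : ei hB ((2 : F) • (y' - y)) u (-4 * B y y') = g' * g := su_ext fun z => by
    rw [ei_apply hB ad, sa_mul, isI_apply hB hg d hu hy he h1 h3, isI_apply hB hg' d' hu' hy' he h1' h3']
    simp only [map_smul, map_sub, map_smulₛₗ, LinearMap.smul_apply, LinearMap.sub_apply, map_ofNat, he, h3,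
      h4, smul_eq_mul]
    module
  change ei hB _ _ _ • ω = ω
  rw [this, mul_smul, e, e']

theorem Ln.im {l : Submodule F E} (h : Ln B ω l) {a : SUb B} (ha : a • ω = ω) : Ln B ω (im a l) := by
  obtain ⟨d, h1, g, e, h2, h3⟩ := h
  refine ⟨by rw [finrank_im, d], ?_, a * g * a⁻¹, by
    rw [mul_smul, mul_smul, inv_smul_eq_iff.2 ha.symm, e, ha], fun v hv => ?_, fun v hv => ?_⟩
  · rw [← im_perp, Submodule.disjoint_def]
    intro v v1 v2
    exact sa_inj a⁻¹ ((Submodule.disjoint_def.1 h1 _ (mem_im.1 v1) (mem_im.1 v2)).trans (map_zero _).symm)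
  · rw [sa_mul, sa_mul, h2 _ (mem_im.1 hv), map_neg, sa_app_inv]
  · rw [← im_perp] at hv
    rw [sa_mul, sa_mul, h3 _ (mem_im.1 hv), sa_app_inv]

/-- the span of the lines through a vector -/
def WW (B : Sesq σ E) {X : Type*} [MulAction (SUb B) X] (ω : X) (u : E) : Submodule F E :=
  sSup {l | Ln B ω l ∧ u ∈ l}

theorem le_WW {l : Submodule F E} (h : Ln B ω l) {u : E} (hu : u ∈ l) : l ≤ WW B ω u := le_sSup ⟨h, hu⟩

theorem WW_im {a : SUb B} (ha : a • ω = ω) (u : E) (c : F) :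
    im a (WW B ω u) ≤ WW B ω (c • suAct B a u) :=
  Submodule.map_le_iff_le_comap.2 (sSup_le fun _ hl => Submodule.map_le_iff_le_comap.1
    (le_WW (Ln.im hl.1 ha) (Submodule.smul_mem _ c (app_mem_im.2 hl.2))))

theorem WW_dim (h1 : Tr B ω 1) {u v : E} (u0 : u ≠ 0) (hu : B u u = 0) (v0 : v ≠ 0) (hv : B v v = 0) :
    finrank F (WW B ω u) ≤ finrank F (WW B ω v) := by
  obtain ⟨a, ha, e⟩ := h1 (pt u0 hu) (pt v0 hv)
  obtain ⟨c, rfl⟩ := (smul_pt_eq a u0 hu v0 hv).1 e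
  rw [← finrank_im a]
  exact Submodule.finrank_mono (WW_im ha u c)

/-- the local structure -/
def Loc (B : Sesq σ E) {X : Type*} [MulAction (SUb B) X] (ω : X) (k : ℕ) : Prop :=
  ∀ u, u ≠ 0 → B u u = 0 → ∃ P : Submodule F E, u ∈ P ∧ finrank F P = k ∧ Disjoint P (perp B P) ∧
    ∀ x ∈ P, x ≠ 0 → B x x = 0 → WW B ω x ≤ P ∧ ∃ l, Ln B ω l ∧ x ∈ l

include hB in
theorem sym (h2 : (2 : F) ≠ 0) (h1 : Tr B ω 1) {k : ℕ} (hk : k ≤ 3) (h : Loc B ω k) {x y : E} (x0 : x ≠ 0)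
    (hx : B x x = 0) (y0 : y ≠ 0) (hy : B y y = 0) (hxy : x ∈ perp B (WW B ω y)) :
    y ∈ perp B (WW B ω x) := by
  by_contra hn
  have key : ∀ l, Ln B ω l → y ∈ l → ∃ a ∈ l, a ∈ WW B ω x ∧ B a y ≠ 0 := fun l hl yl => by
    by_contra hc
    push Not at hc
    obtain ⟨-, d, g, e, g1, g2⟩ := id hl
    refine hn fun w hw => hB.refl ?_
    obtain ⟨p, hp, r, hr, rfl⟩ := Submodule.mem_sup.1
      ((hB.isCompl_perp d).sup_eq_top ▸ Submodule.mem_top (x := w))
    have h3 := WW_im e x 1 (app_mem_im.2 hw)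
    rw [one_smul, g2 x (perp_anti B (le_WW hl yl) hxy), map_add, g1 p hp, g2 r hr] at h3
    have h4 := (WW B ω x).smul_mem (2 : F)⁻¹ ((WW B ω x).sub_mem hw h3)
    rw [show p + r - (-p + r) = (2 : F) • p by module, inv_smul_smul₀ h2] at h4
    simp [hc p hp h4, hr y yl]
  obtain ⟨P, xP, dP, nP, hP⟩ := h x x0 hx
  obtain ⟨P', yP, dP', nP', hP'⟩ := h y y0 hy
  obtain ⟨w1, m, hm, xm⟩ := hP x xP x0 hx
  obtain ⟨w2, l, hl, yl⟩ := hP' y yP y0 hy
  obtain ⟨a, al, ax, ay⟩ := key l hl yl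
  have xy : B x y = 0 := hxy y (le_WW hl yl yl)
  have na := not_mem_span xy ay
  have d3 : 2 < finrank F (WW B ω x) := by
    rw [← hm.1]
    refine Submodule.finrank_lt_finrank_of_lt (lt_of_le_of_ne (le_WW hm xm) fun e => x0 ?_)
    exact Submodule.disjoint_def.1 hm.2.1 x xm (perp_anti B (le_two hm.1.le xm (e ▸ ax) x0 na)
      (mem_perp_two.2 ⟨hx, hxy a (le_WW hl yl al)⟩))
  have d4 := WW_dim h1 x0 hx y0 hy
  have e1 : WW B ω y = P' := Submodule.eq_of_le_of_finrank_le w2 (by omega)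
  obtain ⟨l', ⟨hl', yl'⟩, nl⟩ : ∃ l' ∈ {l | Ln B ω l ∧ y ∈ l}, ¬ l' ≤ l := by
    by_contra hc
    push Not at hc
    have := Submodule.finrank_mono (show WW B ω y ≤ l from sSup_le hc)
    have := hl.1
    omega
  obtain ⟨a', al', ax', ay'⟩ := key l' hl' yl'
  have T : finrank F (P ⊓ perp B (F ∙ x) : Submodule F E) < finrank F P :=
    Submodule.finrank_lt_finrank_of_lt (lt_of_le_of_ne inf_le_left fun e => x0
      (Submodule.disjoint_def.1 nP x xP fun w hw => hB.refl (mem_perp_one.1 (e.ge hw).2)))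
  have mT : ∀ l, Ln B ω l → y ∈ l → ∀ a ∈ l, a ∈ WW B ω x → a ∈ P ⊓ perp B (F ∙ x) := fun l hl yl a al ax =>
    ⟨w1 ax, mem_perp_one.2 (hB.refl (hxy a (le_WW hl yl al)))⟩
  obtain ⟨s, t, e2⟩ := mem_span_pair'.1 (le_two (S := P ⊓ perp B (F ∙ x)) (by omega) ⟨xP, mem_perp_one.2 hx⟩ (mT l hl yl a al ax)
    x0 na (mT l' hl' yl' a' al' ax'))
  have e3 : s • x = 0 := Submodule.disjoint_def.1 nP' _ (e1 ▸ (eq_sub_iff_add_eq.2 e2.symm) ▸
    Submodule.sub_mem _ (le_WW hl' yl' al') (Submodule.smul_mem _ _ (le_WW hl yl al)))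
    (e1 ▸ Submodule.smul_mem _ _ hxy)
  rw [e3, zero_add] at e2
  exact nl ((le_two hl'.1.le yl' al' y0 (not_mem_span hy ay')).trans (sup_le
    ((Submodule.span_singleton_le_iff_mem _ _).2 yl)
    ((Submodule.span_singleton_le_iff_mem _ _).2 (e2 ▸ l.smul_mem _ al))))

include hB hU in
theorem sum_iso_F {S : Submodule F E} (h : 2 ≤ finrank F S) :
    (∑ v ∈ Iso B, if v ∈ S then (1 : F) else 0) = -1 := by
  obtain ⟨s, hs⟩ := Nat.exists_eq_add_of_le (Submodule.finrank_mono (inf_le_left : S ⊓ perp B S ≤ S))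
  have h1 := card_iso_sub hB hU rfl hs
  have e : (Finset.univ.filter fun v => v ∈ S ∧ B v v = 0) = insert 0 ((Iso B).filter (· ∈ S)) := by
    ext v
    by_cases v0 : v = 0
    · simp [v0]
    · simp [v0, mem_Iso, and_comm]
  rw [e, Finset.card_insert_of_notMem (by simp [mem_Iso])] at h1
  have q0 : (q : ℤ) ≠ 0 := Nat.cast_ne_zero.2 hU.pos.ne'
  have h2 : (q : ℤ) * q ∣ (q ^ 2) ^ finrank F (S ⊓ perp B S : Submodule F E) *
      (q ^ (2 * s) + (-q) ^ s * (q - 1)) := by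
    generalize finrank F (S ⊓ perp B S : Submodule F E) = r at hs
    rcases r with _ | r
    · obtain ⟨t, rfl⟩ : ∃ t, s = t + 2 := ⟨s - 2, by omega⟩
      exact ⟨q ^ (2 * t + 2) + (-q) ^ t * (q - 1), by ring⟩
    · exact ⟨(q ^ 2) ^ r * (q ^ (2 * s) + (-q) ^ s * (q - 1)), by ring⟩
  rw [← h1, mul_dvd_mul_iff_left q0] at h2
  obtain ⟨c, hc⟩ := h2
  obtain ⟨p, k, -, k0, rfl, h0⟩ := exists_char hU
  have := congrArg (Int.cast : ℤ → F) hc
  push_cast at this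
  rw [h0, zero_pow k0.ne', zero_mul] at this
  rw [Finset.sum_boole, eq_neg_iff_add_eq_zero, this]

include hB hU in
theorem not_spread {W : E → Submodule F E} {k : ℕ} (hk : 2 * k + 2 ≤ finrank F E)
    (h1 : ∀ x ∈ Iso B, finrank F (W x) ≤ k) (h2 : ∀ x ∈ Iso B, x ∉ perp B (W x))
    (h3 : ∀ x ∈ Iso B, ∀ y ∈ Iso B, x ∈ perp B (W y) → y ∈ perp B (W x)) : False := by
  have sm : ∀ S : Submodule F E, 2 ≤ finrank F S →
      (∑ z : Iso B, if z.1 ∈ S then (1 : F) else 0) = -1 := fun S hS => by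
    rw [← sum_iso_F hB hU hS, ← Finset.sum_coe_sort (Iso B)]
  have sy : ∀ x y : Iso B, x.1 ∈ perp B (W y) ↔ y.1 ∈ perp B (W x) :=
    fun x y => ⟨h3 _ x.2 _ y.2, h3 _ y.2 _ x.2⟩
  have fr : ∀ x y : Iso B, 2 ≤ finrank F (perp B (W x ⊔ W y)) := fun x y => by
    have := hB.finrank_perp (W x ⊔ W y)
    have := Submodule.finrank_add_le_finrank_add_finrank (W x) (W y)
    have := h1 _ x.2
    have := h1 _ y.2
    omega
  let M : Matrix (Iso B) (Iso B) F := Matrix.of fun x y => (if x.1 ∈ perp B (W y) then 1 else 0) - 1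
  have top := sm ⊤ (by rw [finrank_top]; omega)
  simp only [Submodule.mem_top, if_true] at top
  have MM : M * M = 0 := by
    ext x y
    have e1 := sm _ (fr x y)
    have e2 := sm _ (fr x x)
    have e3 := sm _ (fr y y)
    rw [sup_idem] at e2 e3
    simp only [perp_sup, Submodule.mem_inf] at e1
    simp only [Matrix.mul_apply, M, Matrix.of_apply, Matrix.zero_apply, sy x, sub_mul, mul_sub,
      ite_zero_mul_ite_zero, mul_one, one_mul, Finset.sum_sub_distrib, e1, e2, e3, top]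
    ring
  have tr := (Matrix.isNilpotent_trace_of_isNilpotent (M := M) ⟨2, by rw [pow_two, MM]⟩).eq_zero
  have : ∀ x, M x x = -1 := fun x => by
    simp only [M, Matrix.of_apply]
    rw [if_neg (h2 _ x.2), zero_sub]
  simp only [Matrix.trace, Matrix.diag, this, Finset.sum_neg_distrib, top] at tr
  simp at tr

include hB hU in
theorem not_six (hn : finrank F E = 6) {W : E → Submodule F E}
    (h1 : ∀ x ∈ Iso B, finrank F (W x) = 3 ∧ Disjoint (W x) (perp B (W x)) ∧ x ∈ W x ∧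
      ∀ y ∈ Iso B, y ∈ W x → W y = W x)
    (h3 : ∀ x ∈ Iso B, ∀ y ∈ Iso B, x ∈ perp B (W y) → y ∈ perp B (W x)) : False := by
  have ev := H2.even_card_of_invol ((Iso B).image W) (perp B) (fun S hS => ?_)
    (fun S _ => hB.perp_perp S) fun S hS e => ?_
  rotate_left
  · obtain ⟨x, hx, rfl⟩ := Finset.mem_image.1 hS
    obtain ⟨d, nd, -, hW⟩ := h1 x hx
    have d' := hB.finrank_perp (W x)
    obtain ⟨u, hu, u0, ui⟩ := exists_iso_vec hB hU (perp B (W x)) (by omega)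
    have u1 := mem_Iso.2 ⟨u0, ui⟩
    refine Finset.mem_image.2 ⟨u, u1, Submodule.eq_of_le_of_finrank_le (fun v hv => ?_)
      (by have := (h1 u u1).1; omega)⟩
    by_contra hc
    obtain ⟨y, y1, y2, y3⟩ := exists_iso_pairing hB hU nd (by omega) hc
    have y4 := mem_Iso.2 ⟨by rintro rfl; simp at y3, y2⟩
    exact y3 (hB.refl (h3 u u1 y y4 ((hW y y4 y1).symm ▸ hu) v hv))
  · obtain ⟨x, hx, rfl⟩ := Finset.mem_image.1 hS
    obtain ⟨-, nd, h, -⟩ := h1 x hx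
    exact (mem_Iso.1 hx).1 (Submodule.disjoint_def.1 nd x h (e.symm ▸ h))
  have c1 := sum_iso hB hU (S := ⊤) (r := 0) (s := 6) (by rw [hB.perp_top, inf_bot_eq, finrank_bot])
    (by simp [hn])
  simp only [Submodule.mem_top, if_true] at c1
  rw [← Finset.sum_fiberwise_of_maps_to (g := W) (fun x hx => Finset.mem_image_of_mem W hx),
    Finset.sum_congr rfl (g := fun _ => ((q : ℝ) ^ 2) ^ 0 * cI q 3 - 1) fun S hS => by
      obtain ⟨x, hx, rfl⟩ := Finset.mem_image.1 hS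
      obtain ⟨d, nd, -, hW⟩ := h1 x hx
      rw [← sum_iso hB hU (S := W x) (by rw [nd.eq_bot, finrank_bot]) d, Finset.sum_filter]
      exact Finset.sum_congr rfl fun y hy => if_congr ⟨fun e => e ▸ (h1 y hy).2.2.1, hW y hy⟩ rfl rfl,
    Finset.sum_const, nsmul_eq_mul] at c1
  obtain ⟨m, hm⟩ := ev
  have q1 : (1 : ℝ) < q := by exact_mod_cast hU.two_le
  have c2 : ((m : ℝ) + m) = (q ^ 2 + q + 1) * (q ^ 4 - q ^ 3 + q ^ 2 - q + 1) := by
    have p1 : (0 : ℝ) < (q ^ 2 - 1) * (q ^ 3 + 1) := mul_pos (by nlinarith) (by positivity)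
    refine mul_right_cancel₀ p1.ne' ?_
    rw [hm, cI, cI] at c1
    push_cast at c1
    field_simp at c1
    linear_combination c1
  have c3 : ((m : ℤ) + m) = (q ^ 2 + q + 1) * (q ^ 4 - q ^ 3 + q ^ 2 - q + 1) := by exact_mod_cast c2
  have c4 := congrArg (Int.cast : ℤ → ZMod 2) c3
  push_cast at c4
  generalize (m : ZMod 2) = a at c4
  generalize (q : ZMod 2) = b at c4
  revert a b
  decide

include hU in
theorem geom' {r d : ℕ} {g : SUb B} (hp : Pd q (finrank F E) r d) (h2 : (2 : F) ≠ 0) (hg : TA B ω r g)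
    (h1 : Tr B ω 1) (hL : ∀ g, TA B ω r g → ∀ u ∈ fx B g, u ≠ 0 → B u u = 0 →
      ∃ l, Ln B ω l ∧ u ∈ l ∧ l ≤ fx B g)
    (hf : ∀ g, TA B ω r g → finrank F (fx B g) + d = finrank F E ∧ Disjoint (fx B g) (perp B (fx B g)))
    (hA : ∀ g, TA B ω r g → ∀ u ∈ fx B g, u ≠ 0 → ∀ he : B u u = 0, ∀ a ∈ (uD hB he).A ω, a ∈ fx B g) :
    False := by
  have n1 := hp.hn
  have n2 := hp.n6
  obtain ⟨u, hu, u0, ui⟩ := exists_iso_vec hB hU (fx B g) (by have := (hf g hg).1; omega)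
  have loc : Loc B ω (finrank F E - d) := fun v v0 vi => by
    obtain ⟨a, ha, e⟩ := h1 (pt u0 ui) (pt v0 vi)
    obtain ⟨c, rfl⟩ := (smul_pt_eq a u0 ui v0 vi).1 e
    have hg' := hg.conj a
    rw [ha] at hg'
    refine ⟨_, Submodule.smul_mem _ c (im_fx a g ▸ app_mem_im.2 hu), by have := (hf _ hg').1; omega,
      (hf _ hg').2, fun x hx x0 xi => ?_⟩
    obtain ⟨l, hl, xl, le⟩ := hL _ hg' x hx x0 xi
    refine ⟨sSup_le fun l' hl' => ?_, l, hl, xl⟩
    obtain ⟨y, y1, y2, y3⟩ := partner hB hU hl.2.1 xl x0 xi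
    obtain ⟨z, z1, z2, z3⟩ := partner hB hU hl'.1.2.1 hl'.2 x0 xi
    have h3 := Submodule.smul_mem _ (2 : F)⁻¹
      (hA _ hg' x hx x0 xi _ (Ln.sub hB hl hl'.1 xi xl hl'.2 y1 z1 y2 z2 y3 z3))
    rw [inv_smul_smul₀ h2] at h3
    exact (le_two hl'.1.1.le hl'.2 z1 x0 (not_mem_span xi (z3 ▸ one_ne_zero))).trans (sup_le
      ((Submodule.span_singleton_le_iff_mem _ _).2 hx) ((Submodule.span_singleton_le_iff_mem _ _).2
      (sub_add_cancel z y ▸ Submodule.add_mem _ h3 (le y1))))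
  have sy : ∀ x ∈ Iso B, ∀ y ∈ Iso B, x ∈ perp B (WW B ω y) → y ∈ perp B (WW B ω x) := fun x hx y hy =>
    sym hB h2 h1 (by omega) loc (mem_Iso.1 hx).1 (mem_Iso.1 hx).2 (mem_Iso.1 hy).1 (mem_Iso.1 hy).2
  have dm : ∀ x ∈ Iso B, finrank F (WW B ω x) = finrank F (WW B ω u) := fun x hx =>
    le_antisymm (WW_dim h1 (mem_Iso.1 hx).1 (mem_Iso.1 hx).2 u0 ui)
      (WW_dim h1 u0 ui (mem_Iso.1 hx).1 (mem_Iso.1 hx).2)
  by_cases hk : 2 * finrank F (WW B ω u) + 2 ≤ finrank F E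
  · refine not_spread hB hU hk (fun x hx => (dm x hx).le) (fun x hx e => ?_) sy
    obtain ⟨x0, xi⟩ := mem_Iso.1 hx
    obtain ⟨P, xP, -, -, hP⟩ := loc x x0 xi
    obtain ⟨-, l, hl, xl⟩ := hP x xP x0 xi
    exact x0 (Submodule.disjoint_def.1 hl.2.1 x xl (perp_anti B (le_WW hl xl) e))
  obtain ⟨P, xP, dP, -, hP⟩ := loc u u0 ui
  have := Submodule.finrank_mono (hP u xP u0 ui).1
  obtain ⟨t, ht⟩ := hp.odd
  refine not_six hB hU (by omega) (fun x hx => ?_) sy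
  obtain ⟨x0, xi⟩ := mem_Iso.1 hx
  obtain ⟨P, xP, dP, nP, hP⟩ := loc x x0 xi
  have e : ∀ y ∈ Iso B, y ∈ P → WW B ω y = P := fun y hy yP => Submodule.eq_of_le_of_finrank_le
    (hP y yP (mem_Iso.1 hy).1 (mem_Iso.1 hy).2).1 (by have := dm y hy; omega)
  rw [e x hx xP]
  exact ⟨by omega, nP, xP, e⟩

end Cfsg.Agent.H9.UL
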